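import Cfsg.Agent.H16.Hup3
import Cfsg.Agent.H25.FieldAut
import Cfsg.Agent.H1.FTCor
import Cfsg.Agent.H1.Harv3
import Cfsg.Agent.H1.Hol
import Cfsg.Prelude.Def_Perm

/-! Solvable groups acting on an elementary abelian group of order `pⁿ` (`n ≥ 3`) transitively on the subgroups of
each order: `n = 3` or `pⁿ = 32`, and the action is semilinear (`homog_field`); embedding in the semi-affine group
(`aff_embed`). -/

set_option autoImplicit false
set_option linter.unusedSectionVars false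
set_option linter.style.haveILetI false

namespace H16
open Cfsg Subgroup MulAction H18 H22 H1
open scoped Pointwise

section
variable {V : Type*} [CommGroup V] [Finite V] {p : ℕ}

/-- independent pairs in `A` -/
def IndP (A : Subgroup V) : Set (V × V) := {x | x.1 ∈ A ∧ x.2 ∈ A ∧ x.1 ≠ 1 ∧ x.2 ∉ zpowers x.1}

theorem card_indP (hp : p.Prime) (hV : ∀ v : V, v ^ p = 1) (A : Subgroup V) :
    Nat.card (IndP A) = (Nat.card A - 1) * (Nat.card A - p) := by
  classical
  have := Fintype.ofFinite V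
  have := Fact.mk hp
  rw [IndP, Set.coe_ofPred, Nat.card_congr (Equiv.subtypeProdEquivSigmaSubtype
    fun a b : V => a ∈ A ∧ b ∈ A ∧ a ≠ 1 ∧ b ∉ zpowers a), Nat.card_sigma]
  have h1 : ∀ a : V, Nat.card {b // a ∈ A ∧ b ∈ A ∧ a ≠ 1 ∧ b ∉ zpowers a} =
      if a ∈ (A : Set V) \ {1} then Nat.card A - p else 0 := fun a => by
    split_ifs with h
    · rw [← orderOf_eq_prime (hV a) h.2, ← Nat.card_zpowers, ← SetLike.coe_sort_coe A,
        ← SetLike.coe_sort_coe (zpowers a), Nat.card_coe_set_eq, Nat.card_coe_set_eq,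
        ← Set.ncard_sdiff (zpowers_le.2 h.1), ← Nat.card_coe_set_eq]
      exact Nat.card_congr (Equiv.subtypeEquivRight fun b =>
        ⟨fun k => ⟨k.2.1, k.2.2.2⟩, fun k => ⟨h.1, k.1, h.2, k.2⟩⟩)
    · have : IsEmpty {b // a ∈ A ∧ b ∈ A ∧ a ≠ 1 ∧ b ∉ zpowers a} := ⟨fun b => h ⟨b.2.1, b.2.2.2.1⟩⟩
      exact Nat.card_of_isEmpty
  simp only [h1]
  rw [← Finset.sum_filter, Finset.sum_const, smul_eq_mul, ← Set.toFinset_ofPred, ← Set.ncard_eq_toFinset_card',
    Set.ofPred_mem_eq, Set.ncard_sdiff_singleton_of_mem A.one_mem, ← Nat.card_coe_set_eq]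
  rfl

theorem card_sup_ind (hp : p.Prime) (hV : ∀ v : V, v ^ p = 1) {u v : V} (hu : u ≠ 1) (hv : v ∉ zpowers u) :
    Nat.card (zpowers u ⊔ zpowers v : Subgroup V) = p ^ 2 := by
  have := Fact.mk hp
  have v1 : v ≠ 1 := fun e => hv (e ▸ one_mem _)
  have h1 : zpowers u ⊓ zpowers v = ⊥ := by
    by_contra h
    obtain ⟨w, ⟨w1, w2⟩, w3⟩ := exists_mem_ne_one' h
    exact hv (zpowers_le.2 w1 ((zpowers_eq_of_prime (by
      rw [card_zpowers', orderOf_eq_prime (hV v) v1]; exact hp) w2 w3).ge (mem_zpowers v)))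
  rw [card_sup_of_disjoint le_normalizer_of_normal h1, card_zpowers', card_zpowers',
    orderOf_eq_prime (hV u) hu, orderOf_eq_prime (hV v) v1, pow_two]

theorem card_sq_subgroups (hp : p.Prime) (hV : ∀ v : V, v ^ p = 1) :
    Nat.card {B : Subgroup V // Nat.card B = p ^ 2} * ((p ^ 2 - 1) * (p ^ 2 - p)) =
      (Nat.card V - 1) * (Nat.card V - p) := by
  classical
  let f : IndP (⊤ : Subgroup V) → {B : Subgroup V // Nat.card B = p ^ 2} := fun x =>
    ⟨_, card_sup_ind hp hV x.2.2.2.1 x.2.2.2.2⟩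
  have := Fintype.ofFinite {B : Subgroup V // Nat.card B = p ^ 2}
  rw [← card_top (G := V), ← card_indP hp hV, ← Nat.card_congr (Equiv.sigmaFiberEquiv f), Nat.card_sigma,
    Nat.card_eq_fintype_card, ← smul_eq_mul, ← Finset.card_univ, ← Finset.sum_const]
  refine Finset.sum_congr rfl fun B _ => ?_
  refine ((card_indP hp hV B.1).trans (by rw [B.2])).symm.trans (Nat.card_congr ⟨fun x => ⟨⟨x.1, trivial, trivial, x.2.2.2⟩, Subtype.ext (eq_of_le_of_card_ge
    (sup_le (zpowers_le.2 x.2.1) (zpowers_le.2 x.2.2.1)) (by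
      rw [B.2, card_sup_ind hp hV x.2.2.2.1 x.2.2.2.2]))⟩, fun x => ⟨x.1.1, ?_, ?_, x.1.2.2.2⟩,
    fun _ => rfl, fun _ => rfl⟩)
  · exact (congrArg Subtype.val x.2).le (mem_sup_left (mem_zpowers _))
  · exact (congrArg Subtype.val x.2).le (mem_sup_right (mem_zpowers _))

end

theorem not81 {G : Type*} [Group G] [Finite G] {P Y : Subgroup G} (hP : Nat.card P = 81) (hs : Solv Y)
    (hn : Y ≤ N(P)) (hf : Y ⊓ C(P) = ⊥) (h5 : 5 ∣ Nat.card Y) (h13 : 13 ∣ Nat.card Y) : False := by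
  have p5 : Nat.Prime 5 := by norm_num
  have p13 : Nat.Prime 13 := by norm_num
  have d81 : ∀ m, m ∣ 81 → m = 1 ∨ m = 3 ∨ m = 9 ∨ m = 27 ∨ m = 81 := fun m hm => by
    obtain ⟨k, hk, rfl⟩ := (Nat.dvd_prime_pow Nat.prime_three (m := 4)).1 hm
    interval_cases k <;> simp
  have nc : ∀ Q ≤ Y, Q ≠ ⊥ → C(Q).relIndex P ≠ 1 := fun Q hQ h1 e =>
    h1 (eq_bot_iff.2 (hf ▸ le_inf hQ (cent_symm (relIndex_eq_one_iff.1 e))))
  have k5 : ∀ Q ≤ Y, Q ≠ ⊥ → PiGrp {5} Q → P ⊓ C(Q) = ⊥ := fun Q hQ h1 h2 => by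
    have e := relIndex_cent_modEq p5 h2 (hQ.trans hn) (by rw [hP]; norm_num)
    have e2 := card_mul_relIndex' (A := C(Q)) (B := P)
    have e3 := nc Q hQ h1
    rw [hP] at e2
    rcases d81 _ (Dvd.intro_left _ e2) with k | k | k | k | k <;> rw [k] at e e2 e3 <;> try contradiction
    rw [inf_comm, ← card_eq_one]; omega
  have key : ∀ R ≤ Y, ∀ Q ≤ Y, R ≠ ⊥ → Q ≠ ⊥ → PiGrp {5} R → PiGrp {13} Q → R ≤ N(Q) → False :=
    fun R hR Q hQ r1 q1 r5 q13 h => by
    have e := relIndex_cent_modEq p13 q13 (hQ.trans hn) (by rw [hP]; norm_num)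
    have e2 := card_mul_relIndex' (A := C(Q)) (B := P)
    have e3 := nc Q hQ q1
    rw [hP] at e2
    rcases d81 _ (Dvd.intro_left _ e2) with k | k | k | k | k <;> rw [k] at e e2 e3 <;> try contradiction
    have c3 : Nat.card ↥(C(Q) ⊓ P) = 3 := by omega
    have e4 := relIndex_cent_modEq p5 r5 (norm_inf (norm_C h) (hR.trans hn)) (by rw [c3]; norm_num)
    have e5 : C(R).relIndex (C(Q) ⊓ P) ∣ 3 := c3 ▸ relIndex_dvd
    rcases (Nat.dvd_prime Nat.prime_three).1 e5 with k | k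
    · have := (le_inf inf_le_right (relIndex_eq_one_iff.1 k)).trans (k5 R hR r1 r5).le
      rw [le_bot_iff, ← card_eq_one] at this
      omega
    · rw [k] at e4; contradiction
  obtain ⟨H, hH⟩ := (piSep_of_solv (π := {5, 13}) hs).hall_exists
  have d5 := hH.dvd_card p5 (by simp) h5
  have d13 := hH.dvd_card p13 (by simp) h13
  obtain ⟨r, hr, h1⟩ := (hs.of_le hH.le).exists_pcore_ne_bot (ne_bot_of_prime_dvd p5 d5)
  rcases (pcore_pi.mem_of_ne_bot h1 (hH.pi.of_le pcore_le) : r = 5 ∨ r = 13) with rfl | rfl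
  · obtain ⟨Q, hQ, e⟩ := cauchy_sub p13 d13
    have R5 : PiGrp {5} O[{5}](H) := pcore_pi
    have hR : O[{5}](H) ≤ Y := pcore_le.trans hH.le
    have sr : Semireg P O[{5}](H) := fun x hx x1 => by
      rw [← C_zpowers]
      exact k5 _ (zpowers_le.2 (hR hx)) (zpowers_ne_bot.2 x1) (R5.elt hx).zpowers
    have e1 := sr.dvd_pred (hR.trans hn)
    obtain ⟨k, hk⟩ := R5.card_eq_pow
    have e2 := relIndex_cent_modEq p13 (piGrp_of_prime p13 e) (hQ.trans pcore_nml.norm)
      (R5.not_dvd p13 (by simp))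
    have e3 : C(Q).relIndex O[{5}](H) ∣ 5 := by
      refine relIndex_dvd.trans ?_
      rw [hP, hk] at e1
      rw [hk]
      rcases k with _ | _ | k
      · simp
      · simp
      · exact absurd ((pow_dvd_pow 5 (by omega : 2 ≤ k + 1 + 1)).trans e1) (by norm_num)
    rcases (Nat.dvd_prime p5).1 e3 with k | k
    · exact key _ hR Q (hQ.trans hH.le) h1 (ne_bot_of_prime (e ▸ p13)) R5 (piGrp_of_prime p13 e)
        ((relIndex_eq_one_iff.1 k).trans C_le_N)
    · rw [k] at e2; contradiction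
  · obtain ⟨R, hR, e⟩ := cauchy_sub p5 d5
    exact key R (hR.trans hH.le) _ (pcore_le.trans hH.le) (ne_bot_of_prime (e ▸ p5)) h1 (piGrp_of_prime p5 e)
      pcore_pi (hR.trans pcore_nml.norm)

theorem homog_arith {p n : ℕ} (hp : p.Prime) (hn : 3 ≤ n) {c : ℕ}
    (h1 : c * ((p ^ 2 - 1) * (p ^ 2 - p)) = (p ^ n - 1) * (p ^ n - p)) (h2 : c * (p - 1) ∣ (p ^ n - 1) * n) :
    n = 3 ∨ (n = 5 ∧ p = 2) := by
  obtain ⟨m, rfl⟩ : ∃ m, n = m + 1 := ⟨n - 1, by omega⟩
  have p2 := hp.two_le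
  have q1 : 0 < p ^ (m + 1) - 1 := Nat.sub_pos_of_lt (Nat.one_lt_pow (by omega) p2)
  have h3 : p ^ m - 1 ∣ (m + 1) * (p ^ 2 - 1) := by
    have e1 : p ^ (m + 1) - p = p * (p ^ m - 1) := by rw [Nat.mul_sub_one, pow_succ']
    have e2 : p ^ 2 - p = p * (p - 1) := by rw [Nat.mul_sub_one, pow_two]
    rw [e1, e2] at h1
    have e3 : c * (p - 1) * (p ^ 2 - 1) = (p ^ (m + 1) - 1) * (p ^ m - 1) :=
      Nat.eq_of_mul_eq_mul_left hp.pos (by linarith)
    have := mul_dvd_mul_right h2 (p ^ 2 - 1)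
    rw [e3, mul_assoc] at this
    exact Nat.dvd_of_mul_dvd_mul_left q1 this
  have s1 : 1 < p ^ 2 := Nat.one_lt_pow (by omega) p2
  have h4 := Nat.le_of_dvd (Nat.mul_pos m.succ_pos (Nat.sub_pos_of_lt s1)) h3
  obtain ⟨a, rfl⟩ : ∃ a, p = a + 1 := ⟨p - 1, by omega⟩
  obtain rfl | rfl | rfl | h : m = 2 ∨ m = 3 ∨ m = 4 ∨ 5 ≤ m := by omega
  · exact .inl rfl
  · exfalso
    have e1 : (a + 1) ^ 3 - 1 = a * (a * a + 3 * a + 3) := Nat.sub_eq_of_eq_add (by ring)
    have e2 : (3 + 1) * ((a + 1) ^ 2 - 1) = a * (4 * a + 8) := by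
      rw [show (a + 1) ^ 2 - 1 = a * (a + 2) from Nat.sub_eq_of_eq_add (by ring)]; ring
    rw [e1, e2] at h3
    have h5 := Nat.dvd_of_mul_dvd_mul_left (by omega) h3
    have h6 := Nat.le_of_dvd (by omega) h5
    have : a ≤ 3 := by nlinarith
    interval_cases a <;> omega
  · have e1 : (a + 1) ^ 4 - 1 = ((a + 1) ^ 2 + 1) * ((a + 1) ^ 2 - 1) := by
      rw [← Nat.sq_sub_sq, ← pow_mul]
    rw [e1] at h4
    have h5 := Nat.le_of_mul_le_mul_right h4 (Nat.sub_pos_of_lt s1)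
    exact .inr ⟨rfl, by nlinarith⟩
  · exfalso
    obtain ⟨k, rfl⟩ : ∃ k, m = k + 2 := ⟨m - 2, by omega⟩
    have h5 : k + 3 < (a + 1) ^ k := (Nat.pow_le_pow_left p2 k).trans_lt' (by
      obtain ⟨j, rfl⟩ : ∃ j, k = j + 3 := ⟨k - 3, by omega⟩
      have := j.lt_two_pow_self
      rw [pow_add]; omega)
    rw [pow_add] at h4
    generalize (a + 1) ^ k = x at *
    obtain ⟨y, hy⟩ : ∃ y, (a + 1) ^ 2 = y + 1 := ⟨(a + 1) ^ 2 - 1, by omega⟩
    rw [hy] at h4 s1
    rw [Nat.add_sub_cancel, Nat.sub_le_iff_le_add] at h4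
    nlinarith

section
variable {V : Type*} [CommGroup V] [Finite V] {p n : ℕ} [hp : Fact p.Prime]

/-- power automorphisms -/
def scal (hV : ∀ v : V, v ^ p = 1) : (ZMod p)ˣ →* MulAut V :=
  have h : ∀ (a b : (ZMod p)ˣ) (v : V), (v ^ (b : ZMod p).val) ^ (a : ZMod p).val =
      v ^ ((a * b : (ZMod p)ˣ) : ZMod p).val := fun a b v => by
    rw [← pow_mul, Units.val_mul, ZMod.val_mul, mul_comm, ← pow_eq_pow_mod _ (hV v)]
  { toFun := fun c =>
      { toFun := fun v => v ^ (c : ZMod p).val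
        invFun := fun v => v ^ ((c⁻¹ : (ZMod p)ˣ) : ZMod p).val
        left_inv := fun v => by simp only [h, inv_mul_cancel, Units.val_one, ZMod.val_one, pow_one]
        right_inv := fun v => by simp only [h, mul_inv_cancel, Units.val_one, ZMod.val_one, pow_one]
        map_mul' := fun a b => mul_pow a b _ }
    map_one' := MulEquiv.ext fun v => by simp [ZMod.val_one]
    map_mul' := fun a b => MulEquiv.ext fun v => (h a b v).symm }

theorem scal_apply (hV : ∀ v : V, v ^ p = 1) (c : (ZMod p)ˣ) (v : V) : scal hV c v = v ^ (c : ZMod p).val := rfl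

theorem scal_inj [Nontrivial V] (hV : ∀ v : V, v ^ p = 1) : Function.Injective (scal hV) := fun a b e => by
  obtain ⟨v, v1⟩ := exists_ne (1 : V)
  have := pow_eq_pow_iff_modEq.1 (DFunLike.congr_fun e v)
  rw [orderOf_eq_prime (hV v) v1] at this
  exact Units.ext (ZMod.val_injective p (this.eq_of_lt_of_lt (ZMod.val_lt _) (ZMod.val_lt _)))

theorem exists_scal (hV : ∀ v : V, v ^ p = 1) {v w : V} (hw : w ∈ zpowers v) (w1 : w ≠ 1) :
    ∃ c, scal hV c v = w := by
  obtain ⟨k, rfl⟩ := mem_powers_iff_mem_zpowers.2 hw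
  have : (k : ZMod p) ≠ 0 := fun e => w1 (by
    obtain ⟨j, rfl⟩ := (ZMod.natCast_eq_zero_iff k p).1 e
    simp [pow_mul, hV])
  exact ⟨Units.mk0 _ this, by rw [scal_apply, Units.val_mk0, ZMod.val_natCast, ← pow_eq_pow_mod _ (hV v)]⟩

theorem homog_field (hV : ∀ v : V, v ^ p = 1) (hc : Nat.card V = p ^ n) (hn : 3 ≤ n) {Y : Subgroup (MulAut V)}
    (hs : Solv Y) (ht : ∀ A B : Subgroup V, Nat.card A = Nat.card B → ∃ y ∈ Y, y • A = B) :
    (n = 3 ∨ n = 5 ∧ p = 2) ∧ (∃ c, c ∣ Nat.card Y ∧ c * ((p ^ 2 - 1) * (p ^ 2 - p)) = (p ^ n - 1) * (p ^ n - p)) ∧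
    ∃ e : Additive V ≃+ GaloisField p n, ∀ y ∈ Y, ∃ (a : GaloisField p n) (σ : GaloisField p n ≃+* GaloisField p n),
      ∀ v, e (.ofMul (y v)) = a * σ (e (.ofMul v)) := by
  have pp := hp.out
  have : Nontrivial V := Finite.one_lt_card_iff_nontrivial.1 (hc ▸ Nat.one_lt_pow (by omega) pp.one_lt)
  have hcnt := card_sq_subgroups pp hV
  rw [hc] at hcnt
  set c := Nat.card {B : Subgroup V // Nat.card B = p ^ 2}
  obtain ⟨W, hW⟩ := Sylow.exists_subgroup_card_pow_prime p (G := V) (hc ▸ pow_dvd_pow p (by omega : 2 ≤ n))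
  have orb : ∀ Y', Y ≤ Y' → (stabilizer Y' W).index = c := fun Y' h => by
    rw [index_stabilizer, ← Nat.card_coe_set_eq]
    refine Nat.card_congr (Equiv.subtypeEquivRight fun B => ⟨?_, fun k => ?_⟩)
    · rintro ⟨y, rfl⟩
      exact (card_map_of_injective y.1.injective).trans hW
    · obtain ⟨y, hy, e⟩ := ht W B (hW.trans k.symm)
      exact ⟨⟨y, h hy⟩, e⟩
  have hY : c ∣ Nat.card Y := orb Y le_rfl ▸ index_dvd_card _
  have zc : (scal hV).range ≤ center _ := by
    rintro _ ⟨a, rfl⟩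
    exact mem_center_iff.2 fun g => MulEquiv.ext fun v => map_pow g v _
  have hs' : Solv (Y ⊔ (scal hV).range) := hs.sup_norm
    (Group.isSolvable_of_surjective (scal hV).rangeRestrict_surjective)
    (fun y _ => mem_N_of_finite fun x hx => by rwa [mem_center_iff.1 (zc hx), mul_inv_cancel_right])
  set Y' := Y ⊔ (scal hV).range
  have tr : ∀ v w : V, v ≠ 1 → w ≠ 1 → ∃ g : Y', g.1 v = w := fun v w v1 w1 => by
    obtain ⟨y, hy, e⟩ := ht (zpowers v) (zpowers w) (by
      rw [card_zpowers', card_zpowers', orderOf_eq_prime (hV v) v1, orderOf_eq_prime (hV w) w1])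
    obtain ⟨a, ha⟩ := exists_scal hV (v := y v) (w := w) (by
      exact (MonoidHom.map_zpowers y.toMonoidHom v).le (e.ge (mem_zpowers w))) w1
    exact ⟨⟨scal hV a * y, mul_mem (mem_sup_right ⟨a, rfl⟩) (mem_sup_left hy)⟩, ha⟩
  rcases huppert_mul pp hV hs' Y'.subtype tr with ⟨F, _, _, e, h⟩ | h
  · have cF : Fintype.card F = p ^ n := by
      rw [← Nat.card_eq_fintype_card, ← Nat.card_congr e.toEquiv, ← hc]; rfl
    have := Fintype.ofFinite (GaloisField p n)
    let ι : F ≃+* GaloisField p n := FiniteField.ringEquivOfCardEq (by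
      rw [cF, ← Nat.card_eq_fintype_card, GaloisField.card p n (by omega)])
    refine ⟨homog_arith pp hn hcnt ?_, ⟨c, hY, hcnt⟩, e.trans ι.toAddEquiv, fun y hy => ?_⟩
    swap
    · obtain ⟨a, σ, k⟩ := h ⟨y, mem_sup_left hy⟩
      exact ⟨ι a, (ι.symm.trans σ).trans ι, fun v => by simpa using congrArg ι (k v)⟩
    let u : V := (e.symm 1).toMul
    have u1 : u ≠ 1 := fun k => one_ne_zero (e.symm.map_eq_zero_iff.1 k)
    have i1 : (stabilizer Y' u).index = p ^ n - 1 := by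
      rw [index_stabilizer, ← hc, ← Set.ncard_univ, ← Set.ncard_sdiff_singleton_of_mem (Set.mem_univ 1)]
      congr 1
      ext w
      refine ⟨?_, fun k => tr u w u1 k.2⟩
      rintro ⟨y, rfl⟩
      exact ⟨trivial, fun k => u1 (y.1.map_eq_one_iff.1 k)⟩
    let ε : V ≃ F := Additive.ofMul.trans e.toEquiv
    let θ : Y' →* Equiv.Perm F := ε.permCongrHom.toMonoidHom.comp ((MulAut.toPerm V).comp Y'.subtype)
    have θi : Function.Injective θ := fun a b k => Subtype.ext (MulEquiv.ext fun v =>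
      DFunLike.congr_fun (ε.permCongrHom.injective k) v)
    have i2 : Nat.card (stabilizer Y' u) ∣ n := by
      rw [← card_map_of_injective θi, ← H25.card_ringAut cF]
      refine (card_dvd (B := (RingAut.toPerm F).range) ?_).trans (card_range_dvd _)
      rintro _ ⟨y, hy, rfl⟩
      obtain ⟨a, σ, k⟩ := h y
      have k1 := k u
      rw [show Y'.subtype y u = u from hy] at k1
      simp only [u, ofMul_toMul, AddEquiv.apply_symm_apply, map_one, mul_one] at k1
      refine ⟨σ, Equiv.ext fun x => ?_⟩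
      obtain ⟨v, rfl⟩ := ε.surjective x
      have := k v
      rw [← k1, one_mul] at this
      simp only [θ, MonoidHom.comp_apply, MulEquiv.coe_toMonoidHom, Equiv.permCongrHom_coe, Equiv.permCongr_apply,
        Equiv.symm_apply_apply]
      exact this.symm
    have i3 : p - 1 ∣ Nat.card (stabilizer Y' W) := by
      rw [← card_map_subtype, ← ZMod.card_units p, ← Nat.card_eq_fintype_card,
        Nat.card_congr (MonoidHom.ofInjective (scal_inj hV)).toEquiv]
      refine card_dvd ?_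
      rintro _ ⟨a, rfl⟩
      refine ⟨⟨_, mem_sup_right ⟨a, rfl⟩⟩, eq_of_card_eq ?_ (card_map_of_injective (scal hV a).injective), rfl⟩
      rintro _ ⟨v, hv, rfl⟩
      exact pow_mem hv _
    rw [← orb Y' le_sup_left, ← i1]
    exact (mul_dvd_mul_left _ i3).trans (by
      rw [index_mul_card, ← index_mul_card (stabilizer Y' u)]; exact mul_dvd_mul_left _ i2)
  · exfalso
    have sq : ∀ r k : ℕ, r.Prime → p ^ n = r ^ k → p = r ∧ n = k := fun r k hr e => by
      obtain rfl := (Nat.prime_dvd_prime_iff_eq pp hr).1 (pp.dvd_of_dvd_pow (e ▸ dvd_pow_self p (by omega)))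
      exact ⟨rfl, Nat.pow_right_injective pp.two_le e⟩
    rw [hc] at h
    rcases h with h | h | h | h | h | h
    · have := (sq 3 2 (by norm_num) h).2; omega
    · have := (sq 5 2 (by norm_num) h).2; omega
    · have := (sq 7 2 (by norm_num) h).2; omega
    · have := (sq 11 2 (by norm_num) h).2; omega
    · have := (sq 23 2 (by norm_num) h).2; omega
    obtain ⟨rfl, rfl⟩ := sq 3 4 (by norm_num) h
    rw [show c = 130 by omega] at hY
    refine not81 (P := hl (MonoidHom.id _) ⊤) (Y := hr (MonoidHom.id _) Y) (by rw [card_hl, card_top, hc]; rfl)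
      (solv_hr.2 hs) hr_norm_top (eq_bot_iff.2 ?_) (by rw [card_hr]; exact Dvd.dvd.trans (by norm_num) hY)
      (by rw [card_hr]; exact Dvd.dvd.trans (by norm_num) hY)
    rintro _ ⟨k1, k2⟩
    obtain ⟨y, -, rfl⟩ := mem_hr.1 k1
    rw [show y = 1 from MulEquiv.ext fun v => inl_mem_C1.1 (mem_C1.2 (mem_C.1 k2 _ (inl_mem_hl.2 trivial))), map_one]
    exact one_mem _

end

section
variable {F : Type*} [Field F] [Finite F]

theorem card_semiaffine_le : Nat.card (semiaffineGroup F) ≤ (Nat.card F - 1) * Nat.card F * Nat.card (F ≃+* F) := by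
  choose a b σ h using fun g : semiaffineGroup F => g.2
  rw [← Nat.card_units, ← Nat.card_prod, ← Nat.card_prod]
  refine Nat.card_le_card_of_injective (fun g => ((a g, b g), σ g)) fun x y e => Subtype.ext (Equiv.ext fun t => ?_)
  simp only [Prod.mk.injEq] at e
  rw [h, h, e.1.1, e.1.2, e.2]

theorem card_affine_le : Nat.card (affineGroup F) ≤ (Nat.card F - 1) * Nat.card F := by
  choose a b h using fun g : affineGroup F => g.2
  rw [← Nat.card_units, ← Nat.card_prod]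
  refine Nat.card_le_card_of_injective (fun g => (a g, b g)) fun x y e => Subtype.ext (Equiv.ext fun t => ?_)
  simp only [Prod.mk.injEq] at e
  rw [h, h, e.1, e.2]

theorem semi_pow {g : Equiv.Perm F} {a b : F} {σ : F ≃+* F} (h : ∀ x, g x = a * σ x + b) {k : ℕ} (e : g ^ k = 1) :
    σ ^ k = 1 := by
  have h1 : ∀ k : ℕ, ∃ a b : F, ∀ x, (g ^ k) x = a * (σ ^ k) x + b := fun k => by
    induction k with
    | zero => exact ⟨1, 0, by simp⟩
    | succ k ih =>
      obtain ⟨c, d, ih⟩ := ih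
      exact ⟨a * σ c, a * σ d + b, fun x => by
        rw [pow_succ', pow_succ', Equiv.Perm.mul_apply, h, ih, RingAut.mul_apply, map_add, map_mul]; ring⟩
  obtain ⟨c, d, h1⟩ := h1 k
  rw [e] at h1
  have h2 := h1 0
  have h3 := h1 1
  simp only [Equiv.Perm.one_apply, map_zero, mul_zero, zero_add, map_one, mul_one] at h1 h2 h3
  exact RingEquiv.ext fun x => by simpa [← h2, show c = 1 by simpa [← h2] using h3.symm] using (h1 x).symm

end

section
open scoped IsMulCommutative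
variable {G : Type*} [Group G] [Finite G] {p n : ℕ} [hp : Fact p.Prime] {P : Subgroup G}

theorem aff_hom [P.Normal] (hP : Hall {p} P ⊤) (hE : Elem p P) (hc : Nat.card P = p ^ n) (hn : 3 ≤ n)
    (hs : Group.IsSolvable (G ⧸ pPrimeCore p G))
    (ht : ∀ A ≤ P, ∀ B ≤ P, Nat.card A = Nat.card B → ∃ g, B = cj g A) :
    (n = 3 ∨ n = 5 ∧ p = 2) ∧ ∃ f : G →* Equiv.Perm (GaloisField p n), f.ker = pPrimeCore p G ∧
      f.range ≤ semiaffineGroup _ ∧ p ^ n ∣ Nat.card f.range ∧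
      ∃ c, c ∣ Nat.card f.range ∧ c * ((p ^ 2 - 1) * (p ^ 2 - p)) = (p ^ n - 1) * (p ^ n - p) := by
  have := hE.abel.comm
  have hK : PiGrp {p}ᶜ (pPrimeCore p G) := (piNat_compl_iff_coprime hp.out).2 (coprime_card_pPrimeCore p G)
  have k1 : pPrimeCore p G ≤ (MulAut.conjNormal : G →* MulAut P).rangeRestrict.ker := fun k hk =>
    Subtype.ext (MulEquiv.ext fun v => Subtype.ext (by
      have := commute_of_normal_of_disjoint _ _ inferInstance inferInstance
        (disjoint_iff.2 (hK.inf_eq_bot' hP.pi)) k v hk v.2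
      simp [this.eq]))
  have su := QuotientGroup.lift_surjective_of_surjective _ _
    (MulAut.conjNormal : G →* MulAut P).rangeRestrict_surjective k1
  obtain ⟨h1, ⟨c, h2, h3⟩, e, h4⟩ := homog_field (V := P) (fun v => Subtype.ext (hE.pow v v.2)) hc hn
    (Y := (MulAut.conjNormal : G →* MulAut P).range) (Group.isSolvable_of_surjective su) fun A B k => by
      obtain ⟨g, e⟩ := ht _ (map_subtype_le A) _ (map_subtype_le B) (by rwa [card_map_subtype, card_map_subtype])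
      refine ⟨_, ⟨g, rfl⟩, map_injective P.subtype_injective ?_⟩
      rw [e, cj_def, map_map]
      exact map_map A P.subtype (MulAut.conjNormal g : MulAut P).toMonoidHom
  obtain ⟨H, hH⟩ := hP.exists_sd norm_of_normal
  let β : P ≃ G ⧸ H := Equiv.ofBijective (fun x => (x.1 : G ⧸ H)) ⟨fun x y k => Subtype.ext
    (inv_mul_eq_one.1 (eq_one_of_eq_bot hH.inf ⟨P.mul_mem (P.inv_mem x.2) y.2, QuotientGroup.eq.1 k⟩)), fun y => by
      obtain ⟨g, rfl⟩ := QuotientGroup.mk_surjective y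
      obtain ⟨a, ha, b, hb, rfl⟩ := hH.mem_iff.1 (mem_top g)
      exact ⟨⟨a, ha⟩, (QuotientGroup.mk_mul_of_mem a hb).symm⟩⟩
  let ε : G ⧸ H ≃ GaloisField p n := β.symm.trans (Additive.ofMul.trans e.toEquiv)
  let f : G →* Equiv.Perm (GaloisField p n) := ε.permCongrHom.toMonoidHom.comp (toPermHom G (G ⧸ H))
  have kf : f.ker = pPrimeCore p G := by
    rw [MonoidHom.ker_comp_of_injective _ _ ε.permCongrHom.injective, ← normalCore_eq_ker]
    exact (le_pPrimeCore ((piNat_compl_iff_coprime hp.out).1 ((hH.hall_compl hP).pi.of_le H.normalCore_le))).antisymm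
      (normal_le_normalCore.2 ((hH.hall_compl hP).nml_le nml_top hK))
  have cf : Nat.card f.range = (pPrimeCore p G).index := by rw [← index_ker, kf]
  refine ⟨h1, f, kf, ?_, ?_, c, h2.trans (cf ▸ card_dvd_of_surjective _ su), h3⟩
  · rintro _ ⟨g, rfl⟩
    obtain ⟨u, hu, h, hh, rfl⟩ := hH.mem_iff.1 (mem_top g)
    obtain ⟨a, σ, k⟩ := h4 _ ⟨h, rfl⟩
    have a0 : a ≠ 0 := fun a0 => by
      have := k (e.symm 1).toMul
      rw [a0, zero_mul, e.map_eq_zero_iff, ofMul_eq_zero, MulEquiv.map_eq_one_iff, toMul_eq_one,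
        e.symm.map_eq_zero_iff] at this
      exact one_ne_zero this
    refine ⟨Units.mk0 a a0, e (.ofMul ⟨u, hu⟩), σ, fun x => ?_⟩
    obtain ⟨v, rfl⟩ := (β.trans ε).surjective x
    have : (u * h) • β v = β (MulAut.conjNormal h v * ⟨u, hu⟩) := by
      rw [mul_comm (MulAut.conjNormal h v)]
      exact QuotientGroup.eq.2 (by simpa [mul_assoc] using hh)
    simp only [f, MonoidHom.comp_apply, MulEquiv.coe_toMonoidHom, Equiv.permCongrHom_coe, Equiv.permCongr_apply,
      Equiv.symm_apply_apply, Equiv.trans_apply, toPermHom_apply, toPerm_apply, this]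
    simp only [ε, Equiv.trans_apply, Equiv.symm_apply_apply, ofMul_mul]
    exact (map_add e _ _).trans (congrArg (· + _) (k v))
  · rw [cf, ← hc]
    exact hP.pi.dvd_of_dvd_mul hK.compl_compl.of_compl_compl (by rw [index_mul_card]; exact card_subgroup_dvd_card P)

theorem aff_embed [P.Normal] (hP : Hall {p} P ⊤) (hE : Elem p P) (hc : Nat.card P = p ^ n) (hn : 3 ≤ n)
    (hs : Group.IsSolvable (G ⧸ pPrimeCore p G))
    (ht : ∀ A ≤ P, ∀ B ≤ P, Nat.card A = Nat.card B → ∃ g, B = cj g A) :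
    (n = 3 ∧ (∃ f : G ⧸ pPrimeCore p G →* semiaffineGroup (GaloisField p 3), Function.Injective f) ∧
      (p = 2 → Nonempty (G ⧸ pPrimeCore p G ≃* semiaffineGroup (GaloisField 2 3)) ∨
        Nonempty (G ⧸ pPrimeCore p G ≃* affineGroup (GaloisField 2 3)))) ∨
    (n = 5 ∧ p = 2 ∧ Nonempty (G ⧸ pPrimeCore p G ≃* semiaffineGroup (GaloisField 2 5)) ∧ 155 ∣ Nat.card G) := by
  obtain ⟨h1, f, h2, h3, h4, c, h5, h6⟩ := aff_hom hP hE hc hn hs ht
  let e : G ⧸ pPrimeCore p G ≃* f.range :=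
    (QuotientGroup.quotientMulEquivOfEq h2.symm).trans (QuotientGroup.quotientKerEquivRange f)
  have := Fintype.ofFinite (GaloisField p n)
  have cF := GaloisField.card p n (by omega)
  have cA : Nat.card (GaloisField p n ≃+* GaloisField p n) = n :=
    H25.card_ringAut (Nat.card_eq_fintype_card.symm.trans cF)
  have b1 := card_semiaffine_le (F := GaloisField p n)
  have b2 := card_affine_le (F := GaloisField p n)
  rw [cF] at b1 b2
  rw [cA] at b1
  rcases h1 with rfl | ⟨rfl, rfl⟩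
  · refine .inl ⟨rfl, ⟨(inclusion h3).comp e.toMonoidHom, (inclusion_injective h3).comp e.injective⟩, ?_⟩
    rintro rfl
    rw [show c = 7 by omega] at h5
    have h7 : 56 ∣ Nat.card f.range := (by norm_num : Nat.Coprime 8 7).mul_dvd_of_dvd_of_dvd h4 h5
    by_cases h8 : 3 ∣ Nat.card f.range
    · exact .inl ⟨e.trans (MulEquiv.subgroupCongr (eq_of_card_ge h3 (b1.trans (Nat.le_of_dvd card_pos'
        ((by norm_num : Nat.Coprime 56 3).mul_dvd_of_dvd_of_dvd h7 h8)))))⟩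
    refine .inr ⟨e.trans (MulEquiv.subgroupCongr (eq_of_card_ge (fun g hg => ?_)
      (b2.trans (Nat.le_of_dvd card_pos' h7))))⟩
    obtain ⟨a, b, σ, k⟩ := h3 hg
    have k1 := orderOf_dvd_of_pow_eq_one (semi_pow k (pow_card_eq_one_of_mem hg))
    rcases (Nat.dvd_prime Nat.prime_three).1 ((orderOf_dvd_natCard σ).trans cA.dvd) with k2 | k2
    · exact ⟨a, b, by simpa [orderOf_eq_one_iff.1 k2] using k⟩
    · exact absurd (k2.symm.dvd.trans k1) h8
  · rw [show c = 155 by omega] at h5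
    exact .inr ⟨rfl, rfl, ⟨e.trans (MulEquiv.subgroupCongr (eq_of_card_ge h3 (b1.trans (Nat.le_of_dvd card_pos'
      ((by norm_num : Nat.Coprime 32 155).mul_dvd_of_dvd_of_dvd h4 h5)))))⟩, h5.trans (card_range_dvd f)⟩

theorem abel_fusion {A B : Subgroup G} {g : G} (hP : Hall {p} P ⊤) (ab : Abel P) (hA : A ≤ P) (hB : B ≤ P)
    (e : B = cj g A) : ∃ x ∈ N(P), B = cj x A := by
  obtain ⟨c, hc, k⟩ := sylow_conj hp.out ((hP.cj_top g).of_le (K := C(B))
    (e ▸ (cj_mono (cent_mono ab le_rfl hA)).trans cj_C.le) le_top) (hP.of_le (cent_mono ab le_rfl hB) le_top)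
  exact ⟨c * g, mem_N_iff_cj.2 (by rw [cj_mul, ← k]), by rw [cj_mul, ← e, mem_N_iff_cj.1 (C_le_N hc)]⟩

theorem aff_norm (hP : Hall {p} P ⊤) (hE : Elem p P) (hc : Nat.card P = p ^ n) (hn : 3 ≤ n)
    (hs : Group.IsSolvable (N(P) ⧸ pPrimeCore p N(P)))
    (ht : ∀ A ≤ P, ∀ B ≤ P, Nat.card A = Nat.card B → ∃ g, B = cj g A) :
    (n = 3 ∧ (∃ f : N(P) ⧸ pPrimeCore p N(P) →* semiaffineGroup (GaloisField p 3), Function.Injective f) ∧
      (p = 2 → Nonempty (N(P) ⧸ pPrimeCore p N(P) ≃* semiaffineGroup (GaloisField 2 3)) ∨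
        Nonempty (N(P) ⧸ pPrimeCore p N(P) ≃* affineGroup (GaloisField 2 3)))) ∨
    (n = 5 ∧ p = 2 ∧ Nonempty (N(P) ⧸ pPrimeCore p N(P) ≃* semiaffineGroup (GaloisField 2 5)) ∧
      155 ∣ Nat.card N(P)) := by
  have h1 : Hall {p} (P.subgroupOf N(P)) ⊤ := hall_of_card_mul le_top (by
    rw [PiGrp, card_subgroupOf le_N]; exact hP.pi) (hP.of_le le_N le_top).idx (by
    rw [card_subgroupOf le_N, H18.card_mul_relIndex le_N, card_top])
  refine aff_embed h1 ⟨abel_of_comm (have := hE.abel.comm; inferInstance), fun a ha => Subtype.ext (hE.pow a ha)⟩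
    ((card_subgroupOf le_N).trans hc) hn hs fun A hA B hB k => ?_
  have k1 := map_le_iff_le_comap.2 hA
  have k2 := map_le_iff_le_comap.2 hB
  obtain ⟨g, e⟩ := ht _ k1 _ k2 (by rwa [card_map_subtype, card_map_subtype])
  obtain ⟨x, hx, e⟩ := abel_fusion hP hE.abel k1 k2 e
  exact ⟨⟨x, hx⟩, map_injective N(P).subtype_injective (e.trans (cj_map_subtype ⟨x, hx⟩ A))⟩

end

end H16
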