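import Cfsg.Agent.H25.PSLOut2
import Cfsg.Agent.H10.PSL2Sub

/-! An automorphism of `L₂(q)` of odd prime power order `r ^ k` which centralizes a Sylow `r`-subgroup is inner
(`H16.psl_inner`). -/

set_option autoImplicit false
set_option linter.unusedSectionVars false
set_option backward.isDefEq.respectTransparency false

namespace H16
open Matrix Cfsg SemidirectProduct Subgroup
open scoped MatrixGroups

theorem mat_pow_one {K : Type*} [Field K] (p : ℕ) [Fact p.Prime] [CharP K p] (s : Matrix (Fin 2) (Fin 2) K)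
    {a b : K} {m : ℕ} (hd : s.det = a * b) (ht : s.trace = a + b) (ha : a ^ m = 1) (hb : b ^ m = 1) :
    s ^ (m * p) = 1 := by
  have e : s * (s - b • 1) = a • (s - b • 1) := by
    rw [det_fin_two] at hd
    rw [trace_fin_two] at ht
    ext i j
    fin_cases i <;> fin_cases j <;> simp [mul_apply, Fin.sum_univ_two]
    · linear_combination -hd + s 0 0 * ht
    · linear_combination s 0 1 * ht
    · linear_combination s 1 0 * ht
    · linear_combination -hd + s 1 1 * ht
  have e2 : ∀ n : ℕ, s ^ n * (s - b • 1) = a ^ n • (s - b • 1) := fun n => by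
    induction n with
    | zero => simp
    | succ n ih => rw [pow_succ, mul_assoc, e, mul_smul_comm, ih, smul_smul, pow_succ']
  obtain ⟨c, hc⟩ := (Commute.smul_right (Commute.one_right s) b).sub_dvd_pow_sub_pow m
  rw [smul_pow, hb, one_pow, one_smul] at hc
  have e3 : (s ^ m - 1) ^ 2 = 0 := by
    rw [sq]
    nth_rewrite 2 [hc]
    rw [← mul_assoc, sub_mul, e2, ha, one_smul, one_mul, sub_self, zero_mul]
  have e4 : (s ^ m - 1) ^ p = 0 := pow_eq_zero_of_le (Fact.out : p.Prime).two_le e3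
  rw [sub_pow_char_of_commute p (Commute.one_right _), one_pow, sub_eq_zero] at e4
  rw [pow_mul, e4]

theorem sl_pow_one {F : Type*} [Field F] (p : ℕ) [Fact p.Prime] [CharP F p] (s : SL(2, F)) {j : ℕ}
    (h : (s : Matrix (Fin 2) (Fin 2) F).trace ^ p ^ j = (s : Matrix (Fin 2) (Fin 2) F).trace) :
    s ^ (((p ^ j) ^ 2 - 1) * p) = 1 := by
  let K := AlgebraicClosure F
  let ι := algebraMap F K
  set t := (s : Matrix (Fin 2) (Fin 2) F).trace
  obtain ⟨a, ha⟩ : ∃ a : K, a * a - ι t * a + 1 = 0 := by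
    obtain ⟨a, ha⟩ := IsAlgClosed.exists_root (Polynomial.C 1 * Polynomial.X ^ 2 + Polynomial.C (-ι t) *
      Polynomial.X + Polynomial.C 1) (by rw [Polynomial.degree_quadratic one_ne_zero]; decide)
    exact ⟨a, by simpa [sq, sub_eq_add_neg] using ha⟩
  have key : ∀ a b : K, a * b = 1 → a + b = ι t → a ^ ((p ^ j) ^ 2 - 1) = 1 := fun a b h1 h2 => by
    have a0 : a ≠ 0 := left_ne_zero_of_mul_eq_one h1
    have f1 : a ^ p ^ j * b ^ p ^ j = 1 := by rw [← mul_pow, h1, one_pow]
    have f2 : a ^ p ^ j + b ^ p ^ j = a + b := by rw [← add_pow_char_pow, h2, ← map_pow, h]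
    have f3 : (a ^ p ^ j - a) * (a ^ p ^ j - b) = 0 := by
      linear_combination h1 - f1 + a ^ p ^ j * f2
    have : a ^ (p ^ j) ^ 2 = a := by
      rw [sq, pow_mul]
      rcases mul_eq_zero.1 f3 with e | e <;> rw [sub_eq_zero] at e
      · rw [e, e]
      · rw [e]; linear_combination f2 - e
    apply mul_right_cancel₀ a0
    rw [← pow_succ, Nat.sub_add_cancel (Nat.one_le_pow _ _ (Nat.pow_pos (Fact.out : p.Prime).pos)), this, one_mul]
  have h1 : a * (ι t - a) = 1 := by linear_combination -ha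
  have := mat_pow_one p ((s : Matrix (Fin 2) (Fin 2) F).map ι) (a := a) (b := ι t - a)
    (by rw [h1, ← RingHom.mapMatrix_apply, ← RingHom.map_det, s.det_coe, map_one])
    (by simp [t, trace_fin_two]) (key _ _ h1 (by ring)) (key _ a (by rw [mul_comm, h1]) (by ring))
  rw [← RingHom.mapMatrix_apply, ← map_pow, ← Matrix.SpecialLinearGroup.coe_pow, ← map_one ι.mapMatrix] at this
  exact Subtype.ext (Matrix.map_injective ι.injective this)

theorem pow_dvd_succ {r a x n : ℕ} (h : r ^ (a + 1) ∣ x - 1) (x1 : 1 ≤ x) (hn : r ∣ n) : r ^ (a + 2) ∣ x ^ n - 1 := by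
  obtain ⟨n, rfl⟩ := hn
  rw [pow_mul]
  refine Dvd.dvd.trans ?_ (by simpa using Nat.sub_dvd_pow_sub_pow (x ^ r) 1 n)
  zify [x1, Nat.one_le_pow r x x1] at h ⊢
  rw [← mul_geom_sum, pow_succ]
  refine mul_dvd_mul h ?_
  simpa using dvd_geom_sum₂_self (x := (x : ℤ)) (y := 1) (n := r) ((dvd_pow_self _ a.succ_ne_zero).trans h)

theorem psl_inner {F : Type*} [Field F] [Fintype F] (h4 : 4 ≤ Fintype.card F) {r k : ℕ} [hr : Fact r.Prime]
    (r2 : r ≠ 2) (hd : r ∣ Nat.card PSL(2, F)) (β : MulAut PSL(2, F)) (hβ : β ^ r ^ k = 1)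
    (hR : ∀ P : Subgroup PSL(2, F), IsPGroup r P → ∃ h, ∀ x ∈ P, β (h * x * h⁻¹) = h * x * h⁻¹) :
    β ∈ Inn PSL(2, F) := by
  classical
  obtain ⟨β', h3, g, σ, h⟩ := H25.aut_PSL β
  rw [h3.resolve_right (by simp)] at h
  clear h3 β'
  have od : Odd (r ^ k) := (hr.out.odd_of_ne_two r2).pow
  have e := (H25.semilinear_iff g σ _).1 h
  rw [e, ← map_pow, H25.mem_ker_pslPhi' (Or.inl (by rw [← rightHom_eq_right, map_pow]; simp))] at hβ
  obtain ⟨c, hc⟩ := hβ
  have hσ : σ ^ r ^ k = 1 := by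
    have := congrArg (fun x => (rightHom x).1) hc
    simp only [map_pow] at this
    simpa using this
  by_cases s1 : σ = 1
  · subst s1
    rw [e, H25.pslPhi_mem_inn (Or.inl rfl)]
    refine ⟨rfl, ?_⟩
    have : g ^ r ^ k = GeneralLinearGroup.scalar _ c := inl_injective (by rw [map_pow, ← hc]; rfl)
    have := congrArg GeneralLinearGroup.det this
    obtain ⟨m, hm⟩ := od
    rw [map_pow, GeneralLinearGroup.det_scalar, hm, pow_succ, pow_mul'] at this
    refine ⟨c / GeneralLinearGroup.det g ^ m, ?_⟩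
    rw [div_pow, ← this]
    simp
  exfalso
  have fx : ∀ s : SL(2, F), β (QuotientGroup.mk s) = QuotientGroup.mk s → ∃ c : F, c * c = 1 ∧
      (g : Matrix (Fin 2) (Fin 2) F) * (s : Matrix (Fin 2) (Fin 2) F).map σ * ((g⁻¹ : GL (Fin 2) F) : Matrix _ _ F) =
        c • (s : Matrix (Fin 2) (Fin 2) F) := fun s hs => by
    have := h s ⟨_, by
      rw [det_mul, det_mul, mul_right_comm, ← det_mul, Units.mul_inv, det_one, one_mul]
      exact (RingHom.map_det (σ : F →+* F) _).symm.trans (by rw [s.det_coe, map_one])⟩ rfl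
    rw [hs, QuotientGroup.eq, Matrix.SpecialLinearGroup.mem_center_iff] at this
    obtain ⟨c, h1, h2⟩ := this
    refine ⟨c, by simpa [sq] using h1, ?_⟩
    have := congrArg ((s : Matrix (Fin 2) (Fin 2) F) * ·) h2
    simp only [Matrix.SpecialLinearGroup.coe_mul] at this
    rw [← mul_assoc, ← Matrix.SpecialLinearGroup.coe_mul, mul_inv_cancel, Matrix.SpecialLinearGroup.coe_one, one_mul] at this
    rw [← this, scalar_apply, ← smul_eq_mul_diagonal]
  have tr : ∀ s : Matrix (Fin 2) (Fin 2) F, ((g : Matrix (Fin 2) (Fin 2) F) * s.map σ *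
      ((g⁻¹ : GL (Fin 2) F) : Matrix _ _ F)).trace = σ s.trace := fun s => by
    rw [trace_mul_cycle, Units.inv_mul, one_mul]; simp [trace_fin_two]
  obtain ⟨p, hp⟩ := CharP.exists F
  have : Fact p.Prime := ⟨CharP.char_is_prime F p⟩
  by_cases rp : r = p
  · subst rp
    have h2 : (2 : F) ≠ 0 := fun e => r2 ((Nat.prime_dvd_prime_iff_eq hr.out Nat.prime_two).1
      ((CharP.cast_eq_zero_iff F r 2).1 e))
    let u : Multiplicative F →* SL(2, F) := MonoidHom.mk' (fun t => ⟨1 + t.toAdd • single 0 1 1, by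
      simp [det_fin_two]⟩) fun a b => Subtype.ext (by
        ext i j; fin_cases i <;> fin_cases j <;> simp [mul_apply, Fin.sum_univ_two, add_comm])
    obtain ⟨x, hx⟩ := hR ((QuotientGroup.mk' _).comp u).range (by
      rintro ⟨_, t, rfl⟩
      refine ⟨1, Subtype.ext ?_⟩
      have : t ^ r = 1 := by apply Multiplicative.toAdd.injective; simp
      show ((QuotientGroup.mk' _).comp u t) ^ r ^ 1 = 1
      rw [pow_one, ← map_pow, this, map_one])
    obtain ⟨x, rfl⟩ := QuotientGroup.mk_surjective x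
    set N : Matrix (Fin 2) (Fin 2) F := x.1 * single 0 1 1 * x⁻¹.1
    have xx : x.1 * x⁻¹.1 = 1 := by
      rw [← Matrix.SpecialLinearGroup.coe_mul, mul_inv_cancel, Matrix.SpecialLinearGroup.coe_one]
    have xx' : x⁻¹.1 * x.1 = 1 := by
      rw [← Matrix.SpecialLinearGroup.coe_mul, inv_mul_cancel, Matrix.SpecialLinearGroup.coe_one]
    have tN : N.trace = 0 := by rw [trace_mul_cycle, xx', one_mul]; simp
    have k : ∀ t : F, σ t • ((g : Matrix (Fin 2) (Fin 2) F) * N.map σ * ((g⁻¹ : GL (Fin 2) F) : Matrix _ _ F)) =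
        t • N := fun t => by
      obtain ⟨c, -, hc⟩ := fx (x * u (.ofAdd t) * x⁻¹) (hx _ ⟨.ofAdd t, rfl⟩)
      have e1 : ((x * u (.ofAdd t) * x⁻¹ : SL(2, F)) : Matrix (Fin 2) (Fin 2) F) = 1 + t • N := by
        simp only [Matrix.SpecialLinearGroup.coe_mul, u, MonoidHom.mk'_apply, toAdd_ofAdd, mul_add, add_mul, mul_one, xx,
          mul_smul_comm, smul_mul_assoc, N]
      have e2 := congrArg trace hc
      rw [tr, trace_smul, e1, trace_add, trace_smul, tN, smul_zero, add_zero, trace_one] at e2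
      have c1 : c = 1 := by
        apply mul_right_cancel₀ h2
        simpa [map_ofNat] using e2.symm
      have e3 : (1 + t • N).map σ = 1 + σ t • N.map σ := by
        ext i j; simp [one_apply, apply_ite σ]
      rw [e1, c1, one_smul, e3, mul_add, add_mul, mul_one, Units.mul_inv, mul_smul_comm, smul_mul_assoc] at hc
      exact add_left_cancel hc
    have k1 := k 1
    rw [map_one, one_smul, one_smul] at k1
    refine s1 (RingEquiv.ext fun t => ?_)
    have k2 := k t
    rw [k1, ← sub_eq_zero, ← sub_smul, smul_eq_zero, sub_eq_zero] at k2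
    refine k2.resolve_right fun e => ?_
    have : x⁻¹.1 * N * x.1 = single 0 1 1 := by
      rw [← mul_assoc, ← mul_assoc, xx', one_mul, mul_assoc, xx', mul_one]
    simpa [e] using congrFun (congrFun this 0) 1
  obtain ⟨f, -, hf⟩ := FiniteField.card F p
  have cop : r.Coprime p := (Nat.coprime_primes hr.out this.out).2 rp
  have c2 : ∀ a, (r ^ a).Coprime (Nat.gcd 2 (Fintype.card F - 1)) := fun a =>
    Nat.Coprime.coprime_dvd_right (Nat.gcd_dvd_left _ _)
      (Nat.Coprime.pow_left a ((Nat.coprime_primes hr.out Nat.prime_two).2 r2))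
  have := Fintype.ofFinite (H25.fixF σ)
  obtain ⟨j, -, hj⟩ := FiniteField.card (H25.fixF σ) p
  have hq := H25.card_fixF σ
  rw [Nat.card_eq_fintype_card, Nat.card_eq_fintype_card, hj] at hq
  have ro : r ∣ orderOf σ := by
    obtain ⟨i, -, hi⟩ := (Nat.dvd_prime_pow hr.out).1 (orderOf_dvd_of_pow_eq_one hσ)
    rcases i with _ | i
    · exact absurd (orderOf_eq_one_iff.1 hi) s1
    · exact hi ▸ dvd_pow_self _ i.succ_ne_zero
  have sq1 : Fintype.card F ^ 2 - 1 = (Fintype.card F + 1) * (Fintype.card F - 1) := by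
    rw [← Nat.sq_sub_sq]
  have step : ∀ a, r ^ (a + 1) ∣ Fintype.card F ^ 2 - 1 → r ^ (a + 2) ∣ Fintype.card F ^ 2 - 1 := fun a ha => by
    obtain ⟨y, hy⟩ : ∃ y : PSL(2, F), r ^ (a + 1) ∣ orderOf y := by
      rw [sq1] at ha
      by_cases d : r ∣ Fintype.card F + 1
      · obtain ⟨-, y, -, hy, -⟩ := H10.exists_dihedral_nonsplit (F := F)
        have : ¬ r ∣ Fintype.card F - 1 := fun e => r2 ((Nat.prime_dvd_prime_iff_eq hr.out Nat.prime_two).1 (by
          have := Nat.dvd_sub d e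
          rwa [show Fintype.card F + 1 - (Fintype.card F - 1) = 2 by omega] at this))
        refine ⟨y, hy ▸ (Nat.dvd_div_iff_mul_dvd ?_).2 ((c2 _).symm.mul_dvd_of_dvd_of_dvd ?_ ?_)⟩
        · rw [show Fintype.card F + 1 = 2 + (Fintype.card F - 1) by omega]
          exact dvd_add (Nat.gcd_dvd_left _ _) (Nat.gcd_dvd_right _ _)
        · rw [show Fintype.card F + 1 = 2 + (Fintype.card F - 1) by omega]
          exact dvd_add (Nat.gcd_dvd_left _ _) (Nat.gcd_dvd_right _ _)
        · exact (((hr.out.coprime_iff_not_dvd).2 this).pow_left _).dvd_of_dvd_mul_right ha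
      · obtain ⟨-, y, -, hy, -⟩ := H10.exists_dihedral_split (F := F) h4
        exact ⟨y, hy ▸ (Nat.dvd_div_iff_mul_dvd (Nat.gcd_dvd_right _ _)).2 ((c2 _).symm.mul_dvd_of_dvd_of_dvd
          (Nat.gcd_dvd_right _ _) ((((hr.out.coprime_iff_not_dvd).2 d).pow_left _).dvd_of_dvd_mul_left ha))⟩
    have hz := orderOf_pow_orderOf_div (orderOf_pos y).ne' hy
    set z := y ^ (orderOf y / r ^ (a + 1))
    obtain ⟨x, hx⟩ := hR (zpowers z) (IsPGroup.of_card (by rw [Nat.card_zpowers, hz]))
    obtain ⟨s, hs⟩ := QuotientGroup.mk_surjective (x * z * x⁻¹)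
    obtain ⟨c, c1, hc⟩ := fx s (by rw [hs]; exact hx z (mem_zpowers z))
    have e2 := congrArg trace hc
    rw [tr, trace_smul, smul_eq_mul] at e2
    set t := (s : Matrix (Fin 2) (Fin 2) F).trace with ht
    have t2 : (σ ^ 2) t = t := by
      rw [sq, RingAut.mul_apply, e2, map_mul, e2]
      rcases mul_self_eq_one_iff.1 c1 with rfl | rfl <;> simp
    have t1 : σ t = t := by
      obtain ⟨m, hm⟩ := od
      have : σ * (σ ^ 2) ^ m = 1 := by rw [← pow_mul, ← pow_succ', ← hm, hσ]
      have e : ((σ ^ 2) ^ m) t = t := by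
        clear this hm
        induction m with
        | zero => rfl
        | succ m ih => rw [pow_succ, RingAut.mul_apply, t2, ih]
      rw [← e, ← RingAut.mul_apply, this, e]; rfl
    have t3 : t ^ p ^ (j : ℕ) = t := by
      have := FiniteField.pow_card (⟨t, H25.mem_fixF.2 t1⟩ : H25.fixF σ)
      rw [hj] at this
      exact congrArg Subtype.val this
    have o := sl_pow_one p s t3
    have o2 : r ^ (a + 1) ∣ ((p ^ (j : ℕ)) ^ 2 - 1) * p := by
      rw [← hz, ← (MulAut.conj x).orderOf_eq z, MulAut.conj_apply, ← hs]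
      exact orderOf_dvd_of_pow_eq_one (by rw [← QuotientGroup.mk_pow, o]; rfl)
    rw [← hq, ← pow_mul, mul_comm, pow_mul]
    exact pow_dvd_succ ((cop.pow_left _).dvd_of_dvd_mul_right o2)
      (Nat.one_le_pow _ _ (Nat.pow_pos (Fact.out : p.Prime).pos)) ro
  have b : r ^ (0 + 1) ∣ Fintype.card F ^ 2 - 1 := by
    have c := hd.mul_left (Nat.gcd 2 (Fintype.card F - 1))
    rw [H10.card_PSL2, mul_assoc, mul_comm (_ - 1), ← sq1] at c
    rw [zero_add, pow_one]
    exact (hf ▸ cop.pow_right f : r.Coprime (Fintype.card F)).dvd_of_dvd_mul_left c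
  have all : ∀ a, r ^ (a + 1) ∣ Fintype.card F ^ 2 - 1 := fun a => by
    induction a with
    | zero => exact b
    | succ a ih => exact step a ih
  have := Nat.le_of_dvd (by rw [sq1]; exact Nat.mul_pos (by omega) (by omega)) (all (Fintype.card F ^ 2 - 1))
  have := Nat.lt_pow_self (n := Fintype.card F ^ 2 - 1 + 1) hr.out.one_lt
  omega

end H16
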