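import Cfsg.Agent.H15.Emb2
import Mathlib.GroupTheory.Sylow

/-! Cayley graph certificates for small subgroups of permutation machines: `cayR` (the relations of a Cayley graph),
`cay_mem`, `cay_bd`, `cayChk` / `cay_of_chk` (relations and exact order), `cay_iso`, `sylow_iso`. -/

set_option autoImplicit false

namespace H16
open H14 H15 L

/-- the relations `E[i] * y l = E[T[i][l]]` -/
noncomputable def cayR (k : ℕ) (E : List Word) (T : List (List ℕ)) : List (Word × Word) :=
  (List.range E.length).flatMap fun i => (List.range k).map fun l =>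
    (2 * l :: getL [] E i, getL [] E (getL 0 (getL [] T i) l))

section
variable {G G' : Type*} [Group G] [Group G'] {y : ℕ → G} {y' : ℕ → G'} {k : ℕ} {E : List Word} {T : List (List ℕ)}

theorem cay_mem (h : Rels y (cayR k ([] :: E) T)) {g : G} (hg : g ∈ sub y (lets k)) :
    ∃ w ∈ [] :: E, H14.ev y w = g := by
  let S : Set G := H14.ev y '' {w | w ∈ [] :: E}
  have fin : S.Finite := (List.finite_toSet _).image _
  have st : ∀ l < k, Set.MapsTo (· * y l) S S := by
    rintro l hl _ ⟨w, hw, rfl⟩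
    obtain ⟨i, hi, rfl⟩ := exists_getL [] hw
    have := h _ (List.mem_flatMap.2 ⟨i, List.mem_range.2 hi, List.mem_map.2 ⟨l, List.mem_range.2 hl, rfl⟩⟩)
    refine ⟨_, (getL_mem_or _ _ _).elim id fun e => e.symm ▸ List.mem_cons_self, this.symm.trans ?_⟩
    simp [letter]
  have key : ∀ s ∈ S, s * g ∈ S := by
    rw [sub_lets_eq] at hg
    induction hg using Subgroup.closure_induction'' with
    | one => simp
    | mem x hx => obtain ⟨l, hl, rfl⟩ := hx; exact st l hl
    | inv_mem x hx =>
      obtain ⟨l, hl, rfl⟩ := hx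
      intro s hs
      obtain ⟨t, ht, rfl⟩ := ((fin.injOn_iff_bijOn_of_mapsTo (st l hl)).1 (mul_left_injective _).injOn).surjOn hs
      simpa using ht
    | mul a b _ _ ha hb => exact fun s hs => mul_assoc s a b ▸ hb _ (ha s hs)
  exact one_mul g ▸ key 1 ⟨[], List.mem_cons_self, rfl⟩

theorem cay_bd (h : Rels y (cayR k ([] :: E) T)) : Bd (sub y (lets k)) (E.length + 1) := by
  have hf : ∀ g : sub y (lets k), ∃ i : Fin (E.length + 1), H14.ev y (getL [] ([] :: E) i) = g := fun g =>
    let ⟨_, hw, e⟩ := cay_mem h g.2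
    let ⟨i, hi, e'⟩ := exists_getL [] hw
    ⟨⟨i, hi⟩, e' ▸ e⟩
  choose f hf using hf
  have inj : Function.Injective f := fun a b e => Subtype.ext (by rw [← hf, e, hf])
  have := Finite.of_injective f inj
  exact ⟨Nat.card_pos.ne', (Nat.card_le_card_of_injective f inj).trans (Nat.card_fin _).le⟩

theorem cay_iso (h : Rels y (cayR k ([] :: E) T) ∧ Nat.card (sub y (lets k)) = E.length + 1)
    (h' : Rels y' (cayR k ([] :: E) T) ∧ Nat.card (sub y' (lets k)) = E.length + 1) :
    ∃ e : sub y (lets k) ≃* sub y' (lets k), ∀ l (hl : l < k), (e ⟨y l, gen_mem_lets hl⟩ : G') = y' l := by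
  have b := cay_bd (h.1.prod h'.1)
  have := b.finite
  obtain ⟨e, he⟩ := exists_iso_of_card (gen := y) (gen' := y') (ws := lets k) (Nat.succ_ne_zero E.length)
    (le_antisymm b.2 (by
      rw [Nat.succ_eq_add_one, ← h.2, show sub y (lets k) = _ from (H14.map_sub (gen := fun l => (y l, y' l))
        (MonoidHom.fst G G') _).symm]
      exact Nat.card_le_card_of_surjective _ (MonoidHom.subgroupMap_surjective _ _))) h.2 h'.2.ge
  refine ⟨e, fun l hl => ?_⟩
  have := he [2 * l] (List.mem_map.2 ⟨l, List.mem_range.2 hl, rfl⟩)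
  simpa only [ev_single] using this

theorem sylow_iso {p m : ℕ} [Fact p.Prime] [Finite G] [Finite G'] {K : Subgroup G} {K' : Subgroup G'} (e : K ≃* K')
    (hK : Nat.card K = p ^ m) (h : (Nat.card G).factorization p = m) (h' : (Nat.card G').factorization p = m)
    (P : Sylow p G) (Q : Sylow p G') : Nonempty (P ≃* Q) :=
  ⟨(P.equiv (Sylow.ofCard K (h ▸ hK))).trans (e.trans
    ((Sylow.ofCard K' (h' ▸ (Nat.card_congr e.toEquiv).symm.trans hK)).equiv Q))⟩

end

/-- the images of the points `bs`, packed -/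
noncomputable def code (n : ℕ) (F : ℕ → ℕ → ℕ) (bs : List ℕ) (w : Word) : ℕ :=
  bs.foldr (fun b c => Nat.add (apW F w b) (Nat.mul n c)) 0

/-- the words `W` satisfy the Cayley relations, and the words of `E` give distinct elements -/
noncomputable def cayChk (n C D : ℕ) (Ls : List Net) (bs : List ℕ) (W : List Word) (k : ℕ) (E : List Word)
    (T : List (List ℕ)) : Bool :=
  band (Nat.ble n (Nat.pow 2 D)) (Nat.ble (Nat.add D 2) C) && bs.all (Nat.blt · n) &&
    relsPt (ptF C D Ls) bs (flatR W (cayR k E T)) && wsIn 0 k E &&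
    decide (E.map fun w => code n (ptF C D Ls) bs (flat W w)).Nodup

theorem cay_of_chk {G Ω : Type*} [Group G] [MulAction G Ω] {n : ℕ} {Ls : List Net} {M : PM G Ω n Ls} {bs : List ℕ}
    (hb : Base M bs) {C D k : ℕ} {W E : List Word} {T : List (List ℕ)}
    (h : cayChk n C D Ls bs W k ([] :: E) T = true) :
    Rels (loc M.gen W) (cayR k ([] :: E) T) ∧ Nat.card (sub (loc M.gen W) (lets k)) = E.length + 1 := by
  simp only [cayChk, Bool.and_eq_true, decide_eq_true_eq] at h
  obtain ⟨⟨⟨⟨h1, h2⟩, h3⟩, h4⟩, h5⟩ := h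
  have := ptF_ok M.ok h1
  have hR := rels_loc (hb.rels _ h2 h3)
  have b := cay_bd hR
  have := b.finite
  refine ⟨hR, le_antisymm b.2 ?_⟩
  have m := (sub_le _).1 (sub_le_of_wsIn (X := sub (loc M.gen W) (lets k)) (fun _ _ hl => gen_mem_lets hl) h4)
  rw [← Nat.card_fin (E.length + 1)]
  refine Nat.card_le_card_of_injective (fun i : Fin ([] :: E).length => ⟨_, m _ (List.get_mem _ i)⟩) fun i j e => ?_
  have e := congrArg Subtype.val e
  have h6 := h5.of_map _
  rw [List.nodup_map_iff_inj_on h6] at h5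
  refine List.nodup_iff_injective_get.1 h6 (h5 _ (List.get_mem ([] :: E) i) _ (List.get_mem ([] :: E) j) ?_)
  simp only [← ev_flat] at e
  refine List.foldr_ext _ _ _ fun b hb c => ?_
  have hn : b < n := Nat.blt_eq.mp (List.all_eq_true.1 h2 b hb)
  rw [← enc_ev_dec M _ hn, e, enc_ev_dec M _ hn]

end H16
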