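import Cfsg.Agent.H11.ThC

/-! Groups covered by the conjugates of two proper subgroups: generalities, `SL_n`. -/

set_option autoImplicit false

namespace H16.Cv
open Module Polynomial H11
open scoped commutatorElement

/-- union of the conjugates of two proper subgroups -/
def Cov (G : Type*) [Group G] : Prop :=
  ∃ H K : Subgroup G, H ≠ ⊤ ∧ K ≠ ⊤ ∧ ∀ g : G, ∃ x : G, x * g * x⁻¹ ∈ H ∨ x * g * x⁻¹ ∈ K

section Grp
variable {G G' : Type*} [Group G] [Group G']

theorem cov_map (φ : G →* G') (hφ : Function.Surjective φ) {H K : Subgroup G}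
    (hH : H ⊔ φ.ker ≠ ⊤) (hK : K ⊔ φ.ker ≠ ⊤)
    (h : ∀ g : G, ∃ x : G, x * g * x⁻¹ ∈ H ∨ x * g * x⁻¹ ∈ K) : Cov G' := by
  refine ⟨H.map φ, K.map φ, fun h => hH ?_, fun h => hK ?_, fun g => ?_⟩
  · rw [← Subgroup.comap_map_eq, h, Subgroup.comap_top]
  · rw [← Subgroup.comap_map_eq, h, Subgroup.comap_top]
  · obtain ⟨g, rfl⟩ := hφ g
    obtain ⟨x, hx⟩ := h g
    refine ⟨φ x, hx.imp (fun h => ⟨_, h, by simp⟩) fun h => ⟨_, h, by simp⟩⟩

theorem sup_center_ne (hG : commutator G = ⊤) {H : Subgroup G} (hH : H ≠ ⊤) :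
    H ⊔ Subgroup.center G ≠ ⊤ := by
  intro h
  apply hH
  rw [eq_top_iff, ← hG, commutator_def, Subgroup.commutator_le]
  have key : ∀ g : G, ∃ a ∈ H, ∃ z ∈ Subgroup.center G, g = a * z := fun g => by
    have : g ∈ ((H ⊔ Subgroup.center G : Subgroup G) : Set G) := by rw [h]; trivial
    rw [Subgroup.mul_normal] at this
    obtain ⟨a, ha, z, hz, rfl⟩ := this
    exact ⟨a, ha, z, hz, rfl⟩
  intro g _ k _
  obtain ⟨a, ha, z, hz, rfl⟩ := key g
  obtain ⟨b, hb, w, hw, rfl⟩ := key k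
  have e1 := Subgroup.mem_center_iff.1 hz
  have e2 := Subgroup.mem_center_iff.1 hw
  have : ⁅a * z, b * w⁆ = ⁅a, b⁆ := by
    simp only [commutatorElement_def, mul_inv_rev]
    calc a * z * (b * w) * (z⁻¹ * a⁻¹) * (w⁻¹ * b⁻¹)
        = a * (z * (b * w)) * z⁻¹ * (a⁻¹ * w⁻¹) * b⁻¹ := by group
      _ = a * ((b * w) * z) * z⁻¹ * (w⁻¹ * a⁻¹) * b⁻¹ := by
        rw [e1 (b * w), ← mul_inv_rev, ← mul_inv_rev, e2 a]
      _ = a * b * a⁻¹ * b⁻¹ := by group
  rw [this, commutatorElement_def]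
  exact H.mul_mem (H.mul_mem (H.mul_mem ha hb) (H.inv_mem ha)) (H.inv_mem hb)

theorem Cov.quot (hG : commutator G = ⊤) (h : Cov G) : Cov (G ⧸ Subgroup.center G) := by
  obtain ⟨H, K, hH, hK, h⟩ := h
  exact cov_map (QuotientGroup.mk' _) (QuotientGroup.mk'_surjective _)
    (by rw [QuotientGroup.ker_mk']; exact sup_center_ne hG hH)
    (by rw [QuotientGroup.ker_mk']; exact sup_center_ne hG hK) h

theorem Cov.equiv (e : G ≃* G') (h : Cov G) : Cov G' := by
  obtain ⟨H, K, hH, hK, h⟩ := h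
  have : (e : G →* G').ker = ⊥ := (MonoidHom.ker_eq_bot_iff _).2 e.injective
  exact cov_map (e : G →* G') e.surjective (by simpa [this]) (by simpa [this]) h

end Grp

section Rep
variable {F : Type*} [Field F] {V : Type*} [AddCommGroup V] [Module F V] {G : Type*} [Group G]
  (ρ : G →* End F V)

theorem rho_inv (g : G) (v : V) : ρ g⁻¹ (ρ g v) = v := by
  rw [← End.mul_apply, ← map_mul]; simp

theorem rho_inv' (g : G) (v : V) : ρ g (ρ g⁻¹ v) = v := by
  rw [← End.mul_apply, ← map_mul]; simp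

/-- stabilizer of a subspace -/
def stab (U : Submodule F V) : Subgroup G where
  carrier := {g | U.map (ρ g) = U}
  one_mem' := by simp [End.one_eq_id]
  mul_mem' {a b} ha hb := by
    simp only [Set.mem_ofPred_eq] at *
    rw [map_mul, End.mul_eq_comp, Submodule.map_comp, hb, ha]
  inv_mem' {a} ha := by
    simp only [Set.mem_ofPred_eq] at *
    conv_lhs => rw [← ha, ← Submodule.map_comp, ← End.mul_eq_comp, ← map_mul]
    simp [End.one_eq_id]

theorem mem_stab [FiniteDimensional F V] {U : Submodule F V} {g : G} :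
    g ∈ stab ρ U ↔ ∀ v ∈ U, ρ g v ∈ U := by
  refine ⟨fun h v hv => ?_, fun h => ?_⟩
  · have h' : U.map (ρ g) = U := h
    rw [← h']; exact ⟨v, hv, rfl⟩
  · refine Submodule.eq_of_le_of_finrank_eq (Submodule.map_le_iff_le_comap.2 h) ?_
    exact (Submodule.equivMapOfInjective _ (Function.LeftInverse.injective (rho_inv ρ g))
      U).finrank_eq.symm

theorem conj_stab {U U0 : Submodule F V} {g x : G} (hg : g ∈ stab ρ U) (hx : U.map (ρ x) = U0) :
    x * g * x⁻¹ ∈ stab ρ U0 := by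
  have h' : U.map (ρ g) = U := hg
  subst hx
  change Submodule.map _ _ = _
  rw [← Submodule.map_comp, ← End.mul_eq_comp, ← map_mul, inv_mul_cancel_right, map_mul,
    End.mul_eq_comp, Submodule.map_comp, h']

/-- centralizer of an endomorphism -/
def cen (X : End F V) : Subgroup G where
  carrier := {g | ρ g * X = X * ρ g}
  one_mem' := by simp
  mul_mem' {a b} ha hb := by
    simp only [Set.mem_ofPred_eq] at *
    rw [map_mul, mul_assoc, hb, ← mul_assoc, ha, mul_assoc]
  inv_mem' {a} ha := by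
    simp only [Set.mem_ofPred_eq] at *
    calc ρ a⁻¹ * X = ρ a⁻¹ * (X * ρ a) * ρ a⁻¹ := by
          rw [mul_assoc, mul_assoc, ← map_mul]; simp
      _ = X * ρ a⁻¹ := by rw [← ha, ← mul_assoc, ← map_mul]; simp

/-- normalizer of `X + F` -/
def nor (X : End F V) : Subgroup G where
  carrier := {g | ∃ c : F, ρ g * X = (X + c • 1) * ρ g}
  one_mem' := ⟨0, by simp⟩
  mul_mem' {a b} := by
    rintro ⟨c, ha⟩ ⟨d, hb⟩
    refine ⟨c + d, ?_⟩
    rw [map_mul, mul_assoc, hb, ← mul_assoc, mul_add, ha]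
    simp [add_mul, add_smul, mul_assoc, add_assoc]
  inv_mem' {a} := by
    rintro ⟨c, ha⟩
    refine ⟨-c, ?_⟩
    have h1 : X * ρ a = ρ a * X - c • ρ a := by rw [ha]; simp [add_mul]
    calc ρ a⁻¹ * X = ρ a⁻¹ * (X * ρ a) * ρ a⁻¹ := by
          rw [mul_assoc, mul_assoc, ← map_mul]; simp
      _ = (X + -c • 1) * ρ a⁻¹ := by
        rw [h1, mul_sub, ← mul_assoc, mul_smul_comm, ← map_mul]; simp [sub_eq_add_neg]

theorem conj_nor {X Y : End F V} {g x : G} (hg : g ∈ nor ρ X) (hx : ρ x * X = Y * ρ x) :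
    x * g * x⁻¹ ∈ nor ρ Y := by
  obtain ⟨c, hc⟩ := hg
  refine ⟨c, ?_⟩
  have h1 : ρ x⁻¹ * Y = X * ρ x⁻¹ := by
    calc ρ x⁻¹ * Y = ρ x⁻¹ * (Y * ρ x) * ρ x⁻¹ := by
          rw [mul_assoc, mul_assoc, ← map_mul]; simp
      _ = X * ρ x⁻¹ := by rw [← hx, ← mul_assoc, ← map_mul]; simp
  rw [map_mul, map_mul, mul_assoc, h1, ← mul_assoc, mul_assoc (ρ x), hc, ← mul_assoc, mul_add, hx]
  simp [add_mul, mul_assoc]

theorem conj_cen {X Y : End F V} {g x : G} (hg : g ∈ cen ρ X) (hx : ρ x * X = Y * ρ x) :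
    x * g * x⁻¹ ∈ cen ρ Y := by
  have hc : ρ g * X = X * ρ g := hg
  change _ = _
  have h1 : ρ x⁻¹ * Y = X * ρ x⁻¹ := by
    calc ρ x⁻¹ * Y = ρ x⁻¹ * (Y * ρ x) * ρ x⁻¹ := by
          rw [mul_assoc, mul_assoc, ← map_mul]; simp
      _ = X * ρ x⁻¹ := by rw [← hx, ← mul_assoc, ← map_mul]; simp
  rw [map_mul, map_mul, mul_assoc, h1, ← mul_assoc, mul_assoc (ρ x), hc, ← mul_assoc, hx]
  simp [mul_assoc]

theorem cen_of_nor (hG : commutator G = ⊤) {X : End F V} (h : nor ρ X = ⊤) : cen ρ X = ⊤ := by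
  rw [eq_top_iff, ← hG, commutator_def, Subgroup.commutator_le]
  intro g _ k _
  obtain ⟨c, hc⟩ : g ∈ nor ρ X := h ▸ trivial
  obtain ⟨d, hd⟩ : k ∈ nor ρ X := h ▸ trivial
  have h1 : ρ (g * k) * X = (X + (c + d) • 1) * ρ (g * k) := by
    rw [map_mul, mul_assoc, hd, ← mul_assoc, mul_add, hc]
    simp [add_mul, add_smul, mul_assoc, add_assoc]
  have h2 : ρ (k * g) * X = (X + (c + d) • 1) * ρ (k * g) := by
    rw [map_mul, mul_assoc, hc, ← mul_assoc, mul_add, hd, add_comm c]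
    simp [add_mul, add_smul, mul_assoc, add_assoc]
  have h3 : ρ (k * g)⁻¹ * (X + (c + d) • 1) = X * ρ (k * g)⁻¹ := by
    calc _ = ρ (k * g)⁻¹ * ((X + (c + d) • 1) * ρ (k * g)) * ρ (k * g)⁻¹ := by
          rw [mul_assoc, mul_assoc, ← map_mul]; simp
      _ = _ := by rw [← h2, ← mul_assoc, ← map_mul]; simp
  have h4 : ⁅g, k⁆ = (g * k) * (k * g)⁻¹ := by rw [commutatorElement_def]; group
  have h5 : ρ ⁅g, k⁆ * (X + (c + d) • 1) = (X + (c + d) • 1) * ρ ⁅g, k⁆ := by
    rw [h4, map_mul, mul_assoc, h3, ← mul_assoc, h1, mul_assoc]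
  change _ = _
  simpa [mul_add, add_mul] using h5

end Rep

section Poly
variable {F : Type*} [Field F]

/-- the polynomial `X^d - X - c` -/
noncomputable def asP (d : ℕ) (c : F) : F[X] := X ^ d - X - C c

theorem natDegree_asP {d : ℕ} (hd : 2 ≤ d) (c : F) : (asP d c).natDegree = d := by
  unfold asP
  rw [natDegree_sub_C, natDegree_sub_eq_left_of_natDegree_lt] <;> simp; omega

theorem monic_asP {d : ℕ} (hd : 2 ≤ d) (c : F) : (asP d c).Monic := by
  unfold asP
  rw [sub_sub]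
  refine monic_X_pow_sub ?_
  rw [degree_X_add_C]
  exact_mod_cast hd

theorem irr_asP {d : ℕ} (hd : 2 ≤ d) (hd' : d ≤ 3) {c : F} (hc : ∀ x : F, x ^ d - x ≠ c) :
    Irreducible (asP d c) := by
  rw [irreducible_iff_roots_eq_zero_of_degree_le_three (by rwa [natDegree_asP hd])
    (by rwa [natDegree_asP hd]), Multiset.eq_zero_iff_forall_notMem]
  intro x hx
  have := (mem_roots (monic_asP hd c).ne_zero).1 hx
  simp [asP, sub_eq_zero] at this
  exact hc x this

theorem ex_asP [Finite F] {d : ℕ} (hd : 1 ≤ d) : ∃ c : F, ∀ x : F, x ^ d - x ≠ c := by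
  by_contra h
  push Not at h
  have h1 : Function.Surjective fun x : F => x ^ d - x := h
  have := Finite.injective_iff_surjective.2 h1 (a₁ := 0) (a₂ := 1) (by simp [show d ≠ 0 by omega])
  simp at this

theorem aeval_asP {A : Type*} [Ring A] [Algebra F A] (d : ℕ) (c : F) (x : A) :
    aeval x (asP d c) = x ^ d - x - c • 1 := by
  simp [asP, Algebra.algebraMap_eq_smul_one]

variable [Finite F]

theorem root_mod {f p : F[X]} (hf : Irreducible f) (hp : Irreducible p)
    (h : f.natDegree ∣ p.natDegree) : ∃ a : F[X], p ∣ f.comp a := by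
  have := Fact.mk hf
  have := Fact.mk hp
  have := Fintype.ofFinite F
  have := (AdjoinRoot.powerBasis hf.ne_zero).finite
  have := (AdjoinRoot.powerBasis hp.ne_zero).finite
  have : Finite (AdjoinRoot p) := Module.finite_of_finite F
  obtain ⟨φ⟩ := FiniteField.nonempty_algHom_of_finrank_dvd (F := F) (K := AdjoinRoot f)
    (L := AdjoinRoot p) (by
      rw [(AdjoinRoot.powerBasis hf.ne_zero).finrank, (AdjoinRoot.powerBasis hp.ne_zero).finrank]
      simpa using h)
  obtain ⟨a, ha⟩ := AdjoinRoot.mk_surjective (φ (AdjoinRoot.root f))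
  refine ⟨a, AdjoinRoot.mk_eq_zero.1 ?_⟩
  rw [← AdjoinRoot.aeval_eq, aeval_comp, AdjoinRoot.aeval_eq, ha, aeval_algHom_apply]
  simp

theorem root_pow {f : F[X]} (hf : Irreducible f) (m : F[X]) : m ≠ 0 →
    (∀ p, Irreducible p → p ∣ m → f.natDegree ∣ p.natDegree) →
    ∃ (a : F[X]) (N : ℕ), m ∣ (f.comp a) ^ N := by
  induction m using WfDvdMonoid.induction_on_irreducible with
  | zero => simp
  | unit u hu => exact fun _ _ => ⟨0, 0, hu.dvd⟩
  | mul m p hm hp ih =>
    intro _ h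
    obtain ⟨a, N, ha⟩ := ih hm fun r hr h' => h r hr (h'.mul_left _)
    by_cases h1 : p ∣ f.comp a
    · exact ⟨a, N + 1, by rw [pow_succ']; exact mul_dvd_mul h1 ha⟩
    · obtain ⟨b, hb⟩ := root_mod hf hp (h p hp (dvd_mul_right _ _))
      have h2 : IsCoprime p m :=
        ((hp.coprime_iff_not_dvd.2 h1).pow_right (n := N)).of_isCoprime_of_dvd_right ha
      obtain ⟨u, v, huv⟩ := h2
      have h3 : ∀ x y : F[X], x - y ∣ f.comp x - f.comp y := fun x y => by
        simpa [comp, eval_map, C_eq_algebraMap] using sub_dvd_eval_sub x y (f.map C)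
      refine ⟨a + (b - a) * (v * m), N + 1, ?_⟩
      rw [pow_succ']
      refine mul_dvd_mul ?_ ?_
      · have : p ∣ a + (b - a) * (v * m) - b :=
          ⟨(a - b) * u, by linear_combination (b - a) * huv⟩
        simpa using dvd_add (this.trans (h3 _ _)) hb
      · have : m ∣ a + (b - a) * (v * m) - a := ⟨(b - a) * v, by ring⟩
        simpa using dvd_add ((this.trans (h3 _ _)).trans (sub_dvd_pow_sub_pow _ _ N)) ha

theorem comp_pow_card (f a : F[X]) (k : ℕ) :
    f.comp (a ^ Nat.card F ^ k) = f.comp a ^ Nat.card F ^ k := by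
  have := Fintype.ofFinite F
  induction k with
  | zero => simp
  | succ k ih =>
    rw [pow_succ, pow_mul, pow_mul, ← ih, ← pow_comp, Nat.card_eq_fintype_card,
      ← FiniteField.expand_card f, expand_eq_comp_X_pow, comp_assoc]
    simp

theorem root_in {A : Type*} [Ring A] [Algebra F A] {f m : F[X]} (hf : Irreducible f) (hm : m ≠ 0)
    (h : ∀ p, Irreducible p → p ∣ m → f.natDegree ∣ p.natDegree) {g : A} (hg : aeval g m = 0) :
    ∃ a : F[X], aeval (aeval g a) f = 0 := by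
  obtain ⟨a, N, ha⟩ := root_pow hf m hm h
  refine ⟨a ^ Nat.card F ^ N, ?_⟩
  rw [← aeval_comp, comp_pow_card]
  exact aeval_eq_zero_of_dvd_aeval_eq_zero (ha.trans (pow_dvd_pow _
    (Nat.lt_pow_self Finite.one_lt_card).le)) hg

end Poly

section Sim
variable {F : Type*} [Field F] {V : Type*} [AddCommGroup V] [Module F V] [FiniteDimensional F V]

theorem sim_roots {f : F[X]} (hf : Irreducible f) (hm : f.Monic) {A B : End F V}
    (hA : aeval A f = 0) (hB : aeval B f = 0) : Sim A B := by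
  have key : ∀ A : End F V, aeval A f = 0 → ED A = Multiset.replicate (ED A).card f ∧
      finrank F V = (ED A).card * f.natDegree := fun A hA => by
    have h1 : ED A = Multiset.replicate (ED A).card f := Multiset.eq_replicate_card.2 fun P hP =>
      eq_of_monic_of_associated (pp_ED A P hP).monic hm
        ((ss_of_squarefree hf.squarefree hA P hP).associated_of_dvd hf
          (aeval_eq_zero_iff_ED.1 hA P hP))
    refine ⟨h1, ?_⟩
    rw [finrank_eq_ED A]
    conv_lhs => rw [h1]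
    simp
  obtain ⟨a1, a2⟩ := key A hA
  obtain ⟨b1, b2⟩ := key B hB
  rw [sim_iff_ED, a1, b1, Nat.eq_of_mul_eq_mul_right hf.natDegree_pos (a2.symm.trans b2)]

omit [FiniteDimensional F V] in
theorem no_eig {d : ℕ} {c : F} (hc : ∀ x : F, x ^ d - x ≠ c) {A : End F V}
    (hA : aeval A (asP d c) = 0) {v : V} {a : F} (h : A v = a • v) : v = 0 := by
  have h1 : ∀ n : ℕ, (A ^ n) v = a ^ n • v := fun n => by
    induction n with
    | zero => simp
    | succ n ih => rw [pow_succ', End.mul_apply, ih, map_smul, h, smul_smul, pow_succ]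
  have := LinearMap.congr_fun hA v
  rw [aeval_asP] at this
  simp only [LinearMap.sub_apply, h1, h, LinearMap.smul_apply, End.one_apply, ← sub_smul,
    LinearMap.zero_apply, smul_eq_zero, sub_eq_zero] at this
  exact this.resolve_left (hc a)

theorem eig_of_root {g : End F V} {a : F} (h : g.charpoly.IsRoot a) :
    ∃ v, v ≠ 0 ∧ g v = a • v := by
  obtain ⟨v, hv⟩ := ((End.hasEigenvalue_iff_isRoot_charpoly g a).2 h).exists_hasEigenvector
  exact ⟨v, hv.2, hv.apply_eq_smul⟩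

theorem eig_of_deg {g : End F V} {p : F[X]} (h : p ∣ g.charpoly) (h1 : p.natDegree = 1 ∨
    p.natDegree + 1 = finrank F V) : ∃ v, v ≠ 0 ∧ ∃ a : F, g v = a • v := by
  have key : ∀ p : F[X], p ∣ g.charpoly → p.natDegree = 1 → ∃ v, v ≠ 0 ∧ ∃ a : F, g v = a • v :=
    fun p hp h1 => by
      obtain ⟨a, ha⟩ := exists_root_of_degree_eq_one
        ((degree_eq_iff_natDegree_eq_of_pos one_pos).2 h1)
      obtain ⟨v, hv, h⟩ := eig_of_root (ha.dvd hp)
      exact ⟨v, hv, a, h⟩
  rcases h1 with h1 | h1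
  · exact key p h h1
  · obtain ⟨r, hr⟩ := h
    have h0 := g.charpoly_monic.ne_zero
    have h2 := g.charpoly_natDegree
    rw [hr] at h0 h2
    rw [natDegree_mul (left_ne_zero_of_mul h0) (right_ne_zero_of_mul h0)] at h2
    exact key r ⟨p, by rw [hr, mul_comm]⟩ (by omega)

end Sim

section SL
open Matrix
variable {F : Type*} [Field F] [Finite F] {n : ℕ}

/-- the natural representation of `SL_n` -/
noncomputable def slρ (F : Type*) [Field F] (n : ℕ) :
    Matrix.SpecialLinearGroup (Fin n) F →* End F (Fin n → F) :=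
  (toLinAlgEquiv' : Matrix (Fin n) (Fin n) F ≃ₐ[F] _).toMonoidHom.comp
    Matrix.SpecialLinearGroup.coeMonoidHom

omit [Finite F] in
theorem slρ_apply (g : Matrix.SpecialLinearGroup (Fin n) F) (v : Fin n → F) : slρ F n g v = g.1 *ᵥ v := rfl

omit [Finite F] in
theorem sl_of_det {e : End F (Fin n → F)} (h : LinearMap.det e = 1) : ∃ g, slρ F n g = e := by
  obtain ⟨A, rfl⟩ := mE_surj e
  exact ⟨⟨A, by rwa [det_mE] at h⟩, rfl⟩

omit [Finite F] in
theorem sl_adjust {X Y : End F (Fin n → F)} (h : Sim X Y) (hd : ∀ a, DetC X a) :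
    ∃ x, slρ F n x * X = Y * slρ F n x := by
  obtain ⟨e, he⟩ := h
  obtain ⟨c, hc, h1⟩ := hd (LinearMap.det (e : End F (Fin n → F)))⁻¹
  obtain ⟨x, hx⟩ := sl_of_det (e := (e : End F (Fin n → F)) * c) (by
    rw [map_mul, h1, mul_inv_cancel₀ (LinearEquiv.isUnit_det' e).ne_zero])
  refine ⟨x, ?_⟩
  rw [hx, mul_assoc, hc.eq]
  exact LinearMap.ext fun v => he _

theorem sl_cov {d : ℕ} (hd : 2 ≤ d) (hd' : d ≤ 3)
    (h : ∀ k, 2 ≤ k → k ≤ n + 2 → k ≠ n + 1 → d ∣ k) :
    Cov (ProjectiveSpecialLinearGroup (Fin (n + 2)) F) := by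
  obtain ⟨c, hc⟩ := ex_asP (F := F) (d := d) (by omega)
  let ρ := slρ F (n + 2)
  let e0 : Fin (n + 2) → F := Pi.single 0 1
  have he0 : e0 ≠ 0 := by simp [e0]
  have hZ : ∀ z ∈ Subgroup.center (Matrix.SpecialLinearGroup (Fin (n + 2)) F),
      ∃ r : F, ρ z = r • 1 := fun z hz => by
    obtain ⟨r, -, hr⟩ := Matrix.SpecialLinearGroup.mem_center_iff.1 hz
    exact ⟨r, LinearMap.ext fun v => by
      simp [ρ, slρ_apply, ← hr, scalar_apply]⟩
  have hP : ∀ v : Fin (n + 2) → F, v ≠ 0 → ∃ x, (F ∙ v).map (ρ x) = F ∙ e0 := fun v hv => by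
    obtain ⟨x, hx⟩ := MulAction.exists_smul_eq (Matrix.SpecialLinearGroup (Fin (n + 2)) F)
      (Projectivization.mk F v hv) (Projectivization.mk F e0 he0)
    rw [Projectivization.smul_mk, Projectivization.mk_eq_mk_iff] at hx
    obtain ⟨a, ha⟩ := hx
    refine ⟨x, ?_⟩
    rw [Submodule.map_span, Set.image_singleton, show ρ x v = a • e0 from ha.symm]
    exact Submodule.span_singleton_smul_eq a.isUnit e0
  have hH : stab ρ (F ∙ e0) ≠ ⊤ := fun h => by
    obtain ⟨x, hx⟩ := hP (Pi.single 1 1) (by simp)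
    have h1 : (F ∙ e0).map (ρ x) = F ∙ e0 := show x ∈ stab ρ _ from h ▸ trivial
    have h2 := Submodule.map_injective_of_injective
      (Function.LeftInverse.injective (rho_inv ρ x)) (hx.trans h1.symm)
    obtain ⟨a, ha⟩ := Submodule.mem_span_singleton.1 (h2 ▸ Submodule.mem_span_singleton_self _ :
      (Pi.single 1 1 : Fin (n + 2) → F) ∈ F ∙ e0)
    simpa [e0] using congrFun ha 1
  have hHZ : Subgroup.center _ ≤ stab ρ (F ∙ e0) := fun z hz => by
    obtain ⟨r, hr⟩ := hZ z hz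
    exact (mem_stab ρ).2 fun v hv => by simpa [hr] using Submodule.smul_mem _ r hv
  have key : ∀ g, (∃ x, x * g * x⁻¹ ∈ stab ρ (F ∙ e0)) ∨
      ∃ X, aeval X (asP d c) = 0 ∧ g ∈ cen ρ X := fun g => by
    by_cases hg : ∃ v, v ≠ 0 ∧ ∃ a : F, ρ g v = a • v
    · obtain ⟨v, hv, a, ha⟩ := hg
      obtain ⟨x, hx⟩ := hP v hv
      refine Or.inl ⟨x, conj_stab ρ ((mem_stab ρ).2 fun w hw => ?_) hx⟩
      obtain ⟨b, rfl⟩ := Submodule.mem_span_singleton.1 hw
      rw [map_smul, ha]
      exact Submodule.smul_mem _ _ (Submodule.smul_mem _ _ (Submodule.mem_span_singleton_self _))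
    · obtain ⟨a, ha⟩ := root_in (irr_asP hd hd' hc) (ρ g).charpoly_monic.ne_zero (fun p hp h1 => by
        have h2 := natDegree_le_of_dvd h1 (ρ g).charpoly_monic.ne_zero
        have h3 := mt (eig_of_deg h1) hg
        have h4 := hp.natDegree_pos
        rw [LinearMap.charpoly_natDegree] at h2
        simp only [finrank_fintype_fun_eq_card, Fintype.card_fin] at h2 h3
        rw [natDegree_asP hd]
        exact h _ (by omega) h2 (by omega)) (ρ g).aeval_self_charpoly
      refine Or.inr ⟨_, ha, ?_⟩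
      have := congrArg (aeval (ρ g)) (mul_comm X a)
      rwa [map_mul, map_mul, aeval_X] at this
  by_cases hX : ∃ X : End F (Fin (n + 2) → F), aeval X (asP d c) = 0
  · obtain ⟨Y, hY⟩ := hX
    refine cov_map (QuotientGroup.mk' _) (QuotientGroup.mk'_surjective _)
      (H := stab ρ (F ∙ e0)) (K := cen ρ Y) ?_ ?_ fun g => ?_
    · rwa [QuotientGroup.ker_mk', sup_eq_left.2 hHZ]
    · rw [QuotientGroup.ker_mk', sup_eq_left.2 fun z hz => by
        obtain ⟨r, hr⟩ := hZ z hz
        change _ = _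
        simp [hr]]
      intro h
      have h1 : ρ (Matrix.SpecialLinearGroup.transvection (zero_ne_one) 1) * Y = Y * ρ _ :=
        show _ ∈ cen ρ Y from h ▸ trivial
      have h2 : ∀ v, ρ (Matrix.SpecialLinearGroup.transvection (zero_ne_one) 1) v =
          v + v 1 • e0 := fun v => by
        change (1 + single 0 1 1 : Matrix (Fin (n + 2)) (Fin (n + 2)) F) *ᵥ v = _
        simp [add_mulVec, single_mulVec, e0, funext_iff, Function.update_apply, Pi.single_apply]
      have h3 := LinearMap.congr_fun h1 (Pi.single 1 1)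
      simp only [End.mul_apply, h2, map_add, Pi.single_eq_same, one_smul, add_right_inj] at h3
      exact he0 (no_eig hc hY h3.symm)
    · rcases key g with ⟨x, hx⟩ | ⟨X, hX, hg⟩
      · exact ⟨x, Or.inl hx⟩
      · obtain ⟨x, hx⟩ := sl_adjust (sim_roots (irr_asP hd hd' hc) (monic_asP hd c) hX hY)
          (ss_of_squarefree (irr_asP hd hd' hc).squarefree hX).detC
        exact ⟨x, Or.inr (conj_cen ρ hg hx)⟩
  · refine cov_map (QuotientGroup.mk' _) (QuotientGroup.mk'_surjective _)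
      (H := stab ρ (F ∙ e0)) (K := stab ρ (F ∙ e0)) ?_ ?_ fun g => ?_
    · rwa [QuotientGroup.ker_mk', sup_eq_left.2 hHZ]
    · rwa [QuotientGroup.ker_mk', sup_eq_left.2 hHZ]
    · rcases key g with ⟨x, hx⟩ | ⟨X, hX', -⟩
      · exact ⟨x, Or.inl hx⟩
      · exact absurd ⟨X, hX'⟩ hX

theorem psl2 : Cov (ProjectiveSpecialLinearGroup (Fin 2) F) :=
  sl_cov (n := 0) (d := 2) le_rfl (by omega) fun k _ _ _ => by omega

theorem psl3 : Cov (ProjectiveSpecialLinearGroup (Fin 3) F) :=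
  sl_cov (n := 1) (d := 3) (by omega) le_rfl fun k _ _ _ => by omega

theorem psl4 : Cov (ProjectiveSpecialLinearGroup (Fin 4) F) :=
  sl_cov (n := 2) (d := 2) le_rfl (by omega) fun k _ _ _ => by omega

end SL

end H16.Cv
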