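import Cfsg.Agent.H16.Cv1

/-! Covering `SU_4` by the stabilizers of a non-isotropic point and of an isotropic line. -/

set_option autoImplicit false
set_option linter.unusedSectionVars false

namespace H16.Cv
open Module Polynomial H11
open H11.PForm hiding X

theorem cov_of {G α β : Type*} [Group G] (A : α → Subgroup G) (PA : α → Prop) (B : β → Subgroup G)
    (PB : β → Prop) (hA : ∀ a a', PA a → PA a' → ∀ g ∈ A a, ∃ x, x * g * x⁻¹ ∈ A a')
    (hA' : ∀ a, PA a → A a ≠ ⊤) (hB : ∀ a a', PB a → PB a' → ∀ g ∈ B a, ∃ x, x * g * x⁻¹ ∈ B a')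
    (hB' : ∀ a, PB a → B a ≠ ⊤)
    (h : ∀ g, (∃ a, PA a ∧ g ∈ A a) ∨ ∃ b, PB b ∧ g ∈ B b) : Cov G := by
  by_cases h1 : ∃ a, PA a
  · obtain ⟨a, ha⟩ := h1
    by_cases h2 : ∃ b, PB b
    · obtain ⟨b, hb⟩ := h2
      refine ⟨A a, B b, hA' a ha, hB' b hb, fun g => ?_⟩
      rcases h g with ⟨a', h3, h4⟩ | ⟨b', h3, h4⟩
      · exact (hA a' a h3 ha g h4).imp fun _ => Or.inl
      · exact (hB b' b h3 hb g h4).imp fun _ => Or.inr
    · refine ⟨A a, A a, hA' a ha, hA' a ha, fun g => ?_⟩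
      rcases h g with ⟨a', h3, h4⟩ | ⟨b', h3, -⟩
      · exact (hA a' a h3 ha g h4).imp fun _ => Or.inl
      · exact absurd ⟨b', h3⟩ h2
  · obtain ⟨a, h3, -⟩ | ⟨b, hb, -⟩ := h 1
    · exact absurd ⟨a, h3⟩ h1
    · refine ⟨B b, B b, hB' b hb, hB' b hb, fun g => ?_⟩
      rcases h g with ⟨a', h3, -⟩ | ⟨b', h3, h4⟩
      · exact absurd ⟨a', h3⟩ h1
      · exact (hB b' b h3 hb g h4).imp fun _ => Or.inl

variable {F : Type*} [Field F] {V : Type*} [AddCommGroup V] [Module F V]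

theorem stab_ne_top {G : Type*} [Group G] (ρ : G →* End F V) {U0 U1 : Submodule F V} {x : G}
    (hx : U1.map (ρ x) = U0) (hne : U1 ≠ U0) : stab ρ U0 ≠ ⊤ := fun h => by
  have h1 : U0.map (ρ x) = U0 := show x ∈ stab ρ _ from h ▸ trivial
  exact hne (Submodule.map_injective_of_injective
    (Function.LeftInverse.injective (rho_inv ρ x)) (hx.trans h1.symm))

theorem aeval_mem {g : End F V} {U : Submodule F V} {x : V} {r : F[X]} (hx : x ∈ U)
    (hU : ∀ x ∈ U, g x ∈ U) : aeval g r x ∈ U := aeval_apply_smul_mem_of_le_comap hx r g hU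

theorem aeval_comm (g : End F V) (a b : F[X]) (v : V) :
    aeval g a (aeval g b v) = aeval g b (aeval g a v) := by
  rw [← End.mul_apply, ← End.mul_apply, ← map_mul, ← map_mul, mul_comm]

theorem kill_coprime {g : End F V} {a b : F[X]} (h : IsCoprime a b) {v : V} {U : Submodule F V}
    (hU : ∀ x ∈ U, g x ∈ U) (ha : aeval g a v ∈ U) (hb : aeval g b v ∈ U) : v ∈ U := by
  have key : ∀ (r : F[X]), ∀ x ∈ U, aeval g r x ∈ U := fun r x hx =>
    aeval_mem hx hU
  obtain ⟨r, s, h⟩ := h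
  have := congrArg (fun p => aeval g p v) h
  simp only [map_add, map_mul, LinearMap.add_apply, End.mul_apply, map_one, End.one_apply] at this
  rw [← this]
  exact U.add_mem (key _ _ ha) (key _ _ hb)

/-- a vector killed modulo `A` by an irreducible polynomial -/
theorem ex_irr (g : End F V) {A B : Submodule F V} (hA : ∀ x ∈ A, g x ∈ A) (hB : ∀ x ∈ B, g x ∈ B)
    (m : F[X]) : m ≠ 0 → ∀ v ∈ B, v ∉ A → aeval g m v ∈ A →
      ∃ p, Irreducible p ∧ p ∣ m ∧ ∃ w ∈ B, w ∉ A ∧ aeval g p w ∈ A := by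
  induction m using WfDvdMonoid.induction_on_irreducible with
  | zero => simp
  | unit u hu =>
    intro _ v _ h1 h2
    exact absurd (kill_coprime (isCoprime_self.2 hu) hA h2 h2) h1
  | mul m p hm hp ih =>
    intro _ v hv h1 h2
    by_cases h3 : aeval g m v ∈ A
    · obtain ⟨r, a1, a2, a3⟩ := ih hm v hv h1 h3
      exact ⟨r, a1, a2.mul_left _, a3⟩
    · exact ⟨p, hp, dvd_mul_right _ _, _, aeval_mem hv hB, h3, by
        simpa using h2⟩

theorem eig_of_deg_one {g : End F V} {p : F[X]} (hp : p.natDegree = 1) {A : Submodule F V} {w : V}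
    (h : aeval g p w ∈ A) : ∃ a : F, g w - a • w ∈ A := by
  obtain ⟨a, ha, b, rfl⟩ := natDegree_eq_one.1 hp
  refine ⟨-(b / a), ?_⟩
  have := A.smul_mem a⁻¹ h
  simp only [map_add, map_mul, aeval_C, aeval_X, LinearMap.add_apply, End.mul_apply,
    algebraMap_end_apply, smul_add, smul_smul, inv_mul_cancel₀ ha, one_smul] at this
  convert this using 1
  rw [neg_smul, sub_neg_eq_add, div_eq_inv_mul]

theorem dep_poly [FiniteDimensional F V] (g : End F V) {A B : Submodule F V} (hAB : A ≤ B)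
    (hB : ∀ x ∈ B, g x ∈ B) {k : ℕ} (hk : finrank F B ≤ finrank F A + k) {w : V} (hw : w ∈ B) :
    ∃ r : F[X], r ≠ 0 ∧ r.natDegree ≤ k ∧ aeval g r w ∈ A := by
  let φ : degreeLT F (k + 1) →ₗ[F] V ⧸ A := A.mkQ ∘ₗ (LinearMap.applyₗ w) ∘ₗ
    (aeval g).toLinearMap ∘ₗ (degreeLT F (k + 1)).subtype
  have h1 : LinearMap.range φ ≤ B.map A.mkQ := by
    rintro _ ⟨r, rfl⟩
    exact ⟨aeval g r.1 w, aeval_mem hw hB, rfl⟩
  have h2 : finrank F (B.map A.mkQ) + finrank F A = finrank F B := by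
    have := LinearMap.finrank_range_add_finrank_ker (A.mkQ ∘ₗ B.subtype)
    rw [LinearMap.range_comp, Submodule.range_subtype, LinearMap.ker_comp, Submodule.ker_mkQ,
      (Submodule.comapSubtypeEquivOfLe hAB).finrank_eq] at this
    exact this
  have h3 : finrank F (degreeLT F (k + 1)) = k + 1 := by
    rw [(degreeLTEquiv F (k + 1)).finrank_eq]; simp
  have := (degreeLTEquiv F (k + 1)).symm.finiteDimensional
  have h4 := LinearMap.finrank_range_add_finrank_ker φ
  have h5 := Submodule.finrank_mono h1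
  obtain ⟨r, h6, h7⟩ := Submodule.exists_mem_ne_zero_of_ne_bot (p := LinearMap.ker φ) (by
    intro h; rw [h, finrank_bot] at h4; omega)
  have h8 : r.1 ≠ 0 := fun h => h7 (Subtype.ext h)
  refine ⟨r.1, h8, ?_, (Submodule.Quotient.mk_eq_zero _).1 h6⟩
  have := (natDegree_lt_iff_degree_lt h8).2 (mem_degreeLT.1 r.2)
  omega

section Gen
variable {σ : F →+* F} {P : FParam σ} {S : PForm P V}

theorem h_aeval (g : S.Isom) {N : ℕ} (hN : g ^ (N + 1) = 1) (p : F[X]) (x y : V) :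
    S.h (aeval (iE g) p x) y = S.h x (aeval (iE g) ((p.map σ).comp (X ^ N)) y) := by
  have h1 : g⁻¹ = g ^ N := inv_eq_of_mul_eq_one_left (by rw [← pow_succ, hN])
  have h2 : ∀ (n : ℕ) x y, S.h ((iE g ^ n) x) y = S.h x (((iE g ^ N) ^ n) y) := fun n x y => by
    rw [← iE_pow, ← iE_pow, ← iE_pow, ← h1, inv_pow]
    exact isom_h_left _ _ _
  induction p using Polynomial.induction_on' with
  | add p q hp hq => simp [hp, hq]
  | monomial n a => simp [← C_mul_X_pow_eq_monomial, h2]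

theorem perp_inv (g : S.Isom) [FiniteDimensional F V] {U : Submodule F V}
    (hU : ∀ x ∈ U, iE g x ∈ U) : ∀ x ∈ S.perp U, iE g x ∈ S.perp U := fun x hx => by
  have h1 : U.map (iE g) = U := (mem_stab S.iEH).2 hU
  rw [← h1, ← isom_map_perp]
  exact ⟨x, hx, rfl⟩

/-- the natural representation of the special isometry group -/
noncomputable abbrev sρ (S : PForm P V) : S.SIsom →* End F V := S.iEH.comp S.SIsom.subtype

theorem adjust [FiniteDimensional F V] (hS : S.Nondeg) {U U' : Submodule F V} {g : S.Isom}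
    (hg : U.map (iE g) = U') (h : ∀ c : normOne σ, ∃ k, S.detHom k = c ∧ ∀ x ∈ U', iE k x ∈ U') :
    ∃ x, U.map (sρ S x) = U' := by
  obtain ⟨k, h1, h2⟩ := h ⟨_, hS.det_mem_normOne g⁻¹⟩
  refine ⟨⟨k * g, ?_⟩, ?_⟩
  · change S.detHom _ = 1
    rw [map_mul, h1]; simp
  · change U.map (iE k ∘ₗ iE g) = _
    rw [Submodule.map_comp, hg]
    exact (mem_stab S.iEH).2 h2

end Gen

section Unit
variable {σ : F →+* F} {hσ : ∀ a, σ (σ a) = a} (hne : σ ≠ RingHom.id F) [Finite F]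
  [FiniteDimensional F V] {S : PForm (unitP σ hσ) V} (hS : S.Nondeg)
include hne

theorem odd_deg (hσ : ∀ a, σ (σ a) = a) {p : F[X]} (hp : Irreducible p) {N : ℕ} (h1 : p ∣ X ^ (N + 1) - 1)
    (h2 : p ∣ (p.map σ).comp (X ^ N)) : Odd p.natDegree := by
  have := Fact.mk hp
  have := Fintype.ofFinite F
  have := (AdjoinRoot.powerBasis hp.ne_zero).finite
  have : Finite (AdjoinRoot p) := Module.finite_of_finite F
  obtain ⟨q, hF, hq, -⟩ := unit_field_facts hσ hne
  obtain ⟨l, hl⟩ := CharP.exists F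
  obtain ⟨n, hl', hn⟩ := FiniteField.card F l
  have := Fact.mk hl'
  obtain ⟨k, -, rfl⟩ := (Nat.dvd_prime_pow hl').1 (show q ∣ l ^ (n : ℕ) by
    rw [← hn, ← Nat.card_eq_fintype_card, hF]; exact dvd_pow_self _ two_ne_zero)
  have : CharP (AdjoinRoot p) l := charP_of_injective_algebraMap' F l
  set θ := AdjoinRoot.root p
  have a1 : θ ^ (N + 1) = 1 := by
    have := AdjoinRoot.mk_eq_zero.2 h1
    simpa [sub_eq_zero] using this
  have a2 : aeval (θ ^ N) (p.map σ) = 0 := by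
    have := AdjoinRoot.mk_eq_zero.2 h2
    rwa [← AdjoinRoot.aeval_eq, aeval_comp, map_pow, aeval_X] at this
  have a3 : p.eval₂ (Algebra.ofId F (AdjoinRoot p)) ((θ ^ N) ^ l ^ k) = 0 := by
    have := congrArg (iterateFrobenius (AdjoinRoot p) l k) a2
    rw [aeval_def, hom_eval₂, eval₂_map, map_zero, iterateFrobenius_def] at this
    convert this using 2
    ext a
    simp [iterateFrobenius_def, ← map_pow, ← hq, hσ]
  let ψ := AdjoinRoot.liftAlgHom p (Algebra.ofId F (AdjoinRoot p)) _ a3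
  have a4 : ψ θ = (θ ^ N) ^ l ^ k := AdjoinRoot.liftAlgHom_root _ _ _ _
  have a5 : ψ * ψ = FiniteField.frobeniusAlgHom F (AdjoinRoot p) := AdjoinRoot.algHom_ext (by
    change ψ (ψ θ) = θ ^ Fintype.card F
    have : θ ^ N = θ⁻¹ := eq_inv_of_mul_eq_one_left (by rw [← pow_succ, a1])
    rw [this] at a4
    rw [a4, map_pow, map_inv₀, a4, ← Nat.card_eq_fintype_card, hF, inv_pow θ, inv_inv, ← pow_mul,
      sq])
  obtain ⟨j, hj⟩ := (FiniteField.bijective_frobeniusAlgHom_pow F (AdjoinRoot p)).2 ψ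
  have a6 := FiniteField.orderOf_frobeniusAlgHom F (AdjoinRoot p)
  rw [(AdjoinRoot.powerBasis hp.ne_zero).finrank, AdjoinRoot.powerBasis_dim] at a6
  have a7 : FiniteField.frobeniusAlgHom F (AdjoinRoot p) ^ (2 * j.1) =
      FiniteField.frobeniusAlgHom F (AdjoinRoot p) ^ 1 := by
    rw [pow_one, two_mul, pow_add, show _ ^ j.1 = ψ from hj, a5]
  rw [(orderOf_pos_iff.1 (a6 ▸ hp.natDegree_pos)).pow_eq_pow_iff_modEq, a6] at a7
  rw [← Nat.not_even_iff_odd]
  intro h
  have := Nat.ModEq.of_dvd h.two_dvd a7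
  simp [Nat.ModEq] at this

include hS

theorem ti_even (g : S.Isom) {p : F[X]} (hp : Irreducible p) (he : Even p.natDegree) {x y : V}
    (hx : aeval (iE g) p x = 0) (hy : aeval (iE g) p y = 0) : S.h x y = 0 := by
  have : Finite V := Module.finite_of_finite F
  have : Finite (V ≃ₗ[F] V) := Finite.of_injective _ DFunLike.coe_injective
  obtain ⟨N, hN⟩ : ∃ N, g ^ (N + 1) = 1 :=
    ⟨orderOf g - 1, by rw [Nat.sub_add_cancel (orderOf_pos g), pow_orderOf_eq_one]⟩
  by_cases h1 : p ∣ X ^ (N + 1) - 1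
  · have h2 := mt (odd_deg hne hσ hp h1) (Nat.not_odd_iff_even.2 he)
    obtain ⟨a, b, h⟩ := hp.coprime_iff_not_dvd.2 h2
    have := congrArg (fun p => aeval (iE g) p y) h
    simp only [map_add, map_mul, LinearMap.add_apply, End.mul_apply, map_one, End.one_apply, hy,
      map_zero, zero_add] at this
    rw [← this, aeval_comm, ← h_aeval g hN, hx]
    simp
  · have : x ∈ (⊥ : Submodule F V) := kill_coprime (hp.coprime_iff_not_dvd.2 h1) (by simp) hx (by
      simp [← iE_pow, hN, iE_one])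
    simp [show x = 0 from this]

theorem trans_pt {v w : V} (hv : S.h v v ≠ 0) (hw : S.h w w ≠ 0) :
    ∃ x, (F ∙ v).map (sρ S x) = F ∙ w := by
  obtain ⟨c, hc⟩ := unit_exists_smul_norm hne hw (unit_h_self_fixed S v)
  have h0 : c ≠ 0 := by rintro rfl; exact hv (by simpa using hc.symm)
  obtain ⟨g, hg⟩ := hS.witt_vec (u := v) (u' := c • w) (by rintro rfl; simp at hv)
    (smul_ne_zero h0 (by rintro rfl; simp at hw)) ((unit_q_congr_iff _ _ _ _).2 hc)
  refine adjust hS (g := g) ?_ fun c => ?_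
  · rw [Submodule.map_span, Set.image_singleton, show iE g v = c • w from hg]
    exact Submodule.span_singleton_smul_eq (IsUnit.mk0 _ h0) w
  · obtain ⟨k, -, h1, h2⟩ := exists_det_eq_of_ne hw c
    refine ⟨k, h1, fun x hx => ?_⟩
    obtain ⟨b, rfl⟩ := Submodule.mem_span_singleton.1 hx
    rw [map_smul, show iE k w = _ from h2]
    exact Submodule.smul_mem _ _ (Submodule.smul_mem _ _ (Submodule.mem_span_singleton_self _))

theorem pt_ne_top (h2 : 2 ≤ finrank F V) {v : V} (hv : S.h v v ≠ 0) :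
    stab (sρ S) (F ∙ v) ≠ ⊤ := by
  have h1 := hS.finrank_perp (F ∙ v)
  rw [finrank_span_singleton (by rintro rfl; simp at hv)] at h1
  obtain ⟨w, hw, h3⟩ := unit_exists_norm_mem hne (hS.restrict_perp (nondeg_singleton hv))
    (by omega) (map_one σ)
  obtain ⟨x, hx⟩ := trans_pt hne hS (v := w) (by simp [h3]) hv
  refine stab_ne_top _ hx fun h => ?_
  rw [← h, mem_perp_singleton, h3] at hw
  exact one_ne_zero hw

omit hS [Finite F] in
theorem tor_ti {U : Submodule F V} (hS : S.Nondeg) (hU : U ≤ S.perp U) (h2 : finrank F U = 2) :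
    ∃ e ∈ U, ∃ f, ∃ H : S.IsHyp e f, ∀ c, ∀ x ∈ U, iE (H.tor c) x ∈ U := by
  let b := Module.finBasisOfFinrankEq F U h2
  have hli := (LinearIndependent.pair_iff' (K := F) (x := (b 1 : V)) (y := (b 0 : V))
    (by simpa using b.ne_zero 1)).1 (by
      have := b.linearIndependent.map' U.subtype (Submodule.ker_subtype U)
      rw [LinearIndependent.pair_symm_iff]
      convert this using 1
      ext i; fin_cases i <;> rfl)
  have s0 : S.Sing (b 0) := (unit_sing _ _).2 (hU (b 0).2 _ (b 0).2)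
  obtain ⟨f, h1, h3, h4⟩ := hS.exists_partner (F ∙ (b 1 : V)) s0
    (fun h => by obtain ⟨a, ha⟩ := Submodule.mem_span_singleton.1 h; exact hli a ha)
    (S.mem_perp_singleton.2 (hU (b 0).2 _ (b 1).2))
  refine ⟨b 0, (b 0).2, f, ⟨s0, h3, h4⟩, fun c x hx => ?_⟩
  have h5 := congrArg Subtype.val (b.sum_repr ⟨x, hx⟩)
  simp only [Fin.sum_univ_two, Submodule.coe_add, Submodule.coe_smul] at h5
  rw [← h5, map_add, map_smul, map_smul]
  refine U.add_mem (U.smul_mem _ ?_) (U.smul_mem _ ?_)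
  · change (IsHyp.tor _ c).1 _ ∈ U
    rw [IsHyp.tor_e]; exact U.smul_mem _ (b 0).2
  · change (IsHyp.tor _ c).1 _ ∈ U
    rw [IsHyp.tor_perp _ _ (S.mem_perp_pair.2 ⟨hU (b 1).2 _ (b 0).2,
      S.h_swap_zero (S.mem_perp_singleton.1 h1)⟩)]
    exact (b 1).2

omit [Finite F] in
theorem trans_ti {U U' : Submodule F V} (hU : U ≤ S.perp U) (h2 : finrank F U = 2)
    (hU' : U' ≤ S.perp U') (h2' : finrank F U' = 2) : ∃ x, U.map (sρ S x) = U' := by
  let e := LinearEquiv.ofFinrankEq U U' (h2.trans h2'.symm)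
  obtain ⟨g, hg⟩ := hS.witt_subspace U (U'.subtype ∘ₗ e.toLinearMap)
    (U'.subtype_injective.comp e.injective) (unit_isIsom fun x y =>
      (hU' (e y).2 _ (e x).2).trans (hU y.2 _ x.2).symm)
  refine adjust hS (g := g) (Submodule.eq_of_le_of_finrank_eq ?_ ?_) fun c => ?_
  · rintro _ ⟨x, hx, rfl⟩
    exact (hg ⟨x, hx⟩).symm ▸ (e ⟨x, hx⟩).2
  · rw [← (Submodule.equivMapOfInjective _ g.1.injective U).finrank_eq, h2, h2']
  · obtain ⟨e, -, f, H, h⟩ := tor_ti hne hS hU' h2'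
    have hc : σ c.1 * c.1 = 1 := c.2
    obtain ⟨d, h0, hd⟩ : ∃ d : F, d ≠ 0 ∧ d = c.1 * σ d := by
      have key : ∀ a : F, a + c.1 * σ a = c.1 * σ (a + c.1 * σ a) := fun a => by
        rw [map_add, map_mul, hσ]; linear_combination (-a) * hc
      by_cases h1 : (1 : F) + c.1 * σ 1 = 0
      · obtain ⟨a, ha⟩ := exists_σ_ne hne
        refine ⟨_, fun h => ha ?_, key a⟩
        rw [map_one] at h1
        linear_combination σ a * h1 - h
      · exact ⟨_, h1, key 1⟩
    refine ⟨H.tor (Units.mk0 d h0), Units.ext ?_, h _⟩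
    rw [H.det_tor, Units.val_mk0, mul_inv_eq_iff_eq_mul₀ ((map_ne_zero σ).2 h0)]
    exact hd

omit [Finite F] in
theorem ti_ne_top {U : Submodule F V} (hU : U ≤ S.perp U) (h2 : finrank F U = 2) :
    stab (sρ S) U ≠ ⊤ := fun h => by
  obtain ⟨e, he, f, H, -⟩ := tor_ti hne hS hU h2
  obtain ⟨a, ha0, ha⟩ := exists_mem_unit_Λ hσ hne
  have h1 := (mem_stab (sρ S)).1 (show ⟨S.eich f 0 a, S.eich_mem_SIsom _ _ _⟩ ∈ _ from h ▸ trivial)
    e he
  change (S.eich f 0 a).1 e ∈ U at h1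
  rw [transv_apply H.sing_f ha, H.h_fe, U.sub_mem_iff_right he,
    U.smul_mem_iff (by simpa using ha0)] at h1
  simpa [H.h_ef] using hU h1 e he

omit hne [Finite F] in
/-- an eigenvector modulo an isotropic eigenvector -/
theorem lift_eig {g : S.Isom} {u w : V} {μ a : F} (hu : iE g u = μ • u) (h0 : S.h u u = 0)
    (h1 : S.h u w = 0) (h2 : S.h w w ≠ 0) (h3 : iE g w - a • w ∈ F ∙ u)
    (h : ∀ v, S.h v v ≠ 0 → iE g v ∉ F ∙ v) : a = μ := by
  by_contra h4
  obtain ⟨c, hc⟩ := Submodule.mem_span_singleton.1 h3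
  refine h (w + (c / (a - μ)) • u) (by simpa [h0, h1, S.h_swap_zero h1] using h2)
    (Submodule.mem_span_singleton.2 ⟨a, ?_⟩)
  rw [map_add, map_smul, hu, eq_add_of_sub_eq hc.symm]
  have : a - μ ≠ 0 := sub_ne_zero.2 h4
  match_scalars
  · ring
  · field_simp; ring

theorem su4_dich (h4 : finrank F V = 4) (g : S.Isom) (h : ∀ v, S.h v v ≠ 0 → iE g v ∉ F ∙ v) :
    ∃ U : Submodule F V, (U ≤ S.perp U ∧ finrank F U = 2) ∧ ∀ x ∈ U, iE g x ∈ U := by
  by_contra hc
  have hA : ∀ p : F[X], Irreducible p → Even p.natDegree → ∀ w, aeval (iE g) p w = 0 → w = 0 := by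
    intro p hp he w hw
    by_contra h0
    have h1 : LinearMap.ker (aeval (iE g) p) ≤ S.perp (LinearMap.ker (aeval (iE g) p)) :=
      fun x hx y hy => ti_even hne hS g hp he hy hx
    have h2 : ∀ x ∈ LinearMap.ker (aeval (iE g) p), iE g x ∈ LinearMap.ker (aeval (iE g) p) :=
      fun x hx => by
        have := aeval_comm (iE g) p X x
        rw [LinearMap.mem_ker.1 hx] at this
        simpa using this
    refine hc ⟨_, ⟨h1, ?_⟩, h2⟩
    have h3 := hS.finrank_perp (LinearMap.ker (aeval (iE g) p))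
    have h5 := Submodule.finrank_mono h1
    by_contra h6
    obtain ⟨r, a1, a2, a3⟩ := dep_poly (iE g) (A := ⊥) (k := 1) bot_le h2 (by simp; omega) hw
    refine h0 (kill_coprime (U := ⊥) (hp.coprime_iff_not_dvd.2 fun h => ?_) (by simp) hw a3)
    have := natDegree_le_of_dvd h a1
    have := hp.natDegree_pos
    obtain ⟨k, hk⟩ := he
    omega
  have : Nontrivial V := Module.nontrivial_of_finrank_pos (R := F) (by omega)
  obtain ⟨u, hu0, μ, hu⟩ : ∃ u, u ≠ 0 ∧ ∃ μ : F, iE g u = μ • u := by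
    obtain ⟨v, hv⟩ := exists_ne (0 : V)
    obtain ⟨p, a1, a2, w, -, a3, a4⟩ := ex_irr (iE g) (A := ⊥) (B := ⊤) (by simp) (by simp) _
      (iE g).charpoly_monic.ne_zero v trivial hv (by simp [(iE g).aeval_self_charpoly])
    have h1 := mt (fun h => hA p a1 h w a4) a3
    have h2 := natDegree_le_of_dvd a2 (iE g).charpoly_monic.ne_zero
    rw [LinearMap.charpoly_natDegree] at h2
    rw [Nat.not_even_iff_odd, Nat.odd_iff] at h1
    exact eig_of_deg a2 (by omega)
  have huu : S.h u u = 0 := by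
    by_contra h1
    exact h u h1 (Submodule.mem_span_singleton.2 ⟨μ, hu.symm⟩)
  have hUi : ∀ x ∈ F ∙ u, iE g x ∈ F ∙ u := fun x hx => by
    obtain ⟨b, rfl⟩ := Submodule.mem_span_singleton.1 hx
    rw [map_smul, hu]
    exact Submodule.smul_mem _ _ (Submodule.smul_mem _ _ (Submodule.mem_span_singleton_self _))
  have hp := hS.finrank_perp (F ∙ u)
  have hu1 := finrank_span_singleton (K := F) hu0
  have hpair : ∀ w, w ∉ F ∙ u → ∀ a : F, iE g w - a • w ∈ F ∙ u →
      finrank F ((F ∙ u) ⊔ F ∙ w : Submodule F V) = 2 ∧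
      ∀ x ∈ (F ∙ u) ⊔ F ∙ w, iE g x ∈ (F ∙ u) ⊔ F ∙ w := fun w h1 a h2 => by
    refine ⟨by rw [Submodule.finrank_sup_span_singleton h1, hu1], fun x hx => ?_⟩
    obtain ⟨y, hy, z, hz, rfl⟩ := Submodule.mem_sup.1 hx
    obtain ⟨b, rfl⟩ := Submodule.mem_span_singleton.1 hz
    rw [map_add, map_smul, ← sub_add_cancel (iE g w) (a • w)]
    exact Submodule.add_mem _ (Submodule.mem_sup_left (hUi y hy)) (Submodule.smul_mem _ _
      (Submodule.add_mem_sup h2 (Submodule.smul_mem _ _ (Submodule.mem_span_singleton_self _))))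
  have hB : ∀ w, w ∉ F ∙ u → S.h u w = 0 → ∀ a : F, iE g w - a • w ∈ F ∙ u →
      S.h w w ≠ 0 ∧ a = μ := fun w h1 h2 a h3 => by
    have h5 : S.h w w ≠ 0 := fun h5 => by
      obtain ⟨a1, a2⟩ := hpair w h1 a h3
      refine hc ⟨_, ⟨?_, a1⟩, a2⟩
      rw [perp_sup, le_inf_iff, sup_le_iff, sup_le_iff]
      simp [mem_perp_singleton, huu, h2, h5, S.h_swap_zero h2]
    exact ⟨h5, lift_eig hS hu huu h2 h5 h3 h⟩
  have hC : ∀ B : Submodule F V, F ∙ u < B → B ≤ S.perp (F ∙ u) → (∀ x ∈ B, iE g x ∈ B) →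
      ∃ w ∈ B, w ∉ F ∙ u ∧ ∃ a : F, iE g w - a • w ∈ F ∙ u := fun B h1 h2 h3 => by
    obtain ⟨v, hv, hv'⟩ := SetLike.exists_of_lt h1
    have h5 := Submodule.finrank_mono h2
    obtain ⟨r, a1, a2, a3⟩ := dep_poly (iE g) (k := 2) h1.le h3 (by omega) hv
    obtain ⟨p, b1, b2, w, b3, b4, b5⟩ := ex_irr (iE g) hUi h3 r a1 v hv hv' a3
    have h6 := natDegree_le_of_dvd b2 a1
    have h7 := b1.natDegree_pos
    by_cases h8 : p.natDegree = 1
    · exact ⟨w, b3, b4, eig_of_deg_one h8 b5⟩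
    · obtain ⟨c, hc⟩ := Submodule.mem_span_singleton.1 b5
      have h9 : aeval (iE g) p u = p.eval μ • u := End.aeval_apply_of_mem_apply_eq_smul hu
      have he : Even p.natDegree := by rw [show p.natDegree = 2 by omega]; exact even_two
      have h10 : p.eval μ ≠ 0 := fun h => hu0 (hA p b1 he u (by simp [h9, h]))
      have := hA p b1 he (w - (c / p.eval μ) • u) (by
        rw [map_sub, map_smul, h9, ← hc, smul_smul, div_mul_cancel₀ _ h10, sub_self])
      exact absurd (Submodule.mem_span_singleton.2 ⟨_, (sub_eq_zero.1 this).symm⟩) b4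
  have hle : F ∙ u ≤ S.perp (F ∙ u) := by simpa [mem_perp_singleton] using huu
  obtain ⟨w, a1, a2, a, a3⟩ := hC _ (Submodule.lt_of_le_of_finrank_lt_finrank hle (by omega)) le_rfl
    (perp_inv g hUi)
  have a4 := S.mem_perp_singleton.1 a1
  obtain ⟨a5, rfl⟩ := hB w a2 a4 a a3
  obtain ⟨a6, a7⟩ := hpair w a2 a a3
  have a8 := hS.finrank_perp ((F ∙ u) ⊔ F ∙ w)
  obtain ⟨w', b1, b2, b, b3⟩ := hC (S.perp ((F ∙ u) ⊔ F ∙ w))
    (Submodule.lt_of_le_of_finrank_lt_finrank (by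
      simp [perp_sup, mem_perp_singleton, huu, S.h_swap_zero a4]) (by omega))
    (S.perp_anti le_sup_left) (perp_inv g a7)
  rw [perp_sup, Submodule.mem_inf, mem_perp_singleton, mem_perp_singleton] at b1
  obtain ⟨b4, rfl⟩ := hB w' b2 b1.1 b b3
  obtain ⟨t, ht⟩ := unit_exists_smul_norm hne b4 (μ := -S.h w w) (by
    rw [map_neg, unit_h_self_fixed])
  refine (hB (w + t • w') (fun h1 => ?_) (by simp [a4, b1.1]) b (by
    convert Submodule.add_mem _ a3 (Submodule.smul_mem _ t b3) using 1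
    rw [map_add, map_smul]; module)).1 ?_
  · obtain ⟨c, hc⟩ := Submodule.mem_span_singleton.1 h1
    have := congrArg (S.h w) hc
    exact a5 (by simpa [S.h_swap_zero a4, b1.2] using this.symm)
  · rw [map_add, map_add, LinearMap.add_apply, LinearMap.add_apply, ht]
    simp [b1.2, S.h_swap_zero b1.2]

theorem mem_pt {g : S.SIsom} {v : V} (h : iE g.1 v ∈ F ∙ v) : g ∈ stab (sρ S) (F ∙ v) :=
  (mem_stab _).2 fun x hx => by
    obtain ⟨b, rfl⟩ := Submodule.mem_span_singleton.1 hx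
    rw [map_smul]
    exact Submodule.smul_mem _ _ h

theorem su4 (h4 : finrank F V = 4) : Cov S.SIsom := by
  refine cov_of (fun v => stab (sρ S) (F ∙ v)) (fun v => S.h v v ≠ 0) (stab (sρ S))
    (fun U => U ≤ S.perp U ∧ finrank F U = 2) (fun v w hv hw g hg => ?_)
    (fun v hv => pt_ne_top hne hS (by omega) hv) (fun U U' hU hU' g hg => ?_)
    (fun U hU => ti_ne_top hne hS hU.1 hU.2) fun g => ?_
  · exact (trans_pt hne hS hv hw).imp fun x hx => conj_stab _ hg hx
  · exact (trans_ti hne hS hU.1 hU.2 hU'.1 hU'.2).imp fun x hx => conj_stab _ hg hx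
  · by_cases h : ∀ v, S.h v v ≠ 0 → iE g.1 v ∉ F ∙ v
    · exact Or.inr ((su4_dich hne hS h4 g.1 h).imp fun U hU => ⟨hU.1, (mem_stab _).2 hU.2⟩)
    · push Not at h
      exact Or.inl (h.imp fun v hv => ⟨hv.1, mem_pt hne hS hv.2⟩)

end Unit

end H16.Cv
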