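import Cfsg.Agent.H16.Cv2

/-! Characteristic three: Artin-Schreier operators normalized by a given isometry; `SU_3`. -/

set_option autoImplicit false
set_option linter.unusedSectionVars false

namespace H16.Cv
open Module Polynomial H11
open H11.PForm hiding X

variable {F : Type*} [Field F] {V : Type*} [AddCommGroup V] [Module F V] [FiniteDimensional F V]

theorem trace_sep {Z : End F V} (h : ∀ Y, LinearMap.trace F V (Z * Y) = 0) : Z = 0 :=
  LinearMap.ext fun v => (forall_dual_apply_eq_zero_iff F _).1 fun φ => by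
    have := h (φ.smulRight v)
    rwa [show Z * φ.smulRight v = φ.smulRight (Z v) from LinearMap.ext fun x => by simp,
      LinearMap.trace_smulRight] at this

theorem solve {g g' : End F V} (h1 : g * g' = 1) (h2 : g' * g = 1)
    (h : ∀ Z, g * Z = Z * g → LinearMap.trace F V Z = 0) : ∃ Y, g * Y = (Y - 1) * g := by
  let T : End F V →ₗ[F] End F V := LinearMap.id - LinearMap.mulLeft F g ∘ₗ LinearMap.mulRight F g'
  by_cases h3 : 1 ∈ LinearMap.range T
  · obtain ⟨Y, hY⟩ := h3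
    refine ⟨Y, ?_⟩
    rw [← hY]
    simp [T, mul_assoc, h2]
  · obtain ⟨φ, a1, a2⟩ := Submodule.exists_dual_map_eq_bot_of_notMem h3 inferInstance
    let τ : End F V →ₗ[F] Dual F (End F V) := (LinearMap.mul F _).compr₂ (LinearMap.trace F V)
    obtain ⟨Z, rfl⟩ := (LinearMap.injective_iff_surjective_of_finrank_eq_finrank
      (f := τ) Subspace.dual_finrank_eq.symm).1 ((injective_iff_map_eq_zero τ).2 fun Z hZ =>
        trace_sep fun Y => LinearMap.congr_fun hZ Y) φ
    have a3 : Z - g' * Z * g = 0 := trace_sep fun Y => by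
      have : τ Z (T Y) ∈ (⊥ : Submodule F F) := a2 ▸ Submodule.mem_map_of_mem ⟨Y, rfl⟩
      rw [sub_mul, map_sub, mul_assoc, mul_assoc, LinearMap.trace_mul_comm F g']
      simpa [τ, T, mul_sub, mul_assoc] using this
    refine absurd ?_ a1
    have := h Z (by
      conv_lhs => rw [sub_eq_zero.1 a3, ← mul_assoc, ← mul_assoc, h1, one_mul])
    simpa [τ] using this

section Ring
variable {R : Type*} [Ring R] [Algebra F R]

theorem as_shift (h3 : (3 : R) = 0) {x u u' : R} {k : F} (l : F) (hk : k * k = 1)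
    (h1 : x * u - u * x = k • u) (h2 : x * u' - u' * x = -k • u') (hc : u * u' = u' * u) :
    (x + l • (u + u')) ^ 3 - (x + l • (u + u')) = x ^ 3 - x + l ^ 3 • (u + u') ^ 3 := by
  set y := l • (u + u') with hy
  have a1 : x * y - y * x = (l * k) • (u - u') := by
    rw [hy, mul_smul_comm, smul_mul_assoc, ← smul_sub, mul_smul, smul_sub k, sub_eq_add_neg (k • u),
      ← neg_smul, ← h1, ← h2]
    congr 1; noncomm_ring
  have a2 : x * (x * y - y * x) - (x * y - y * x) * x = y := by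
    rw [a1, mul_smul_comm, smul_mul_assoc, ← smul_sub, show x * (u - u') - (u - u') * x =
      k • (u + u') by rw [smul_add, ← h1, ← neg_neg (k • u'), ← neg_smul, ← h2]; noncomm_ring,
      smul_smul, mul_assoc, hk, mul_one]
  have a3 : y * (x * y - y * x) = (x * y - y * x) * y := by
    rw [a1, hy]
    simp only [mul_smul_comm, smul_mul_assoc, smul_smul, mul_comm l]
    congr 1
    simp only [mul_add, add_mul, mul_sub, sub_mul, hc]; abel
  rw [← _root_.smul_pow, ← hy]
  clear_value y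
  have : (x + y) ^ 3 = x ^ 3 + y ^ 3 + (x * (x * y - y * x) - (x * y - y * x) * x) -
    (y * (x * y - y * x) - (x * y - y * x) * y) + 3 * (x * y * x + y * x * y) := by noncomm_ring
  rw [this, a2, a3, h3]
  abel_nf
  simp

end Ring

variable {σ : F →+* F} {P : FParam σ} {S : PForm P V}

/-- self-adjoint operators -/
def SA (S : PForm P V) (X : End F V) : Prop := ∀ x y, S.h (X x) y = S.h x (X y)

theorem SA.add {X Y : End F V} (h : SA S X) (h' : SA S Y) : SA S (X + Y) := fun x y => by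
  simp [h x y, h' x y]

theorem SA.neg {X : End F V} (h : SA S X) : SA S (-X) := fun x y => by simp [h x y]

theorem SA.sub {X Y : End F V} (h : SA S X) (h' : SA S Y) : SA S (X - Y) := fun x y => by
  simp [h x y, h' x y]

theorem SA.pow {X : End F V} (h : SA S X) (n : ℕ) : SA S (X ^ n) := by
  induction n with
  | zero => exact fun _ _ => rfl
  | succ n ih =>
    intro x y
    conv_lhs => rw [pow_succ, End.mul_apply, ih, h]
    rw [pow_succ', End.mul_apply]

theorem SA.smul {X : End F V} (h : SA S X) {a : F} (ha : σ a = a) : SA S (a • X) := fun x y => by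
  simp [h x y, ha]

theorem SA.fix [Nontrivial V] (hS : S.Nondeg) {a : F} (h : SA S (a • 1)) : σ a = a := by
  obtain ⟨x, hx⟩ := exists_ne (0 : V)
  obtain ⟨y, hy⟩ := hS.exists_h_eq_one hx
  simpa [hy] using h x y

theorem sa_add_inv (g : S.Isom) : SA S (iE g + iE g⁻¹) := fun x y => by
  have h1 : S.h (iE g x) y = S.h x (iE g⁻¹ y) := isom_h_left g x y
  have h2 : S.h x (iE g y) = S.h (iE g⁻¹ x) y := isom_h_right g x y
  simp only [LinearMap.add_apply, map_add, h1, h2, add_comm]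

theorem h_swap {x y x' y' : V} (h : S.h x y = S.h x' y') : S.h y x = S.h y' x' := by
  rw [S.symm, h, ← S.symm]

/-- the adjoint -/
noncomputable def adj (hS : S.Nondeg) (X : End F V) : End F V := ladj P.σσ hS X

theorem adj_spec (hS : S.Nondeg) (X : End F V) (x y : V) : S.h (adj hS X x) y = S.h x (X y) :=
  ladj_spec _ _ X x y

theorem adj_spec' (hS : S.Nondeg) (X : End F V) (x y : V) : S.h x (adj hS X y) = S.h (X x) y :=
  h_swap (adj_spec hS X y x)

theorem sa_add_adj (hS : S.Nondeg) (X : End F V) : SA S (X + adj hS X) := fun x y => by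
  simp [adj_spec, adj_spec', add_comm]

theorem adj_rel (hS : S.Nondeg) (g : S.Isom) {X : End F V} {c : F} (hc : σ c = c)
    (h : iE g * X = (X + c • 1) * iE g) : iE g * adj hS X = (adj hS X + c • 1) * iE g :=
  LinearMap.ext fun x => hS.ext_left fun y => by
    obtain ⟨y, rfl⟩ := g.1.surjective y
    have h1 : g.1 (X y) = X (g.1 y) + c • g.1 y := LinearMap.congr_fun h y
    change S.h (g.1 _) _ = S.h (adj hS X (g.1 x) + c • g.1 x) _
    rw [isom_h, adj_spec, ← isom_h g, h1]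
    simp [adj_spec, hc]

variable [Finite F] [CharP F 3]

theorem three_eq : (3 : F) = 0 := CharP.cast_eq_zero F 3

theorem cube_root (a : F) : ∃ b : F, b ^ 3 = a :=
  have := Fact.mk Nat.prime_three
  (frobeniusEquiv F 3).surjective a

theorem cube_inj {a b : F} (h : a ^ 3 = b ^ 3) : a = b :=
  have := Fact.mk Nat.prime_three
  (frobenius F 3).injective h

theorem cube_sub [Nontrivial V] {a b : End F V} (h : Commute a b) : (a - b) ^ 3 = a ^ 3 - b ^ 3 :=
  have := Fact.mk Nat.prime_three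
  have : CharP (End F V) 3 := charP_of_injective_algebraMap' F 3
  sub_pow_char_of_commute 3 h

theorem cube_scalar [Nontrivial V] {Z : End F V} {a : F} (h : (Z - a • 1) ^ 3 = 0) :
    Z ^ 3 = a ^ 3 • 1 := by
  rwa [cube_sub ((Commute.one_right Z).smul_right a), _root_.smul_pow, one_pow, sub_eq_zero] at h

theorem tr_zero (h3 : 3 ∣ finrank F V) {Z : End F V} {a : F} (h : (Z - a • 1) ^ 3 = 0) :
    LinearMap.trace F V Z = 0 := by
  have := (LinearMap.isNilpotent_trace_of_isNilpotent ⟨3, h⟩).eq_zero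
  simpa [(CharP.cast_eq_zero_iff F 3 _).2 h3] using this

theorem core [Nontrivial V] (hS : S.Nondeg) (g : S.Isom)
    (h1 : ∀ Z, iE g * Z = Z * iE g → LinearMap.trace F V Z = 0)
    (h2 : ∀ Z, SA S Z → iE g * Z = Z * iE g → ∃ a : F, (Z - a • 1) ^ 3 = 0) {c : F} (hc : σ c = c) :
    ∃ X, (SA S X ∧ aeval X (asP 3 c) = 0) ∧ g ∈ nor S.iEH X := by
  have h3 : (3 : End F V) = 0 := by
    rw [← map_ofNat (algebraMap F _), three_eq, map_zero]
  have i1 : iE g * iE g⁻¹ = 1 := by rw [← iE_mul, mul_inv_cancel, iE_one]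
  have i2 : iE g⁻¹ * iE g = 1 := by rw [← iE_mul, inv_mul_cancel, iE_one]
  have cube : ∀ X : End F V, iE g * X = (X - 1) * iE g → iE g * X ^ 3 = (X ^ 3 - 1) * iE g :=
    fun X h => by
      have := (show SemiconjBy (iE g) X (X - 1) from h).pow_right 3
      rwa [cube_sub (Commute.one_right X), one_pow] at this
  obtain ⟨X0, a0⟩ := solve i1 i2 h1
  have a1 := adj_rel hS g (X := X0) (c := -1) (by simp) (by simpa [sub_eq_add_neg] using a0)
  obtain ⟨X1, s1, a2⟩ : ∃ X, SA S X ∧ iE g * X = (X - 1) * iE g :=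
    ⟨-(X0 + adj hS X0), (sa_add_adj hS X0).neg, by
      rw [mul_neg, mul_add, a0, a1, ← sub_eq_zero, ← mul_zero (iE g), ← h3]
      simp only [neg_smul, one_smul]
      noncomm_ring⟩
  obtain ⟨a, ha⟩ := h2 (X1 ^ 3 - X1) ((s1.pow 3).sub s1) (by
    rw [mul_sub, cube X1 a2, a2]; noncomm_ring)
  have a3 := cube_scalar ha
  rw [cube_sub ((Commute.refl X1).pow_left 3)] at a3
  have a4 := cube X1 a2
  have s2 := s1.pow 3
  generalize X1 ^ 3 = X2 at a3 a4 s2
  have a5 : σ (a ^ 3) = a ^ 3 := SA.fix hS (a3 ▸ (s2.pow 3).sub s2)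
  have b1 : X2 * iE g - iE g * X2 = iE g := by rw [a4]; noncomm_ring
  have b2 : X2 * iE g⁻¹ - iE g⁻¹ * X2 = -iE g⁻¹ := by
    calc _ = -(iE g⁻¹ * (X2 * iE g - iE g * X2) * iE g⁻¹) := by
          rw [mul_sub, sub_mul, mul_assoc, mul_assoc, i1, ← mul_assoc _ (iE g), i2]; noncomm_ring
      _ = _ := by rw [b1, i2, one_mul]
  have key : ∀ (u : S.Isom) (k t : F), Commute g u → k * k = 1 → t ≠ 0 →
      X2 * iE u - iE u * X2 = k • iE u → X2 * iE u⁻¹ - iE u⁻¹ * X2 = -k • iE u⁻¹ →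
      (iE u + iE u⁻¹) ^ 3 = t • 1 →
      ∃ X, (SA S X ∧ aeval X (asP 3 c) = 0) ∧ g ∈ nor S.iEH X := fun u k t c1 c2 c3 c4 c5 c6 => by
    have c7 : σ t = t := SA.fix hS (c6 ▸ (sa_add_inv u).pow 3)
    obtain ⟨l, hl⟩ := cube_root ((c - a ^ 3) / t)
    have c8 : σ l = l := cube_inj (by rw [← map_pow, hl, map_div₀, map_sub, hc, a5, c7])
    refine ⟨X2 + l • (iE u + iE u⁻¹), ⟨s2.add ((sa_add_inv u).smul c8), ?_⟩, -1, ?_⟩
    · rw [aeval_asP, as_shift h3 l c2 c4 c5 (by rw [← iE_mul, ← iE_mul]; simp), a3, c6, hl,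
        smul_smul, div_mul_cancel₀ _ c3, ← add_smul, add_sub_cancel, sub_self]
    · change iE g * _ = _ * iE g
      have d1 : iE g * iE u = iE u * iE g := by rw [← iE_mul, c1.eq, iE_mul]
      have d2 : iE g * iE u⁻¹ = iE u⁻¹ * iE g := by rw [← iE_mul, c1.inv_right.eq, iE_mul]
      simp only [mul_add, add_mul, mul_smul_comm, smul_mul_assoc, d1, d2, a4, sub_mul, neg_smul,
        one_smul, neg_mul]
      abel
  obtain ⟨t, ht⟩ := h2 _ (sa_add_inv g) (by rw [mul_add, add_mul, i1, i2])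
  have b3 := cube_scalar ht
  by_cases h0 : t ^ 3 = 0
  · refine key (g * g) (-1) 1 ((Commute.refl g).mul_right (Commute.refl g)) (by simp) one_ne_zero
      ?_ ?_ ?_
    · rw [iE_mul, show X2 * (iE g * iE g) - iE g * iE g * X2 = (X2 * iE g - iE g * X2) * iE g +
        iE g * (X2 * iE g - iE g * X2) by noncomm_ring, b1, ← sub_eq_zero,
        ← zero_mul (iE g * iE g), ← h3, neg_smul, one_smul]
      noncomm_ring
    · rw [mul_inv_rev, iE_mul, show X2 * (iE g⁻¹ * iE g⁻¹) - iE g⁻¹ * iE g⁻¹ * X2 =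
        (X2 * iE g⁻¹ - iE g⁻¹ * X2) * iE g⁻¹ + iE g⁻¹ * (X2 * iE g⁻¹ - iE g⁻¹ * X2) by
        noncomm_ring, b2, ← sub_eq_zero, ← zero_mul (-(iE g⁻¹ * iE g⁻¹)), ← h3, neg_neg, one_smul]
      noncomm_ring
    · have : iE (g * g) + iE (g * g)⁻¹ = (iE g + iE g⁻¹) ^ 2 - (-1) := by
        rw [mul_inv_rev, iE_mul, iE_mul, sq, mul_add, add_mul, add_mul, i1, i2, ← sub_eq_zero,
          ← neg_eq_zero, ← mul_zero (1 : End F V), ← h3]
        noncomm_ring
      rw [this, cube_sub (Commute.neg_one_right _), ← pow_mul, mul_comm 2, pow_mul, b3, h0]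
      simp [Odd.neg_one_pow (show Odd 3 by decide)]
  · exact key g 1 _ (Commute.refl g) (by simp) h0 (by simpa using b1) (by simpa using b2) b3

theorem nor_ne_top {G : Subgroup S.Isom} (hS : S.Nondeg) (hG : commutator G = ⊤) {u : V}
    (hu : S.Sing u) (hu0 : u ≠ 0) {a : F} (ha : a ∈ P.Λ) (ha0 : a ≠ 0) (ht : S.eich u 0 a ∈ G)
    {c : F} (hc : ∀ x : F, x ^ 3 - x ≠ c) {X : End F V} (hX : aeval X (asP 3 c) = 0) :
    nor (S.iEH.comp G.subtype) X ≠ ⊤ := fun h => by
  have h1 : iE (S.eich u 0 a) * X = X * iE (S.eich u 0 a) :=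
    show ⟨_, ht⟩ ∈ cen (S.iEH.comp G.subtype) X from cen_of_nor _ hG h ▸ trivial
  obtain ⟨y, hy⟩ := hS.exists_h_eq_one hu0
  have h2 : (S.eich u 0 a).1 (X y) = X ((S.eich u 0 a).1 y) := LinearMap.congr_fun h1 y
  rw [transv_apply hu ha, transv_apply hu ha, hy, map_sub, sub_right_inj, map_smul, mul_one,
    mul_smul] at h2
  exact hu0 (no_eig hc hX (smul_right_injective V (mul_ne_zero P.ε_ne_zero ha0) h2).symm)

section Unit
variable {hσ : ∀ a, σ (σ a) = a} (hne : σ ≠ RingHom.id F) {S : PForm (unitP σ hσ) V}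
  (hS : S.Nondeg)
include hne hS

theorem sa_conj {X Y : End F V} (hX : SA S X) (hY : SA S Y) (h : Sim X Y) :
    ∃ k : S.Isom, iE k * X = Y * iE k := by
  obtain ⟨e, he⟩ := h
  let B' := (S.comap e.toLinearMap).h
  have hB' : ∀ x y, B' x y = S.h (e x) (e y) := fun _ _ => rfl
  obtain ⟨a, ha⟩ := exists_rep hσ hS (B' := B')
  have h0 : ∀ x y, S.h ((1 : End F V) x) y = 1 * σ (S.h y x) := fun x y => by
    simpa using unit_symm S y x
  have h4 : X * a = a * X := LinearMap.ext fun x => hS.ext_left fun y => by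
    simp [hX _ _, ha, hB', he, hY _ _]
  have h5 : ladj hσ hS a = a := ladj_eq hσ hS fun x y => by
    rw [ha, unit_symm S _ x, ha, hB', hB', ← unit_symm]
  obtain ⟨θ, h6, h7⟩ := theta_ladj hσ hS (g := 1) (fun _ _ => rfl) (Or.inl hne) (s := {1, X, a})
    (by simp)
  obtain ⟨b, h8, h9, h10⟩ := (bicomm_ladj hσ hS (ε := 1) (by simp) (u := 1) h0 (by simp)
    (by simp [h4]) (by simp [h5, ladj_eq hσ hS (a := X) (b := X) hX,
      ladj_eq hσ hS (a := 1) (b := 1) fun _ _ => rfl]) h6 h7).2 a (by simp)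
      ((LinearMap.isUnit_iff_ker_eq_bot _).2 (LinearMap.ker_eq_bot'.2 fun x hx =>
        e.map_eq_zero_iff.1 (hS _ fun y => by
          obtain ⟨y, rfl⟩ := e.surjective y
          simp [← hB', ← ha, hx]))) h5
  let b' := LinearEquiv.ofBijective b ((End.isUnit_iff _).1 h9)
  refine ⟨⟨b'.symm.trans e, unit_isIsom fun x y => ?_⟩, LinearMap.ext fun x => ?_⟩
  · obtain ⟨x, rfl⟩ := b'.surjective x
    obtain ⟨y, rfl⟩ := b'.surjective y
    simp only [LinearEquiv.trans_apply, LinearEquiv.symm_apply_apply]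
    rw [← hB', ← ha, ← h10]
    exact ladj_spec hσ hS b (b x) y
  · obtain ⟨x, rfl⟩ := b'.surjective x
    have : X (b' x) = b' (X x) := LinearMap.congr_fun (h8 X (by simp)) x
    simp [this, he]

theorem su3_irr (h3 : finrank F V = 3) (g : S.Isom) (h : ¬ ∃ v, v ≠ 0 ∧ ∃ a : F, iE g v = a • v)
    {c : F} (hc : ∀ x : F, x ^ 3 - x ≠ c) (hc' : σ c = c) :
    ∃ X, (SA S X ∧ aeval X (asP 3 c) = 0) ∧ g ∈ nor S.iEH X := by
  have : Nontrivial V := Module.nontrivial_of_finrank_pos (R := F) (by omega)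
  have : Finite V := Module.finite_of_finite F
  have : Finite (V ≃ₗ[F] V) := Finite.of_injective _ DFunLike.coe_injective
  obtain ⟨N, hN⟩ : ∃ N, g ^ (N + 1) = 1 :=
    ⟨orderOf g - 1, by rw [Nat.sub_add_cancel (orderOf_pos g), pow_orderOf_eq_one]⟩
  have hd : (iE g).charpoly.natDegree = 3 := by rw [LinearMap.charpoly_natDegree, h3]
  have hi : Irreducible (iE g).charpoly := by
    rw [irreducible_iff_roots_eq_zero_of_degree_le_three (by omega) (by omega),
      Multiset.eq_zero_iff_forall_notMem]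
    intro x hx
    obtain ⟨v, h1, h2⟩ := eig_of_root ((mem_roots (iE g).charpoly_monic.ne_zero).1 hx)
    exact h ⟨v, h1, x, h2⟩
  obtain ⟨a, ha⟩ := root_in (irr_asP (by omega) le_rfl hc) hi.ne_zero (fun p hp h1 => by
    rw [natDegree_asP (by omega), natDegree_eq_of_degree_eq
      (degree_eq_degree_of_associated (hp.associated_of_dvd hi h1)), hd]) (iE g).aeval_self_charpoly
  refine ⟨_, ⟨?_, ha⟩, 0, ?_⟩
  swap
  · have := congrArg (aeval (iE g)) (mul_comm X a)
    rw [map_mul, map_mul, aeval_X] at this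
    change iE g * _ = _ * iE g
    simpa using this
  have h1 := h_aeval g hN a
  generalize (a.map σ).comp (X ^ N) = r at h1
  have h2 : ∀ (n : ℕ) x y, S.h ((aeval (iE g) a ^ n) x) y = S.h x ((aeval (iE g) r ^ n) y) :=
    fun n => by
      induction n with
      | zero => exact fun _ _ => rfl
      | succ n ih =>
        intro x y
        conv_lhs => rw [pow_succ, End.mul_apply, ih, h1]
        rw [pow_succ', End.mul_apply]
  have h4 : aeval (aeval (iE g) r) (asP 3 c) = 0 := LinearMap.ext fun y => hS.eq_zero' fun x => by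
    have := congrArg (fun z => S.h (z x) y) ha
    rw [aeval_asP] at this ⊢
    simpa [h2, h1, hc'] using this
  rw [aeval_asP] at ha h4
  have h5 : aeval (iE g) ((r - a - C 0) * ((r - a - C 1) * (r - a - C (-1)))) = 0 := by
    rw [show (r - a - C 0) * ((r - a - C 1) * (r - a - C (-1))) = (r - a) ^ 3 - (r - a) by
      simp; ring, map_sub, map_pow, map_sub, cube_sub ((Commute.all r a).map _),
      sub_eq_iff_eq_add.1 (sub_eq_zero.1 ha), sub_eq_iff_eq_add.1 (sub_eq_zero.1 h4)]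
    abel
  have h6 : ∀ s, aeval (iE g) s = 0 ↔ (iE g).charpoly ∣ s := fun s => ⟨fun h => by
    by_contra h'
    obtain ⟨v, hv⟩ := exists_ne (0 : V)
    exact hv (kill_coprime (g := iE g) (U := ⊥) (hi.coprime_iff_not_dvd.2 h') (by simp)
      (by simp [(iE g).aeval_self_charpoly]) (by simp [h])),
    fun h => aeval_eq_zero_of_dvd_aeval_eq_zero h (iE g).aeval_self_charpoly⟩
  obtain ⟨k, k1, k2⟩ : ∃ k : F, σ k = k ∧ aeval (iE g) (r - a - C k) = 0 := by
    rw [h6, hi.prime.dvd_mul, hi.prime.dvd_mul, ← h6, ← h6, ← h6] at h5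
    rcases h5 with h | h | h
    exacts [⟨0, by simp, h⟩, ⟨1, by simp, h⟩, ⟨-1, by simp, h⟩]
  have k3 : ∀ y, aeval (iE g) r y = aeval (iE g) a y + k • y := fun y => by
    have := LinearMap.congr_fun k2 y
    simp only [map_sub, aeval_C, LinearMap.sub_apply, algebraMap_end_apply, LinearMap.zero_apply,
      sub_sub, sub_eq_zero] at this
    simpa using this
  obtain ⟨x, hx⟩ := exists_ne (0 : V)
  obtain ⟨y, hy⟩ := hS.exists_h_eq_one hx
  have k4 := h1 x y
  have k5 := h_swap (h1 y x)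
  simp only [k3, map_add, map_smul, LinearMap.add_apply, LinearMap.map_smulₛₗ₂, k1, hy,
    smul_eq_mul] at k4 k5
  have k6 : k = 0 := by linear_combination k4 + k5 + k * (three_eq (F := F))
  intro x y
  rw [h1, k3, k6, zero_smul, add_zero]

theorem su3_reg (h3 : finrank F V = 3) (g : S.Isom) (h : ∀ v, S.h v v ≠ 0 → iE g v ∉ F ∙ v)
    {u : V} (hu0 : u ≠ 0) {μ : F} (hu : iE g u = μ • u) (Z : End F V)
    (hZ : iE g * Z = Z * iE g) : ∃ a : F, (Z - a • 1) ^ 3 = 0 := by
  have iso : ∀ v (a : F), iE g v = a • v → S.h v v = 0 := fun v a hv => by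
    by_contra h1
    exact h v h1 (Submodule.mem_span_singleton.2 ⟨a, hv.symm⟩)
  have huu := iso u μ hu
  have hu1 := finrank_span_singleton (K := F) hu0
  have hti : ∀ w, w ∉ F ∙ u → S.h u w = 0 → S.h w w ≠ 0 := fun w h1 h2 h4 => by
    have a1 := hS.finrank_perp ((F ∙ u) ⊔ F ∙ w)
    have a2 : (F ∙ u) ⊔ F ∙ w ≤ S.perp ((F ∙ u) ⊔ F ∙ w) := by
      rw [perp_sup, le_inf_iff, sup_le_iff, sup_le_iff]
      simp [mem_perp_singleton, huu, h2, h4, S.h_swap_zero h2]
    have a3 := Submodule.finrank_mono a2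
    rw [Submodule.finrank_sup_span_singleton h1] at a1 a3
    omega
  have hker : ∀ v, iE g v = μ • v → v ∈ F ∙ u := fun v hv => by
    by_contra h1
    have a1 := iso v μ hv
    refine hti v h1 ?_ a1
    by_contra h2
    have a2 := iso (u + (S.h u v)⁻¹ • v) μ (by rw [map_add, map_smul, hu, hv]; module)
    have a3 : σ (S.h u v) ≠ 0 := (map_ne_zero σ).2 h2
    simp [huu, a1, h2, unit_symm S u v, a3] at a2
    exact one_ne_zero (α := F) (by linear_combination (three_eq (F := F)) - a2)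
  have hUi : ∀ x ∈ F ∙ u, iE g x ∈ F ∙ u := fun x hx => by
    obtain ⟨b, rfl⟩ := Submodule.mem_span_singleton.1 hx
    rw [map_smul, hu]
    exact Submodule.smul_mem _ _ (Submodule.smul_mem _ _ (Submodule.mem_span_singleton_self _))
  have hp := hS.finrank_perp (F ∙ u)
  have hle : F ∙ u ≤ S.perp (F ∙ u) := by simpa [mem_perp_singleton] using huu
  have hW : ∀ w ∈ S.perp (F ∙ u), iE g w - μ • w ∈ F ∙ u := fun w hw => by
    by_cases h1 : w ∈ F ∙ u
    · exact Submodule.sub_mem _ (hUi w h1) (Submodule.smul_mem _ _ h1)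
    obtain ⟨r, a1, a2, a3⟩ := dep_poly (iE g) (k := 1) hle (perp_inv g hUi) (by omega) hw
    have a4 : r.natDegree = 1 := by
      by_contra a4
      obtain ⟨b, rfl⟩ := natDegree_eq_zero.1 (show r.natDegree = 0 by omega)
      exact h1 (by simpa [Submodule.smul_mem_iff _ (C_ne_zero.1 a1)] using a3)
    obtain ⟨a, ha⟩ := eig_of_deg_one a4 a3
    have a5 := S.mem_perp_singleton.1 hw
    rwa [← lift_eig hS hu huu a5 (hti w h1 a5) ha h]
  obtain ⟨w, w1, w2⟩ := SetLike.exists_of_lt (Submodule.lt_of_le_of_finrank_lt_finrank hle (by omega))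
  have hμ : σ μ * μ = 1 := by
    obtain ⟨c, hc⟩ := Submodule.mem_span_singleton.1 (hW w w1)
    have a5 := S.mem_perp_singleton.1 w1
    have := isom_h g w w
    rw [show g.1 w = _ from eq_add_of_sub_eq hc.symm] at this
    simp [huu, a5, S.h_swap_zero a5] at this
    exact mul_right_cancel₀ (hti w w2 a5) (by linear_combination this)
  have hV : ∀ v, iE g v - μ • v ∈ S.perp (F ∙ u) := fun v => by
    have := isom_h g u v
    rw [show g.1 u = _ from hu] at this
    simp at this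
    rw [mem_perp_singleton, map_sub, map_smul, ← this]
    change S.h u (g.1 v) - μ * _ = 0
    linear_combination (-S.h u (g.1 v)) * hμ
  have hZ' : ∀ v, iE g (Z v) = Z (iE g v) := LinearMap.congr_fun hZ
  obtain ⟨z, hz⟩ := Submodule.mem_span_singleton.1 (hker (Z u) (by rw [hZ', hu, map_smul]))
  refine ⟨z, LinearMap.ext fun v => ?_⟩
  obtain ⟨n, hn⟩ : ∃ n : End F V, ∀ v, n v = iE g v - μ • v := ⟨iE g - μ • 1, fun _ => rfl⟩
  obtain ⟨M, hM⟩ : ∃ M, M = Z - z • 1 := ⟨_, rfl⟩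
  rw [← hM]
  have c1 : ∀ v, n (M v) = M (n v) := fun v => by
    simp only [hn, hM, LinearMap.sub_apply, map_sub, map_smul, hZ', LinearMap.smul_apply,
      End.one_apply]
  have c2 : ∀ v ∈ F ∙ u, M v = 0 := fun v hv => by
    obtain ⟨b, rfl⟩ := Submodule.mem_span_singleton.1 hv
    simp [hM, ← hz]
  have c3 : ∀ v, n v = 0 → M v = 0 := fun v hv => c2 v (hker v (sub_eq_zero.1 (hn v ▸ hv)))
  have c4 : M (n (n v)) = 0 := c2 _ (by rw [hn, hn v]; exact hW _ (hV v))
  rw [← c1, ← c1] at c4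
  have c5 := c3 _ c4
  rw [← c1] at c5
  exact c3 _ c5

theorem su3 {q a : ℕ} (hq : ∀ x, σ x = x ^ q) (ha : q = 3 ^ a) (h3 : finrank F V = 3)
    (hG : commutator S.SIsom = ⊤) : Cov S.SIsom := by
  have : Nontrivial V := Module.nontrivial_of_finrank_pos (R := F) (by omega)
  obtain ⟨c, hc, hc'⟩ : ∃ c : F, (∀ x : F, x ^ 3 - x ≠ c) ∧ σ c = c := by
    obtain ⟨c, hc⟩ := ex_asP (F := F) (d := 3) (by omega)
    have key : ∀ n : ℕ, ∃ y : F, c ^ 3 ^ n - c = y ^ 3 - y := fun n => by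
      induction n with
      | zero => exact ⟨0, by simp⟩
      | succ n ih =>
        obtain ⟨y, hy⟩ := ih
        refine ⟨y + c ^ 3 ^ n, ?_⟩
        rw [pow_succ, pow_mul]
        linear_combination hy - (y ^ 2 * c ^ 3 ^ n + y * (c ^ 3 ^ n) ^ 2) * (three_eq (F := F))
    obtain ⟨y, hy⟩ := key a
    rw [← ha, ← hq] at hy
    refine ⟨c + σ c, fun x h => hc (y - x) ?_, by rw [map_add, hσ, add_comm]⟩
    linear_combination -hy - h + (y * x ^ 2 - y ^ 2 * x - c) * (three_eq (F := F))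
  obtain ⟨e, f, H⟩ := hS.unit_exists_hyp hne (by omega)
  obtain ⟨b, hb0, hb⟩ := exists_mem_unit_Λ hσ hne
  refine cov_of (fun v => stab (sρ S) (F ∙ v)) (fun v => S.h v v ≠ 0) (nor (sρ S))
    (fun X => SA S X ∧ aeval X (asP 3 c) = 0) (fun v w hv hw g hg => ?_)
    (fun v hv => pt_ne_top hne hS (by omega) hv) (fun X Y hX hY g hg => ?_)
    (fun X hX => nor_ne_top hS hG H.sing_e H.e_ne hb hb0 (S.eich_mem_SIsom _ _ _) hc hX.2)
    fun g => ?_
  · exact (trans_pt hne hS hv hw).imp fun x hx => conj_stab _ hg hx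
  · obtain ⟨k, hk⟩ := sa_conj hne hS hX.1 hY.1
      (sim_roots (irr_asP (by omega) le_rfl hc) (monic_asP (by omega) c) hX.2 hY.2)
    obtain ⟨d, hd⟩ := cube_root ((S.detHom k⁻¹ : Fˣ) : F)
    have d0 : d ≠ 0 := fun h => (S.detHom k⁻¹).ne_zero (by rw [← hd, h]; simp)
    have d1 : σ d * d = 1 := cube_inj (by
      rw [mul_pow, ← map_pow, hd, one_pow]; exact hS.det_mem_normOne k⁻¹)
    refine ⟨⟨S.scal ⟨Units.mk0 d d0, d1⟩ * k, ?_⟩, conj_nor _ hg (LinearMap.ext fun v => ?_)⟩
    · change S.detHom _ = 1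
      rw [map_mul, detHom_scal, h3, show Units.mk0 d d0 ^ 3 = S.detHom k⁻¹ from Units.ext hd]
      simp
    · change d • (iE k * X) v = Y (d • iE k v)
      rw [hk, map_smul]; rfl
  · by_cases h : ∀ v, S.h v v ≠ 0 → iE g.1 v ∉ F ∙ v
    · right
      by_cases h1 : ∃ v, v ≠ 0 ∧ ∃ a : F, iE g.1 v = a • v
      · obtain ⟨u, hu0, μ, hu⟩ := h1
        exact core hS g.1 (fun Z hZ => (su3_reg hne hS h3 g.1 h hu0 hu Z hZ).elim fun _ =>
          tr_zero (by rw [h3])) (fun Z _ => su3_reg hne hS h3 g.1 h hu0 hu Z) hc'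
      · exact su3_irr hne hS h3 g.1 h1 hc hc'
    · push Not at h
      exact Or.inl (h.imp fun v hv => ⟨hv.1, mem_pt hne hS hv.2⟩)

end Unit

end H16.Cv
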