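import Cfsg.Agent.H16.Cv3
import Cfsg.Agent.S2585

/-! Coverings of `Sp_6(3^a)` and of `Sp_{2m}(2^a)`. -/

set_option autoImplicit false
set_option linter.unusedSectionVars false

namespace H16.Cv
open Module Polynomial H11
open H11.PForm hiding X

variable {F : Type*} [Field F] {V : Type*} [AddCommGroup V] [Module F V] [FiniteDimensional F V]
  {S : PForm (sympP F) V}

theorem SA.aeval {Z : End F V} (h : SA S Z) (r : F[X]) : SA S (aeval Z r) := by
  induction r using Polynomial.induction_on' with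
  | add p q hp hq => simpa using hp.add hq
  | monomial n a => simpa [← C_mul_X_pow_eq_monomial, ← Algebra.smul_def] using (h.pow n).smul rfl

/-- the cyclic subspace generated by a vector -/
noncomputable def cyc (Z : End F V) (v : V) : F[X] →ₗ[F] V :=
  LinearMap.applyₗ v ∘ₗ (aeval Z).toLinearMap

theorem cyc_apply (Z : End F V) (v : V) (r : F[X]) : cyc Z v r = aeval Z r v := rfl

theorem cyc_inv (Z : End F V) (v : V) :
    ∀ x ∈ LinearMap.range (cyc Z v), Z x ∈ LinearMap.range (cyc Z v) := by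
  rintro _ ⟨r, rfl⟩
  exact ⟨X * r, by simp [cyc_apply]⟩

theorem mem_cyc (Z : End F V) (v : V) : v ∈ LinearMap.range (cyc Z v) := ⟨1, by simp [cyc_apply]⟩

theorem comm_aeval {g Z : End F V} (h : g * Z = Z * g) (r : F[X]) :
    g * aeval Z r = aeval Z r * g := by
  induction r using Polynomial.induction_on' with
  | add p q hp hq => simp [mul_add, add_mul, hp, hq]
  | monomial n a =>
    simp [← C_mul_X_pow_eq_monomial, ← Algebra.smul_def, ((show Commute g Z from h).pow_right n).eq]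

variable [Finite F] [CharP F 3] (hS : S.Nondeg) (h6 : finrank F V = 6)

theorem SA.self {Z : End F V} (h : SA S Z) (v : V) : S.h (Z v) v = 0 := by
  have h1 := h v v
  have h2 := S.symp_symm (Z v) v
  linear_combination -h1 - h2 + S.h (Z v) v * (three_eq (F := F))

theorem cyc_ti {Z : End F V} (h : SA S Z) (v : V) :
    LinearMap.range (cyc Z v) ≤ S.perp (LinearMap.range (cyc Z v)) := by
  rintro _ ⟨r, rfl⟩ _ ⟨s, rfl⟩
  rw [cyc_apply, cyc_apply, ← h.aeval, ← End.mul_apply, ← map_mul]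
  exact (h.aeval _).self v

include hS h6

theorem ti_le {U : Submodule F V} (h : U ≤ S.perp U) : finrank F U ≤ 3 := by
  have := hS.finrank_perp U
  have := Submodule.finrank_mono h
  omega

theorem no_quad {Z : End F V} (h : SA S Z) {p : F[X]} (hp : Irreducible p) (h2 : p.natDegree = 2)
    (h0 : aeval Z p = 0) : False := by
  have : Nontrivial V := Module.nontrivial_of_finrank_pos (R := F) (by omega)
  have key : ∀ A B : Submodule F V, A ≤ B → (∀ x ∈ A, Z x ∈ A) → (∀ x ∈ B, Z x ∈ B) → ∀ w ∈ B,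
      w ∉ A → finrank F A + 2 ≤ finrank F B := fun A B h1 hA hB w h3 h4 => by
    by_contra h5
    obtain ⟨r, a1, a2, a3⟩ := dep_poly Z (k := 1) h1 hB (by omega) h3
    refine h4 (kill_coprime (hp.coprime_iff_not_dvd.2 fun h => ?_) hA (by simp [h0]) a3)
    have := natDegree_le_of_dvd h a1
    omega
  obtain ⟨v, hv⟩ := exists_ne (0 : V)
  have a1 := key ⊥ _ bot_le (by simp) (cyc_inv Z v) v (mem_cyc Z v) hv
  have a2 : finrank F (LinearMap.range (cyc Z v)) ≤ 2 := by
    have := (degreeLTEquiv F 2).symm.finiteDimensional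
    have b1 : LinearMap.range (cyc Z v) ≤ (degreeLT F 2).map (cyc Z v) := by
      rintro _ ⟨r, rfl⟩
      refine ⟨r % p, mem_degreeLT.2 ?_, ?_⟩
      · simpa [degree_eq_natDegree hp.ne_zero, h2] using degree_mod_lt r hp.ne_zero
      · conv_rhs => rw [← EuclideanDomain.mod_add_div r p]
        simp [cyc_apply, h0]
    refine (Submodule.finrank_mono b1).trans ((Submodule.finrank_map_le _ _).trans ?_)
    rw [(degreeLTEquiv F 2).finrank_eq]; simp
  have a3 := hS.finrank_perp (LinearMap.range (cyc Z v))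
  obtain ⟨x, b1, b2⟩ := SetLike.exists_of_lt
    (Submodule.lt_of_le_of_finrank_lt_finrank (cyc_ti h v) (by omega))
  have b3 : LinearMap.range (cyc Z x) ≤ S.perp (LinearMap.range (cyc Z v)) := by
    rintro _ ⟨r, rfl⟩
    refine aeval_mem b1 fun y hy z hz => ?_
    rw [← h]; exact hy _ (cyc_inv Z v z hz)
  have b4 := key _ (LinearMap.range (cyc Z v) ⊔ LinearMap.range (cyc Z x)) le_sup_left (cyc_inv Z v)
    (fun y hy => by
      obtain ⟨a, ha, b, hb, rfl⟩ := Submodule.mem_sup.1 hy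
      rw [map_add]
      exact Submodule.add_mem_sup (cyc_inv Z v a ha) (cyc_inv Z x b hb)) x
    (Submodule.mem_sup_right (mem_cyc Z x)) b2
  have b5 := ti_le hS h6 (U := LinearMap.range (cyc Z v) ⊔ LinearMap.range (cyc Z x)) (by
    rw [perp_sup, le_inf_iff, sup_le_iff, sup_le_iff]
    exact ⟨⟨cyc_ti h v, b3⟩, S.le_perp_comm.1 b3, cyc_ti h x⟩)
  simp at a1
  omega

theorem sp6_dich (g : S.Isom) (hg : ∀ U : Submodule F V, (S.restrict U).Nondeg → finrank F U = 2 →
    ¬ ∀ x ∈ U, iE g x ∈ U) {Z : End F V} (h : SA S Z) (hZ : iE g * Z = Z * iE g) :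
    (∃ p : F[X], Irreducible p ∧ p.natDegree = 3 ∧ aeval Z p = 0) ∨ ∃ a : F, (Z - a • 1) ^ 3 = 0 := by
  have : Nontrivial V := Module.nontrivial_of_finrank_pos (R := F) (by omega)
  have k1 : ∀ v, ∃ r : F[X], r ≠ 0 ∧ r.natDegree ≤ 3 ∧ aeval Z r v = 0 := fun v =>
    dep_poly Z (A := ⊥) bot_le (cyc_inv Z v) (by simpa using ti_le hS h6 (cyc_ti h v)) (mem_cyc Z v)
  obtain ⟨v, hv⟩ := exists_ne (0 : V)
  obtain ⟨r, r1, r2, r3⟩ := k1 v
  obtain ⟨p, p1, p2, w, -, p3, p4⟩ := ex_irr Z (A := ⊥) (B := ⊤) (by simp) (by simp) r r1 v trivial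
    hv r3
  have p5 := (natDegree_le_of_dvd p2 r1).trans r2
  have k2 : aeval Z (p ^ 6) = 0 := by
    have a1 := h.aeval (p ^ 6)
    have a2 := comm_aeval hZ (p ^ 6)
    have a3 : ∀ x, aeval Z (p ^ 6) (aeval Z (p ^ 6) x) = 0 → aeval Z (p ^ 6) x = 0 := fun x hx => by
      have := End.ker_pow_eq_ker_pow_finrank_of_le (f := aeval Z p) (m := 6 + 6) (by omega)
      rw [h6, pow_add, ← map_pow] at this
      exact (this.le : _ ≤ _) hx
    have a4 : aeval Z (p ^ 6) w = 0 := by
      rw [pow_succ, map_mul, End.mul_apply, show aeval Z p w = 0 from p4, map_zero]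
    generalize aeval Z (p ^ 6) = M at a1 a2 a3 a4
    have b1 : ∀ y, y ∈ S.perp (LinearMap.range M) ↔ M y = 0 := fun y =>
      ⟨fun hy => hS.eq_zero' fun x => by rw [← a1]; exact hy _ ⟨x, rfl⟩, by
        rintro hy _ ⟨x, rfl⟩; rw [a1, hy, map_zero]⟩
    have b2 : (S.restrict (LinearMap.range M)).Nondeg := by
      rw [restrict_nondeg_iff, Submodule.disjoint_def]
      rintro _ ⟨x, rfl⟩ hx
      exact a3 x ((b1 _).1 hx)
    have b3 : ∀ x ∈ LinearMap.range M, iE g x ∈ LinearMap.range M := by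
      rintro _ ⟨x, rfl⟩
      exact ⟨iE g x, (LinearMap.congr_fun a2 x).symm⟩
    have b4 := mt (fun h => hg _ b2 h b3) id
    have b5 := mt (fun h => hg _ (hS.restrict_perp b2) h (perp_inv g b3)) id
    have b6 := hS.finrank_perp (LinearMap.range M)
    obtain ⟨k, hk⟩ := symp_even _ b2 rfl
    have b7 : finrank F (S.perp (LinearMap.range M)) ≠ 0 := fun h =>
      p3 (Submodule.finrank_eq_zero.1 h ▸ (b1 w).2 a4)
    exact LinearMap.range_eq_bot.1 (Submodule.finrank_eq_zero.1 (by omega))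
  have k3 : ∀ v, ∃ j, j * p.natDegree ≤ 3 ∧ aeval Z (p ^ j) v = 0 := fun v => by
    obtain ⟨r, r1, r2, r3⟩ := k1 v
    obtain ⟨j, s, s1, rfl⟩ := WfDvdMonoid.max_power_factor r1 p1
    refine ⟨j, ?_, kill_coprime (g := Z) (U := ⊥)
      ((p1.coprime_iff_not_dvd.2 s1).pow_left (m := 6)) (by simp) (by simp [k2]) ?_⟩
    · have := natDegree_le_of_dvd (dvd_mul_right _ _) r1
      rw [natDegree_pow] at this
      omega
    · rwa [mul_comm, map_mul] at r3
  have k4 : ∀ n, (∀ j, j * p.natDegree ≤ 3 → j ≤ n) → aeval Z (p ^ n) = 0 := fun n hn =>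
    LinearMap.ext fun v => by
      obtain ⟨j, j1, j2⟩ := k3 v
      obtain ⟨i, rfl⟩ := Nat.exists_eq_add_of_le' (hn j j1)
      rw [pow_add, map_mul, End.mul_apply, j2, map_zero]; rfl
  have p6 := p1.natDegree_pos
  by_cases h1 : p.natDegree = 1
  · have := k4 3 fun j hj => by rw [h1] at hj; omega
    obtain ⟨a, ha, b, rfl⟩ := natDegree_eq_one.1 h1
    refine Or.inr ⟨-(b / a), ?_⟩
    rw [map_pow, show aeval Z (C a * X + C b) = a • (Z - (-(b / a)) • 1) by
      simp [Algebra.algebraMap_eq_smul_one, smul_smul, mul_div_cancel₀ _ ha],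
      _root_.smul_pow] at this
    exact (smul_eq_zero.1 this).resolve_left (pow_ne_zero _ ha)
  · have := k4 1 fun j hj => by nlinarith [show 2 ≤ p.natDegree by omega]
    rw [pow_one] at this
    have h2 := mt (fun h2 => no_quad hS h6 h p1 h2 this) id
    exact Or.inl ⟨p, p1, by omega, this⟩

omit [Finite F] [CharP F 3] h6 in
theorem trace_adj (Z : End F V) : LinearMap.trace F V (adj hS Z) = LinearMap.trace F V Z := by
  let e : V ≃ₗ[F] Dual F V := LinearEquiv.ofBijective S.h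
    ⟨(injective_iff_map_eq_zero _).2 fun x hx => hS x fun y => by simp [hx], hS.exists_h_eq⟩
  rw [← LinearMap.trace_conj' _ e, ← LinearMap.trace_transpose' Z]
  congr 1
  refine LinearMap.ext fun φ => ?_
  obtain ⟨x, rfl⟩ := e.surjective φ
  refine LinearMap.ext fun y => ?_
  simp only [LinearEquiv.conj_apply_apply, LinearEquiv.symm_apply_apply]
  exact adj_spec hS Z x y

/-- Gram matrix of the adapted bases -/
def gram6 (F : Type*) [Field F] : Fin 6 → Fin 6 → F :=
  ![![0, 0, 0, 0, 0, 1], ![0, 0, 0, 0, 1, 0], ![0, 0, 0, 1, 0, 1],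
    ![0, 0, -1, 0, 0, 0], ![0, -1, 0, 0, 0, 0], ![-1, 0, -1, 0, 0, 0]]

theorem sp6_data {c : F} (hc : ∀ x : F, x ^ 3 - x ≠ c) {Z : End F V} (h : SA S Z)
    (hZ : aeval Z (asP 3 c) = 0) : ∃ b : Fin 6 → V, LinearIndependent F b ∧
      (∀ i j, S.h (b i) (b j) = gram6 F i j) ∧ Z (b 0) = b 1 ∧ Z (b 1) = b 2 ∧
      Z (b 2) = b 1 + c • b 0 ∧ Z (b 3) = b 4 ∧ Z (b 4) = b 5 ∧ Z (b 5) = b 4 + c • b 3 := by
  have : Nontrivial V := Module.nontrivial_of_finrank_pos (R := F) (by omega)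
  obtain ⟨v, hv⟩ := exists_ne (0 : V)
  have h3 : ∀ v, Z (Z (Z v)) = Z v + c • v := fun v => by
    have := LinearMap.congr_fun hZ v
    rw [aeval_asP, sub_sub] at this
    exact sub_eq_zero.1 this
  have hi := irr_asP (by omega) le_rfl hc
  have hli : LinearIndependent F ![v, Z v, Z (Z v)] := by
    rw [Fintype.linearIndependent_iff]
    intro a ha
    have h1 : C (a 2) * X ^ 2 + C (a 1) * X + C (a 0) = 0 := by
      by_contra h1
      refine hv (kill_coprime (g := Z) (U := ⊥) (hi.coprime_iff_not_dvd.2 fun h => ?_) (by simp)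
        (by simp [hZ]) (b := C (a 2) * X ^ 2 + C (a 1) * X + C (a 0)) ?_)
      · have := (natDegree_le_of_dvd h h1).trans natDegree_quadratic_le
        rw [natDegree_asP (by omega)] at this
        omega
      · simp [Fin.sum_univ_three] at ha
        simpa [sq, add_comm, add_left_comm, add_assoc] using ha
    intro i
    have := congrArg (fun p => coeff p i) h1
    fin_cases i <;> simpa [coeff_X, coeff_C] using this
  obtain ⟨y, hy⟩ := hS.exists_forall_h_eq hli ![0, 0, 1]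
  have a0 : S.h v y = 0 := hy 0
  have a1 : S.h (Z v) y = 0 := hy 1
  have a2 : S.h (Z (Z v)) y = 1 := hy 2
  have b0 : S.h y v = 0 := S.h_swap_zero a0
  have b1 : S.h (Z y) v = 0 := by rw [h, S.h_swap_zero a1]
  have b2 : S.h (Z (Z y)) v = -1 := by rw [h, h, S.symp_symm, a2]
  have c1 : ∀ x, S.h (Z (Z x)) x = 0 := (h.pow 2).self
  have hG : ∀ i j, S.h (![v, Z v, Z (Z v), y, Z y, Z (Z y)] i)
      (![v, Z v, Z (Z v), y, Z y, Z (Z y)] j) = gram6 F i j := fun i j => by
    fin_cases i <;> fin_cases j <;>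
      simp [gram6, ← h _ _, h3, a0, a1, a2, b0, b1, b2, c1, h.self, symp_h_self]
  refine ⟨_, ?_, hG, rfl, rfl, h3 v, rfl, rfl, h3 y⟩
  rw [Fintype.linearIndependent_iff]
  intro a ha
  have key : ∀ j, ∑ i, a i * gram6 F j i = 0 := fun j => by
    have := congrArg (S.h (![v, Z v, Z (Z v), y, Z y, Z (Z y)] j)) ha
    simpa only [map_sum, map_smul, hG, smul_eq_mul, map_zero] using this
  have k0 := key 0
  have k1 := key 1
  have k2 := key 2
  have k3 := key 3
  have k4 := key 4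
  have k5 := key 5
  simp [gram6, Fin.sum_univ_six] at k0 k1 k2 k3 k4 k5
  intro i
  fin_cases i <;> simp_all

theorem sp6_conj {c : F} (hc : ∀ x : F, x ^ 3 - x ≠ c) {Z Y : End F V} (h : SA S Z)
    (hZ : aeval Z (asP 3 c) = 0) (h' : SA S Y) (hY : aeval Y (asP 3 c) = 0) :
    ∃ k : S.Isom, iE k * Z = Y * iE k := by
  obtain ⟨b, b1, b2, b3⟩ := sp6_data hS h6 hc h hZ
  obtain ⟨d, d1, d2, d3⟩ := sp6_data hS h6 hc h' hY
  obtain ⟨k, hk⟩ := hS.witt_fam b d b1 d1 (fun i j => by rw [b2, d2]) fun _ => trivial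
  refine ⟨k, (basisOfLinearIndependentOfCardEqFinrank b1 (by simp [h6])).ext fun i => ?_⟩
  rw [coe_basisOfLinearIndependentOfCardEqFinrank]
  change k.1 (Z (b i)) = Y (k.1 (b i))
  fin_cases i <;> simp [b3, d3, hk]

theorem sp6 : Cov S.Isom := by
  have : Nontrivial V := Module.nontrivial_of_finrank_pos (R := F) (by omega)
  obtain ⟨c, hc⟩ := ex_asP (F := F) (d := 3) (by omega)
  have hG := hS.symp_commutator_eq_top (Or.inl h6.ge)
  have k1 : ∀ U : Submodule F V, (S.restrict U).Nondeg → finrank F U = 2 →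
      ∃ e f, S.IsHyp e f ∧ U = Submodule.span F {e, f} := fun U h1 h2 => by
    obtain ⟨e, f, H⟩ := h1.symp_exists_hyp (by omega)
    have H' : S.IsHyp e f := ⟨trivial, trivial, H.h_ef⟩
    refine ⟨e, f, H', (Submodule.eq_of_le_of_finrank_eq ?_ (by rw [H'.finrank_span, h2])).symm⟩
    rw [Submodule.span_le]
    rintro _ (rfl | rfl)
    exacts [e.2, f.2]
  have k2 : ∀ U U' : Submodule F V, (S.restrict U).Nondeg ∧ finrank F U = 2 →
      (S.restrict U').Nondeg ∧ finrank F U' = 2 → ∃ x, U.map (S.iEH x) = U' := fun U U' h h' => by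
    obtain ⟨e, f, H, rfl⟩ := k1 U h.1 h.2
    obtain ⟨e', f', H', rfl⟩ := k1 U' h'.1 h'.2
    obtain ⟨g, h1, h2⟩ := hS.witt_hyp H H'
    exact ⟨g, by rw [Submodule.map_span, Set.image_pair, ← h1, ← h2]; rfl⟩
  refine cov_of (stab S.iEH) (fun U => (S.restrict U).Nondeg ∧ finrank F U = 2) (nor S.iEH)
    (fun X => SA S X ∧ aeval X (asP 3 c) = 0) (fun U U' h h' g hg => ?_) (fun U hU => ?_)
    (fun X Y hX hY g hg => ?_) (fun X hX h => ?_) fun g => ?_
  · exact (k2 U U' h h').imp fun x hx => conj_stab _ hg hx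
  · have h1 := hS.finrank_perp U
    obtain ⟨e, f, H⟩ := (hS.restrict_perp hU.1).symp_exists_hyp (by omega)
    have H' : S.IsHyp e f := ⟨trivial, trivial, H.h_ef⟩
    obtain ⟨x, hx⟩ := k2 _ U ⟨H'.nondeg, H'.finrank_span⟩ hU
    refine stab_ne_top _ hx fun h => ?_
    have := f.2 e (h.le (Submodule.subset_span (by simp)))
    simp [H'.h_ef] at this
  · exact (sp6_conj hS h6 hc hX.1 hX.2 hY.1 hY.2).imp fun x hx => conj_nor _ hg hx
  · obtain ⟨u, hu⟩ := exists_ne (0 : V)
    refine nor_ne_top (G := ⊤) hS (commutator_eq_top_of_equiv Subgroup.topEquiv hG) (u := u) trivial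
      hu (a := 1) trivial one_ne_zero trivial hc hX.2 (eq_top_iff.2 fun g _ => ?_)
    exact (show g.1 ∈ nor S.iEH X from h.ge trivial)
  · by_cases hg : ∀ U : Submodule F V, (S.restrict U).Nondeg → finrank F U = 2 →
      ¬ ∀ x ∈ U, iE g x ∈ U
    · right
      by_cases h1 : ∃ Z, SA S Z ∧ iE g * Z = Z * iE g ∧
        ∃ p : F[X], Irreducible p ∧ p.natDegree = 3 ∧ aeval Z p = 0
      · obtain ⟨Z, a1, a2, p, a3, a4, a5⟩ := h1
        obtain ⟨a, ha⟩ := root_in (irr_asP (by omega) le_rfl hc) a3.ne_zero (fun r hr h1 => by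
          rw [natDegree_asP (by omega), natDegree_eq_of_degree_eq
            (degree_eq_degree_of_associated (hr.associated_of_dvd a3 h1)), a4]) a5
        exact ⟨_, ⟨a1.aeval a, ha⟩, 0, by rw [zero_smul, add_zero]; exact comm_aeval a2 a⟩
      · have h2 : ∀ Z, SA S Z → iE g * Z = Z * iE g → ∃ a : F, (Z - a • 1) ^ 3 = 0 :=
          fun Z a1 a2 => (sp6_dich hS h6 g hg a1 a2).resolve_left fun h => h1 ⟨Z, a1, a2, h⟩
        refine core hS g (fun Z hZ => ?_) h2 rfl
        have a1 := adj_rel hS g (X := Z) (c := 0) rfl (by simpa using hZ)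
        obtain ⟨a, ha⟩ := h2 _ (sa_add_adj hS Z) (by
          rw [mul_add, add_mul, hZ, a1, zero_smul, add_zero])
        have := tr_zero (by rw [h6]; norm_num) ha
        rw [map_add, trace_adj] at this
        linear_combination -this + LinearMap.trace F V Z * (three_eq (F := F))
    · push Not at hg
      obtain ⟨U, h1, h2, h3⟩ := hg
      exact Or.inl ⟨U, ⟨h1, h2⟩, (mem_stab _).2 h3⟩

end H16.Cv
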