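import Cfsg.Agent.H16.Cv4
import Cfsg.Agent.H12.Zorn

/-! Coverings of `Sp_{2m}(2^a)` and `G_2(2^a)` (Dye). -/

set_option autoImplicit false
set_option linter.unusedSectionVars false
set_option linter.unusedSimpArgs false
set_option linter.unnecessarySeqFocus false
set_option linter.unusedTactic false
set_option linter.unreachableTactic false

namespace H16.Cv
open Module H11 Matrix
open H11.PForm hiding X

variable {F : Type*} [Field F]

section Two
variable [Fintype F] [CharP F 2]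

theorem two_eq : (2 : F) = 0 := CharP.cast_eq_zero F 2

theorem wp_add {a b : F} (ha : ¬ ∃ x, a = x ^ 2 + x) (hb : ¬ ∃ x, b = x ^ 2 + x) :
    ∃ x, a + b = x ^ 2 + x := by
  let φ : F →+ F := AddMonoidHom.mk' (fun x => x ^ 2 + x) fun x y => by
    linear_combination x * y * (two_eq (F := F))
  have h1 : Nat.card φ.ker = 2 := by
    have : (φ.ker : Set F) = {0, 1} := by
      ext x
      have : x ^ 2 + x = x * (x - 1) := by linear_combination x * (two_eq (F := F))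
      simp [φ, this, sub_eq_zero]
    rw [← SetLike.coe_sort_coe, this, Nat.card_coe_set_eq, Set.ncard_pair zero_ne_one]
  have h2 := φ.ker.card_mul_index
  have h3 := φ.range.card_mul_index
  rw [AddSubgroup.index_ker, h1, ← h3, mul_comm] at h2
  have h4 := (Nat.eq_of_mul_eq_mul_left Nat.card_pos h2).symm
  obtain ⟨x, hx⟩ := (AddSubgroup.add_mem_iff_of_index_two h4 (a := a) (b := b)).2
    ⟨fun ⟨x, h⟩ => absurd ⟨x, h.symm⟩ ha, fun ⟨x, h⟩ => absurd ⟨x, h.symm⟩ hb⟩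
  exact ⟨x, hx.symm⟩

/-- stabilizer of a function -/
def stabF {V : Type*} [AddCommGroup V] [Module F V] {S : PForm (sympP F) V} (Q : V → F) :
    Subgroup S.Isom where
  carrier := {g | ∀ v, Q (g.1 v) = Q v}
  one_mem' _ := rfl
  mul_mem' {a b} ha hb v := by rw [isom_mul_apply, ha, hb]
  inv_mem' {a} ha v := by rw [← ha, isom_apply_inv_self]

theorem sp_dye {V : Type*} [AddCommGroup V] [Module F V] [FiniteDimensional F V]
    {S : PForm (sympP F) V} (hS : S.Nondeg) (hd : 4 ≤ finrank F V) (Q0 : QuadraticForm F V)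
    (h0 : ∀ u v, QuadraticMap.polar Q0 u v = S.h u v)
    (k0 : ∀ g : S.Isom, ∃ Q : QuadraticForm F V,
      (∀ u v, QuadraticMap.polar Q u v = S.h u v) ∧ ∀ v, Q (g.1 v) = Q v) : Cov S.Isom := by
  have h2 := two_eq (F := F)
  have ht : ∀ a d x : V, ∀ l : F, Q0 ((S.eich d 0 l).1 x) + S.h a ((S.eich d 0 l).1 x) ^ 2 =
      Q0 x + S.h a x ^ 2 + (l ^ 2 * (Q0 d + S.h a d ^ 2) + l) * S.h d x ^ 2 := fun a d x l => by
    rw [symp_transv_apply, QuadraticMap.map_add Q0, h0, QuadraticMap.map_smul]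
    simp only [map_add, map_smul, smul_eq_mul, S.symp_symm d x]
    linear_combination (S.h a x * l * S.h d x * S.h a d - l * S.h d x ^ 2) * h2
  have k1 : ∀ a b : V, (∃ x, Q0 a + Q0 b = x ^ 2 + x) →
      ∀ g ∈ stabF (S := S) fun x => Q0 x + S.h a x ^ 2,
      ∃ t, t * g * t⁻¹ ∈ stabF (S := S) fun x => Q0 x + S.h b x ^ 2 := by
    rintro a b ⟨x, hx⟩ g hg
    obtain ⟨μ, h1, h3⟩ : ∃ μ : F, μ ≠ 0 ∧ Q0 (a + b) + S.h a (a + b) ^ 2 = μ ^ 2 + μ := by
      have : Q0 (a + b) + S.h a (a + b) ^ 2 = (x + S.h a b) ^ 2 + (x + S.h a b) := by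
        rw [QuadraticMap.map_add Q0, h0, map_add, symp_h_self]
        linear_combination hx - x * S.h a b * h2
      by_cases h1 : x + S.h a b = 0
      · exact ⟨1, one_ne_zero, by rw [this, h1]; linear_combination -h2⟩
      · exact ⟨_, h1, this⟩
    have h4 : ∀ y, Q0 ((S.eich (a + b) 0 μ⁻¹).1 y) + S.h a ((S.eich (a + b) 0 μ⁻¹).1 y) ^ 2 =
        Q0 y + S.h b y ^ 2 := fun y => by
      rw [ht, h3, map_add, LinearMap.add_apply, show μ⁻¹ ^ 2 * (μ ^ 2 + μ) + μ⁻¹ = 1 by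
        field_simp; linear_combination h2]
      linear_combination (S.h a y ^ 2 + S.h a y * S.h b y) * h2
    refine ⟨(S.eich (a + b) 0 μ⁻¹)⁻¹, fun v => ?_⟩
    simp only [inv_inv, isom_mul_apply]
    rw [← h4, isom_apply_inv_self, ← h4 v]
    exact hg _
  have k2 : ∀ a : V, stabF (S := S) (fun x => Q0 x + S.h a x ^ 2) ≠ ⊤ := fun a h => by
    have h1 : ∀ d, d ≠ 0 → Q0 d + S.h a d ^ 2 = 1 := fun d hd => by
      obtain ⟨y, hy⟩ := hS.exists_h_eq_one hd
      have h3 := ht a d y 1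
      have h4 := (h.ge trivial : S.eich d 0 1 ∈ stabF _) y
      simp only at h4
      rw [h4, hy] at h3
      linear_combination h3 + (Q0 d + S.h a d ^ 2) * h2
    have : Nontrivial V := Module.nontrivial_of_finrank_pos (R := F) (by omega)
    obtain ⟨u, hu⟩ := exists_ne (0 : V)
    have h3 := hS.finrank_perp (F ∙ u)
    have h4 := finrank_span_singleton (K := F) hu
    obtain ⟨w, w1, w2⟩ := SetLike.exists_of_lt (Submodule.lt_of_le_of_finrank_lt_finrank
      (show F ∙ u ≤ S.perp (F ∙ u) by simpa [mem_perp_singleton] using symp_h_self S u) (by omega))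
    have a1 := h1 u hu
    have a2 := h1 w (by rintro rfl; simp at w2)
    have a3 := h1 (u + w) fun h => w2 (Submodule.mem_span_singleton.2
      ⟨-1, by rw [neg_one_smul, neg_eq_iff_add_eq_zero, h]⟩)
    rw [QuadraticMap.map_add Q0, h0, S.mem_perp_singleton.1 w1, map_add] at a3
    exact one_ne_zero (α := F) (by linear_combination a3 - a1 - a2 - S.h a u * S.h a w * h2)
  refine cov_of (fun a => stabF (S := S) fun x => Q0 x + S.h a x ^ 2) (fun a => ∃ x, Q0 a = x ^ 2 + x)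
    (fun a => stabF (S := S) fun x => Q0 x + S.h a x ^ 2) (fun a => ¬ ∃ x, Q0 a = x ^ 2 + x)
    (fun a b ⟨x, hx⟩ ⟨y, hy⟩ => k1 a b ⟨x + y, by linear_combination hx + hy - x * y * h2⟩)
    (fun a _ => k2 a) (fun a b ha hb => k1 a b (wp_add ha hb)) (fun a _ => k2 a) fun g => ?_
  obtain ⟨Q, h1, h3⟩ := k0 g
  obtain ⟨l, hl⟩ := exists_dual_sq (fun v => Q v - Q0 v) (fun x y => by
    simp only [QuadraticMap.map_add Q0, QuadraticMap.map_add Q, h0, h1]; ring)
    fun c x => by simp only [QuadraticMap.map_smul, smul_eq_mul]; ring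
  obtain ⟨a, rfl⟩ := hS.exists_h_eq l
  have : g ∈ stabF (S := S) fun x => Q0 x + S.h a x ^ 2 := fun v => by
    simp only [← hl, add_sub_cancel, h3]
  by_cases h : ∃ x, Q0 a = x ^ 2 + x
  exacts [Or.inl ⟨a, h, this⟩, Or.inr ⟨a, h, this⟩]

theorem sp_even {m : ℕ} (hm : 2 ≤ m) : Cov (stdSymp m F).Isom := by
  obtain ⟨Q0, h0, -⟩ := Cfsg.Agent.S2585.result (F := F) (m := m) 1
  refine sp_dye (stdSymp_nondeg m) (by rw [finrank_sum_fun]; omega) Q0
    (by simpa only [← stdSymp_h] using h0) fun g => ?_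
  obtain ⟨A, rfl⟩ := (spEquiv m F).surjective g
  simpa only [← stdSymp_h, spEquiv_apply] using Cfsg.Agent.S2585.result A

end Two

section G2
open Cfsg.Lie H12

/-- trace, norm, polar form and identity of Zorn's algebra -/
def zT (x : Fin 8 → F) : F := x 0 + x 7
def zN (x : Fin 8 → F) : F := x 0 * x 7 - (x 1 * x 4 + x 2 * x 5 + x 3 * x 6)
def zP (x y : Fin 8 → F) : F :=
  x 0 * y 7 + x 7 * y 0 - (x 1 * y 4 + x 2 * y 5 + x 3 * y 6 + x 4 * y 1 + x 5 * y 2 + x 6 * y 3)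
def z1 (F : Type*) [Field F] : Fin 8 → F := ![1, 0, 0, 0, 0, 0, 0, 1]

/-- the natural representation of `G₂` -/
noncomputable def gρ (F : Type*) [Field F] : G2 F →* End F (Fin 8 → F) :=
  (toLinAlgEquiv' : Matrix (Fin 8) (Fin 8) F ≃ₐ[F] _).toMonoidHom.comp
    ((Units.coeHom _).comp (G2 F).subtype)

theorem g_mul (g : G2 F) (x y : Fin 8 → F) : gρ F g (zornMul x y) = zornMul (gρ F g x) (gρ F g y) :=
  g.2 x y

theorem g_one (g : G2 F) : gρ F g (z1 F) = z1 F := by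
  have h := g_mul g (z1 F) (gρ F g⁻¹ (z1 F))
  rw [show ∀ y, zornMul (z1 F) y = y from fun y => by simp [zorn_ext, zorn_app, z1], rho_inv',
    show ∀ y, zornMul y (z1 F) = y from fun y => by simp [zorn_ext, zorn_app, z1]] at h
  exact h.symm

theorem g_TN (g : G2 F) (x : Fin 8 → F) : zT (gρ F g x) = zT x ∧ zN (gρ F g x) = zN x := by
  have k : ∀ x : Fin 8 → F, zornMul x x = zT x • x - zN x • z1 F := fun x => by
    simp only [zorn_ext, zorn_app, zT, zN, z1, Pi.sub_apply, Pi.smul_apply, smul_eq_mul]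
    simp
    and_intros <;> ring
  have h := g_mul g x x
  rw [k, k, map_sub, map_smul, map_smul, g_one] at h
  by_cases h1 : zT (gρ F g x) = zT x
  · rw [h1, sub_right_inj] at h
    exact ⟨h1, by simpa [z1] using (congrFun h 0).symm⟩
  · have h2 : gρ F g x = ((zN (gρ F g x) - zN x) / (zT (gρ F g x) - zT x)) • z1 F := by
      have h3 := sub_ne_zero.2 h1
      rw [div_eq_inv_mul, mul_smul, eq_inv_smul_iff₀ h3, sub_smul, sub_smul]
      linear_combination (exp := 1) -h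
    have h3 := congrArg (gρ F g⁻¹) h2
    rw [rho_inv, map_smul, g_one, ← h2] at h3
    rw [← h3] at h1
    exact absurd rfl h1

theorem g_P (g : G2 F) (x y : Fin 8 → F) : zP (gρ F g x) (gρ F g y) = zP x y := by
  have k : ∀ x y : Fin 8 → F, zP x y = zN (x + y) - zN x - zN y := fun x y => by
    simp only [zP, zN, Pi.add_apply]; ring
  rw [k, k, ← map_add, (g_TN g _).2, (g_TN g _).2, (g_TN g _).2]

theorem g_dye (g : G2 F) : ∃ x, zT x = 1 ∧ ∃ s : F, gρ F g x = x + s • z1 F := by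
  let T : (Fin 8 → F) →ₗ[F] F := LinearMap.proj (R := F) (φ := fun _ : Fin 8 => F) 0 +
    LinearMap.proj (R := F) (φ := fun _ : Fin 8 => F) 7
  have h1 : z1 F ∉ (LinearMap.ker T).map (gρ F g⁻¹ - 1) := by
    rintro ⟨w, h1, h2⟩
    have h3 : w 0 + w 7 = 0 := h1
    have h4 := (g_TN g⁻¹ w).2
    rw [show gρ F g⁻¹ w = w + z1 F from by rw [← h2]; simp] at h4
    simp [zN, z1] at h4
    exact one_ne_zero (α := F) (by linear_combination h4 - h3)
  obtain ⟨φ, a1, a2⟩ := Submodule.exists_dual_map_eq_bot_of_notMem h1 inferInstance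
  obtain ⟨x, hx⟩ : ∃ x, ∀ y, φ y = zP x y :=
    ⟨![φ (Pi.single 7 1), -φ (Pi.single 4 1), -φ (Pi.single 5 1), -φ (Pi.single 6 1),
      -φ (Pi.single 1 1), -φ (Pi.single 2 1), -φ (Pi.single 3 1), φ (Pi.single 0 1)], fun y => by
      conv_lhs => rw [pi_eq_sum_univ' y, map_sum, Fin.sum_univ_eight]
      simp [zP]; ring⟩
  have a3 : ∀ w, w 0 + w 7 = 0 → zP (gρ F g x) w = zP x w := fun w hw => by
    have : φ ((gρ F g⁻¹ - 1) w) ∈ (⊥ : Submodule F F) :=
      a2 ▸ Submodule.mem_map_of_mem (Submodule.mem_map_of_mem hw)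
    rw [Submodule.mem_bot, LinearMap.sub_apply, map_sub, hx, hx, ← g_P g, rho_inv'] at this
    exact sub_eq_zero.1 this
  have a4 : zT x ≠ 0 := by simpa [hx, zP, z1, zT] using a1
  refine ⟨(zT x)⁻¹ • x, by simpa [zT, ← mul_add] using inv_mul_cancel₀ a4,
    (zT x)⁻¹ * (gρ F g x 0 - x 0), ?_⟩
  rw [map_smul, mul_smul, ← smul_add]
  congr 1
  have b0 := a3 (Pi.single 0 1 - Pi.single 7 1) (by simp)
  have b1 := a3 (Pi.single 1 1) (by simp)
  have b2 := a3 (Pi.single 2 1) (by simp)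
  have b3 := a3 (Pi.single 3 1) (by simp)
  have b4 := a3 (Pi.single 4 1) (by simp)
  have b5 := a3 (Pi.single 5 1) (by simp)
  have b6 := a3 (Pi.single 6 1) (by simp)
  simp [zP] at b0 b1 b2 b3 b4 b5 b6
  simp only [zorn_ext, Pi.add_apply, Pi.smul_apply, smul_eq_mul]
  simp [z1, b1, b2, b3, b4, b5, b6]
  linear_combination b0

/-- the orbit relation -/
def Orb (x y : Fin 8 → F) : Prop := ∃ g : G2 F, gρ F g x = y

theorem Orb.trans {x y z : Fin 8 → F} (h : Orb x y) (h' : Orb y z) : Orb x z := by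
  obtain ⟨g, rfl⟩ := h
  obtain ⟨k, rfl⟩ := h'
  exact ⟨k * g, by simp⟩

theorem orb_of (f : (Fin 8 → F) → Fin 8 → F) (h1 : ∀ x y, f (x + y) = f x + f y)
    (h2 : ∀ (c : F) x, f (c • x) = c • f x) (h3 : ∀ x, f x = 0 → x = 0)
    (h4 : ∀ x y, f (zornMul x y) = zornMul (f x) (f y)) (x : Fin 8 → F) : Orb x (f x) := by
  let L : End F (Fin 8 → F) := ⟨⟨f, h1⟩, h2⟩
  obtain ⟨g, hg⟩ := glEquiv.surjective
    (LinearEquiv.ofInjectiveEndo L ((injective_iff_map_eq_zero L).2 h3))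
  have key : ∀ v, g.1 *ᵥ v = f v := fun v => by rw [← glEquiv_apply, hg]; rfl
  exact ⟨⟨g, fun x y => by simpa only [Units.coeHom_apply, key] using h4 x y⟩, key x⟩

theorem mv1 (t : F) (x : Fin 8 → F) : Orb x
    ![x 0 + t * x 1, x 1, x 2 + t * x 6, x 3 - t * x 5,
    x 4 + t * (x 7 - x 0) - t ^ 2 * x 1, x 5, x 6, x 7 - t * x 1] := by
  refine orb_of (fun x : Fin 8 → F => ![x 0 + t * x 1, x 1, x 2 + t * x 6, x 3 - t * x 5,
    x 4 + t * (x 7 - x 0) - t ^ 2 * x 1, x 5, x 6, x 7 - t * x 1])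
    (fun x y => ?_) (fun c x => ?_) (fun x h => ?_) (fun x y => ?_) x
  · simp [zorn_ext] <;> and_intros <;> ring
  · simp [zorn_ext] <;> and_intros <;> ring
  · simp [zorn_ext] at h ⊢; grind
  · simp [zorn_ext, zorn_app] <;> and_intros <;> ring

theorem mv12 (t : F) (x : Fin 8 → F) : Orb x
    ![x 0, x 1 + t * x 2, x 2, x 3, x 4, x 5 - t * x 4, x 6, x 7] := by
  refine orb_of (fun x : Fin 8 → F => ![x 0, x 1 + t * x 2, x 2, x 3, x 4, x 5 - t * x 4, x 6, x 7])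
    (fun x y => ?_) (fun c x => ?_) (fun x h => ?_) (fun x y => ?_) x
  · simp [zorn_ext] <;> and_intros <;> ring
  · simp [zorn_ext] <;> and_intros <;> ring
  · simp [zorn_ext] at h ⊢; grind
  · simp [zorn_ext, zorn_app] <;> and_intros <;> ring

theorem mv13 (t : F) (x : Fin 8 → F) : Orb x
    ![x 0, x 1 + t * x 3, x 2, x 3, x 4, x 5, x 6 - t * x 4, x 7] := by
  refine orb_of (fun x : Fin 8 → F => ![x 0, x 1 + t * x 3, x 2, x 3, x 4, x 5, x 6 - t * x 4, x 7])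
    (fun x y => ?_) (fun c x => ?_) (fun x h => ?_) (fun x y => ?_) x
  · simp [zorn_ext] <;> and_intros <;> ring
  · simp [zorn_ext] <;> and_intros <;> ring
  · simp [zorn_ext] at h ⊢; grind
  · simp [zorn_ext, zorn_app] <;> and_intros <;> ring

theorem mv21 (t : F) (x : Fin 8 → F) : Orb x
    ![x 0, x 1, x 2 + t * x 1, x 3, x 4 - t * x 5, x 5, x 6, x 7] := by
  refine orb_of (fun x : Fin 8 → F => ![x 0, x 1, x 2 + t * x 1, x 3, x 4 - t * x 5, x 5, x 6, x 7])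
    (fun x y => ?_) (fun c x => ?_) (fun x h => ?_) (fun x y => ?_) x
  · simp [zorn_ext] <;> and_intros <;> ring
  · simp [zorn_ext] <;> and_intros <;> ring
  · simp [zorn_ext] at h ⊢; grind
  · simp [zorn_ext, zorn_app] <;> and_intros <;> ring

theorem mv31 (t : F) (x : Fin 8 → F) : Orb x
    ![x 0, x 1, x 2, x 3 + t * x 1, x 4 - t * x 6, x 5, x 6, x 7] := by
  refine orb_of (fun x : Fin 8 → F => ![x 0, x 1, x 2, x 3 + t * x 1, x 4 - t * x 6, x 5, x 6, x 7])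
    (fun x y => ?_) (fun c x => ?_) (fun x h => ?_) (fun x y => ?_) x
  · simp [zorn_ext] <;> and_intros <;> ring
  · simp [zorn_ext] <;> and_intros <;> ring
  · simp [zorn_ext] at h ⊢; grind
  · simp [zorn_ext, zorn_app] <;> and_intros <;> ring

theorem mvs (x : Fin 8 → F) : Orb x
    ![x 7, -x 4, -x 5, -x 6, -x 1, -x 2, -x 3, x 0] := by
  refine orb_of (fun x : Fin 8 → F => ![x 7, -x 4, -x 5, -x 6, -x 1, -x 2, -x 3, x 0])
    (fun x y => ?_) (fun c x => ?_) (fun x h => ?_) (fun x y => ?_) x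
  · simp [zorn_ext] <;> and_intros <;> ring
  · simp [zorn_ext] <;> and_intros <;> ring
  · simp [zorn_ext] at h ⊢; grind
  · simp [zorn_ext, zorn_app] <;> and_intros <;> ring

theorem Orb.TN {x y : Fin 8 → F} (h : Orb x y) : zT y = zT x ∧ zN y = zN x := by
  obtain ⟨g, rfl⟩ := h
  exact g_TN g x

/-- the normal form -/
def nf (c : F) : Fin 8 → F := ![0, 1, 0, 0, -c, 0, 0, 1]

theorem orb_nf [CharP F 2] {c : F} (hc : c ≠ 0) (x : Fin 8 → F) (h1 : zT x = 1) (h2 : zN x = c) :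
    Orb x (nf c) := by
  let Q : (Fin 8 → F) → Prop := fun x => zT x = 1 → zN x = c → Orb x (nf c)
  have step : ∀ x y, Orb x y → Q y → Q x := fun x y h hy h1 h2 =>
    h.trans (hy (h.TN.1.trans h1) (h.TN.2.trans h2))
  have s0 : ∀ x, x 0 = 0 → x 1 = 1 → x 2 = 0 → x 3 = 0 → x 5 = 0 → x 6 = 0 → Q x :=
    fun x a0 a1 a2 a3 a5 a6 h1 h2 => ⟨1, by
      simp [zT, zN, a0, a1, a2, a3] at h1 h2
      simp [nf, zorn_ext, ← h2, a0, a1, a2, a3, a5, a6, h1]⟩
  have s1 : ∀ x, x 0 = 0 → x 1 = 1 → x 2 = 0 → x 3 = 0 → Q x := fun x a0 a1 a2 a3 h1 h2 => by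
    have h4 : x 4 ≠ 0 := fun h => hc (by simp [← h2, zN, a0, a2, a3, h])
    exact step _ _ (mv12 (x 5 / x 4) x) (step _ _ (mv13 (x 6 / x 4) _)
      (s0 _ (by simp [*]) (by simp [*]) (by simp [*]) (by simp [*]) (by simp [*]) (by simp [*])))
      h1 h2
  have s2 : ∀ x, x 0 = 0 → x 1 = 1 → Q x := fun x a0 a1 =>
    step _ _ (mv21 (-x 2) x) (step _ _ (mv31 (-x 3) _)
      (s1 _ (by simp [*]) (by simp [*]) (by simp [*]) (by simp [*])))
  have s3 : ∀ x, x 0 = 0 → x 1 ≠ 0 → Q x := fun x a0 a1 =>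
    step _ _ (mv21 ((1 - x 2) / x 1) x) (step _ _ (mv12 (1 - x 1) _)
      (s2 _ (by simp [*]) (by simp [*])))
  have s4 : ∀ x, x 1 ≠ 0 → Q x := fun x a1 =>
    step _ _ (mv1 (-x 0 / x 1) x) (s3 _ (by simp [*]) (by simp [*]))
  by_cases a1 : x 1 = 0
  swap
  · exact s4 x a1 h1 h2
  by_cases a2 : x 2 = 0
  swap
  · exact step _ _ (mv12 1 x) (s4 _ (by simp [*])) h1 h2
  by_cases a3 : x 3 = 0
  swap
  · exact step _ _ (mv13 1 x) (s4 _ (by simp [*])) h1 h2
  have h3 : x 7 - x 0 = 1 := by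
    have : (2 : F) = 0 := CharP.cast_eq_zero F 2
    have h4 : x 0 + x 7 = 1 := h1
    linear_combination h4 - x 0 * this
  exact step _ _ (mv1 (1 - x 4) x) (step _ _ (mvs _) (s4 _ (by simp [*]))) h1 h2

theorem g2 [Fintype F] [CharP F 2] (h : ∃ c : F, c ≠ 0 ∧ c ≠ 1) : Cov (G2 F) := by
  have h2 := two_eq (F := F)
  have k0 : ∀ (g : G2 F) x, (Submodule.span F {z1 F, x}).map (gρ F g) =
      Submodule.span F {z1 F, gρ F g x} := fun g x => by
    rw [Submodule.map_span, Set.image_pair, g_one]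
  have k1 : ∀ c : F, stab (gρ F) (Submodule.span F {z1 F, nf c}) ≠ ⊤ := fun c h => by
    obtain ⟨g, hg⟩ := mv21 1 (nf c)
    have := (mem_stab _).1 (h.ge trivial : g ∈ _) (nf c) (Submodule.subset_span (by simp))
    rw [hg, Submodule.mem_span_pair] at this
    obtain ⟨a, b, hab⟩ := this
    simpa [z1, nf] using congrFun hab 2
  have k2 : ∀ (g : G2 F) x (s c : F), c ≠ 0 → zT x = 1 → gρ F g x = x + s • z1 F →
      (∃ y, zN x + c = y ^ 2 + y) →
      ∃ k, k * g * k⁻¹ ∈ stab (gρ F) (Submodule.span F {z1 F, nf c}) := by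
    rintro g x s c hc h1 h3 ⟨y, hy⟩
    obtain ⟨k, hk⟩ := orb_nf hc (x + y • z1 F) (by
      simp [zT, z1] at h1 ⊢; linear_combination h1 + y * h2) (by
      simp [zT, zN, z1] at h1 hy ⊢; linear_combination hy + y * h1 + (y ^ 2 + y - c) * h2)
    refine ⟨k, conj_stab _ (U := Submodule.span F {z1 F, x + y • z1 F}) ?_ (by rw [k0, hk])⟩
    refine (mem_stab _).2 fun v hv => ?_
    obtain ⟨a, b, rfl⟩ := Submodule.mem_span_pair.1 hv
    refine Submodule.mem_span_pair.2 ⟨a + b * s, b, ?_⟩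
    simp only [map_add, map_smul, g_one, h3]
    module
  obtain ⟨a, a0, a1⟩ := h
  obtain ⟨c, hc⟩ := ex_asP (F := F) (d := 2) (by omega)
  have hc' : ¬ ∃ x, c = x ^ 2 + x := fun ⟨x, hx⟩ => hc x (by linear_combination -hx - x * h2)
  refine ⟨_, _, k1 (a ^ 2 + a), k1 c, fun g => ?_⟩
  obtain ⟨x, h1, s, h3⟩ := g_dye g
  by_cases h4 : ∃ y, zN x = y ^ 2 + y
  · obtain ⟨y, hy⟩ := h4
    refine (k2 g x s _ (fun h => ?_) h1 h3 ⟨y + a, by
      linear_combination hy - y * a * h2⟩).imp fun _ => Or.inl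
    exact mul_ne_zero a0 (sub_ne_zero.2 a1) (by linear_combination h - a * h2)
  · exact (k2 g x s c (fun h => hc' ⟨0, by simp [h]⟩) h1 h3 (wp_add h4 hc')).imp fun _ => Or.inr

end G2

end H16.Cv
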