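import Cfsg.Agent.H3.Tate
import Cfsg.Agent.H18.Cyc

/-! The Hall-Wielandt transfer theorem in strong form (`hall_wielandt`): if `W` is weakly closed in the Sylow
subgroup `S` and `N(W)` does not control `O^p`, then `[x, z, …, z]` (`p - 1` entries `z ∈ W`) is not killed by
some homomorphism to `C_p` from a subgroup of index `p` of `W`. Transfer cocycle `coc`, `prod_orbits`. -/

set_option autoImplicit false

namespace H16
open Subgroup MulAction Finset H18 Cfsg

variable {G : Type*} [Group G] {A : Type*} [CommGroup A] {H : Subgroup G}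

/-- the transfer cocycle -/
noncomputable def coc (φ : H →* A) (g : G) (a : G ⧸ H) : A :=
  φ ⟨(g • a).out⁻¹ * g * a.out, mul_assoc _ g _ ▸ QuotientGroup.eq.1 (by simp [← smul_eq_mul])⟩

theorem coc_mul (φ : H →* A) (g k : G) (a : G ⧸ H) : coc φ (g * k) a = coc φ g (k • a) * coc φ k a := by
  simp only [coc, ← map_mul]
  congr 1
  ext
  simp [mul_smul, mul_assoc]

theorem coc_one (φ : H →* A) (a : G ⧸ H) : coc φ 1 a = 1 := by
  simp only [coc, ← map_one φ]
  congr 1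
  ext
  simp

theorem coc_pow (φ : H →* A) (g : G) (a : G ⧸ H) (k : ℕ) : ∏ i ∈ range k, coc φ g (g ^ i • a) = coc φ (g ^ k) a := by
  induction k with
  | zero => simp [coc_one]
  | succ k ih => rw [prod_range_succ_comm, ih, pow_succ', coc_mul]

theorem prod_smul {X : Type*} [MulAction G X] {B : Finset X} {g : G} (h : ∀ b, g • b ∈ B ↔ b ∈ B) (f : X → A) :
    ∏ b ∈ B, f (g • b) = ∏ b ∈ B, f b :=
  prod_bijective _ (MulAction.bijective g) (fun b => (h b).symm) fun _ _ => rfl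

/-- partial transfer along an invariant set of cosets -/
noncomputable def ptr (φ : H →* A) (M : Subgroup G) (B : Finset (G ⧸ H)) (h : ∀ g ∈ M, ∀ b, g • b ∈ B ↔ b ∈ B) :
    M →* A := MonoidHom.mk' (fun g => ∏ b ∈ B, coc φ g b) fun g k => by
  simp only [Subgroup.coe_mul, coc_mul, prod_mul_distrib, prod_smul (h _ k.2)]

theorem prod_coc_conj (φ : H →* A) {B : Finset (G ⧸ H)} {u z : G} (h : ∀ b, (z⁻¹ * u * z) • b ∈ B ↔ b ∈ B) :
    ∏ b ∈ B, coc φ (z⁻¹ * u * z) b = ∏ b ∈ B, coc φ u (z • b) := by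
  have : ∏ b ∈ B, coc φ z⁻¹ (u • z • b) = ∏ b ∈ B, coc φ z⁻¹ (z • b) := by
    rw [← prod_smul h (fun b => coc φ z⁻¹ (z • b))]
    simp [mul_smul]
  simp only [coc_mul, prod_mul_distrib, this]
  rw [mul_right_comm, ← prod_mul_distrib]
  simp [← coc_mul, coc_one]

open Classical in
theorem prod_orbits {X : Type*} [Fintype X] [MulAction G X] (T : Subgroup G) (s : Finset X)
    (hs : ∀ g ∈ T, ∀ a ∈ s, g • a ∈ s) (f : X → A) (h : ∀ a ∈ s, ∏ b with b ∈ orbit T a, f b = 1) : ∏ a ∈ s, f a = 1 := by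
  rw [← prod_fiberwise s (Quotient.mk (orbitRel T X))]
  refine prod_eq_one fun w _ => ?_
  obtain e | ⟨a, ha'⟩ := (s.filter (Quotient.mk (orbitRel T X) · = w)).eq_empty_or_nonempty
  · rw [e, prod_empty]
  obtain ⟨ha, rfl⟩ := mem_filter.1 ha'
  refine (prod_congr (Finset.ext fun b => ?_) fun _ _ => rfl).trans (h a ha)
  simp only [mem_filter, mem_univ, true_and, Quotient.eq, orbitRel_apply, and_iff_right_iff_imp]
  rintro ⟨g, rfl⟩
  exact hs _ g.2 a ha

theorem prod_conj {p : ℕ} [Fact p.Prime] {M : Subgroup G} (θ : M →* Multiplicative (ZMod p)) {z : G}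
    (hz : z ∈ N(M)) (u : M) : ∃ h, ∏ i ∈ range p, θ ⟨(z ^ i)⁻¹ * u * z ^ i, conj_mem_N' (pow_mem hz i) u.2⟩ =
      θ ⟨(fun y => y⁻¹ * z⁻¹ * y * z)^[p - 1] u, h⟩ := by
  let T : Module.End (ZMod p) (ℕ → ZMod p) := LinearMap.funLeft _ _ Nat.succ
  let f : M → ℕ → ZMod p := fun u i => (θ ⟨(z ^ i)⁻¹ * u * z ^ i, conj_mem_N' (pow_mem hz i) u.2⟩).toAdd
  have k : ∀ k, ∃ h, ((T - 1) ^ k) (f u) = f ⟨(fun y => y⁻¹ * z⁻¹ * y * z)^[k] u, h⟩ := fun k => by
    induction k with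
    | zero => exact ⟨u.2, rfl⟩
    | succ k ih =>
      obtain ⟨h, e⟩ := ih
      simp only [Function.iterate_succ_apply']
      refine ⟨by simpa only [mul_assoc] using mul_mem (inv_mem h) (conj_mem_N' hz h), funext fun i => ?_⟩
      rw [pow_succ', Module.End.mul_apply, e]
      simp only [LinearMap.sub_apply, Module.End.one_apply, Pi.sub_apply, T, LinearMap.funLeft_apply, f]
      rw [sub_eq_neg_add, ← toAdd_inv, ← toAdd_mul, ← map_inv, ← map_mul]
      congr 2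
      ext
      simp [pow_succ', mul_assoc]
  have t : ∀ i (g : ℕ → ZMod p), (T ^ i) g 0 = g i := fun i => by
    induction i with
    | zero => exact fun _ => rfl
    | succ i ih => exact fun g => by rw [pow_succ, Module.End.mul_apply, ih]; rfl
  have e : ∑ i ∈ range p, (Polynomial.X : Polynomial (ZMod p)) ^ i = (Polynomial.X - 1) ^ (p - 1) :=
    mul_right_cancel₀ (Polynomial.X_sub_C_ne_zero 1) (by
      rw [map_one, geom_sum_mul, ← pow_succ, Nat.sub_add_cancel (Fact.out : p.Prime).pos, sub_pow_char, one_pow])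
  obtain ⟨h, e'⟩ := k (p - 1)
  refine ⟨h, Multiplicative.toAdd.injective ?_⟩
  have := congrArg (fun q => Polynomial.aeval T q (f u) 0) e
  simp only [map_sum, map_pow, map_sub, map_one, Polynomial.aeval_X, LinearMap.sum_apply, Finset.sum_apply, t, e'] at this
  simpa [toAdd_prod, f] using this

theorem hall_wielandt [Finite G] {p : ℕ} [Fact p.Prime] (S : Sylow p G) {W : Subgroup G}
    (hW : IsWeaklyClosed W (S : Subgroup G)) (h : (pResidual p N(W)).map N(W).subtype ≠ pResidual p G ⊓ N(W)) :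
    ∃ x ∈ (S : Subgroup G), ∃ z ∈ W, ∃ W₀ ≤ W, W₀.relIndex W = p ∧ ∃ (θ : W₀ →* Multiplicative (ZMod p)) (h : _),
      θ ⟨(fun y => y⁻¹ * z⁻¹ * y * z)^[p - 1] x, h⟩ ≠ 1 := by
  classical
  have hp : p.Prime := Fact.out
  have := Fintype.ofFinite (G ⧸ N(W))
  have SN : (S : Subgroup G) ≤ N(W) := fun g hg => mem_N_iff_cj.2 (hW.2 g (cj_le_of_mem hW.1 hg))
  have hS : Hall {p} (S : Subgroup G) N(W) := (hall_sylow_top hp S).of_le SN le_top
  obtain ⟨M, _, hM, hn⟩ : ∃ M : Subgroup N(W), M.Normal ∧ M.index = p ∧ ¬ (pResidual p G).subgroupOf N(W) ≤ M := by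
    by_contra! c
    exact h (by rw [← H3.tate (fun d => S.not_dvd_index (d.trans (index_dvd_of_le SN))) c,
      subgroupOf_map_subtype])
  let φ : N(W) →* Multiplicative (ZMod p) := (mulEquivOfPrimeCardEq (G := N(W) ⧸ M) hM
    ((Nat.card_congr Multiplicative.toAdd).trans (Nat.card_zmod p))).toMonoidHom.comp (QuotientGroup.mk' M)
  have pg : IsPGroup p (Multiplicative (ZMod p)) :=
    .of_card ((Nat.card_congr Multiplicative.toAdd).trans ((Nat.card_zmod p).trans (pow_one p).symm))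
  have ex : ∃ n, ∃ u : N(W), (u : G) ∈ pResidual p G ∧ PiElt {p} (u : G) ∧ φ u ≠ 1 ∧ orderOf (u : G) = n := by
    obtain ⟨g, hg, hg'⟩ := SetLike.not_le_iff_exists.1 hn
    obtain ⟨a, b, ha, -, ⟨k, hk⟩, hb, rfl, -⟩ := H3.exists_p_part (p := p) g (orderOf_pos g).ne'
    refine ⟨_, a, zpowers_le.2 hg ha, ?_, fun c => hg' (mul_mem ?_ ?_), rfl⟩
    · exact (piNat_pow_self hp k).of_dvd (by simpa using orderOf_dvd_of_pow_eq_one hk)
    · simpa [φ] using c
    · simpa [φ] using H3.pResidual_le_ker pg φ (H3.mem_pResidual_of_coprime hb)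
  obtain ⟨u, h1, h2, h3, h4⟩ := Nat.find_spec ex
  wlog hu : (u : G) ∈ (S : Subgroup G) generalizing u
  · obtain ⟨g, hg, e⟩ := sylow_le_cj hp hS h2.zpowers (zpowers_le.2 u.2)
    exact this (⟨g, hg⟩ * u * ⟨g, hg⟩⁻¹) (H3.pResidual_normal.conj_mem _ h1 g) (h2.conj g) (by simpa using h3)
      (orderOf_conj.trans h4) (e (conj_mem_cj (mem_zpowers _)))
  by_contra! c
  have fx : ∀ a : G ⧸ N(W), (∀ w ∈ W, w • a = a) → a = ((1 : G) : G ⧸ N(W)) := fun a ha => by
    obtain ⟨t, rfl⟩ := QuotientGroup.mk_surjective a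
    obtain ⟨g, hg, e⟩ := sylow_le_cj hp hS (((hall_sylow_top hp S).pi.of_le hW.1).cj t⁻¹) fun x hx => by
      obtain ⟨w, hw, rfl⟩ := mem_cj'.1 hx
      simpa [mul_assoc] using QuotientGroup.eq.1 (ha w hw).symm
    rw [cj_cj] at e
    simpa [QuotientGroup.eq] using (N(W).mul_mem_cancel_left hg).1 (mem_N_iff_cj.2 (hW.2 _ e))
  have uW : zpowers (u : G) ≤ N(W) := zpowers_le.2 u.2
  have TS : zpowers (u : G) ⊔ W ≤ S := sup_le (zpowers_le.2 hu) hW.1
  set T := zpowers (u : G) ⊔ W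
  have fo : ∀ g ∈ T, g • ((1 : G) : G ⧸ N(W)) = ((1 : G) : G ⧸ N(W)) := fun g hg => by
    simpa [QuotientGroup.eq] using SN (TS hg)
  have e1 := H3.pResidual_le_ker pg ((ptr φ ⊤ univ (by simp)).comp topEquiv.symm.toMonoidHom) h1
  change ∏ b, coc φ u b = 1 at e1
  rw [← mul_prod_erase _ _ (mem_univ ((1 : G) : G ⧸ N(W))), prod_orbits T, mul_one] at e1
  · have m : ((1 : G) : G ⧸ N(W)).out ∈ N(W) := by
      simpa using QuotientGroup.eq.1 (QuotientGroup.out_eq' ((1 : G) : G ⧸ N(W))).symm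
    refine h3 ?_
    rw [← e1, ← inv_mul_cancel_comm (φ ⟨_, m⟩) (φ u), ← map_inv, ← map_mul, ← map_mul]
    simp only [coc, fo _ (mem_sup_left (mem_zpowers _))]
    rfl
  · intro g hg a ha
    rw [mem_erase] at ha ⊢
    exact ⟨fun e => ha.1 (smul_left_cancel g (e.trans (fo g hg).symm)), mem_univ _⟩
  intro a ha
  by_cases hb : ∀ b ∈ orbit T a, (u : G) • b ≠ b
  · refine prod_orbits (zpowers (u : G)) _ (fun g hg b hb => ?_) _ fun b hb' => ?_
    · rw [mem_filter] at hb ⊢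
      exact ⟨mem_univ _, mapsTo_smul_orbit (⟨g, mem_sup_left hg⟩ : T) a hb.2⟩
    set k := Function.minimalPeriod ((u : G) • ·) b
    have e : (u : G) ^ k • b = b := pow_smul_eq_iff_minimalPeriod_dvd.2 dvd_rfl
    have k0 : k ≠ 0 := NeZero.ne k
    rw [← prod_bij (s := range k) (f := fun i => coc φ u ((u : G) ^ i • b)) (fun i _ => (u : G) ^ i • b)
      (fun i _ => mem_filter.2 ⟨mem_univ _, ⟨_, npow_mem_zpowers _ i⟩, rfl⟩)
      (fun i hi j hj e => Function.iterate_injOn_Iio_minimalPeriod (mem_range.1 hi) (mem_range.1 hj)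
        (by simpa only [smul_iterate] using e)) (fun d hd => ?_) fun _ _ => rfl, coc_pow]
    · refine by_contra fun c => Nat.find_min ex (m := orderOf ((u : G) ^ k)) ?_ ⟨_, ?_, ?_, c, ?_⟩
      · have d : k ∣ orderOf (u : G) := pow_smul_eq_iff_minimalPeriod_dvd.1 (by rw [pow_orderOf_eq_one, one_smul])
        rw [← h4, orderOf_pow_of_dvd k0 d]
        refine Nat.div_lt_self (orderOf_pos _) (k0.bot_lt.succ_le.lt_of_ne fun e' => hb b (mem_filter.1 hb').2 ?_)
        simpa [← e'] using e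
      · simpa [e] using H3.pResidual_normal.conj_mem' _ (pow_mem h1 k) b.out
      · simpa [e] using (h2.pow' k).conj b.out⁻¹
      · simpa [e] using orderOf_conj (g := b.out⁻¹) (x := (u : G) ^ k)
    · obtain ⟨⟨g, hg⟩, rfl⟩ := (mem_filter.1 hd).2
      obtain ⟨i, rfl⟩ := (mem_powers_iff_mem_zpowers.2 hg : g ∈ Submonoid.powers _)
      exact ⟨i % k, mem_range.2 (Nat.mod_lt _ k0.bot_lt), pow_smul_mod_minimalPeriod ..⟩
  push Not at hb
  obtain ⟨b, hb, ub⟩ := hb
  refine (prod_congr (s₂ := univ.filter (· ∈ orbit T b)) (Finset.ext fun d => by simp [orbit_eq_iff.2 hb]; rfl)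
    fun _ _ => rfl).trans ?_
  have nW : ¬ W ≤ stabilizer G b := fun c => (mem_erase.1 ha).1 <| by
    obtain ⟨g, rfl⟩ := hb
    exact smul_left_cancel g.1 ((fx _ c).trans (fo _ g.2).symm)
  have pT := (hall_sylow_top hp S).pi.of_le TS
  obtain ⟨K, k1, k2, k3⟩ := pT.exists_index_p (K := stabilizer G b ⊓ T)
    (inf_lt_right.2 fun c => nW (le_sup_right.trans c))
  have uK : (u : G) ∈ K := k1 ⟨ub, mem_sup_left (mem_zpowers _)⟩
  have KT : ¬ T ≤ K := fun c => hp.ne_one (k3.symm.trans (relIndex_eq_one_iff.2 c))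
  obtain ⟨z, hz, zK⟩ := SetLike.not_le_iff_exists.1 fun c => KT (sup_le (zpowers_le.2 uK) c)
  have zT : z ∈ T := mem_sup_right hz
  have o : K.relIndex (zpowers z) = p := (hp.eq_one_or_self_of_dvd _ (k3 ▸ k2.relIndex_dvd (zpowers_le.2 zT))).resolve_left
    fun e => zK (zpowers_le.1 (relIndex_eq_one_iff.1 e))
  have zp : ∀ i, z ^ i ∈ K ↔ p ∣ i := fun i => by
    have := k2.subgroupOf_normal
    have e : orderOf ((⟨z, zT⟩ : T) : T ⧸ K.subgroupOf T) = p := orderOf_eq_prime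
      (by rw [← k3]; exact pow_card_eq_one') (by simpa [mem_subgroupOf] using zK)
    rw [← e, orderOf_dvd_iff_pow_eq_one, ← QuotientGroup.mk_pow, QuotientGroup.eq_one_iff]
    rfl
  have hB : ∀ g ∈ K, ∀ d, g • d ∈ univ.filter (· ∈ orbit K b) ↔ d ∈ univ.filter (· ∈ orbit K b) := fun g hg d => by
    simp only [mem_filter, mem_univ, true_and]
    exact ⟨fun h => inv_smul_smul g d ▸ mem_orbit_of_mem_orbit (⟨g, hg⟩ : K)⁻¹ h, mem_orbit_of_mem_orbit (⟨g, hg⟩ : K)⟩
  obtain ⟨m, e⟩ := prod_conj (ptr φ K _ hB) (k2.norm zT) ⟨u, uK⟩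
  have mW : (fun y => y⁻¹ * z⁻¹ * y * z)^[p - 1] u ∈ W := by
    obtain ⟨j, hj⟩ := Nat.exists_eq_add_of_le' (Nat.sub_pos_of_lt hp.one_lt)
    rw [hj, Function.iterate_succ_apply']
    exact mul_mem (conj_mem_N' (sup_le uW le_N (k2.le (by
      clear hj
      induction j with
      | zero => exact uK
      | succ j ih =>
        rw [Function.iterate_succ_apply']
        simpa only [mul_assoc] using mul_mem (inv_mem ih) (conj_mem_N' (k2.norm zT) ih)))) (inv_mem hz)) hz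
  replace e := e.trans (c u hu z hz (K ⊓ W) inf_le_right (by
    rw [relIndex_inf_right]
    exact (hp.eq_one_or_self_of_dvd _ (k3 ▸ k2.relIndex_dvd le_sup_right)).resolve_left
      fun e => zK (relIndex_eq_one_iff.1 e hz)) ((ptr φ K _ hB).comp (inclusion inf_le_left)) ⟨m, mW⟩)
  simp only [ptr, MonoidHom.mk'_apply] at e
  rw [prod_congr rfl fun i _ => prod_coc_conj φ (hB _ (conj_mem_N' (pow_mem (k2.norm zT) i) uK)), ← prod_product'] at e
  refine (prod_bij (fun x _ => z ^ x.1 • x.2) ?_ ?_ ?_ fun _ _ => rfl).symm.trans e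
  · rintro ⟨i, _⟩ hi
    obtain ⟨g, rfl⟩ := (mem_filter.1 (mem_product.1 hi).2).2
    exact mem_filter.2 ⟨mem_univ _, ⟨z ^ i * g, mul_mem (pow_mem zT i) (k2.le g.2)⟩, mul_smul (z ^ i) (g : G) b⟩
  · rintro ⟨i, _⟩ hi ⟨j, _⟩ hj e
    obtain ⟨g, rfl⟩ := (mem_filter.1 (mem_product.1 hi).2).2
    obtain ⟨g', rfl⟩ := (mem_filter.1 (mem_product.1 hj).2).2
    wlog ij : i ≤ j generalizing i j g g'
    · exact (this j i g' hj g hi e.symm (by omega)).symm
    have hj := mem_range.1 (mem_product.1 hj).1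
    obtain ⟨d, rfl⟩ := Nat.exists_eq_add_of_le ij
    have e' : (g : G) • b = z ^ d • (g' : G) • b := smul_left_cancel (z ^ i) (e.trans (by rw [pow_add, mul_smul]; rfl))
    have : (g : G)⁻¹ * (z ^ d * g') ∈ K := k1 ⟨by simp [mul_smul, ← e'],
      T.mul_mem (T.inv_mem (k2.le g.2)) (mul_mem (pow_mem zT d) (k2.le g'.2))⟩
    rw [K.mul_mem_cancel_left (inv_mem g.2), K.mul_mem_cancel_right g'.2, zp] at this
    obtain rfl := Nat.eq_zero_of_dvd_of_lt this (by omega)
    exact Prod.ext rfl (e'.trans (by rw [pow_zero, one_smul]; rfl))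
  · intro d hd
    obtain ⟨⟨g, hg⟩, rfl⟩ := (mem_filter.1 hd).2
    have : zpowers z ⊔ K = T := (eq_or_eq_of_prime_relIndex (by rwa [k3]) le_sup_right
      (sup_le (zpowers_le.2 zT) k2.le)).resolve_left fun e => zK (e.le (mem_sup_left (mem_zpowers z)))
    obtain ⟨y, hy, k, hk, rfl⟩ := (mem_sup_of_norm ((zpowers_le.2 zT).trans k2.norm)).1 (this.ge hg)
    obtain ⟨i, rfl⟩ := (mem_powers_iff_mem_zpowers.2 hy : y ∈ Submonoid.powers _)
    refine ⟨(i % p, (z ^ (p * (i / p)) * k) • b), mem_product.2 ⟨mem_range.2 (Nat.mod_lt _ hp.pos), mem_filter.2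
      ⟨mem_univ _, ⟨_, mul_mem ((zp _).2 (dvd_mul_right ..)) hk⟩, rfl⟩⟩, ?_⟩
    simp only [smul_smul, ← mul_assoc, ← pow_add, Nat.mod_add_div]
    rfl

end H16
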