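import Cfsg.Agent.H16.M24x

/-! `M23` is generated by the shift and the cube twist; the Frobenius group `23:11` is the normaliser of the shift and is
maximal in `M23`. -/

set_option autoImplicit false
set_option maxRecDepth 100000

namespace H16.MX
open H14 Cfsg MulAction
open scoped Pointwise

theorem G23_le_tc : G23 ≤ sub M0.gen [[0], [4]] := by
  have h := sub_le_of_slp (base := [[0], [4]]) (steps := [([6], [1, 1, 1, 3, 3, 0, 2, 1]),
    ([10], [5, 3, 3, 5, 5, 2, 4, 3, 3]), ([8], [3, 4, 4, 2, 2, 5]), ([14], [5, 6, 8, 5, 8]), ([12], [6, 11, 6, 8, 10]),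
    ([18], [3, 4, 12, 10]), ([20], [11, 7, 12, 9, 9]), ([16], [13, 10, 12])])
    (M0.rels_of_idArr (D := 5) (by norm_num) (by decide +kernel))
  rw [← G23_eq]
  refine le_trans (sub_mono (ws := [[0], [4]] ++ _) _ ?_) ((sub_append _ _ _).trans_le (sup_le le_rfl h))
  decide +kernel

theorem ev_smul_pt {w : Word} {f : GolayPt → GolayPt}
    (h : ∀ p, tb (runW (letN M24c.nets) w (bit (gi p))) (gi (f p)) = true) (p : GolayPt) :
    ev M0.gen w • p = f p := by
  have := (M0.mem_S_runW_bit w (gi_lt p) (f p)).1 ((tb_eq _ _).symm.trans (h p))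
  rw [this]; exact congrArg _ (gp_gi p).symm

noncomputable abbrev tt : M24 := ev M0.gen [0]
noncomputable abbrev mm : M24 := ev M0.gen [15, 17, 4, 9, 11]
/-- the Frobenius group of order 253 -/
noncomputable abbrev N253 : Subgroup M24 := sub M0.gen [[0], [15, 17, 4, 9, 11]]

theorem tt_smul (p : GolayPt) : tt • p = p.map (· + 1) := ev_smul_pt (by decide +kernel) p
theorem mm_smul (p : GolayPt) : mm • p = p.map (2 * ·) := ev_smul_pt (by decide +kernel) p
theorem tt_pow (k : ℕ) (p : GolayPt) : tt ^ k • p = p.map (· + (k : ZMod 23)) := by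
  induction k with
  | zero => simp
  | succ k ih => rw [pow_succ', mul_smul, ih, tt_smul]; cases p <;> simp [add_assoc]
theorem mm_pow (k : ℕ) (p : GolayPt) : mm ^ k • p = p.map (2 ^ k * ·) := by
  induction k with
  | zero => simp
  | succ k ih => rw [pow_succ', mul_smul, ih, mm_smul]; cases p <;> simp [pow_succ', mul_assoc]
theorem ord_tt : orderOf tt = 23 :=
  M0.orderOf_prime (D := 5) (by norm_num) (by norm_num) (by norm_num) (by decide +kernel)

theorem nrm_tt {g : M24} (h : g ∈ G23) (h1 : g * tt * g⁻¹ ∈ Subgroup.zpowers tt) :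
    ∃ i < 23, ∃ j < 11, g = tt ^ i * mm ^ j := by
  obtain ⟨k, -, e⟩ := Finset.mem_image.1 (mem_zpowers_iff_mem_range_orderOf.1 h1)
  obtain ⟨a, ha⟩ : ∃ a, g • (some 0 : GolayPt) = some a := by
    cases e' : g • (some 0 : GolayPt) with
    | none => exact absurd (smul_left_cancel g (e'.trans (mem_stabilizer_iff.1 h).symm)) (by decide)
    | some a => exact ⟨a, rfl⟩
  have h2 : ∀ p : GolayPt, g • p = p.map fun x => k * x + a := by
    rintro (_ | x)
    · exact h
    · have : g * tt ^ x.val = tt ^ (k * x.val) * g := by rw [pow_mul, e, conj_pow, inv_mul_cancel_right]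
      have h3 := congrArg (· • (some 0 : GolayPt)) this
      simp only [mul_smul, ha, tt_pow, Option.map_some, zero_add, ZMod.natCast_val, ZMod.cast_id', id,
        Nat.cast_mul] at h3
      rw [h3, add_comm]; rfl
  have h4 : ∀ p : GolayPt, ((tt ^ a.val)⁻¹ * g) • p = p.map ((k : ZMod 23) * ·) := fun p => by
    rw [mul_smul, inv_smul_eq_iff, h2, tt_pow]; cases p <;> simp
  have h5 := smul_mem_octads ((tt ^ a.val)⁻¹ * g) (bset_mem_octads (m := 0x82402f) (by decide +kernel))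
  rw [Finset.smul_finset_def, Finset.image_congr (g := Option.map ((k : ZMod 23) * ·)) (fun p _ => h4 p),
    mem_octads, mem_GC_iff_mask, isCW_iff] at h5
  obtain ⟨j, hj, e'⟩ := (show ∀ c : ZMod 23, cw (mask ((bset 0x82402f).image (Option.map (c * ·)))) = true →
    ∃ j < 11, c = 2 ^ j by decide +kernel) _ h5.1
  refine ⟨_, a.val_lt, j, hj, inv_mul_eq_iff_eq_mul.1 (Subtype.ext (Equiv.ext fun p => (h4 p).trans ?_))⟩
  rw [e']; exact (mm_pow j p).symm

theorem N253_le : N253 ≤ G23 := le_G23 (by decide +kernel)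

theorem N253_eq : N253 = G23 ⊓ Subgroup.normalizer (Subgroup.zpowers tt : Set M24) ∧ Nat.card N253 = 253 := by
  classical
  have h := M0.eq_sub_of_low (A := G23 ⊓ Subgroup.normalizer (Subgroup.zpowers tt : Set M24)) (N := 253)
    (c := .cons 0 [[0]] [[0], [0, 0], [0, 0, 0, 0], [0, 0, 0, 0, 0, 0, 0, 0], [1, 1], [1, 1, 1, 1], [0]]
      (.cons 1 [[15, 17, 4, 9, 11]] [[0], [0, 0], [1, 1, 1], [0, 0, 0], [0]] .nil))
    (le_inf N253_le (sub_single M0.gen [0] ▸ le_normalizer_of (hs := [[0], [15, 17, 4, 9, 11]]) (vs := [[0], [0, 0]])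
      (M0.rels_of_idArr (D := 5) (by norm_num) (by decide +kernel))))
    ((Set.ncard_le_ncard (t := ↑(Finset.image₂ (fun i j => tt ^ i * mm ^ j) (Finset.range 23) (Finset.range 11)))
      fun g hg => by
        obtain ⟨i, hi, j, hj, e⟩ := nrm_tt hg.1
          ((Subgroup.mem_normalizer_iff.1 hg.2 tt).1 (Subgroup.mem_zpowers _))
        exact Finset.mem_image₂.2 ⟨i, Finset.mem_range.2 hi, j, Finset.mem_range.2 hj, e.symm⟩).trans (by
      rw [Set.ncard_coe_finset]; exact (Finset.card_image₂_le _ _ _).trans (by simp))) (by decide +kernel)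
  have e : N253 = _ := h.1
  exact ⟨e, by rw [e]; exact h.2⟩

theorem eq_G23_of_even {K : Subgroup M24} (h1 : N253 ≤ K) (h2 : K ≤ G23) (h3 : 2 ∣ Nat.card K) : K = G23 := by
  obtain ⟨z, hz, ho⟩ := exists_ord (H := K) Nat.prime_two h3
  obtain ⟨o, ho1, ho2, ho3⟩ := octad_of_inv ho (h2 hz)
  rcases OM_reach oOc (ws := [[0], [15, 17, 4, 9, 11]])
    [[0], [2], [0], [2], [0], [2], [3, 3], [0], [2], [3, 3], [0], [2], [2], [2]]
    (a := (List.range 759).filter fun i => !tb (cm 24 759 OOc.A i) 23)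
    (b := [0]) (by decide +kernel) ho1 with ⟨i, hi, rfl⟩ | ⟨g, hg, i, hi, rfl⟩
  · rw [fOc, col_eq, mem_bset, ← tb_eq] at ho2
    have := (List.mem_filter.1 hi).2
    rw [show tb _ 23 = true from ho2] at this
    exact absurd this (by decide)
  rw [List.mem_singleton.1 hi] at ho3
  have k1 : g⁻¹ * z * g ∈ sub M0.gen wK0 := by
    rw [K0_eq]
    refine (mem_fixingSubgroup_iff _).2 ((conj_pw g _ _).1 fun x hx => ?_)
    rw [← ho3] at hx
    simpa [mul_assoc] using hx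
  obtain ⟨w, hw, e⟩ := covK0 _ k1
  obtain ⟨j, hj, rfl⟩ := exists_getL [] (show w ∈ EK0 by simpa [prods] using hw)
  have k2 : sub M0.gen [[0], [15, 17, 4, 9, 11], getL [] EK0 j] ≤ K :=
    (sub_le _).2 (fa_cons (h1 (ev_getL_mem _ _ 0)) (fa_cons (h1 (ev_getL_mem _ _ 1))
      (fa_cons (e ▸ mul_mem (mul_mem (inv_mem (h1 hg)) hz) (h1 hg)) fa_nil)))
  rcases (show ∀ j < EK0.length, getL [] EK0 j = [] ∨ Nat.beq (arW 24 M24c.nets 5 [4]) (arW 24 M24c.nets 5
    (flat [[0], [15, 17, 4, 9, 11], getL [] EK0 j] (getL [] [[], [0, 4, 0, 4, 2, 4, 3, 3, 3, 1, 3],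
      [0, 4, 1, 4, 3, 1, 4, 3, 1, 1, 4, 1, 3], [2, 1, 4, 3, 3, 4, 0, 4, 0, 2, 0, 4, 1, 2],
      [1, 1, 4, 1, 4, 2, 2, 4, 2, 4, 0, 0, 4, 0], [0, 4, 1, 2, 2, 4, 3, 4, 3, 3, 4, 3, 3],
      [0, 2, 0, 4, 2, 4, 0, 2, 0, 3, 4, 1, 2, 2], [4, 0, 2, 4, 1, 4, 1, 3, 4, 2, 2, 4],
      [0, 3, 4, 2, 0, 4, 2, 2, 0, 4, 3, 4], [1, 2, 4, 0, 0, 2, 4, 2, 1, 4, 3, 3, 4],
      [1, 1, 2, 2, 4, 3, 3, 0, 3, 0, 3, 4, 1, 1], [4, 2, 2, 2, 2, 2, 4, 3, 3, 4], [1, 4, 1, 2, 4, 2, 4, 1, 4, 3],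
      [3, 4, 3, 4, 2, 0, 4, 2, 1, 4, 1, 3], [4, 2, 2, 0, 2, 4, 3, 4, 0, 4, 3, 1],
      [1, 3, 1, 4, 1, 4, 3, 1, 4, 2, 1, 2, 4]] j))) = true by decide +kernel) j hj with k3 | k3
  · rw [k3, ev_nil, eq_comm, mul_eq_one_iff_eq_inv, mul_eq_left] at e
    rw [e, orderOf_one] at ho
    exact absurd ho (by norm_num)
  · refine le_antisymm h2 (G23_le_tc.trans ((sub_le _).2 (fa_cons (h1 (ev_getL_mem _ _ 0)) (fa_cons ?_ fa_nil))))
    rw [M0.ev_eq (D := 5) (by norm_num) (by norm_num) k3]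
    exact k2 (ev_flat_mem _ _ _)

theorem N253_max {K : Subgroup M24} (h1 : N253 ≤ K) (h2 : K ≤ G23) : K = N253 ∨ K = G23 := by
  refine (em (2 ∣ Nat.card K)).symm.imp (fun h3 => ?_) (eq_G23_of_even h1 h2)
  have := Fact.mk (show Nat.Prime 23 by norm_num)
  obtain ⟨r, hr⟩ := Subgroup.card_dvd_of_le h1
  have h4 := Subgroup.card_dvd_of_le h2
  rw [N253_eq.2] at hr
  rw [hr, card_G23, show 10200960 = 253 * (2 ^ 7 * 315) by norm_num] at h4
  have h5 : r ∣ 315 := (Nat.Coprime.pow_right 7 ((Nat.Prime.coprime_iff_not_dvd Nat.prime_two).2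
      fun h => h3 (hr ▸ h.mul_left _)).symm).dvd_of_dvd_mul_left (Nat.dvd_of_mul_dvd_mul_left (by norm_num) h4)
  have h6 : Subgroup.zpowers tt ≤ K := Subgroup.zpowers_le_of_mem (h1 (ev_getL_mem _ _ 0))
  obtain ⟨S, hS⟩ := exists_sylow_eq (p := 23) (k := 1) (m := 11 * r) (X := (Subgroup.zpowers tt).subgroupOf K)
    (by rw [card_subgroupOf h6, Nat.card_zpowers, ord_tt]; rfl) (by rw [hr]; ring) fun h => by
      rcases (Nat.Prime.dvd_mul this.out).1 h with h | h
      · exact absurd h (by norm_num)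
      · exact absurd (h.trans h5) (by norm_num)
  have h7 := card_sylow_modEq_one 23 K
  have h8 : Subgroup.normalizer (S : Set K) = N253.subgroupOf K := by
    rw [show (S : Set K) = ((S : Subgroup K) : Set K) from rfl, hS, ← Subgroup.subgroupOf_normalizer_eq h6, N253_eq.1]
    ext x; simp [Subgroup.mem_subgroupOf, show (x : M24) • (none : GolayPt) = none from h2 x.2]
  have h9 := (N253.subgroupOf K).card_mul_index
  rw [card_subgroupOf h1, N253_eq.2, hr] at h9
  rw [S.card_eq_index_normalizer, h8, Nat.eq_of_mul_eq_mul_left (by norm_num) h9] at h7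
  have : r = 1 := (show ∀ r ∈ Nat.divisors 315, r % 23 = 1 % 23 → r = 1 by decide +kernel) r
    (Nat.mem_divisors.2 ⟨h5, by norm_num⟩) h7
  exact (eq_of_le_of_card (by norm_num) h1 N253_eq.2 (by rw [hr, this])).symm

end H16.MX
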