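import Cfsg.Agent.H14.M24Use

/-! Tools for subgroups of `M24`: conjugating a Sylow subgroup into a subgroup (`sylow_conj`, `cj`), invariant sets as unions
of orbits (`inv_union`), fixed points of elements of prime order, reachability on an orbit machine. -/

set_option autoImplicit false

namespace H16.MX
open H14 Cfsg MulAction
open scoped Pointwise

section gen
variable {Γ : Type*} [Group Γ]

/-- `g⁻¹ H g` -/
def cj (g : Γ) (H : Subgroup Γ) : Subgroup Γ := H.comap (MulAut.conj g).toMonoidHom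

theorem mem_cj {g x : Γ} {H : Subgroup Γ} : x ∈ cj g H ↔ g * x * g⁻¹ ∈ H := Iff.rfl

theorem card_cj (g : Γ) (H : Subgroup Γ) : Nat.card (cj g H) = Nat.card H :=
  (card_conj g fun _ => Iff.rfl).symm

theorem cj_le {g : Γ} {H G : Subgroup Γ} (hg : g ∈ G) (h : H ≤ G) : cj g H ≤ G := fun x hx => by
  have := mul_mem (mul_mem (inv_mem hg) (h hx)) hg
  simpa [mul_assoc] using this

theorem mem_of_cj {g x : Γ} {H : Subgroup Γ} : x ∈ H ↔ g⁻¹ * x * g ∈ cj g H := by
  simp [mem_cj, mul_assoc]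

theorem le_stab_of_cj {Y : Type*} [MulAction Γ Y] {g : Γ} {H : Subgroup Γ} {y : Y}
    (h : cj g H ≤ stabilizer Γ y) : H ≤ stabilizer Γ (g • y) := fun x hx => by
  have := h (mem_of_cj.1 hx)
  rw [← conj_mem_stab g] at this
  simpa [mul_assoc] using this

theorem sylow_conj [Finite Γ] {p : ℕ} [hp : Fact p.Prime] {G H X : Subgroup Γ} {k m : ℕ} (hX : X ≤ G)
    (hH : H ≤ G) (h1 : IsPGroup p X) (hG : Nat.card G = p ^ k * m) (hm : ¬ p ∣ m)
    (hk : p ^ k ∣ Nat.card H) : ∃ g ∈ G, X ≤ cj g H := by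
  obtain ⟨P, hP⟩ := Sylow.exists_subgroup_card_pow_prime p (G := H) hk
  have hle : P.map H.subtype ≤ G := (Subgroup.map_subtype_le P).trans hH
  obtain ⟨S, hS⟩ := exists_sylow_eq (X := (P.map H.subtype).subgroupOf G) (by
    rw [card_subgroupOf hle, Subgroup.card_map_of_injective H.subtype_injective, hP]) hG hm
  obtain ⟨g, hg⟩ := exists_conj_le S (Y := X.subgroupOf G) (h1.of_equiv (Subgroup.subgroupOfEquivOfLe hX).symm)
  refine ⟨g, g.2, fun x hx => ?_⟩
  have := hg ⟨x, hX hx⟩ hx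
  rw [hS] at this
  exact Subgroup.map_subtype_le P this

theorem pgroup_of_card {p k : ℕ} {X : Subgroup Γ} (h : Nat.card X = p ^ k) : IsPGroup p X :=
  IsPGroup.of_card h

theorem dvd_card_of {H : Subgroup Γ} {g : Γ} {p : ℕ} (hg : g ∈ H) (h : orderOf g = p) : p ∣ Nat.card H :=
  h ▸ H.orderOf_dvd_natCard hg

theorem exists_ord [Finite Γ] {H : Subgroup Γ} {p : ℕ} (hp : p.Prime) (h : p ∣ Nat.card H) :
    ∃ g ∈ H, orderOf g = p := by
  have := Fact.mk hp
  obtain ⟨g, hg⟩ := exists_prime_orderOf_dvd_card' (G := H) p h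
  exact ⟨g, g.2, by rw [Subgroup.orderOf_coe, hg]⟩

theorem card_of_index [Finite Γ] {G : Subgroup Γ} {H : Subgroup G} {a b : ℕ} (h : H.index = a) (ha : a ≠ 0)
    (hG : Nat.card G = b * a) : Nat.card (H.map G.subtype) = b := by
  rw [Subgroup.card_map_of_injective G.subtype_injective]
  have := H.card_mul_index
  rw [h, hG] at this
  exact Nat.eq_of_mul_eq_mul_right (Nat.pos_of_ne_zero ha) this

variable {Ω : Type*} [MulAction Γ Ω]

/-- the orbit of a point under a subgroup -/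
def orb (H : Subgroup Γ) (x : Ω) : Set Ω := {y | ∃ g ∈ H, g • x = y}

theorem orb_self (H : Subgroup Γ) (x : Ω) : x ∈ orb H x := ⟨1, one_mem _, one_smul _ _⟩

theorem orb_inv {H : Subgroup Γ} {x : Ω} : ∀ g ∈ H, ∀ y ∈ orb H x, g • y ∈ orb H x :=
  fun g hg _ ⟨a, ha, e⟩ => ⟨g * a, mul_mem hg ha, by rw [mul_smul, e]⟩

theorem orb_dvd (H : Subgroup Γ) (x : Ω) : (orb H x).ncard ∣ Nat.card H :=
  ⟨_, (PM.card_eq_mul H x).trans (mul_comm _ _)⟩

theorem card_orb (H : Subgroup Γ) (x : Ω) :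
    Nat.card H = Nat.card (H ⊓ stabilizer Γ x : Subgroup Γ) * (orb H x).ncard := PM.card_eq_mul H x

/-- An invariant set has as many points as fixed points modulo `p`. -/
theorem ncard_modEq [Finite Ω] {p : ℕ} (hp : p.Prime) {t : Γ} (ht : orderOf t = p) {O : Set Ω}
    (hO : ∀ x ∈ O, t • x ∈ O) : O.ncard ≡ {x | x ∈ O ∧ t • x = x}.ncard [MOD p] := by
  have := Fact.mk hp
  have hf : IsOfFinOrder t := orderOf_pos_iff.1 (ht ▸ hp.pos)
  have hO' : ∀ g ∈ Subgroup.zpowers t, ∀ x ∈ O, g • x ∈ O := fun g hg => by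
    obtain ⟨k, rfl⟩ := (hf.mem_powers_iff_mem_zpowers.2 hg)
    clear hg
    induction k with
    | zero => simp
    | succ k ih => intro x hx; simp only [pow_succ', mul_smul]; exact hO _ (ih x hx)
  let S : SubMulAction (Subgroup.zpowers t) Ω := ⟨O, fun g x hx => hO' g g.2 x hx⟩
  have h := (IsPGroup.of_card (p := p) (n := 1) (G := Subgroup.zpowers t)
    (by rw [Nat.card_zpowers, ht, pow_one])).card_modEq_card_fixedPoints S
  refine h.trans (congrArg (· % p) ?_)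
  refine Nat.card_congr ⟨fun x => ⟨x.1.1, x.1.2, congrArg Subtype.val (x.2 ⟨t, Subgroup.mem_zpowers t⟩)⟩,
    fun x => ⟨⟨x.1, x.2.1⟩, fun g => Subtype.ext ?_⟩, fun _ => rfl, fun _ => rfl⟩
  exact (show Subgroup.zpowers t ≤ stabilizer Γ x.1 from Subgroup.zpowers_le_of_mem x.2.2) g.2

variable {n : ℕ} {L : List Net}

/-- all unions of sublists -/
def unions : List ℕ → List ℕ
  | [] => [0]
  | a :: l => unions l ++ (unions l).map (Nat.lor a)

theorem inv_union' (M : PM Γ Ω n L) {ws : List Word} (l : List (ℕ × ℕ × List Word))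
    (h : l.all (fun o => PM.orbChk n L ws o.1 o.2.1 o.2.2) = true) {O : Set Ω}
    (hO : ∀ g ∈ sub M.gen ws, ∀ x ∈ O, g • x ∈ O) :
    ∃ m ∈ unions (l.map (·.2.1)), O ∩ M.S ((l.map (·.2.1)).foldr Nat.lor 0) = M.S m := by
  induction l with
  | nil => exact ⟨0, List.mem_singleton_self _, Set.ext fun x =>
      ⟨And.right, fun h => absurd h (M.not_mem_S_zero x)⟩⟩
  | cons o l ih =>
    rw [List.all_cons, Bool.and_eq_true] at h
    obtain ⟨m, hm, e⟩ := ih h.2
    by_cases h1 : ∃ x ∈ O, x ∈ M.S o.2.1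
    · obtain ⟨x, hx, hx'⟩ := h1
      refine ⟨Nat.lor o.2.1 m, List.mem_append_right _ (List.mem_map_of_mem hm), Set.ext fun y => ?_⟩
      rw [List.map_cons, List.foldr_cons, Set.mem_inter_iff, M.mem_S_lor, M.mem_S_lor, ← e]
      refine ⟨fun a => a.2.imp_right fun b => ⟨a.1, b⟩, fun a => a.elim (fun a => ⟨?_, .inl a⟩)
        fun a => ⟨a.1, .inr a.2⟩⟩
      obtain ⟨g, hg, rfl⟩ := M.conn_of_chk h.1 hx' a
      exact hO g hg x hx
    · refine ⟨m, List.mem_append_left _ hm, Set.ext fun y => ?_⟩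
      rw [List.map_cons, List.foldr_cons, Set.mem_inter_iff, M.mem_S_lor, ← e]
      exact ⟨fun a => ⟨a.1, a.2.resolve_left fun b => h1 ⟨y, a.1, b⟩⟩, fun a => ⟨a.1, .inr a.2⟩⟩

theorem inv_union (M : PM Γ Ω n L) {ws : List Word} (l : List (ℕ × ℕ × List Word))
    (h : (l.all (fun o => PM.orbChk n L ws o.1 o.2.1 o.2.2) &&
      subs (full n) ((l.map (·.2.1)).foldr Nat.lor 0)) = true) {O : Set Ω}
    (hO : ∀ g ∈ sub M.gen ws, ∀ x ∈ O, g • x ∈ O) : ∃ m ∈ unions (l.map (·.2.1)), O = M.S m := by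
  rw [Bool.and_eq_true] at h
  obtain ⟨m, hm, e⟩ := inv_union' M l h.1 hO
  exact ⟨m, hm, e ▸ Set.ext fun x => ⟨fun a => ⟨a, M.S_mono h.2 (M.mem_S_full' x)⟩, And.left⟩⟩

theorem OM_reach {X : Type*} [MulAction Γ X] {gen : ℕ → Γ} {T : Set X} {N : ℕ} {f : ℕ → X}
    (O : OM gen T N L f) {ws : List Word} (sc : List Word) {a b : List ℕ}
    (h : subs (full N) (Nat.lor (bits a) (orbRun L ws sc (bits b))) = true) {x : X} (hx : x ∈ T) :
    (∃ i ∈ a, f i = x) ∨ ∃ g ∈ sub gen ws, ∃ i ∈ b, g • f i = x := by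
  rcases (O.pm.mem_S_lor _ _ _).1 (O.pm.S_mono h (O.pm.mem_S_full' ⟨x, O.eq ▸ hx⟩)) with h1 | h1
  · exact .inl ⟨_, (testBit_bits _ _).1 h1, O.f_enc _⟩
  · obtain ⟨g, hg, y, hy, e⟩ := O.pm.orb_sound ws sc _ h1
    exact .inr ⟨g, hg, _, (testBit_bits _ _).1 hy, by rw [O.f_enc]; exact congrArg Subtype.val e⟩

end gen

theorem le_stab_bset {L : List Net} {h : L.all golayOk = true} {H : Subgroup M24} {O : Set GolayPt} {m : ℕ}
    (e : O = (m24PM L h).S m) (hO : ∀ g ∈ H, ∀ x ∈ O, g • x ∈ O) : H ≤ stabilizer M24 (bset m) :=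
  fun g hg => Finset.eq_of_subset_of_card_le (fun y hy => by
    obtain ⟨x, hx, rfl⟩ := Finset.mem_smul_finset.1 hy
    rw [← mem_S_iff (h := h), ← e] at hx ⊢
    exact hO g hg x hx) (Finset.card_smul_finset _ _).ge

theorem stab_compl (s : Finset GolayPt) : stabilizer M24 s ≤ stabilizer M24 sᶜ := fun g hg => by
  rw [mem_stabilizer_iff, smul_compl_finset, mem_stabilizer_iff.1 hg]

theorem stab_tetrad {t : Finset GolayPt} {S : Finset (Finset GolayPt)} (hS : S ∈ sextets) (ht : t ∈ S)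
    {g : M24} (h : g • t ∈ S) : g • S = S :=
  (exists_unique_sextet (hS.2.1 _ h)).unique
    ⟨smul_mem_sextets g S hS, Finset.smul_mem_smul_finset ht⟩ ⟨hS, h⟩

/-- An element fixing five points has order dividing 48. -/
theorem dvd48 {t : M24} (h : 5 ≤ nfix GolayPt t) : orderOf t ∣ 48 := by
  rw [← nfix_eq_card] at h
  obtain ⟨s, hs, h5⟩ := Finset.exists_subset_card_eq h
  obtain ⟨g, hg⟩ := M24_exists_smul_finset (s := s) (t := bset 0x80000f)
    (by rw [h5, card_bset]; decide +kernel) h5.le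
  have : g * t * g⁻¹ ∈ sub M0.gen M24c.ws5 := mem_ws5 (m := 0x80000f) (by
    rw [← hg]; exact (conj_pw g s t).2 fun x hx => (Finset.mem_filter.1 (hs hx)).2) (by decide +kernel)
  have h2 := dvd_card_of this rfl
  rwa [M24c.card5 M0 M0_rels, show g * t * g⁻¹ = MulAut.conj g t from rfl, MulEquiv.orderOf_eq] at h2

theorem fix_lt5 {t : M24} {p : ℕ} (h : orderOf t = p) (hp : ¬ p ∣ 48) (O : Set GolayPt) :
    {x | x ∈ O ∧ t • x = x}.ncard < 5 := by
  by_contra e
  exact hp (h ▸ dvd48 ((not_lt.1 e).trans (Set.ncard_le_ncard (fun _ => And.right))))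

theorem nfix7 {t : M24} (h : orderOf t = 7) : nfix GolayPt t = 3 := by
  have h1 := fix_lt5 h (by norm_num) Set.univ
  have h2 := ncard_modEq (by norm_num) h (O := (Set.univ : Set GolayPt)) fun _ _ => trivial
  simp only [Set.mem_univ, true_and, Set.ncard_univ, Nat.card_eq_fintype_card, card_golayPt, Nat.ModEq] at h1 h2
  unfold nfix
  omega

theorem mod7 {t : M24} (h : orderOf t = 7) {O : Set GolayPt} (hO : ∀ x ∈ O, t • x ∈ O) : O.ncard % 7 ≤ 3 := by
  have h1 : {x | x ∈ O ∧ t • x = x}.ncard ≤ 3 := nfix7 h ▸ Set.ncard_le_ncard fun _ => And.right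
  have h2 := ncard_modEq (by norm_num) h hO
  unfold Nat.ModEq at h2
  omega

theorem mem_of_pw {H : Subgroup M24} (c : M24) (hK : ∀ w ∈ wK0, c * ev M0.gen w * c⁻¹ ∈ H) {g : M24}
    (hg : ∀ x ∈ c • fOc 0, g • x = x) : g ∈ H := by
  refine mem_of_cj.2 ((sub_le (H := cj c H) _).2 hK ?_)
  rw [K0_eq]
  exact (mem_fixingSubgroup_iff _).2 ((conj_pw c _ _).1 (by simpa [mul_assoc] using hg))

/-- An involution with a fixed point fixes an octad pointwise. -/
theorem octad_of_inv {t : M24} (h : orderOf t = 2) {p : GolayPt} (hp : t • p = p) :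
    ∃ o ∈ octads, p ∈ o ∧ ∀ x, t • x = x ↔ x ∈ o := by
  obtain ⟨g, e⟩ := cls2A h fun e => nfix_eq_zero.1 e p hp
  have h1 := fix_conj (Ω := GolayPt) e
  rw [fix_zA, ← inv_smul_eq_iff] at h1
  refine ⟨g⁻¹ • fOc 0, smul_mem_octads _ (oOc.mem (by norm_num)), ?_, fun x => ?_⟩ <;> simp [h1, hp]

end H16.MX
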