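import Cfsg.Agent.H14.Obj3
import Mathlib.LinearAlgebra.FiniteDimensional.Lemmas
import Mathlib.GroupTheory.GroupAction.Quotient

/-! Scott's lemma for two endomorphisms and Ree's inequality for the numbers of cycles of `x`, `y`, `x y`. -/

set_option autoImplicit false

namespace H16.Ree
open Module LinearMap MulAction

theorem scott {F V : Type*} [Field F] [AddCommGroup V] [Module F V] [FiniteDimensional F V] (X Y : V →ₗ[F] V) :
    finrank F (ker (1 - Y * X)) + finrank F (range (1 - X) ⊔ range (1 - Y) : Submodule F V) ≤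
      finrank F (range (1 - X)) + finrank F (range (1 - Y)) +
        finrank F (ker (1 - X) ⊓ ker (1 - Y) : Submodule F V) := by
  let δ : range (1 - X) × range (1 - Y) →ₗ[F] V := coprod (Y ∘ₗ (range (1 - X)).subtype) (range (1 - Y)).subtype
  let β : ker (1 - Y * X) →ₗ[F] range (1 - X) × range (1 - Y) :=
    (prod (1 - X).rangeRestrict (1 - Y).rangeRestrict) ∘ₗ (ker (1 - Y * X)).subtype
  have h1 := δ.finrank_range_add_finrank_ker
  have h2 := β.finrank_range_add_finrank_ker
  have h3 : finrank F (range β) ≤ finrank F (ker δ) := Submodule.finrank_mono (by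
    rintro _ ⟨v, rfl⟩
    have : v.1 - Y (X v.1) = 0 := v.2
    simpa [δ, β] using this)
  have h4 : finrank F (range (1 - X) ⊔ range (1 - Y) : Submodule F V) ≤ finrank F (range δ) :=
    Submodule.finrank_mono (sup_le (fun a ha => ⟨(⟨a, ha⟩, ⟨_, a, rfl⟩), by simp [δ]⟩)
      fun b hb => ⟨(0, ⟨b, hb⟩), by simp [δ]⟩)
  have h5 : finrank F (ker β) ≤ finrank F (ker (1 - X) ⊓ ker (1 - Y) : Submodule F V) := by
    rw [← Submodule.finrank_map_subtype_eq]
    refine Submodule.finrank_mono ?_
    rintro _ ⟨v, hv, rfl⟩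
    have := Prod.ext_iff.1 (mem_ker.1 hv)
    exact ⟨congrArg Subtype.val this.1, congrArg Subtype.val this.2⟩
  rw [finrank_prod] at h1
  omega

variable {Γ Ω : Type*} [Group Γ] [MulAction Γ Ω] [Fintype Ω]

/-- the action on functions -/
def rho (Ω : Type*) [MulAction Γ Ω] (g : Γ) : (Ω → ℚ) →ₗ[ℚ] (Ω → ℚ) := funLeft ℚ ℚ (g • ·)

/-- the number of cycles -/
noncomputable def cyc (Ω : Type*) [MulAction Γ Ω] (g : Γ) : ℕ := finrank ℚ (ker (1 - rho Ω g))

theorem ree {x y : Γ} {a b : Ω} (h : ∀ c, ∃ g ∈ Subgroup.closure ({x, y} : Set Γ), g • a = c ∨ g • b = c) :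
    cyc Ω x + cyc Ω y + cyc Ω (x * y) ≤ Fintype.card Ω + 4 := by
  classical
  have e : ∀ g k : Γ, rho Ω (g * k) = rho Ω k * rho Ω g := fun g k => by
    ext f c; simp [rho, funLeft_apply, mul_smul]
  have h1 := scott (rho Ω x) (rho Ω y)
  have h2 := (1 - rho Ω x).finrank_range_add_finrank_ker
  have h3 := (1 - rho Ω y).finrank_range_add_finrank_ker
  have h4 : finrank ℚ (ker (1 - rho Ω x) ⊓ ker (1 - rho Ω y) : Submodule ℚ _) ≤ 2 := by
    refine (finrank_le_finrank_of_injective (f := (prod (proj a) (proj b) : (Ω → ℚ) →ₗ[ℚ] ℚ × ℚ) ∘ₗ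
      Submodule.subtype _) ((injective_iff_map_eq_zero _).2 fun f hf => ?_)).trans (by simp)
    have k : ∀ g ∈ Subgroup.closure ({x, y} : Set Γ), ∀ c, f.1 (g • c) = f.1 c := fun g hg => by
      induction hg using Subgroup.closure_induction with
      | mem g hg =>
        rcases hg with rfl | rfl
        · exact fun c => (sub_eq_zero.1 (congrFun f.2.1 c)).symm
        · exact fun c => (sub_eq_zero.1 (congrFun f.2.2 c)).symm
      | one => simp
      | mul g k _ _ i1 i2 => intro c; rw [mul_smul, i1, i2]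
      | inv g _ i1 => intro c; rw [← i1, smul_inv_smul]
    have := Prod.ext_iff.1 hf
    ext c
    obtain ⟨g, hg, rfl | rfl⟩ := h c <;> rw [k g hg]
    exacts [this.1, this.2]
  have h5 : Fintype.card Ω ≤ finrank ℚ (range (1 - rho Ω x) ⊔ range (1 - rho Ω y) : Submodule ℚ _) + 2 := by
    set U : Submodule ℚ (Ω → ℚ) := range (1 - rho Ω x) ⊔ range (1 - rho Ω y)
    have k : ∀ g ∈ Subgroup.closure ({x, y} : Set Γ), ∀ f, f - rho Ω g f ∈ U := fun g hg => by
      induction hg using Subgroup.closure_induction with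
      | mem g hg =>
        rcases hg with rfl | rfl
        · exact fun f => Submodule.mem_sup_left ⟨f, rfl⟩
        · exact fun f => Submodule.mem_sup_right ⟨f, rfl⟩
      | one => intro f; rw [show rho Ω (1 : Γ) f = f by ext c; simp [rho, funLeft_apply], sub_self]; exact zero_mem _
      | mul g k _ _ i1 i2 => intro f; simpa [e] using add_mem (i1 f) (i2 (rho Ω g f))
      | inv g _ i1 =>
        intro f
        have := neg_mem (i1 (rho Ω g⁻¹ f))
        rwa [neg_sub, show rho Ω g (rho Ω g⁻¹ f) = f by ext c; simp [rho, funLeft_apply]] at this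
    have k2 : ⊤ ≤ U ⊔ Submodule.span ℚ (({Pi.single a 1, Pi.single b 1} : Finset (Ω → ℚ)) : Set (Ω → ℚ)) := by
      rw [← (Pi.basisFun ℚ Ω).span_eq, Submodule.span_le]
      rintro _ ⟨c, rfl⟩
      have k3 : ∀ g : Γ, ∀ d, rho Ω g (Pi.single (g • d) 1) = Pi.single d 1 := fun g d => by
        ext c; simp [rho, funLeft_apply, Pi.single_apply]
      have k5 : ∀ g ∈ Subgroup.closure ({x, y} : Set Γ), ∀ d, ∀ W : Submodule ℚ (Ω → ℚ), Pi.single d 1 ∈ W →
          Pi.single (g • d) 1 ∈ U ⊔ W := fun g hg d W hW => by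
        simpa [k3] using Submodule.add_mem_sup (k g hg (Pi.single (g • d) 1)) hW
      obtain ⟨g, hg, rfl | rfl⟩ := h c <;> rw [Pi.basisFun_apply] <;>
        exact k5 g hg _ _ (Submodule.subset_span (by simp))
    have k4 := Submodule.finrank_mono k2
    rw [finrank_top, finrank_fintype_fun_eq_card] at k4
    exact k4.trans ((Submodule.finrank_add_le_finrank_add_finrank _ _).trans (Nat.add_le_add_left
      ((finrank_span_finset_le_card _).trans Finset.card_le_two) _))
  rw [finrank_fintype_fun_eq_card] at h2 h3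
  unfold cyc
  rw [e]
  omega

theorem cyc_ge {g : Γ} {p : ℕ} (h : orderOf g = p) (hp : 0 < p) :
    Fintype.card Ω + (p - 1) * H14.nfix Ω g ≤ cyc Ω g * p := by
  classical
  have : Finite (Subgroup.zpowers g) := Nat.finite_of_card_ne_zero (by rw [Nat.card_zpowers]; omega)
  have := Fintype.ofFinite (Subgroup.zpowers g)
  have hc : Fintype.card (Subgroup.zpowers g) = p := by rw [← Nat.card_eq_fintype_card, Nat.card_zpowers, h]
  have h1 := sum_card_fixedBy_eq_card_orbits_mul_card_group (Subgroup.zpowers g) Ω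
  have h2 : Fintype.card (Quotient (orbitRel (Subgroup.zpowers g) Ω)) ≤ cyc Ω g := by
    rw [← finrank_fintype_fun_eq_card ℚ]
    refine finrank_le_finrank_of_injective (f := (funLeft ℚ ℚ (Quotient.mk _)).codRestrict _ fun f => ?_)
      fun f f' e => funLeft_injective_of_surjective ℚ ℚ _ Quotient.mk_surjective (congrArg Subtype.val e)
    ext c
    exact sub_eq_zero.2 (congrArg f (Quotient.sound' (orbitRel_apply.2
      (mem_orbit c (⟨g, Subgroup.mem_zpowers g⟩ : Subgroup.zpowers g)))).symm)
  rw [hc, ← Finset.add_sum_erase _ _ (Finset.mem_univ 1)] at h1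
  have h3 := Finset.card_nsmul_le_sum (Finset.univ.erase (1 : Subgroup.zpowers g))
    (fun a => Fintype.card (fixedBy Ω a)) (H14.nfix Ω g) fun a _ => by
      rw [← Nat.card_eq_fintype_card]
      exact Set.ncard_le_ncard fun c hc =>
        (show Subgroup.zpowers g ≤ stabilizer Γ c from Subgroup.zpowers_le_of_mem hc) a.2
  rw [Finset.card_erase_of_mem (Finset.mem_univ _), Finset.card_univ, hc, smul_eq_mul] at h3
  have h4 := Nat.mul_le_mul_right p h2
  simp only [fixedBy_one_eq_univ, Fintype.card_setUniv] at h1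
  omega

end H16.Ree
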