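import Mathlib
import Cfsg.Prelude.Def_Classical

/-! Siegel parabolic of `Sp₄`: every non-central element is conjugate to `lo · lev A · up`
with `A` of determinant one. -/

set_option autoImplicit false

namespace Cfsg.Agent.H16.Th
open Matrix

abbrev M2 (F : Type*) := Matrix (Fin 2) (Fin 2) F
abbrev Sp (F : Type*) [Field F] := symplecticGroup (Fin 2) F

variable {F : Type*} [Field F]

def up (S : M2 F) (h : Sᵀ = S) : Sp F :=
  ⟨fromBlocks 1 S 0 1, by rw [SymplecticGroup.fromBlocks_mem_iff]; simp [h]⟩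

def lo (S : M2 F) (h : Sᵀ = S) : Sp F :=
  ⟨fromBlocks 1 0 S 1, by rw [SymplecticGroup.fromBlocks_mem_iff]; simp [h]⟩

def lev : (M2 F)ˣ →* Sp F where
  toFun A := ⟨fromBlocks (A : M2 F) 0 0 ((A⁻¹ : (M2 F)ˣ) : M2 F)ᵀ, by
    rw [SymplecticGroup.fromBlocks_mem_iff]
    refine ⟨by simp, by simp, ?_⟩
    rw [← transpose_mul, Units.inv_mul]; simp⟩
  map_one' := Subtype.ext (by simp)
  map_mul' A B := Subtype.ext (by
    simp only [Submonoid.coe_mul, fromBlocks_multiply, Units.val_mul, _root_.mul_inv_rev,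
      transpose_mul]
    simp)

@[simp] lemma up_val (S : M2 F) (h : Sᵀ = S) : (up S h).1 = fromBlocks 1 S 0 1 := rfl
@[simp] lemma lo_val (S : M2 F) (h : Sᵀ = S) : (lo S h).1 = fromBlocks 1 0 S 1 := rfl
lemma lev_val (A : (M2 F)ˣ) :
    (lev A).1 = fromBlocks (A : M2 F) 0 0 ((A⁻¹ : (M2 F)ˣ) : M2 F)ᵀ := rfl

lemma up_inv (S : M2 F) (h : Sᵀ = S) : ((up S h)⁻¹).1 = fromBlocks 1 (-S) 0 1 := by
  have : (up S h)⁻¹ = up (-S) (by simp [h]) := by
    rw [inv_eq_iff_mul_eq_one]; apply Subtype.ext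
    simp [fromBlocks_multiply]
  rw [this]; rfl

lemma lo_inv (S : M2 F) (h : Sᵀ = S) : ((lo S h)⁻¹).1 = fromBlocks 1 0 (-S) 1 := by
  have : (lo S h)⁻¹ = lo (-S) (by simp [h]) := by
    rw [inv_eq_iff_mul_eq_one]; apply Subtype.ext
    simp [fromBlocks_multiply]
  rw [this]; rfl

def jj : Sp F := SymplecticGroup.symJ (Fin 2) F

lemma jj_val : (jj : Sp F).1 = fromBlocks 0 (-1) 1 0 := rfl

lemma jj_inv : ((jj : Sp F)⁻¹).1 = fromBlocks 0 1 (-1) 0 := by
  have : (jj : Sp F)⁻¹ = ⟨fromBlocks 0 1 (-1) 0, by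
      rw [SymplecticGroup.fromBlocks_mem_iff]; simp⟩ := by
    rw [inv_eq_iff_mul_eq_one]; apply Subtype.ext
    simp [fromBlocks_multiply, jj_val]
  rw [this]

/-- blocks of an element -/
lemma blocks (g : Sp F) : ∃ a b c e : M2 F, g.1 = fromBlocks a b c e ∧
    aᵀ * c = cᵀ * a ∧ bᵀ * e = eᵀ * b ∧ aᵀ * e - cᵀ * b = 1 := by
  refine ⟨g.1.toBlocks₁₁, g.1.toBlocks₁₂, g.1.toBlocks₂₁, g.1.toBlocks₂₂,
    (fromBlocks_toBlocks _).symm, ?_⟩
  rw [← SymplecticGroup.fromBlocks_mem_iff, fromBlocks_toBlocks]; exact g.2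

lemma step1 (g : Sp F) (hg : g ∉ Subgroup.center (Sp F)) :
    ∃ h : Sp F, ((h * g * h⁻¹).1).toBlocks₂₁ ≠ 0 := by
  obtain ⟨a, b, c, e, hv, h1, h2, h3⟩ := blocks g
  by_contra hn
  push Not at hn
  have hc : c = 0 := by
    have := hn 1
    simpa [hv] using this
  have hb : b = 0 := by
    have := hn jj
    simp only [Submonoid.coe_mul, hv, jj_val, jj_inv, fromBlocks_multiply,
      toBlocks_fromBlocks₂₁] at this
    simpa using this
  have hS : ∀ S : M2 F, Sᵀ = S → S * a = e * S := by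
    intro S hS
    have := hn (lo S hS)
    simp only [Submonoid.coe_mul, hv, lo_val, lo_inv, fromBlocks_multiply,
      toBlocks_fromBlocks₂₁, hb, hc] at this
    rw [← sub_eq_zero]; simpa [sub_eq_add_neg] using this
  have hae : a = e := by simpa using hS 1 (by simp)
  have k1 := hS !![1, 0; 0, 0] (by ext i j; fin_cases i <;> fin_cases j <;> simp)
  have k2 := hS !![0, 1; 1, 0] (by ext i j; fin_cases i <;> fin_cases j <;> simp)
  rw [← hae] at k1 k2
  have e01 : a 0 1 = 0 := by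
    have := congrFun (congrFun k1 0) 1
    simpa [Matrix.mul_apply, Fin.sum_univ_two] using this
  have e10 : a 1 0 = 0 := by
    have := congrFun (congrFun k1 1) 0
    simpa [Matrix.mul_apply, Fin.sum_univ_two] using this.symm
  have e11 : a 1 1 = a 0 0 := by
    have := congrFun (congrFun k2 0) 1
    simpa [Matrix.mul_apply, Fin.sum_univ_two] using this
  have ha : a = a 0 0 • (1 : M2 F) := by
    ext i j; fin_cases i <;> fin_cases j <;> simp [e01, e10, e11]
  apply hg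
  rw [Subgroup.mem_center_iff]
  intro h
  apply Subtype.ext
  have : g.1 = a 0 0 • (1 : Matrix (Fin 2 ⊕ Fin 2) (Fin 2 ⊕ Fin 2) F) := by
    rw [hv, hb, hc, ← hae, ← fromBlocks_one, fromBlocks_smul, ← ha]; simp
  simp [this]

/-- the condition on the Levi part -/
def Nice (A : M2 F) : Prop := A.det = 1 ∧ ((2 : F) = 0 → A.trace ≠ 0 ∨ A = 1)

lemma step2a [Finite F] {a c : M2 F} (h1 : aᵀ * c = cᵀ * a) (hc : c.det ≠ 0) :
    ∃ S : M2 F, Sᵀ = S ∧ Nice (a + S * c) := by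
  have hu : IsUnit c.det := hc.isUnit
  have hut : IsUnit cᵀ.det := by rwa [det_transpose]
  have hs : (a * c⁻¹)ᵀ = a * c⁻¹ := by
    rw [transpose_mul, transpose_nonsing_inv]
    calc cᵀ⁻¹ * aᵀ = cᵀ⁻¹ * (aᵀ * c) * c⁻¹ := by
          rw [Matrix.mul_assoc, Matrix.mul_assoc, mul_nonsing_inv _ hu, Matrix.mul_one]
      _ = a * c⁻¹ := by rw [h1, ← Matrix.mul_assoc, nonsing_inv_mul _ hut, Matrix.one_mul]
  suffices h : ∃ S : M2 F, Sᵀ = S ∧ Nice (S * c) by
    obtain ⟨S, hS, hN⟩ := h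
    refine ⟨S - a * c⁻¹, by rw [transpose_sub, hS, hs], ?_⟩
    rwa [Matrix.sub_mul, Matrix.mul_assoc, nonsing_inv_mul _ hu, Matrix.mul_one, add_sub_cancel]
  by_cases h2 : (2 : F) = 0
  · by_cases hsym : c 0 1 = c 1 0
    · refine ⟨c⁻¹, ?_, ?_⟩
      · rw [transpose_nonsing_inv]; congr 1
        ext i j; fin_cases i <;> fin_cases j <;> simp [hsym]
      · rw [nonsing_inv_mul _ hu]; exact ⟨det_one, fun _ => Or.inr rfl⟩
    · have hch : ringChar F = 2 := by
        have : CharP F 2 := (CharP.charP_iff_prime_eq_zero Nat.prime_two).2 (by exact_mod_cast h2)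
        exact ringChar.eq F 2
      obtain ⟨k, hk⟩ := FiniteField.isSquare_of_char_two hch (c.det)⁻¹
      have hk0 : k ≠ 0 := by
        rintro rfl; exact hc (by simpa using hk)
      refine ⟨!![0, k; k, 0], by ext i j; fin_cases i <;> fin_cases j <;> simp, ?_, fun _ => Or.inl ?_⟩
      · rw [det_mul, det_fin_two_of]
        have : k * k * c.det = 1 := by rw [← hk]; exact inv_mul_cancel₀ hc
        linear_combination this - (k * k * c.det) * h2
      · rw [trace_fin_two]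
        simp only [Matrix.mul_apply, Fin.sum_univ_two, of_apply, cons_val', cons_val_zero,
          cons_val_one, cons_val_fin_one]
        intro h
        apply hsym
        apply mul_left_cancel₀ hk0
        linear_combination h - (k * c 1 0) * h2
  · refine ⟨!![1, 0; 0, (c.det)⁻¹], by ext i j; fin_cases i <;> fin_cases j <;> simp, ?_,
      fun h => absurd h h2⟩
    rw [det_mul, det_fin_two_of]; field_simp; ring

lemma step2b {a c : M2 F} (hc : c ≠ 0) (c0 : c 0 1 = 0) (c1 : c 1 1 = 0)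
    (ha : a 0 1 ≠ 0 ∨ a 1 1 ≠ 0) : ∃ S : M2 F, Sᵀ = S ∧ Nice (a + S * c) := by
  have key : ∀ p r : F, ∃ S : M2 F, Sᵀ = S ∧ a + S * c = !![p, a 0 1; r, a 1 1] := by
    intro p r
    by_cases h10 : c 1 0 = 0
    · have h00 : c 0 0 ≠ 0 := by
        intro h; apply hc; ext i j; fin_cases i <;> fin_cases j <;> simp [*]
      refine ⟨!![(p - a 0 0) / c 0 0, (r - a 1 0) / c 0 0; (r - a 1 0) / c 0 0, 0],
        by ext i j; fin_cases i <;> fin_cases j <;> simp, ?_⟩
      ext i j; fin_cases i <;> fin_cases j <;>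
        simp [vecMul, dotProduct, Fin.sum_univ_two, c0, c1, h10, h00]
    · refine ⟨!![0, (p - a 0 0) / c 1 0; (p - a 0 0) / c 1 0,
          (r - a 1 0 - (p - a 0 0) / c 1 0 * c 0 0) / c 1 0],
        by ext i j; fin_cases i <;> fin_cases j <;> simp, ?_⟩
      ext i j; fin_cases i <;> fin_cases j <;>
        simp [vecMul, dotProduct, Fin.sum_univ_two, c0, c1, h10]
  by_cases h01 : a 0 1 = 0
  · have h11 : a 1 1 ≠ 0 := by tauto
    obtain ⟨S, hS, e⟩ := key (a 1 1)⁻¹ 0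
    refine ⟨S, hS, ?_⟩
    rw [e]
    refine ⟨by simp [det_fin_two_of, h11], fun h2 => ?_⟩
    by_cases h : a 1 1 = 1
    · right; ext i j; fin_cases i <;> fin_cases j <;> simp [h, h01]
    · left
      rw [trace_fin_two_of]
      intro h'
      apply h
      have : (a 1 1 - 1) ^ 2 = 0 := by
        field_simp at h'
        linear_combination h' - a 1 1 * h2
      exact sub_eq_zero.1 (pow_eq_zero_iff two_ne_zero |>.1 this)
  · obtain ⟨S, hS, e⟩ := key (1 - a 1 1) (((1 - a 1 1) * a 1 1 - 1) / a 0 1)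
    refine ⟨S, hS, ?_⟩
    rw [e]
    refine ⟨by rw [det_fin_two_of]; field_simp; ring, fun _ => Or.inl ?_⟩
    rw [trace_fin_two_of]; simp

lemma step2c {g : Sp F} {a b c e : M2 F} (hv : g.1 = fromBlocks a b c e) {S : M2 F} (hS : Sᵀ = S)
    (hN : Nice (a + S * c)) : ∃ h : Sp F, Nice ((h * g * h⁻¹).1).toBlocks₁₁ := by
  refine ⟨up S hS, ?_⟩
  simp only [Submonoid.coe_mul, hv, up_val, up_inv, fromBlocks_multiply, toBlocks_fromBlocks₁₁]
  simpa using hN

lemma step2 [Finite F] (g : Sp F) (hg : g.1.toBlocks₂₁ ≠ 0) :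
    ∃ h : Sp F, Nice ((h * g * h⁻¹).1).toBlocks₁₁ := by
  obtain ⟨a, b, c, e, hv, h1, h2, h3⟩ := blocks g
  rw [hv, toBlocks_fromBlocks₂₁] at hg
  by_cases hc : c.det = 0
  · obtain ⟨v, hv0, hcv⟩ := exists_mulVec_eq_zero_iff.2 hc
    obtain ⟨k, hk, hk0, hk1⟩ : ∃ k : M2 F, k.det ≠ 0 ∧ k 0 1 = v 0 ∧ k 1 1 = v 1 := by
      by_cases h0 : v 0 = 0
      · refine ⟨!![1, v 0; 0, v 1], ?_, by simp, by simp⟩
        rw [det_fin_two_of]
        intro h; apply hv0; ext i; fin_cases i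
        · simpa using h0
        · simpa using h
      · exact ⟨!![0, v 0; 1, v 1], by simpa [det_fin_two_of] using h0, by simp, by simp⟩
    have hku : IsUnit k := (isUnit_iff_isUnit_det _).2 hk.isUnit
    obtain ⟨K, rfl⟩ := hku
    obtain ⟨a', b', c', e', hv', h1', h2', h3'⟩ := blocks (lev K⁻¹ * g * (lev K⁻¹)⁻¹)
    have hc' : c' = (K : M2 F)ᵀ * (c * K) := by
      have := congrArg toBlocks₂₁ hv'
      rw [← map_inv] at this
      simp only [Submonoid.coe_mul, hv, lev_val, fromBlocks_multiply, toBlocks_fromBlocks₂₁,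
        inv_inv] at this
      rw [← this]; simp [Matrix.mul_assoc]
    have z0 : (c * (K : M2 F)) 0 1 = 0 := by
      have := congrFun hcv 0
      simpa [Matrix.mul_apply, Fin.sum_univ_two, hk0, hk1, mulVec, dotProduct] using this
    have z1 : (c * (K : M2 F)) 1 1 = 0 := by
      have := congrFun hcv 1
      simpa [Matrix.mul_apply, Fin.sum_univ_two, hk0, hk1, mulVec, dotProduct] using this
    have c0 : c' 0 1 = 0 := by
      rw [hc', Matrix.mul_apply, Fin.sum_univ_two, z0, z1]; simp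
    have c1 : c' 1 1 = 0 := by
      rw [hc', Matrix.mul_apply, Fin.sum_univ_two, z0, z1]; simp
    have cn : c' ≠ 0 := by
      intro h
      apply hg
      have : c = ((K⁻¹ : (M2 F)ˣ) : M2 F)ᵀ * c' * (K⁻¹ : (M2 F)ˣ) := by
        rw [hc', ← Matrix.mul_assoc, ← transpose_mul, Units.mul_inv, transpose_one, Matrix.one_mul,
          Matrix.mul_assoc, Units.mul_inv, Matrix.mul_one]
      rw [this, h]; simp
    have ha : a' 0 1 ≠ 0 ∨ a' 1 1 ≠ 0 := by
      by_contra hh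
      push Not at hh
      have := congrFun (congrFun h3' 1) 1
      simp [Matrix.mul_apply, Fin.sum_univ_two, c0, c1, hh.1, hh.2] at this
    obtain ⟨S, hS, hN⟩ := step2b cn c0 c1 ha
    obtain ⟨h, hh⟩ := step2c hv' hS hN
    refine ⟨h * lev K⁻¹, ?_⟩
    convert hh using 3; group
  · obtain ⟨S, hS, hN⟩ := step2a h1 hc
    exact step2c hv hS hN

/-- big cell decomposition -/
lemma cell (g : Sp F) (A : (M2 F)ˣ) (hA : g.1.toBlocks₁₁ = A) :
    ∃ S hS T hT, g = lo S hS * lev A * up T hT := by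
  obtain ⟨a, b, c, e, hv, h1, h2, h3⟩ := blocks g
  rw [hv, toBlocks_fromBlocks₁₁] at hA
  subst hA
  have hs : (c * ((A⁻¹ : (M2 F)ˣ) : M2 F))ᵀ = c * (A⁻¹ : (M2 F)ˣ) := by
    rw [transpose_mul]
    calc ((A⁻¹ : (M2 F)ˣ) : M2 F)ᵀ * cᵀ
        = ((A⁻¹ : (M2 F)ˣ) : M2 F)ᵀ * (cᵀ * A) * (A⁻¹ : (M2 F)ˣ) := by
          rw [Matrix.mul_assoc, Matrix.mul_assoc, Units.mul_inv, Matrix.mul_one]
      _ = _ := by rw [← h1, ← Matrix.mul_assoc, ← transpose_mul, Units.mul_inv, transpose_one,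
          Matrix.one_mul]
  obtain ⟨a', b', c', e', hv', h1', h2', h3'⟩ := blocks ((lev A)⁻¹ * ((lo _ hs)⁻¹ * g))
  have hv'' := hv'
  rw [← map_inv] at hv''
  simp only [Submonoid.coe_mul, hv, lev_val, lo_inv, fromBlocks_multiply, fromBlocks_inj] at hv''
  have ea : a' = 1 := by rw [← hv''.1]; simp
  have ec : c' = 0 := by rw [← hv''.2.2.1]; simp [Matrix.mul_assoc]
  have ee : e' = 1 := by simpa [ea, ec] using h3'
  have hb : b'ᵀ = b' := by simpa [ee] using h2'
  refine ⟨_, hs, b', hb, ?_⟩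
  have : up b' hb = (lev A)⁻¹ * ((lo _ hs)⁻¹ * g) := Subtype.ext (by rw [hv', ea, ec, ee]; rfl)
  rw [this]; group

theorem reduce [Finite F] (g : Sp F) (hg : g ∉ Subgroup.center (Sp F)) :
    ∃ (h : Sp F) (A : (M2 F)ˣ), Nice (A : M2 F) ∧
      ∃ S hS T hT, h * g * h⁻¹ = lo S hS * lev A * up T hT := by
  obtain ⟨h, hh⟩ := step1 g hg
  obtain ⟨k, hk⟩ := step2 _ hh
  have hu : IsUnit ((k * (h * g * h⁻¹) * k⁻¹).1).toBlocks₁₁ :=
    (isUnit_iff_isUnit_det _).2 (by rw [hk.1]; exact isUnit_one)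
  obtain ⟨A, hA⟩ := hu
  refine ⟨k * h, A, hA ▸ hk, ?_⟩
  obtain ⟨S, hS, T, hT, e⟩ := cell _ A hA.symm
  exact ⟨S, hS, T, hT, by rw [← e]; group⟩

end Cfsg.Agent.H16.Th
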