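import Cfsg.Agent.H16.Th1

/-! Thompson's conjecture for `PSp₄(q)`, `q ≥ 3`, with a semisimple class in the Siegel Levi. -/

set_option autoImplicit false

namespace Cfsg.Agent.H16.Th
open Matrix

variable {F : Type*} [Field F]

/-- `T ↦ A T Aᵀ - T` is onto the symmetric matrices -/
lemma fpf (A : M2 F) (h : (A.det - 1) * ((A.det + 1) ^ 2 - A.trace ^ 2) ≠ 0) (S : M2 F)
    (hS : Sᵀ = S) : ∃ T : M2 F, Tᵀ = T ∧ A * T * Aᵀ - T = S := by
  let N : Matrix (Fin 3) (Fin 3) F :=
    !![A 0 0 ^ 2 - 1, 2 * A 0 0 * A 0 1, A 0 1 ^ 2;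
       A 0 0 * A 1 0, A 0 0 * A 1 1 + A 0 1 * A 1 0 - 1, A 0 1 * A 1 1;
       A 1 0 ^ 2, 2 * A 1 0 * A 1 1, A 1 1 ^ 2 - 1]
  have hN : N.det = (A.det - 1) * ((A.det + 1) ^ 2 - A.trace ^ 2) := by
    rw [det_fin_three, det_fin_two, trace_fin_two]; simp [N]; ring
  have hu : IsUnit N := (isUnit_iff_isUnit_det _).2 (by rw [hN]; exact h.isUnit)
  obtain ⟨v, hv⟩ := (mulVec_surjective_iff_isUnit.2 hu) ![S 0 0, S 0 1, S 1 1]
  have e0 := congrFun hv 0
  have e1 := congrFun hv 1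
  have e2 := congrFun hv 2
  simp [N, mulVec, dotProduct, Fin.sum_univ_three] at e0 e1 e2
  have s01 : S 1 0 = S 0 1 := by simpa using congrFun (congrFun hS 0) 1
  refine ⟨!![v 0, v 1; v 1, v 2], by ext i j; fin_cases i <;> fin_cases j <;> simp, ?_⟩
  ext i j; fin_cases i <;> fin_cases j <;>
    simp [Matrix.mul_apply, Fin.sum_univ_two, s01]
  · linear_combination e0
  · linear_combination e1
  · linear_combination e1
  · linear_combination e2

lemma conj_up (A : (M2 F)ˣ)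
    (h : ((A : M2 F).det - 1) * (((A : M2 F).det + 1) ^ 2 - (A : M2 F).trace ^ 2) ≠ 0)
    (S : M2 F) (hS : Sᵀ = S) : IsConj (lev A) (lev A * up S hS) := by
  obtain ⟨T, hT, e⟩ := fpf (A : M2 F) h (-((A : M2 F) * S * (A : M2 F)ᵀ))
    (by simp [transpose_mul, hS, Matrix.mul_assoc])
  refine isConj_iff.2 ⟨up T hT, Subtype.ext ?_⟩
  simp only [Submonoid.coe_mul, lev_val, up_val, up_inv, fromBlocks_multiply, fromBlocks_inj]
  have k : (A : M2 F)ᵀ * ((A⁻¹ : (M2 F)ˣ) : M2 F)ᵀ = 1 := by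
    rw [← transpose_mul, Units.inv_mul, transpose_one]
  have := congrArg (· * ((A⁻¹ : (M2 F)ˣ) : M2 F)ᵀ) e
  simp only [Matrix.sub_mul, Matrix.neg_mul, Matrix.mul_assoc, k, Matrix.mul_one] at this
  refine ⟨by simp, ?_, by simp, by simp⟩
  simp only [Matrix.mul_one, Matrix.one_mul, Matrix.mul_zero, add_zero,
    zero_add, Matrix.mul_neg]
  rw [← neg_neg ((A : M2 F) * S), ← this]; abel

lemma conj_lo (A : (M2 F)ˣ)
    (h : ((A : M2 F).det - 1) * (((A : M2 F).det + 1) ^ 2 - (A : M2 F).trace ^ 2) ≠ 0)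
    (S : M2 F) (hS : Sᵀ = S) : IsConj (lev A) (lo S hS * lev A) := by
  obtain ⟨T, hT, e⟩ := fpf (A : M2 F)ᵀ (by rwa [det_transpose, trace_transpose])
    ((A : M2 F)ᵀ * S * (A : M2 F)) (by simp [transpose_mul, hS, Matrix.mul_assoc])
  refine isConj_iff.2 ⟨lo T hT, Subtype.ext ?_⟩
  simp only [Submonoid.coe_mul, lev_val, lo_val, lo_inv, fromBlocks_multiply, fromBlocks_inj]
  have k : ((A⁻¹ : (M2 F)ˣ) : M2 F)ᵀ * (A : M2 F)ᵀ = 1 := by
    rw [← transpose_mul, Units.mul_inv, transpose_one]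
  have := congrArg (((A⁻¹ : (M2 F)ˣ) : M2 F)ᵀ * ·) e
  simp only [Matrix.mul_sub, ← Matrix.mul_assoc, k, Matrix.one_mul, transpose_transpose] at this
  refine ⟨by simp, by simp, ?_, by simp⟩
  simp only [Matrix.mul_one, Matrix.one_mul, Matrix.mul_zero, add_zero,
    zero_add, Matrix.mul_neg]
  rw [← this]; abel

/-- companion matrix -/
def comp (d t : F) : M2 F := !![0, -d; 1, t]

lemma to_comp (A : M2 F) (hA : ¬ (A 0 1 = 0 ∧ A 1 0 = 0 ∧ A 0 0 = A 1 1)) :
    ∃ h : (M2 F)ˣ, A * h = h * comp A.det A.trace := by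
  suffices H : ∃ h : M2 F, h.det ≠ 0 ∧ A * h = h * comp A.det A.trace by
    obtain ⟨h, h0, e⟩ := H
    obtain ⟨K, rfl⟩ := (isUnit_iff_isUnit_det _).2 h0.isUnit
    exact ⟨K, e⟩
  rw [det_fin_two, trace_fin_two]
  by_cases h10 : A 1 0 = 0
  · by_cases h01 : A 0 1 = 0
    · refine ⟨!![1, A 0 0; 1, A 1 1], ?_, ?_⟩
      · rw [det_fin_two_of]; intro h; exact hA ⟨h01, h10, by linear_combination -h⟩
      · ext i j; fin_cases i <;> fin_cases j <;>
          simp [comp, Matrix.mul_apply, Fin.sum_univ_two, h01, h10] <;> ring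
    · refine ⟨!![0, A 0 1; 1, A 1 1], by simpa [det_fin_two_of] using h01, ?_⟩
      ext i j; fin_cases i <;> fin_cases j <;>
        simp [comp, Matrix.mul_apply, Fin.sum_univ_two] <;> ring
  · refine ⟨!![1, A 0 0; 0, A 1 0], by simpa [det_fin_two_of] using h10, ?_⟩
    ext i j; fin_cases i <;> fin_cases j <;>
      simp [comp, Matrix.mul_apply, Fin.sum_univ_two] <;> ring

lemma nonscalar {A : M2 F} (h : A.trace ^ 2 ≠ 4 * A.det) :
    ¬ (A 0 1 = 0 ∧ A 1 0 = 0 ∧ A 0 0 = A 1 1) := by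
  rintro ⟨h1, h2, h3⟩
  apply h
  rw [det_fin_two, trace_fin_two, h1, h2, h3]; ring

lemma isConj_of (A B : (M2 F)ˣ) (h : (A : M2 F).trace ^ 2 ≠ 4 * (A : M2 F).det)
    (ht : (B : M2 F).trace = (A : M2 F).trace) (hd : (B : M2 F).det = (A : M2 F).det) :
    IsConj A B := by
  obtain ⟨h1, e1⟩ := to_comp (A : M2 F) (nonscalar h)
  obtain ⟨h2, e2⟩ := to_comp (B : M2 F) (nonscalar (by rwa [ht, hd]))
  rw [ht, hd] at e2
  refine isConj_iff.2 ⟨h2 * h1⁻¹, ?_⟩
  have : h1⁻¹ * A * h1 = h2⁻¹ * B * h2 := by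
    apply Units.ext
    simp only [Units.val_mul, Matrix.mul_assoc, e1, e2]
    simp only [← Matrix.mul_assoc, Units.inv_mul]
  calc h2 * h1⁻¹ * A * (h2 * h1⁻¹)⁻¹ = h2 * (h1⁻¹ * A * h1) * h2⁻¹ := by group
    _ = B := by rw [this]; group

/-- inverse transpose -/
def itr (A : (M2 F)ˣ) : (M2 F)ˣ :=
  ⟨((A⁻¹ : (M2 F)ˣ) : M2 F)ᵀ, (A : M2 F)ᵀ, by rw [← transpose_mul, Units.mul_inv, transpose_one],
    by rw [← transpose_mul, Units.inv_mul, transpose_one]⟩

lemma lev_itr (A : (M2 F)ˣ) : IsConj (lev (itr A)) (lev A) := by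
  refine isConj_iff.2 ⟨jj, Subtype.ext ?_⟩
  simp only [Submonoid.coe_mul, lev_val, jj_val, jj_inv, fromBlocks_multiply, fromBlocks_inj]
  simp [itr]

/-- parameters -/
structure Par (t d : F) : Prop where
  d0 : d ≠ 0
  disc : t ^ 2 ≠ 4 * d
  fp : (d - 1) * ((d + 1) ^ 2 - t ^ 2) ≠ 0

def Cl (t d : F) (A : (M2 F)ˣ) : Prop := (A : M2 F).trace = t ∧ (A : M2 F).det = d

lemma inv_tr (A : (M2 F)ˣ) : (A : M2 F).trace * ((A⁻¹ : (M2 F)ˣ) : M2 F).det
    = ((A⁻¹ : (M2 F)ˣ) : M2 F).trace := by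
  have h := A.mul_inv
  have a := congrFun (congrFun h 0) 0
  have b := congrFun (congrFun h 0) 1
  have c := congrFun (congrFun h 1) 0
  have d := congrFun (congrFun h 1) 1
  simp only [Matrix.mul_apply, Fin.sum_univ_two, one_apply_eq, ne_eq, zero_ne_one,
    not_false_eq_true, one_apply_ne, one_ne_zero] at a b c d
  rw [det_fin_two, trace_fin_two, trace_fin_two]
  linear_combination ((A⁻¹ : (M2 F)ˣ) : M2 F) 1 1 * a - ((A⁻¹ : (M2 F)ˣ) : M2 F) 1 0 * b
    - ((A⁻¹ : (M2 F)ˣ) : M2 F) 0 1 * c + ((A⁻¹ : (M2 F)ˣ) : M2 F) 0 0 * d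

lemma fp_inv {t d : F} (P : Par t d) {A : (M2 F)ˣ} (h : Cl t d A⁻¹) :
    ((A : M2 F).det - 1) * (((A : M2 F).det + 1) ^ 2 - (A : M2 F).trace ^ 2) ≠ 0 := by
  have h1 := inv_tr A
  have h2 : (A : M2 F).det * ((A⁻¹ : (M2 F)ˣ) : M2 F).det = 1 := by
    rw [← det_mul, Units.mul_inv, det_one]
  rw [h.2] at h1 h2
  rw [h.1] at h1
  intro h0
  apply P.fp
  have e1 : (A : M2 F).det = d⁻¹ := by have := P.d0; field_simp; linear_combination h2
  have e2 : (A : M2 F).trace = t * d⁻¹ := by have := P.d0; field_simp; linear_combination h1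
  rw [e1, e2] at h0
  have := P.d0
  field_simp at h0
  linear_combination -h0

lemma cl_conj {t d : F} {A : (M2 F)ˣ} (h : Cl t d A) (k : (M2 F)ˣ) : Cl t d (k * A * k⁻¹) := by
  constructor
  · rw [Units.val_mul, Units.val_mul, trace_units_conj, h.1]
  · rw [Units.val_mul, Units.val_mul, det_units_conj, h.2]

def Gam (t d s : F) : Prop :=
  ∃ a b c e : F, e * e = 1 ∧ a * (t - a) - b * c = d ∧ a * s - b + c = e * t

/-- scalar units -/
def sc (e : F) (h : e * e = 1) : (M2 F)ˣ :=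
  ⟨e • 1, e • 1, by simp [smul_smul, h], by simp [smul_smul, h]⟩

lemma lev_sc (e : F) (h : e * e = 1) : lev (sc e h) ∈ Subgroup.center (Sp F) := by
  rw [Subgroup.mem_center_iff]
  intro g
  apply Subtype.ext
  have : (lev (sc e h)).1 = e • (1 : Matrix (Fin 2 ⊕ Fin 2) (Fin 2 ⊕ Fin 2) F) := by
    rw [lev_val, ← fromBlocks_one, fromBlocks_smul]; simp [sc]
  simp [this]

lemma factor {t d : F} (P : Par t d) (A0 : (M2 F)ˣ) (h0 : Cl t d A0) (A : (M2 F)ˣ)
    (hA : (A : M2 F).det = 1) (hG : A ≠ 1 → Gam t d (A : M2 F).trace) :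
    ∃ (e : F) (he : e * e = 1) (A1 A2 : (M2 F)ˣ), Cl t d A1⁻¹ ∧ Cl t d A2 ∧
      A = sc e he * A1 * A2 := by
  by_cases hs : (A : M2 F) 0 1 = 0 ∧ (A : M2 F) 1 0 = 0 ∧ (A : M2 F) 0 0 = (A : M2 F) 1 1
  · obtain ⟨h1, h2, h3⟩ := hs
    rw [det_fin_two, h1, ← h3] at hA
    refine ⟨(A : M2 F) 0 0, by linear_combination hA, A0⁻¹, A0, by simpa using h0, h0, ?_⟩
    rw [mul_assoc, inv_mul_cancel, mul_one]
    apply Units.ext
    ext i j; fin_cases i <;> fin_cases j <;> simp [sc, h1, h2, h3]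
  · have hA1 : A ≠ 1 := by rintro rfl; simp at hs
    obtain ⟨a, b, c, e, he, h1, h2⟩ := hG hA1
    obtain ⟨k, hk⟩ := to_comp (A : M2 F) hs
    rw [hA] at hk
    set s := (A : M2 F).trace
    have u2 : IsUnit (!![a, b; c, t - a] : M2 F) :=
      (isUnit_iff_isUnit_det _).2 (by rw [det_fin_two_of, h1]; exact P.d0.isUnit)
    obtain ⟨B2, hB2⟩ := u2
    have u1 : IsUnit (!![e * (a * s - b), e * a; e * (c * s - (t - a)), e * c] : M2 F) :=
      (isUnit_iff_isUnit_det _).2 (by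
        rw [det_fin_two_of]
        have : e * (a * s - b) * (e * c) - e * a * (e * (c * s - (t - a))) = d := by
          linear_combination (e * e) * h1 + d * he
        rw [this]; exact P.d0.isUnit)
    obtain ⟨B1, hB1⟩ := u1
    have c2 : Cl t d B2 := by
      constructor
      · rw [hB2, trace_fin_two_of]; ring
      · rw [hB2, det_fin_two_of, h1]
    have c1 : Cl t d B1 := by
      constructor
      · rw [hB1, trace_fin_two_of]; linear_combination e * h2 + t * he
      · rw [hB1, det_fin_two_of]; linear_combination (e * e) * h1 + d * he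
    have hm : B1 * (k⁻¹ * A * k) = sc e he * B2 := by
      apply Units.ext
      simp only [Units.val_mul, Matrix.mul_assoc, hk]
      rw [← Matrix.mul_assoc ((k⁻¹ : (M2 F)ˣ) : M2 F), Units.inv_mul, Matrix.one_mul, hB1, hB2]
      ext i j; fin_cases i <;> fin_cases j <;>
        simp [comp, sc, Matrix.mul_apply, Fin.sum_univ_two] <;> ring
    have hc : ∀ X : (M2 F)ˣ, sc e he * X = X * sc e he := fun X => Units.ext (by simp [sc])
    refine ⟨e, he, k * B1⁻¹ * k⁻¹, k * B2 * k⁻¹, ?_, cl_conj c2 k, ?_⟩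
    · have := cl_conj c1 k
      convert this using 1; group
    · calc A = k * B1⁻¹ * (B1 * (k⁻¹ * A * k)) * k⁻¹ := by group
        _ = (k * B1⁻¹ * sc e he) * B2 * k⁻¹ := by rw [hm]; group
        _ = _ := by rw [← hc]; group

lemma pow_lin (A : M2 F) (n : ℕ) : ∃ a b : F, A ^ n = a • (1 : M2 F) + b • A := by
  induction n with
  | zero => exact ⟨1, 0, by simp⟩
  | succ n ih =>
    obtain ⟨a, b, e⟩ := ih
    refine ⟨-b * A.det, a + b * A.trace, ?_⟩
    rw [pow_succ, e, det_fin_two, trace_fin_two]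
    ext i j; fin_cases i <;> fin_cases j <;>
      simp [Matrix.mul_apply, Fin.sum_univ_two, add_mul] <;> ring

lemma ord [Finite F] (p : ℕ) [Fact p.Prime] [CharP F p] (A : (M2 F)ˣ)
    (h : (A : M2 F).trace ^ 2 ≠ 4 * (A : M2 F).det) : ¬ p ∣ orderOf A := by
  intro hp
  have hn : orderOf A ≠ 0 := (orderOf_pos A).ne'
  have ho := orderOf_pow_orderOf_div hn hp
  set B := A ^ (orderOf A / p) with hB
  have hBp : (B : M2 F) ^ p = 1 := by
    rw [← Units.val_pow_eq_pow_val, ← ho, pow_orderOf_eq_one, Units.val_one]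
  obtain ⟨a, b, e⟩ := pow_lin (A : M2 F) (orderOf A / p)
  rw [← Units.val_pow_eq_pow_val, ← hB] at e
  have hN : ((B : M2 F) - 1) ^ p = 0 := by
    rw [sub_pow_char_of_commute p (Commute.one_right _), hBp, one_pow, sub_self]
  have hp0 : p ≠ 0 := (Fact.out : p.Prime).ne_zero
  have hd : ((B : M2 F) - 1).det = 0 := by
    have := congrArg det hN
    rw [det_pow, det_zero] at this
    exact (pow_eq_zero_iff hp0).1 this
  have ht : ((B : M2 F) - 1).trace = 0 :=
    (isNilpotent_trace_of_isNilpotent ⟨p, hN⟩).eq_zero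
  rw [e, det_fin_two] at hd
  rw [e, trace_fin_two] at ht
  rw [det_fin_two, trace_fin_two] at h
  simp at hd ht
  have hb : b = 0 := by
    have : b ^ 2 * (((A : M2 F) 0 0 + (A : M2 F) 1 1) ^ 2
        - 4 * ((A : M2 F) 0 0 * (A : M2 F) 1 1 - (A : M2 F) 0 1 * (A : M2 F) 1 0)) = 0 := by
      linear_combination (a + b * (A : M2 F) 0 0 - 1 + (a + b * (A : M2 F) 1 1 - 1)) * ht - 4 * hd
    rcases mul_eq_zero.1 this with h1 | h1
    · exact (pow_eq_zero_iff two_ne_zero).1 h1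
    · exact absurd (sub_eq_zero.1 h1) h
  have ha : a = 1 := by
    rw [hb] at hd
    have : (a - 1) ^ 2 = 0 := by linear_combination hd
    exact sub_eq_zero.1 ((pow_eq_zero_iff two_ne_zero).1 this)
  have : B = 1 := Units.ext (by rw [e, ha, hb]; simp)
  rw [this, orderOf_one] at ho
  exact (Fact.out : p.Prime).one_lt.ne ho

lemma params [Fintype F] (h3 : 3 ≤ Fintype.card F) :
    ∃ t d : F, Par t d ∧ ∀ s : F, ((2 : F) = 0 → s ≠ 0) → Gam t d s := by
  classical
  have hq := FiniteField.cast_card_eq_zero F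
  have hpow := FiniteField.pow_card (K := F)
  have avoid : ∀ s : Finset F, s.card < Fintype.card F → ∃ x, x ∉ s := fun s hs => by
    by_contra hh
    push Not at hh
    have := Finset.eq_univ_iff_forall.2 hh
    rw [this, Finset.card_univ] at hs
    exact lt_irrefl _ hs
  rcases (by omega : Fintype.card F = 3 ∨ Fintype.card F = 4 ∨ Fintype.card F = 5 ∨
    6 ≤ Fintype.card F) with h | h | h | h
  · rw [h] at hq hpow
    have h3 : (3 : F) = 0 := by exact_mod_cast hq
    have h2 : (2 : F) ≠ 0 := fun h => one_ne_zero (α := F) (by linear_combination h3 - h)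
    refine ⟨1, 2, ⟨h2, fun h => h2 (by linear_combination h + 3 * h3),
      fun h => h2 (by linear_combination h - 2 * h3)⟩, fun s _ => ?_⟩
    have : s * (s - 1) * (s - 2) = 0 := by linear_combination hpow s + (s - s ^ 2) * h3
    rcases mul_eq_zero.1 this with h | h
    · rcases mul_eq_zero.1 h with h | h
      · exact ⟨2, 1, 2, 1, by ring, by linear_combination -2 * h3, by linear_combination 2 * h⟩
      · exact ⟨1, 1, 1, 1, by ring, by linear_combination -h3, by linear_combination h⟩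
    · exact ⟨1, 1, 1, -1, by ring, by linear_combination -h3, by linear_combination h + h3⟩
  · rw [h] at hq hpow
    have h2 : (2 : F) = 0 := by
      have : (2 : F) ^ 2 = 0 := by rw [← hq]; norm_num
      exact (pow_eq_zero_iff two_ne_zero).1 this
    obtain ⟨w, hw⟩ := avoid {0, 1} (by rw [h]; exact lt_of_le_of_lt Finset.card_le_two (by norm_num))
    simp only [Finset.mem_insert, Finset.mem_singleton, not_or] at hw
    have hw2 : w ^ 2 + w + 1 = 0 := by
      have : w * (w - 1) * (w ^ 2 + w + 1) = 0 := by linear_combination hpow w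
      rcases mul_eq_zero.1 this with h | h
      · rcases mul_eq_zero.1 h with h | h
        · exact absurd h hw.1
        · exact absurd (sub_eq_zero.1 h) hw.2
      · exact h
    have hw1 : w + 1 ≠ 0 := fun h => hw.2 (by linear_combination h - h2)
    refine ⟨w + 1, w + 1, ⟨hw1, fun h => hw.1 (by linear_combination h - hw2 + (2 * w + 2) * h2),
      fun h => hw.1 (by linear_combination h - (w + 1) * w * h2)⟩, fun s hs => ?_⟩
    have : s * ((s - 1) * ((s - w) * (s - (w + 1)))) = 0 := by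
      linear_combination hpow s + (s ^ 2 - s) * hw2 + (-s ^ 3 * (w + 1) + s ^ 2 * w + s) * h2
    rcases mul_eq_zero.1 this with h | h
    · exact absurd h (hs h2)
    rcases mul_eq_zero.1 h with h | h
    · exact ⟨w, w, w + 1, 1, by ring, by linear_combination -hw2 , by linear_combination w * h⟩
    rcases mul_eq_zero.1 h with h | h
    · exact ⟨1, w, w + 1, 1, by ring, by linear_combination -hw2, by linear_combination h⟩
    · exact ⟨1, 1, 1, 1, by ring, by linear_combination -h2, by linear_combination h⟩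
  · rw [h] at hq hpow
    have h5 : (5 : F) = 0 := by exact_mod_cast hq
    have h2 : (2 : F) ≠ 0 := fun h => one_ne_zero (α := F) (by linear_combination h5 - 2 * h)
    have h3 : (3 : F) ≠ 0 := fun h => one_ne_zero (α := F) (by linear_combination 2 * h - h5)
    refine ⟨3, 4, ⟨fun h => one_ne_zero (α := F) (by linear_combination h5 - h),
      fun h => h3 (by linear_combination h + 2 * h5),
      fun h => h3 (by linear_combination h - 9 * h5)⟩, fun s _ => ?_⟩
    have : s * ((s - 1) * ((s - 2) * ((s - 3) * (s - 4)))) = 0 := by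
      linear_combination hpow s + (-2 * s ^ 4 + 7 * s ^ 3 - 10 * s ^ 2 + 5 * s) * h5
    rcases mul_eq_zero.1 this with h | h
    · exact ⟨1, 1, 3, -1, by ring, by linear_combination -h5, by linear_combination h + h5⟩
    rcases mul_eq_zero.1 h with h | h
    · exact ⟨1, 1, 3, 1, by ring, by linear_combination -h5, by linear_combination h⟩
    rcases mul_eq_zero.1 h with h | h
    · exact ⟨2, 3, 1, -1, by ring, by linear_combination -h5, by linear_combination 2 * h + h5⟩
    rcases mul_eq_zero.1 h with h | h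
    · exact ⟨2, 1, 3, 1, by ring, by linear_combination -h5, by linear_combination 2 * h + h5⟩
    · exact ⟨1, 3, 1, -1, by ring, by linear_combination -h5, by linear_combination h + h5⟩
  · obtain ⟨l, hl⟩ := avoid {0, 1, -1} (lt_of_le_of_lt Finset.card_le_three (by omega))
    obtain ⟨m, hm⟩ := avoid {0, 1, -1, l, l⁻¹} (lt_of_le_of_lt Finset.card_le_five (by omega))
    simp only [Finset.mem_insert, Finset.mem_singleton, not_or] at hl hm
    obtain ⟨l0, l1, l2⟩ := hl
    obtain ⟨m0, m1, m2, m3, m4⟩ := hm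
    refine ⟨l + m, l * m, ⟨mul_ne_zero l0 m0, fun h => m3 ?_, ?_⟩, fun s _ =>
      ⟨l, l * s - (l + m), 0, 1, by ring, by ring, by ring⟩⟩
    · have : (m - l) ^ 2 = 0 := by linear_combination h
      exact sub_eq_zero.1 ((pow_eq_zero_iff two_ne_zero).1 this)
    · have : (l * m - 1) * ((l * m + 1) ^ 2 - (l + m) ^ 2)
          = (l * m - 1) * ((l - 1) * (l - -1) * ((m - 1) * (m - -1))) := by ring
      rw [this]
      refine mul_ne_zero (fun h => m4 ?_) (mul_ne_zero (mul_ne_zero (sub_ne_zero.2 l1)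
        (sub_ne_zero.2 l2)) (mul_ne_zero (sub_ne_zero.2 m1) (sub_ne_zero.2 m2)))
      field_simp; linear_combination h

theorem thompson [Fintype F] (p : ℕ) [Fact p.Prime] [CharP F p] (h3 : 3 ≤ Fintype.card F) :
    ∃ x : Cfsg.PSp 2 F, ¬ p ∣ orderOf x ∧ ∀ g : Cfsg.PSp 2 F, g ≠ 1 →
      ∃ u v : Cfsg.PSp 2 F, g = (u * x * u⁻¹) * (v * x * v⁻¹) := by
  obtain ⟨t, d, P, hG⟩ := params h3
  have u0 : IsUnit (comp d t) :=
    (isUnit_iff_isUnit_det _).2 (by rw [comp, det_fin_two_of]; simpa using P.d0)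
  obtain ⟨A0, hA0⟩ := u0
  have h0 : Cl t d A0 := by
    constructor
    · rw [hA0, comp, trace_fin_two_of]; simp
    · rw [hA0, comp, det_fin_two_of]; simp
  have hdisc : (A0 : M2 F).trace ^ 2 ≠ 4 * (A0 : M2 F).det := by rw [h0.1, h0.2]; exact P.disc
  let π := QuotientGroup.mk' (Subgroup.center (Sp F))
  refine ⟨π (lev A0), fun h => ord p A0 hdisc (h.trans (orderOf_map_dvd (π.comp lev) A0)), ?_⟩
  intro g hg
  obtain ⟨g, rfl⟩ := QuotientGroup.mk'_surjective _ g
  have hg' : g ∉ Subgroup.center (Sp F) := fun h => hg ((QuotientGroup.eq_one_iff g).2 h)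
  obtain ⟨h, A, hN, S, hS, T, hT, e⟩ := reduce g hg'
  obtain ⟨ε, he, A1, A2, c1, c2, hA⟩ := factor P A0 h0 A hN.1 (fun h1 => hG _ (fun h2 => by
    rcases hN.2 h2 with h | h
    · exact h
    · exact absurd (Units.ext h) h1))
  have k2 : IsConj (lev A0) (lev A2 * up T hT) :=
    (lev.map_isConj (isConj_of A0 A2 hdisc (c2.1.trans h0.1.symm) (c2.2.trans h0.2.symm))).trans
      (conj_up A2 (by rw [c2.1, c2.2]; exact P.fp) T hT)
  have k1 : IsConj (lev A0) (lo S hS * lev A1) := by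
    refine IsConj.trans ?_ (conj_lo A1 (fp_inv P c1) S hS)
    refine IsConj.trans ?_ (lev_itr A1)
    refine lev.map_isConj (isConj_of A0 _ hdisc ?_ ?_)
    · rw [h0.1, ← c1.1]; exact trace_transpose _
    · rw [h0.2, ← c1.2]; exact det_transpose _
  obtain ⟨u, hu⟩ := isConj_iff.1 k1
  obtain ⟨v, hv⟩ := isConj_iff.1 k2
  refine ⟨π (h⁻¹ * u), π (h⁻¹ * v), ?_⟩
  have z : π (lev (sc ε he)) = 1 := (QuotientGroup.eq_one_iff _).2 (lev_sc ε he)
  have e1 : g = h⁻¹ * (lo S hS * lev (sc ε he) * lev A1 * lev A2 * up T hT) * h := by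
    rw [hA, map_mul, map_mul] at e
    calc g = h⁻¹ * (h * g * h⁻¹) * h := by group
      _ = _ := by rw [e]; group
  have e2 : π g = π (h⁻¹ * ((lo S hS * lev A1) * (lev A2 * up T hT)) * h) := by
    rw [e1]; simp only [map_mul, z, one_mul, mul_assoc]
  change π g = _
  rw [e2, ← hu, ← hv]
  simp only [map_mul, map_inv]; group

end Cfsg.Agent.H16.Th
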