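import Cfsg.Agent.H16.Cv5
import Cfsg.Agent.H16.Th2

/-! The point stabilizer of `G₂` in Zorn coordinates: root elements, Levi subgroup `GL₂`,
unipotent radical, big cell. -/

set_option autoImplicit false
set_option linter.unnecessarySeqFocus false

namespace H16.Tg
open Matrix Cfsg.Lie H12 H16.Cv Cfsg.Agent.H16.Th

variable {F : Type*} [Field F]

theorem ex_g (f f' : (Fin 8 → F) → Fin 8 → F) (h1 : ∀ x y, f (x + y) = f x + f y)
    (h2 : ∀ (c : F) x, f (c • x) = c • f x) (h3 : ∀ x, f' (f x) = x)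
    (h4 : ∀ x y, f (zornMul x y) = zornMul (f x) (f y)) : ∃ g : G2 F, ∀ x, gρ F g x = f x := by
  let L : Module.End F (Fin 8 → F) := ⟨⟨f, h1⟩, h2⟩
  obtain ⟨g, hg⟩ := H11.glEquiv.surjective
    (LinearEquiv.ofInjectiveEndo L (Function.LeftInverse.injective h3))
  have key : ∀ v, g.1 *ᵥ v = f v := fun v => by rw [← H11.glEquiv_apply, hg]; rfl
  exact ⟨⟨g, fun x y => by simpa only [Units.coeHom_apply, key] using h4 x y⟩, key⟩

def dF (t1 t2 t3 : F) (x : Fin 8 → F) : Fin 8 → F :=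
  ![x 0 + (t1 * x 1 + t2 * x 2 + t3 * x 3), x 1 + (x 5 * t3 - x 6 * t2), x 2 + (x 6 * t1 - x 4 * t3),
    x 3 + (x 4 * t2 - x 5 * t1), x 4 + t1 * (x 7 - x 0 - (t1 * x 1 + t2 * x 2 + t3 * x 3)),
    x 5 + t2 * (x 7 - x 0 - (t1 * x 1 + t2 * x 2 + t3 * x 3)),
    x 6 + t3 * (x 7 - x 0 - (t1 * x 1 + t2 * x 2 + t3 * x 3)),
    x 7 - (t1 * x 1 + t2 * x 2 + t3 * x 3)]

def eF (t1 t2 t3 : F) (x : Fin 8 → F) : Fin 8 → F :=
  ![x 0 + (t1 * x 4 + t2 * x 5 + t3 * x 6),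
    x 1 + t1 * (x 7 - x 0 - (t1 * x 4 + t2 * x 5 + t3 * x 6)),
    x 2 + t2 * (x 7 - x 0 - (t1 * x 4 + t2 * x 5 + t3 * x 6)),
    x 3 + t3 * (x 7 - x 0 - (t1 * x 4 + t2 * x 5 + t3 * x 6)),
    x 4 + (x 2 * t3 - x 3 * t2), x 5 + (x 3 * t1 - x 1 * t3), x 6 + (x 1 * t2 - x 2 * t1),
    x 7 - (t1 * x 4 + t2 * x 5 + t3 * x 6)]

def xF (z1 z2 : F) (x : Fin 8 → F) : Fin 8 → F :=
  ![x 0, x 1, x 2 + z1 * x 1, x 3 + z2 * x 1, x 4 - z1 * x 5 - z2 * x 6, x 5, x 6, x 7]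

def yF (z1 z2 : F) (x : Fin 8 → F) : Fin 8 → F :=
  ![x 0, x 1 + z1 * x 2 + z2 * x 3, x 2, x 3, x 4, x 5 - z1 * x 4, x 6 - z2 * x 4, x 7]

def sF (x : Fin 8 → F) : Fin 8 → F := ![x 7, -x 4, -x 5, -x 6, -x 1, -x 2, -x 3, x 0]

def lF (a b c d k : F) (x : Fin 8 → F) : Fin 8 → F :=
  ![x 0, k * x 1, a * x 2 + b * x 3, c * x 2 + d * x 3, (a * d - b * c) * x 4,
    k * (d * x 5 - c * x 6), k * (a * x 6 - b * x 5), x 7]

theorem ex_d (t1 t2 t3 : F) : ∃ g : G2 F, ∀ x, gρ F g x = dF t1 t2 t3 x := by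
  refine ex_g _ (dF (-t1) (-t2) (-t3)) (fun x y => ?_) (fun c x => ?_) (fun x => ?_) (fun x y => ?_)
  all_goals simp [zorn_ext, zorn_app, dF] <;> and_intros <;> ring

theorem ex_e (t1 t2 t3 : F) : ∃ g : G2 F, ∀ x, gρ F g x = eF t1 t2 t3 x := by
  refine ex_g _ (eF (-t1) (-t2) (-t3)) (fun x y => ?_) (fun c x => ?_) (fun x => ?_) (fun x y => ?_)
  all_goals simp [zorn_ext, zorn_app, eF] <;> and_intros <;> ring

theorem ex_x (t1 t2 : F) : ∃ g : G2 F, ∀ x, gρ F g x = xF t1 t2 x := by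
  refine ex_g _ (xF (-t1) (-t2)) (fun x y => ?_) (fun c x => ?_) (fun x => ?_) (fun x y => ?_)
  all_goals simp [zorn_ext, zorn_app, xF] <;> and_intros <;> ring

theorem ex_y (t1 t2 : F) : ∃ g : G2 F, ∀ x, gρ F g x = yF t1 t2 x := by
  refine ex_g _ (yF (-t1) (-t2)) (fun x y => ?_) (fun c x => ?_) (fun x => ?_) (fun x y => ?_)
  all_goals simp [zorn_ext, zorn_app, yF] <;> and_intros <;> ring

theorem ex_s : ∃ g : G2 F, ∀ x, gρ F g x = sF x := by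
  refine ex_g _ sF (fun x y => ?_) (fun c x => ?_) (fun x => ?_) (fun x y => ?_)
  all_goals simp [zorn_ext, zorn_app, sF] <;> and_intros <;> ring

theorem ex_l (a b c d k : F) (h : k * (a * d - b * c) = 1) :
    ∃ g : G2 F, ∀ x, gρ F g x = lF a b c d k x := by
  refine ex_g _ (lF (k * d) (-k * b) (-k * c) (k * a) (a * d - b * c))
    (fun x y => ?_) (fun c x => ?_) (fun x => ?_) (fun x y => ?_)
  all_goals simp only [zorn_ext, zorn_app, lF, Pi.add_apply, Pi.smul_apply, smul_eq_mul,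
    cons_val_zero, cons_val_one, cons_val] <;> and_intros <;> grind

noncomputable def gD (t1 t2 t3 : F) : G2 F := (ex_d t1 t2 t3).choose
noncomputable def gE (t1 t2 t3 : F) : G2 F := (ex_e t1 t2 t3).choose
noncomputable def gX (t1 t2 : F) : G2 F := (ex_x t1 t2).choose
noncomputable def gY (t1 t2 : F) : G2 F := (ex_y t1 t2).choose
noncomputable def gS : G2 F := (ex_s (F := F)).choose

theorem gD_a (t1 t2 t3 : F) (x) : gρ F (gD t1 t2 t3) x = dF t1 t2 t3 x := (ex_d t1 t2 t3).choose_spec x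
theorem gE_a (t1 t2 t3 : F) (x) : gρ F (gE t1 t2 t3) x = eF t1 t2 t3 x := (ex_e t1 t2 t3).choose_spec x
theorem gX_a (t1 t2 : F) (x) : gρ F (gX t1 t2) x = xF t1 t2 x := (ex_x t1 t2).choose_spec x
theorem gY_a (t1 t2 : F) (x) : gρ F (gY t1 t2) x = yF t1 t2 x := (ex_y t1 t2).choose_spec x
theorem gS_a (x) : gρ F gS x = sF x := (ex_s (F := F)).choose_spec x

theorem rho_mul (g h : G2 F) (x) : gρ F (g * h) x = gρ F g (gρ F h x) := by
  rw [map_mul, Module.End.mul_apply]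

def b1 : Fin 8 → F := ![0, 1, 0, 0, 0, 0, 0, 0]
def b2 : Fin 8 → F := ![0, 0, 1, 0, 0, 0, 0, 0]
def b3 : Fin 8 → F := ![0, 0, 0, 1, 0, 0, 0, 0]
def b4 : Fin 8 → F := ![0, 0, 0, 0, 1, 0, 0, 0]

theorem g_ext {g h : G2 F} (h1 : gρ F g b1 = gρ F h b1) (h2 : gρ F g b2 = gρ F h b2)
    (h3 : gρ F g b3 = gρ F h b3) : g = h := by
  have key : ∀ x : Fin 8 → F, x = x 0 • zornMul b1 (zornMul b2 b3) + x 1 • b1 + x 2 • b2 + x 3 • b3
      + x 4 • zornMul b2 b3 + x 5 • zornMul b3 b1 + x 6 • zornMul b1 b2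
      + x 7 • zornMul (zornMul b2 b3) b1 := fun x => by
    simp only [zorn_ext, Pi.add_apply, Pi.smul_apply, smul_eq_mul, zorn_app]
    simp [b1, b2, b3]
  have : ∀ x, gρ F g x = gρ F h x := fun x => by
    rw [key x]; simp only [map_add, map_smul, g_mul, h1, h2, h3]
  refine Subtype.ext (Units.ext (ext_of_mulVec_single fun i => ?_))
  exact this _

theorem gS_sq : (gS : G2 F) * gS = 1 := by
  apply g_ext <;> simp [gS_a, sF, b1, b2, b3]

theorem det_inv (A : (M2 F)ˣ) : ((A⁻¹ : (M2 F)ˣ) : M2 F).det *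
    ((A : M2 F) 0 0 * (A : M2 F) 1 1 - (A : M2 F) 0 1 * (A : M2 F) 1 0) = 1 := by
  rw [← det_fin_two, ← det_mul, Units.inv_mul, det_one]

noncomputable def gL0 (A : (M2 F)ˣ) : G2 F := (ex_l _ _ _ _ _ (det_inv A)).choose

theorem gL0_a (A : (M2 F)ˣ) (x) : gρ F (gL0 A) x = lF ((A : M2 F) 0 0) ((A : M2 F) 0 1)
    ((A : M2 F) 1 0) ((A : M2 F) 1 1) ((A⁻¹ : (M2 F)ˣ) : M2 F).det x :=
  (ex_l _ _ _ _ _ (det_inv A)).choose_spec x

noncomputable def gL : (M2 F)ˣ →* G2 F := MonoidHom.mk' gL0 fun A B => by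
  apply g_ext <;>
    simp only [rho_mul, gL0_a, _root_.mul_inv_rev, Units.val_mul, det_mul] <;>
    simp [lF, b1, b2, b3, Matrix.mul_apply, Fin.sum_univ_two, mul_comm]

theorem gL_a (A : (M2 F)ˣ) (x) : gρ F (gL A) x = lF ((A : M2 F) 0 0) ((A : M2 F) 0 1)
    ((A : M2 F) 1 0) ((A : M2 F) 1 1) ((A⁻¹ : (M2 F)ˣ) : M2 F).det x := gL0_a A x

theorem gL_b4 (A : (M2 F)ˣ) : gρ F (gL A) b4 = (A : M2 F).det • b4 := by
  rw [gL_a, det_fin_two (A : M2 F)]; simp [lF, b4]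
theorem gL_b1 (A : (M2 F)ˣ) : gρ F (gL A) b1 = ((A⁻¹ : (M2 F)ˣ) : M2 F).det • b1 := by
  rw [gL_a]; simp [lF, b1]
theorem gL_b2 (A : (M2 F)ˣ) : gρ F (gL A) b2 = (A : M2 F) 0 0 • b2 + (A : M2 F) 1 0 • b3 := by
  rw [gL_a]; simp [lF, b2, b3]
theorem gL_b3 (A : (M2 F)ˣ) : gρ F (gL A) b3 = (A : M2 F) 0 1 • b2 + (A : M2 F) 1 1 • b3 := by
  rw [gL_a]; simp [lF, b2, b3]

theorem gL_itr (A : (M2 F)ˣ) : gS * gL A * gS = gL (itr A) := by
  have h := A.mul_inv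
  have a := congrFun (congrFun h 0) 0
  have b := congrFun (congrFun h 0) 1
  have c := congrFun (congrFun h 1) 0
  have d := congrFun (congrFun h 1) 1
  simp only [Matrix.mul_apply, Fin.sum_univ_two, one_apply_eq, ne_eq, zero_ne_one,
    not_false_eq_true, one_apply_ne, one_ne_zero] at a b c d
  have e : (((itr A)⁻¹ : (M2 F)ˣ) : M2 F) = (A : M2 F)ᵀ := rfl
  have e' : ((itr A : (M2 F)ˣ) : M2 F) = ((A⁻¹ : (M2 F)ˣ) : M2 F)ᵀ := rfl
  apply g_ext <;> simp only [rho_mul, gL_a, gS_a, e, e', det_fin_two, transpose_apply] <;>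
    generalize ((A⁻¹ : (M2 F)ˣ) : M2 F) = B at * <;>
    simp [lF, sF, b1, b2, b3] <;> grind

/-- the unipotent radical -/
def V (F : Type*) [Field F] : Subgroup (G2 F) where
  carrier := {g | gρ F g b4 = b4 ∧ (∃ c : F, gρ F g b2 = b2 + c • b4) ∧
    ∃ c : F, gρ F g b3 = b3 + c • b4}
  one_mem' := ⟨by simp, ⟨0, by simp⟩, 0, by simp⟩
  mul_mem' := by
    rintro g h ⟨a1, ⟨c, a2⟩, d, a3⟩ ⟨b1, ⟨c', b2⟩, d', b3⟩
    refine ⟨by rw [rho_mul, b1, a1], ⟨c + c', ?_⟩, d + d', ?_⟩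
    · rw [rho_mul, b2, map_add, map_smul, a1, a2, add_smul, add_assoc]
    · rw [rho_mul, b3, map_add, map_smul, a1, a3, add_smul, add_assoc]
  inv_mem' := by
    rintro g ⟨a1, ⟨c, a2⟩, d, a3⟩
    have h4 : gρ F g⁻¹ b4 = b4 := by conv_lhs => rw [← a1, rho_inv]
    refine ⟨h4, ⟨-c, ?_⟩, -d, ?_⟩
    · have := congrArg (gρ F g⁻¹) a2
      rw [rho_inv, map_add, map_smul, h4] at this
      rw [neg_smul, ← sub_eq_add_neg, eq_sub_iff_add_eq, ← this]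
    · have := congrArg (gρ F g⁻¹) a3
      rw [rho_inv, map_add, map_smul, h4] at this
      rw [neg_smul, ← sub_eq_add_neg, eq_sub_iff_add_eq, ← this]

theorem mem_V {g : G2 F} : g ∈ V F ↔ gρ F g b4 = b4 ∧ (∃ c : F, gρ F g b2 = b2 + c • b4) ∧
    ∃ c : F, gρ F g b3 = b3 + c • b4 := Iff.rfl

theorem gE_V (s t : F) : gE 0 s t ∈ V F :=
  ⟨by simp [gE_a, eF, b4], ⟨t, by simp [gE_a, eF, b4, b2]⟩, -s, by simp [gE_a, eF, b4, b3]⟩
theorem gD_V (t : F) : gD t 0 0 ∈ V F :=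
  ⟨by simp [gD_a, dF, b4], ⟨0, by simp [gD_a, dF, b2]⟩, 0, by simp [gD_a, dF, b3]⟩
theorem gX_V (s t : F) : gX s t ∈ V F :=
  ⟨by simp [gX_a, xF, b4], ⟨0, by simp [gX_a, xF, b2]⟩, 0, by simp [gX_a, xF, b3]⟩

/-- the opposite radical -/
def Vm (g : G2 F) : Prop := gS * g * gS ∈ V F

theorem Vm.mul {g h : G2 F} (hg : Vm g) (hh : Vm h) : Vm (g * h) := by
  have := (V F).mul_mem hg hh
  rwa [show gS * g * gS * (gS * h * gS) = gS * g * (gS * gS) * h * gS by group, gS_sq, mul_one,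
    mul_assoc gS g h] at this

theorem gS_inv : (gS : G2 F)⁻¹ = gS := inv_eq_of_mul_eq_one_right gS_sq

theorem Vm.inv {g : G2 F} (hg : Vm g) : Vm g⁻¹ := by
  have := (V F).inv_mem hg
  rwa [_root_.mul_inv_rev, _root_.mul_inv_rev, gS_inv, ← mul_assoc] at this

theorem gD_Vm (s t : F) : Vm (gD 0 s t) :=
  ⟨by simp [gS_a, sF, gD_a, dF, b4], ⟨t, by simp [gS_a, sF, gD_a, dF, b4, b2]⟩,
    -s, by simp [gS_a, sF, gD_a, dF, b4, b3]⟩
theorem gE_Vm (t : F) : Vm (gE t 0 0) :=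
  ⟨by simp [gS_a, sF, gE_a, eF, b4], ⟨0, by simp [gS_a, sF, gE_a, eF, b2]⟩,
    0, by simp [gS_a, sF, gE_a, eF, b3]⟩
theorem gY_Vm (s t : F) : Vm (gY s t) :=
  ⟨by simp [gS_a, sF, gY_a, yF, b4], ⟨0, by simp [gS_a, sF, gY_a, yF, b2]⟩,
    0, by simp [gS_a, sF, gY_a, yF, b3]⟩

/-- singular vectors -/
def Sg (x : Fin 8 → F) : Prop := zornMul x x = 0

theorem Sg.map {x : Fin 8 → F} (h : Sg x) (g : G2 F) : Sg (gρ F g x) := by
  unfold Sg; rw [← g_mul, h, map_zero]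

theorem sg_b4 : Sg (b4 : Fin 8 → F) := by simp [Sg, zorn_ext, zorn_app, b4]
theorem sg_b1 : Sg (b1 : Fin 8 → F) := by simp [Sg, zorn_ext, zorn_app, b1]

theorem trans_up {m : Fin 8 → F} (hm : Sg m) (h1 : m 1 ≠ 0) :
    ∃ v ∈ V F, gρ F v m = m 1 • b1 := by
  have s3 : ∀ m : Fin 8 → F, Sg m → m 1 ≠ 0 → m 0 = 0 → m 5 = 0 → m 6 = 0 →
      ∃ v ∈ V F, gρ F v m = m 1 • b1 := fun m hm h1 h0 h5 h6 => by
    refine ⟨gX (-m 2 / m 1) (-m 3 / m 1), gX_V _ _, ?_⟩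
    obtain ⟨a, b⟩ := zorn_sq hm
    have h4 : m 4 = 0 := by simpa [h0, h5, h6, h1] using b
    simp [gX_a, xF, b1, h0, h5, h6, h4, a, h1]
  have s2 : ∀ m : Fin 8 → F, Sg m → m 1 ≠ 0 → m 5 = 0 → m 6 = 0 →
      ∃ v ∈ V F, gρ F v m = m 1 • b1 := fun m hm h1 h5 h6 => by
    obtain ⟨v, hv, e⟩ := s3 _ (hm.map (gD (-m 0 / m 1) 0 0)) (by simpa [gD_a, dF] using h1)
      (by simp [gD_a, dF, h1]) (by simp [gD_a, dF, h5]) (by simp [gD_a, dF, h6])
    refine ⟨_, (V F).mul_mem hv (gD_V (-m 0 / m 1)), ?_⟩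
    rw [rho_mul, e]; simp [gD_a, dF]
  obtain ⟨v, hv, e⟩ := s2 _ (hm.map (gE 0 (-m 6 / m 1) (m 5 / m 1))) (by simpa [gE_a, eF] using h1)
    (by simp [gE_a, eF]; field_simp; ring) (by simp [gE_a, eF]; field_simp; ring)
  refine ⟨_, (V F).mul_mem hv (gE_V (-m 6 / m 1) (m 5 / m 1)), ?_⟩
  rw [rho_mul, e]; simp [gE_a, eF]

theorem trans_down {m : Fin 8 → F} (hm : Sg m) (h4 : m 4 = 1) : ∃ v, Vm v ∧ gρ F v b4 = m := by
  obtain ⟨v, hv, e⟩ := trans_up (hm.map gS) (by simp [gS_a, sF, h4])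
  refine ⟨(gS * v * gS)⁻¹, Vm.inv ?_, ?_⟩
  · unfold Vm
    rwa [show gS * (gS * v * gS) * gS = (gS * gS) * v * (gS * gS) by group, gS_sq, one_mul, mul_one]
  · have : gρ F (gS * v * gS) m = b4 := by
      rw [rho_mul, rho_mul, e]; simp [gS_a, sF, h4, b1, b4]
    rw [← this, rho_inv]

theorem in_L {g : G2 F} (h4 : gρ F g b4 = b4) (h1 : gρ F g b1 = b1) :
    ∃ A : (M2 F)ˣ, (A : M2 F).det = 1 ∧ g = gL A := by
  have k : ∀ b : Fin 8 → F, zornMul (zornMul b1 b4) b = b → zornMul b (zornMul b4 b1) = b →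
      zornMul b b4 = 0 → gρ F g b = gρ F g b 2 • b2 + gρ F g b 3 • b3 := fun b e1 e2 e3 => by
    have f1 := congrArg (gρ F g) e1
    have f2 := congrArg (gρ F g) e2
    have f3 := congrArg (gρ F g) e3
    simp only [g_mul, h1, h4, map_zero] at f1 f2 f3
    generalize gρ F g b = y at *
    simp [zorn_ext, zorn_app, b1, b2, b3, b4] at f1 f2 f3 ⊢
    grind
  have k2 := k b2 (by simp [zorn_ext, zorn_app, b1, b2, b4]) (by simp [zorn_ext, zorn_app, b1, b2, b4])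
    (by simp [zorn_ext, zorn_app, b2, b4])
  have k3 := k b3 (by simp [zorn_ext, zorn_app, b1, b3, b4]) (by simp [zorn_ext, zorn_app, b1, b3, b4])
    (by simp [zorn_ext, zorn_app, b3, b4])
  have e : zornMul (b2 : Fin 8 → F) b3 = b4 := by simp [zorn_ext, zorn_app, b2, b3, b4]
  have f := congrFun (congrArg (gρ F g) e) 4
  rw [g_mul, h4, k2, k3] at f
  have hd : (!![gρ F g b2 2, gρ F g b3 2; gρ F g b2 3, gρ F g b3 3] : M2 F).det = 1 := by
    rw [det_fin_two_of]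
    generalize gρ F g b2 = y, gρ F g b3 = z at f ⊢
    simp [zorn_app, b2, b3, b4] at f
    linear_combination f
  obtain ⟨A, hA⟩ := (isUnit_iff_isUnit_det _).2 (hd ▸ isUnit_one)
  have hd' : ((A⁻¹ : (M2 F)ˣ) : M2 F).det = 1 := by
    have := det_inv A
    rwa [← det_fin_two, hA, hd, mul_one] at this
  refine ⟨A, hA ▸ hd, g_ext ?_ ?_ ?_⟩
  · rw [gL_b1, hd', h1, one_smul]
  · rw [gL_b2, hA]; simpa using k2
  · rw [gL_b3, hA]; simpa using k3

theorem stab_e {g : G2 F} (h4 : gρ F g b4 = b4) :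
    ∃ A : (M2 F)ˣ, (A : M2 F).det = 1 ∧ ∃ v ∈ V F, g = gL A * v := by
  have h1 : gρ F g⁻¹ b1 1 = 1 := by
    have := g_P g (gρ F g⁻¹ b1) b4
    rw [rho_inv', h4] at this
    simpa [zP, b1, b4] using this.symm
  obtain ⟨v, hv, e⟩ := trans_up (sg_b1.map g⁻¹) (by rw [h1]; exact one_ne_zero)
  rw [h1, one_smul] at e
  obtain ⟨A, hA, e'⟩ := in_L (g := g * v⁻¹) (by rw [rho_mul, ((V F).inv_mem hv).1, h4])
    (by rw [rho_mul, ← e, rho_inv, rho_inv', e])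
  exact ⟨A, hA, v, hv, by rw [← e']; group⟩

theorem norm_V (A : (M2 F)ˣ) {v : G2 F} (hv : v ∈ V F) : gL A⁻¹ * v * gL A ∈ V F := by
  obtain ⟨a1, ⟨c, a2⟩, d, a3⟩ := hv
  have k : ∀ x, gρ F (gL A⁻¹) (gρ F (gL A) x) = x := fun x => by rw [map_inv, rho_inv]
  refine ⟨?_, ⟨((A : M2 F) 0 0 * c + (A : M2 F) 1 0 * d) * ((A⁻¹ : (M2 F)ˣ) : M2 F).det, ?_⟩,
    ((A : M2 F) 0 1 * c + (A : M2 F) 1 1 * d) * ((A⁻¹ : (M2 F)ˣ) : M2 F).det, ?_⟩
  · rw [rho_mul, rho_mul, gL_b4, map_smul, a1, ← gL_b4, k]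
  · have : gρ F v (gρ F (gL A) b2) = gρ F (gL A) b2
        + ((A : M2 F) 0 0 * c + (A : M2 F) 1 0 * d) • b4 := by
      rw [gL_b2, map_add, map_smul, map_smul, a2, a3]; module
    rw [rho_mul, rho_mul, this, map_add, k, map_smul, gL_b4, smul_smul]
  · have : gρ F v (gρ F (gL A) b3) = gρ F (gL A) b3
        + ((A : M2 F) 0 1 * c + (A : M2 F) 1 1 * d) • b4 := by
      rw [gL_b3, map_add, map_smul, map_smul, a2, a3]; module
    rw [rho_mul, rho_mul, this, map_add, k, map_smul, gL_b4, smul_smul]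

/-- fixed-point-freeness on the unipotent radical -/
def Fp (t d : F) : Prop := d ≠ 1 ∧ 1 - t + d ≠ 0 ∧ 1 - t * d + d ^ 3 ≠ 0

theorem cent_V (A : (M2 F)ˣ) (h : Fp (A : M2 F).trace (A : M2 F).det) {v : G2 F} (hv : v ∈ V F)
    (hc : gL A * v = v * gL A) : v = 1 := by
  obtain ⟨a1, ⟨c, a2⟩, d, a3⟩ := hv
  have e : gρ F (gL A) (gρ F v b1) = ((A⁻¹ : (M2 F)ˣ) : M2 F).det • gρ F v b1 := by
    rw [← rho_mul, hc, rho_mul, gL_b1, map_smul]
  have h1 : gρ F v b1 1 = 1 := by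
    have := g_P v b1 b4
    rw [a1] at this
    simpa [zP, b1, b4] using this
  obtain ⟨s1, s2⟩ := zorn_sq (sg_b1.map v)
  have hk := det_inv A
  have hb : gρ F v b1 = b1 := by
    rw [gL_a] at e
    obtain ⟨f1, f2, f3⟩ := h
    rw [det_fin_two] at f1 f2 f3
    rw [trace_fin_two] at f2 f3
    generalize gρ F v b1 = m at *
    generalize ((A⁻¹ : (M2 F)ˣ) : M2 F).det = k at *
    generalize (A : M2 F) 0 0 = a at *
    generalize (A : M2 F) 0 1 = b at *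
    generalize (A : M2 F) 1 0 = c at *
    generalize (A : M2 F) 1 1 = d at *
    simp only [zorn_ext, lF, Pi.smul_apply, smul_eq_mul, cons_val_zero, cons_val_one,
      cons_val] at e
    obtain ⟨e0, -, e2, e3, -, e5, e6, -⟩ := e
    have m0 : m 0 = 0 := by
      apply mul_left_cancel₀ (sub_ne_zero.2 f1)
      linear_combination (a * d - b * c) * e0 + m 0 * hk
    have m2 : m 2 = 0 := by
      apply mul_left_cancel₀ f3
      linear_combination (a * d - b * c) ^ 2 * ((d - k) * e2 - b * e3)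
        + m 2 * ((a + d) * (a * d - b * c) - 1 - k * (a * d - b * c)) * hk
    have m3 : m 3 = 0 := by
      apply mul_left_cancel₀ f3
      linear_combination (a * d - b * c) ^ 2 * ((a - k) * e3 - c * e2)
        + m 3 * ((a + d) * (a * d - b * c) - 1 - k * (a * d - b * c)) * hk
    have m5 : m 5 = 0 := by
      apply mul_left_cancel₀ f2
      linear_combination (a * d - b * c) * ((a - 1) * e5 + c * e6)
        - m 5 * (1 - (a + d) + (a * d - b * c)) * hk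
    have m6 : m 6 = 0 := by
      apply mul_left_cancel₀ f2
      linear_combination (a * d - b * c) * ((d - 1) * e6 + b * e5)
        - m 6 * (1 - (a + d) + (a * d - b * c)) * hk
    have m4 : m 4 = 0 := by simpa [m0, m2, m3, h1] using s2
    simp [zorn_ext, b1, m0, m2, m3, m4, m5, m6, s1, h1]
  have c0 : c = 0 := by
    have := g_P v b2 b1
    rw [a2, hb] at this
    simpa [zP, b1, b2, b4] using this
  have d0 : d = 0 := by
    have := g_P v b3 b1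
    rw [a3, hb] at this
    simpa [zP, b1, b3, b4] using this
  apply g_ext
  · simpa using hb
  · simpa [c0] using a2
  · simpa [d0] using a3

theorem conj_V [Finite F] (A : (M2 F)ˣ) (h : Fp (A : M2 F).trace (A : M2 F).det) {v : G2 F}
    (hv : v ∈ V F) : IsConj (gL A) (gL A * v) := by
  let φ : V F → V F := fun y => ⟨gL A⁻¹ * y * gL A * (y : G2 F)⁻¹,
    (V F).mul_mem (norm_V A y.2) ((V F).inv_mem y.2)⟩
  have hi : Function.Injective φ := fun y z e => by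
    have e' : gL A⁻¹ * y * gL A * (y : G2 F)⁻¹ = gL A⁻¹ * z * gL A * (z : G2 F)⁻¹ :=
      congrArg Subtype.val e
    have := cent_V A h ((V F).mul_mem ((V F).inv_mem z.2) y.2) (by
      rw [map_inv] at e'
      calc gL A * ((z : G2 F)⁻¹ * y) = (z : G2 F)⁻¹ * gL A *
            ((gL A)⁻¹ * z * gL A * (z : G2 F)⁻¹) * y := by group
        _ = _ := by rw [← e']; group)
    exact Subtype.ext (inv_mul_eq_one.1 this).symm
  obtain ⟨y, hy⟩ := Finite.surjective_of_injective hi ⟨v, hv⟩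
  have hy' : gL A⁻¹ * y * gL A * (y : G2 F)⁻¹ = v := congrArg Subtype.val hy
  refine isConj_iff.2 ⟨y, ?_⟩
  rw [← hy', map_inv]; group

end H16.Tg
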