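import Cfsg.Agent.H16.Th3

/-! Thompson's conjecture for `G₂(q)`, `q ≥ 3`, with a semisimple class in the Levi `GL₂`. -/

set_option autoImplicit false
set_option linter.unnecessarySeqFocus false

namespace H16.Tg
open Matrix Cfsg.Lie H12 H16.Cv Cfsg.Agent.H16.Th

variable {F : Type*} [Field F]

theorem move (g : G2 F) (hg : g ≠ 1) : ∃ h : G2 F, ∀ c : F, gρ F (h * g * h⁻¹) b4 ≠ c • b4 := by
  by_contra hn
  push Not at hn
  have P : ∀ k : G2 F, ∀ y, gρ F k b4 = y → ∃ c : F, gρ F g y = c • y := fun k y hy => by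
    obtain ⟨c, hc⟩ := hn k⁻¹
    refine ⟨c, ?_⟩
    have := congrArg (gρ F k) hc
    rwa [inv_inv, rho_mul, rho_mul, rho_inv', map_smul, hy] at this
  obtain ⟨c1, h1⟩ := P gS (-b1) (by simp [gS_a, sF, b1, b4])
  obtain ⟨c2, h2⟩ := P (gY (-1) 0 * gX 1 0 * gS) (-b2)
    (by simp [gS_a, sF, gX_a, xF, gY_a, yF, b2, b4])
  obtain ⟨c3, h3⟩ := P (gY 0 (-1) * gX 0 1 * gS) (-b3)
    (by simp [gS_a, sF, gX_a, xF, gY_a, yF, b3, b4])
  obtain ⟨c4, h4⟩ := P (gX 1 0 * gS) (-b1 + -b2) (by simp [gS_a, sF, gX_a, xF, b1, b2, b4])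
  obtain ⟨c5, h5⟩ := P (gX 0 1 * gS) (-b1 + -b3) (by simp [gS_a, sF, gX_a, xF, b1, b3, b4])
  obtain ⟨c6, h6⟩ := P (gE 0 0 1 * gS) (-b1 + zornMul (-b3) (-b1)) (by
    simp only [zorn_ext, Pi.add_apply, Pi.neg_apply, zorn_app]
    simp [gS_a, sF, gE_a, eF, b1, b3, b4])
  rw [map_add, h1, h2] at h4
  rw [map_add, h1, h3] at h5
  rw [map_add, g_mul, h1, h3] at h6
  have a1 := congrFun h4 1
  have a2 := congrFun h4 2
  have a3 := congrFun h5 1
  have a4 := congrFun h5 3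
  have a5 := congrFun h6 1
  have a6 := congrFun h6 5
  simp only [Pi.add_apply, Pi.neg_apply, Pi.smul_apply, smul_eq_mul, zorn_app] at a1 a2 a3 a4 a5 a6
  simp [b1, b2, b3] at a1 a2 a3 a4 a5 a6
  have c0 : c1 ≠ 0 := by
    rintro rfl
    have := congrArg (gρ F g⁻¹) h1
    rw [rho_inv, zero_smul, map_zero] at this
    simpa [b1] using congrFun this 1
  have e3 : c3 = 1 := mul_right_cancel₀ c0 (by rw [a6, ← a5, one_mul])
  have e1 : c1 = 1 := by rw [a3, ← a4, e3]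
  have e2 : c2 = 1 := by rw [a2, ← a1, e1]
  rw [e1, one_smul, map_neg, neg_inj] at h1
  rw [e2, one_smul, map_neg, neg_inj] at h2
  rw [e3, one_smul, map_neg, neg_inj] at h3
  exact hg (g_ext (by simpa using h1) (by simpa using h2) (by simpa using h3))

/-- the three kinds of root elements of the opposite radical -/
def Rt (n : G2 F) : Prop :=
  (∃ s t : F, ¬ (s = 0 ∧ t = 0) ∧ n = gD 0 s t) ∨ (∃ r : F, r ≠ 0 ∧ n = gE r 0 0) ∨
    ∃ s t : F, ¬ (s = 0 ∧ t = 0) ∧ n = gY s t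

theorem Rt.vm {n : G2 F} (h : Rt n) : Vm n := by
  rcases h with ⟨s, t, -, rfl⟩ | ⟨r, -, rfl⟩ | ⟨s, t, -, rfl⟩
  exacts [gD_Vm s t, gE_Vm r, gY_Vm s t]

theorem dot_eq {a b : F} (h : ¬ (a = 0 ∧ b = 0)) (c : F) : ∃ s t : F, s * a + t * b = c := by
  by_cases ha : a = 0
  · have hb : b ≠ 0 := fun hb => h ⟨ha, hb⟩
    exact ⟨0, c / b, by simp [hb]⟩
  · exact ⟨c / a, 0, by simp [ha]⟩

theorem normal [Finite F] {m : Fin 8 → F} (hm : Sg m) (h : ∀ c : F, m ≠ c • b4) :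
    ∃ y ∈ V F, gρ F y m 4 = 1 ∧ ((2 : F) = 0 → ∃ n, Rt n ∧ gρ F y m = gρ F n b4) := by
  by_cases h1 : m 1 = 0
  swap
  · obtain ⟨v, hv, e⟩ := trans_up hm h1
    by_cases h2 : (2 : F) = 0
    · have hch : ringChar F = 2 := by
        have : CharP F 2 := (CharP.charP_iff_prime_eq_zero Nat.prime_two).2 (by exact_mod_cast h2)
        exact ringChar.eq F 2
      obtain ⟨k, hk⟩ := FiniteField.isSquare_of_char_two hch (-(m 1)⁻¹)
      have hk' : -(k * (k * m 1)) = 1 := by rw [← mul_assoc, ← hk]; simp [h1]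
      have k0 : k ≠ 0 := by rintro rfl; simp at hk'
      refine ⟨_, (V F).mul_mem (gD_V k) hv, ?_, fun _ => ⟨_, Or.inr (Or.inl
        ⟨k * m 1, mul_ne_zero k0 h1, rfl⟩), ?_⟩⟩
      · rw [rho_mul, e]; simpa [gD_a, dF, b1] using hk'
      · rw [rho_mul, e]
        simp [gD_a, dF, gE_a, eF, b1, b4, hk']
        linear_combination -m 1 * hk'
    · refine ⟨_, (V F).mul_mem (gX_V (-(m 1)⁻¹) 0) ((V F).mul_mem (gE_V 0 (-1)) hv), ?_,
        fun h => absurd h h2⟩
      rw [rho_mul, rho_mul, e]; simp [gX_a, xF, gE_a, eF, b1, h1]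
  by_cases h5 : m 5 = 0 ∧ m 6 = 0
  · obtain ⟨a, b⟩ := zorn_sq hm
    have h0 : m 0 = 0 := by simpa [h1, h5.1, h5.2] using b
    have h2 : ¬ (m 2 = 0 ∧ m 3 = 0) := fun h2 => h (m 4) (by
      simp [zorn_ext, b4, h0, h1, h2.1, h2.2, h5.1, h5.2, a])
    obtain ⟨s, t, e⟩ := dot_eq h2 (1 - m 4)
    have key : gρ F (gE 0 (-t) s) m = gρ F (gD 0 (m 3) (-m 2)) b4 := by
      simp [gD_a, dF, gE_a, eF, b4, h0, h1, h5.1, h5.2, a]
      linear_combination e
    refine ⟨_, gE_V (-t) s, by rw [key]; simp [gD_a, dF, b4], fun _ => ⟨_, Or.inl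
      ⟨_, _, fun h => h2 ⟨neg_eq_zero.1 h.2, h.1⟩, rfl⟩, key⟩⟩
  · suffices H : ∃ y ∈ V F, gρ F y m = gρ F (gY (-m 5) (-m 6)) b4 by
      obtain ⟨y, hy, e⟩ := H
      exact ⟨y, hy, by rw [e]; simp [gY_a, yF, b4], fun _ => ⟨_, Or.inr (Or.inr
        ⟨_, _, fun h => h5 ⟨neg_eq_zero.1 h.1, neg_eq_zero.1 h.2⟩, rfl⟩), e⟩⟩
    have s3 : ∀ m : Fin 8 → F, Sg m → m 1 = 0 → ¬ (m 5 = 0 ∧ m 6 = 0) → m 0 = 0 → m 2 = 0 →
        m 3 = 0 → ∃ y ∈ V F, gρ F y m = gρ F (gY (-m 5) (-m 6)) b4 := fun m hm h1 h5 h0 h2 h3 => by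
      obtain ⟨s, t, e⟩ := dot_eq h5 (m 4 - 1)
      refine ⟨_, gX_V s t, ?_⟩
      simp [gX_a, xF, gY_a, yF, b4, h0, h1, h2, h3, (zorn_sq hm).1]
      linear_combination -e
    have s2 : ∀ m : Fin 8 → F, Sg m → m 1 = 0 → ¬ (m 5 = 0 ∧ m 6 = 0) → m 0 = 0 →
        ∃ y ∈ V F, gρ F y m = gρ F (gY (-m 5) (-m 6)) b4 := fun m hm h1 h5 h0 => by
      obtain ⟨a, b⟩ := zorn_sq hm
      obtain ⟨c, e2, e3⟩ : ∃ c, m 2 + m 6 * c = 0 ∧ m 3 - m 5 * c = 0 := by
        by_cases h6 : m 6 = 0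
        · have : m 5 ≠ 0 := fun h => h5 ⟨h, h6⟩
          refine ⟨m 3 / m 5, ?_, by field_simp; ring⟩
          simpa [h0, h1, h6, this] using b
        · refine ⟨-m 2 / m 6, by field_simp; ring, ?_⟩
          rw [h0, h1] at b
          field_simp; linear_combination b
      obtain ⟨v, hv, e⟩ := s3 _ (hm.map (gD c 0 0)) (by simpa [gD_a, dF] using h1)
        (by simpa [gD_a, dF] using h5) (by simp [gD_a, dF, h0, h1])
        (by simpa [gD_a, dF] using e2) (by simpa [gD_a, dF, sub_eq_add_neg] using e3)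
      refine ⟨_, (V F).mul_mem hv (gD_V c), ?_⟩
      rw [rho_mul, e]; simp [gD_a, dF]
    obtain ⟨s, t, e'⟩ := dot_eq h5 (-m 0)
    obtain ⟨v, hv, e⟩ := s2 _ (hm.map (gE 0 s t)) (by simpa [gE_a, eF] using h1)
      (by simpa [gE_a, eF, h1] using h5) (by simp [gE_a, eF, e'])
    refine ⟨_, (V F).mul_mem hv (gE_V s t), ?_⟩
    rw [rho_mul, e]; simp [gE_a, eF, h1]

theorem dec_of {g N : G2 F} (A : (M2 F)ˣ) (hA : (A : M2 F).det = 1) (c2 c3 : F)
    (h4 : gρ F g b4 = gρ F N b4)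
    (h2 : gρ F g b2 = gρ F N ((A : M2 F) 0 0 • b2 + (A : M2 F) 1 0 • b3 + c2 • b4))
    (h3 : gρ F g b3 = gρ F N ((A : M2 F) 0 1 • b2 + (A : M2 F) 1 1 • b3 + c3 • b4)) :
    ∃ v ∈ V F, g = N * gL A * v := by
  have e4 : gρ F (gL A) b4 = b4 := by rw [gL_b4, hA, one_smul]
  refine ⟨(gL A)⁻¹ * (N⁻¹ * g), ⟨?_, ⟨c2, ?_⟩, c3, ?_⟩, by group⟩
  · rw [rho_mul, rho_mul, h4, rho_inv]; nth_rw 1 [← e4]; rw [rho_inv]
  · rw [rho_mul, rho_mul, h2, rho_inv, ← gL_b2]; nth_rw 1 [← e4]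
    rw [← map_smul, ← map_add, rho_inv]
  · rw [rho_mul, rho_mul, h3, rho_inv, ← gL_b3]; nth_rw 1 [← e4]
    rw [← map_smul, ← map_add, rho_inv]

/-- transvections -/
def tv (c z1 z2 : F) : (M2 F)ˣ :=
  ⟨!![1 - c * z1 * z2, c * z1 ^ 2; -c * z2 ^ 2, 1 + c * z1 * z2],
   !![1 + c * z1 * z2, -c * z1 ^ 2; c * z2 ^ 2, 1 - c * z1 * z2],
   by ext i j; fin_cases i <;> fin_cases j <;> simp [Matrix.mul_apply, Fin.sum_univ_two] <;> ring,
   by ext i j; fin_cases i <;> fin_cases j <;> simp [Matrix.mul_apply, Fin.sum_univ_two] <;> ring⟩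

theorem tv_val (c z1 z2 : F) : (tv c z1 z2 : M2 F) =
  !![1 - c * z1 * z2, c * z1 ^ 2; -c * z2 ^ 2, 1 + c * z1 * z2] := rfl

theorem tv_det (c z1 z2 : F) : (tv c z1 z2 : M2 F).det = 1 := by
  rw [tv_val, det_fin_two_of]; ring

theorem Rt.dec [Finite F] (h2 : (2 : F) = 0) {n : G2 F} (h : Rt n) :
    ∃ z1 z2 : F, ¬ (z1 = 0 ∧ z2 = 0) ∧ ∀ c : F, ∃ y ∈ V F, ∃ N, Vm N ∧ ∃ v ∈ V F,
      y * n = N * gL (tv c z1 z2) * v := by
  rcases h with ⟨s, t, h, rfl⟩ | ⟨r, h, rfl⟩ | ⟨s, t, h, rfl⟩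
  · refine ⟨t, -s, fun h' => h ⟨neg_eq_zero.1 h'.2, h'.1⟩, fun c => ?_⟩
    obtain ⟨z1, z2, rfl⟩ := dot_eq h c
    refine ⟨_, gX_V z1 z2, _, gD_Vm s t, dec_of _ (tv_det _ _ _) (s * (z1 * s + z2 * t))
      (t * (z1 * s + z2 * t)) ?_ ?_ ?_⟩
    all_goals simp [gX_a, xF, gD_a, dF, b2, b3, b4, tv_val] <;> and_intros <;> ring
  · refine ⟨1, 0, by simp, fun c => ?_⟩
    have hch : ringChar F = 2 := by
      have : CharP F 2 := (CharP.charP_iff_prime_eq_zero Nat.prime_two).2 (by exact_mod_cast h2)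
      exact ringChar.eq F 2
    obtain ⟨k, hk⟩ := FiniteField.isSquare_of_char_two hch (-c / r ^ 3)
    obtain rfl : c = -r ^ 3 * k ^ 2 := by
      field_simp at hk; linear_combination -hk
    refine ⟨_, gX_V k 0, _, (gY_Vm 0 (r ^ 3 * k)).mul ((gE_Vm r).mul (gD_Vm 0 (r ^ 2 * k))),
      dec_of _ (tv_det _ _ _) 0 (-r * k) ?_ ?_ ?_⟩
    all_goals simp [gX_a, xF, gD_a, dF, gE_a, eF, gY_a, yF, b2, b3, b4, tv_val] <;>
      and_intros <;> ring
  · refine ⟨-t, s, fun h' => h ⟨h'.2, neg_eq_zero.1 h'.1⟩, fun c => ?_⟩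
    refine ⟨_, gX_V (c * t) (-c * s), _, gY_Vm s t, dec_of _ (tv_det _ _ _) 0 0 ?_ ?_ ?_⟩
    all_goals simp [gX_a, xF, gY_a, yF, b2, b3, b4, tv_val] <;> and_intros <;> ring

theorem tv_nice (h2 : (2 : F) = 0) {z1 z2 : F} (hz : ¬ (z1 = 0 ∧ z2 = 0)) (A : M2 F)
    (hA : A.det = 1) : ∃ c, Nice ((tv c z1 z2 : M2 F) * A) := by
  have hd : ∀ c, ((tv c z1 z2 : M2 F) * A).det = 1 := fun c => by rw [det_mul, tv_det, hA, one_mul]
  have ht : ∀ c, ((tv c z1 z2 : M2 F) * A).trace = A 0 0 + A 1 1 + c *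
      (-z1 * z2 * A 0 0 + z1 ^ 2 * A 1 0 - z2 ^ 2 * A 0 1 + z1 * z2 * A 1 1) := fun c => by
    rw [trace_fin_two, tv_val]; simp [Matrix.mul_apply, Fin.sum_univ_two]; ring
  by_contra hn
  push Not at hn
  have k : ∀ c, ((tv c z1 z2 : M2 F) * A).trace = 0 ∧ (tv c z1 z2 : M2 F) * A ≠ 1 := fun c => by
    by_contra h
    exact hn c ⟨hd c, fun _ => by tauto⟩
  have t0 := (k 0).1
  have t1 := (k 1).1
  rw [ht] at t0 t1
  rw [det_fin_two] at hA
  obtain ⟨c, e1, e2⟩ : ∃ c, A 0 1 = c * z1 ^ 2 ∧ A 1 0 = c * z2 ^ 2 := by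
    have e : z1 ^ 2 * A 1 0 = z2 ^ 2 * A 0 1 := by
      linear_combination t1 - (1 + z1 * z2) * t0 + (z1 * z2 * A 0 0) * h2
    by_cases h1 : z1 = 0
    · have : z2 ≠ 0 := fun h => hz ⟨h1, h⟩
      refine ⟨A 1 0 / z2 ^ 2, ?_, by field_simp⟩
      simpa [h1, this] using e
    · refine ⟨A 0 1 / z1 ^ 2, by field_simp, ?_⟩
      field_simp; linear_combination e
  have e3 : A 0 0 = 1 + c * z1 * z2 := by
    have : (A 0 0 - (1 + c * z1 * z2)) ^ 2 = 0 := by
      rw [e1, e2] at hA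
      linear_combination -hA + A 0 0 * t0 + (-A 0 0 * (1 + c * z1 * z2) + c * z1 * z2) * h2
    exact sub_eq_zero.1 ((pow_eq_zero_iff two_ne_zero).1 this)
  have e4 : A 1 1 = 1 - c * z1 * z2 := by linear_combination t0 - e3 - h2
  apply (k (-c)).2
  rw [tv_val]
  ext i j; fin_cases i <;> fin_cases j <;>
    simp [Matrix.mul_apply, Fin.sum_univ_two, e1, e2, e3, e4] <;> grind

theorem reduce2 [Finite F] (g : G2 F) (hg : g ≠ 1) : ∃ (h : G2 F) (A : (M2 F)ˣ),
    Nice (A : M2 F) ∧ ∃ N, Vm N ∧ ∃ v ∈ V F, h * g * h⁻¹ = N * gL A * v := by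
  obtain ⟨h, hh⟩ := move g hg
  obtain ⟨y, hy, y4, yn⟩ := normal (sg_b4.map (h * g * h⁻¹)) hh
  have e : gρ F ((y * h) * g * (y * h)⁻¹) b4 = gρ F y (gρ F (h * g * h⁻¹) b4) := by
    rw [show (y * h) * g * (y * h)⁻¹ = y * (h * g * h⁻¹) * y⁻¹ by group, rho_mul,
      ((V F).inv_mem hy).1, rho_mul]
  rw [← e] at y4 yn
  generalize y * h = k at *
  by_cases h2 : (2 : F) = 0
  · obtain ⟨n, hn, e'⟩ := yn h2
    obtain ⟨A, hA, v, hv, e2⟩ := stab_e (g := n⁻¹ * (k * g * k⁻¹)) (by rw [rho_mul, e', rho_inv])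
    obtain ⟨z1, z2, hz, H⟩ := hn.dec h2
    obtain ⟨c, hc⟩ := tv_nice h2 hz (A : M2 F) hA
    obtain ⟨x, hx, N, hN, w, hw, e3⟩ := H c
    refine ⟨x * k, tv c z1 z2 * A, hc, N, hN, _, (V F).mul_mem (norm_V A hw)
      ((V F).mul_mem hv ((V F).inv_mem hx)), ?_⟩
    calc x * k * g * (x * k)⁻¹ = (x * n) * (n⁻¹ * (k * g * k⁻¹)) * x⁻¹ := by group
      _ = _ := by rw [e2, e3, map_mul, map_inv]; group
  · obtain ⟨N, hN, e'⟩ := trans_down (sg_b4.map _) y4
    obtain ⟨A, hA, v, hv, e2⟩ := stab_e (g := N⁻¹ * (k * g * k⁻¹)) (by rw [rho_mul, ← e', rho_inv])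
    exact ⟨k, A, ⟨hA, fun h => absurd h h2⟩, N, hN, v, hv, by rw [mul_assoc N, ← e2]; group⟩

theorem params2 [Fintype F] (h3 : 3 ≤ Fintype.card F) :
    ∃ t d : F, Par t d ∧ Fp t d ∧ ((2 : F) = 0 ∨ d = -1) ∧
      ∀ s : F, ((2 : F) = 0 → s ≠ 0) → Gam t d s := by
  classical
  have hq := FiniteField.cast_card_eq_zero F
  have hpow := FiniteField.pow_card (K := F)
  have avoid : ∀ s : Finset F, s.card < Fintype.card F → ∃ x, x ∉ s := fun s hs => by
    by_contra hh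
    push Not at hh
    have := Finset.eq_univ_iff_forall.2 hh
    rw [this, Finset.card_univ] at hs
    exact lt_irrefl _ hs
  have fp1 : ∀ t : F, (2 : F) ≠ 0 → t ≠ 0 → Fp t (-1) := fun t h2 ht =>
    ⟨fun h => h2 (by linear_combination -h), fun h => ht (by linear_combination -h),
      fun h => ht (by linear_combination h)⟩
  rcases (by omega : Fintype.card F = 3 ∨ Fintype.card F = 4 ∨ Fintype.card F = 5 ∨
    6 ≤ Fintype.card F) with h | h | h | h
  · rw [h] at hq hpow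
    have h3 : (3 : F) = 0 := by exact_mod_cast hq
    have h2 : (2 : F) ≠ 0 := fun h => one_ne_zero (α := F) (by linear_combination h3 - h)
    have hd : (2 : F) = -1 := by linear_combination h3
    refine ⟨1, 2, ⟨h2, fun h => h2 (by linear_combination h + 3 * h3),
      fun h => h2 (by linear_combination h - 2 * h3)⟩, hd ▸ fp1 1 h2 one_ne_zero, Or.inr hd,
      fun s _ => ?_⟩
    have : s * (s - 1) * (s - 2) = 0 := by linear_combination hpow s + (s - s ^ 2) * h3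
    rcases mul_eq_zero.1 this with h | h
    · rcases mul_eq_zero.1 h with h | h
      · exact ⟨2, 1, 2, 1, by ring, by linear_combination -2 * h3, by linear_combination 2 * h⟩
      · exact ⟨1, 1, 1, 1, by ring, by linear_combination -h3, by linear_combination h⟩
    · exact ⟨1, 1, 1, -1, by ring, by linear_combination -h3, by linear_combination h + h3⟩
  · rw [h] at hq hpow
    have h2 : (2 : F) = 0 := by
      have : (2 : F) ^ 2 = 0 := by rw [← hq]; norm_num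
      exact (pow_eq_zero_iff two_ne_zero).1 this
    obtain ⟨w, hw⟩ := avoid {0, 1} (by rw [h]; exact lt_of_le_of_lt Finset.card_le_two (by norm_num))
    simp only [Finset.mem_insert, Finset.mem_singleton, not_or] at hw
    have hw2 : w ^ 2 + w + 1 = 0 := by
      have : w * (w - 1) * (w ^ 2 + w + 1) = 0 := by linear_combination hpow w
      rcases mul_eq_zero.1 this with h | h
      · rcases mul_eq_zero.1 h with h | h
        · exact absurd h hw.1
        · exact absurd (sub_eq_zero.1 h) hw.2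
      · exact h
    have hw1 : w + 1 ≠ 0 := fun h => hw.2 (by linear_combination h - h2)
    refine ⟨w + 1, w + 1, ⟨hw1, fun h => hw.1 (by linear_combination h - hw2 + (2 * w + 2) * h2),
      fun h => hw.1 (by linear_combination h - (w + 1) * w * h2)⟩,
      ⟨fun h => hw.1 (by linear_combination h), by simp, fun h => hw.1 ?_⟩, Or.inl h2,
      fun s hs => ?_⟩
    · linear_combination (w + 1) * hw2 - h
    have : s * ((s - 1) * ((s - w) * (s - (w + 1)))) = 0 := by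
      linear_combination hpow s + (s ^ 2 - s) * hw2 + (-s ^ 3 * (w + 1) + s ^ 2 * w + s) * h2
    rcases mul_eq_zero.1 this with h | h
    · exact absurd h (hs h2)
    rcases mul_eq_zero.1 h with h | h
    · exact ⟨w, w, w + 1, 1, by ring, by linear_combination -hw2 , by linear_combination w * h⟩
    rcases mul_eq_zero.1 h with h | h
    · exact ⟨1, w, w + 1, 1, by ring, by linear_combination -hw2, by linear_combination h⟩
    · exact ⟨1, 1, 1, 1, by ring, by linear_combination -h2, by linear_combination h⟩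
  · rw [h] at hq hpow
    have h5 : (5 : F) = 0 := by exact_mod_cast hq
    have h2 : (2 : F) ≠ 0 := fun h => one_ne_zero (α := F) (by linear_combination h5 - 2 * h)
    have h3 : (3 : F) ≠ 0 := fun h => one_ne_zero (α := F) (by linear_combination 2 * h - h5)
    have hd : (4 : F) = -1 := by linear_combination h5
    refine ⟨3, 4, ⟨fun h => one_ne_zero (α := F) (by linear_combination h5 - h),
      fun h => h3 (by linear_combination h + 2 * h5),
      fun h => h3 (by linear_combination h - 9 * h5)⟩, hd ▸ fp1 3 h2 h3, Or.inr hd, fun s _ => ?_⟩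
    have : s * ((s - 1) * ((s - 2) * ((s - 3) * (s - 4)))) = 0 := by
      linear_combination hpow s + (-2 * s ^ 4 + 7 * s ^ 3 - 10 * s ^ 2 + 5 * s) * h5
    rcases mul_eq_zero.1 this with h | h
    · exact ⟨1, 1, 3, -1, by ring, by linear_combination -h5, by linear_combination h + h5⟩
    rcases mul_eq_zero.1 h with h | h
    · exact ⟨1, 1, 3, 1, by ring, by linear_combination -h5, by linear_combination h⟩
    rcases mul_eq_zero.1 h with h | h
    · exact ⟨2, 3, 1, -1, by ring, by linear_combination -h5, by linear_combination 2 * h + h5⟩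
    rcases mul_eq_zero.1 h with h | h
    · exact ⟨2, 1, 3, 1, by ring, by linear_combination -h5, by linear_combination 2 * h + h5⟩
    · exact ⟨1, 3, 1, -1, by ring, by linear_combination -h5, by linear_combination h + h5⟩
  · suffices H : ∃ l m : F, l ≠ 0 ∧ m ≠ 0 ∧ l ≠ 1 ∧ m ≠ 1 ∧ l ≠ -1 ∧ m ≠ -1 ∧ m ≠ l ∧
        l * m ≠ 1 ∧ l * m * l ≠ 1 ∧ l * m * m ≠ 1 ∧ ((2 : F) = 0 ∨ l * m = -1) by
      obtain ⟨l, m, l0, m0, l1, m1, l2, m2, m3, a1, a2, a3, a4⟩ := H
      refine ⟨l + m, l * m, ⟨mul_ne_zero l0 m0, fun h => m3 ?_, ?_⟩, ⟨a1, ?_, ?_⟩, a4, fun s _ =>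
        ⟨l, l * s - (l + m), 0, 1, by ring, by ring, by ring⟩⟩
      · have : (m - l) ^ 2 = 0 := by linear_combination h
        exact sub_eq_zero.1 ((pow_eq_zero_iff two_ne_zero).1 this)
      · have : (l * m - 1) * ((l * m + 1) ^ 2 - (l + m) ^ 2)
            = (l * m - 1) * ((l - 1) * (l - -1) * ((m - 1) * (m - -1))) := by ring
        rw [this]
        exact mul_ne_zero (sub_ne_zero.2 a1) (mul_ne_zero (mul_ne_zero (sub_ne_zero.2 l1)
          (sub_ne_zero.2 l2)) (mul_ne_zero (sub_ne_zero.2 m1) (sub_ne_zero.2 m2)))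
      · rw [show 1 - (l + m) + l * m = (l - 1) * (m - 1) by ring]
        exact mul_ne_zero (sub_ne_zero.2 l1) (sub_ne_zero.2 m1)
      · rw [show 1 - (l + m) * (l * m) + (l * m) ^ 3 = (l * m * l - 1) * (l * m * m - 1) by ring]
        exact mul_ne_zero (sub_ne_zero.2 a2) (sub_ne_zero.2 a3)
    by_cases h2 : (2 : F) = 0
    · have : CharP F 2 := (CharP.charP_iff_prime_eq_zero Nat.prime_two).2 (by exact_mod_cast h2)
      obtain ⟨n, -, hn⟩ := FiniteField.card F 2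
      have h8 : 6 < Fintype.card F := by
        refine lt_of_le_of_ne h fun h6 => ?_
        have : 3 ∣ 2 ^ (n : ℕ) := by rw [← hn, ← h6]; norm_num
        exact absurd (Nat.Prime.dvd_of_dvd_pow Nat.prime_three this) (by norm_num)
      obtain ⟨l, hl⟩ := avoid {0, 1} (lt_of_le_of_lt Finset.card_le_two (by omega))
      obtain ⟨k, hk⟩ := FiniteField.isSquare_of_char_two (ringChar.eq F 2) l⁻¹
      obtain ⟨m, hm⟩ := avoid {0, 1, l, l⁻¹, l⁻¹ ^ 2, k}
        (lt_of_le_of_lt Finset.card_le_six h8)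
      simp only [Finset.mem_insert, Finset.mem_singleton, not_or] at hl hm
      obtain ⟨l0, l1⟩ := hl
      obtain ⟨m0, m1, m2, m3, m4, m5⟩ := hm
      refine ⟨l, m, l0, m0, l1, m1, fun h => l1 (by linear_combination h - h2),
        fun h => m1 (by linear_combination h - h2), m2, fun h => m3 ?_, fun h => m4 ?_,
        fun h => m5 ?_, Or.inl h2⟩
      · field_simp; linear_combination h
      · field_simp; linear_combination h
      · have hk' : l * (k * k) = 1 := by rw [← hk]; exact mul_inv_cancel₀ l0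
        have : l * (m - k) ^ 2 = 0 := by linear_combination h + hk' + (1 - l * m * k) * h2
        exact sub_eq_zero.1 ((pow_eq_zero_iff two_ne_zero).1 ((mul_eq_zero.1 this).resolve_left l0))
    · obtain ⟨l, l0, l1, l2, l3⟩ : ∃ l : F, l ≠ 0 ∧ l ≠ 1 ∧ l ≠ -1 ∧ l * l ≠ -1 := by
        by_cases hi : ∃ i : F, i * i = -1
        · obtain ⟨i, hi⟩ := hi
          obtain ⟨l, hl⟩ := avoid {0, 1, -1, i, -i} (lt_of_le_of_lt Finset.card_le_five (by omega))
          simp only [Finset.mem_insert, Finset.mem_singleton, not_or] at hl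
          refine ⟨l, hl.1, hl.2.1, hl.2.2.1, fun h => ?_⟩
          rcases mul_self_eq_mul_self_iff.1 (h.trans hi.symm) with h | h
          exacts [hl.2.2.2.1 h, hl.2.2.2.2 h]
        · obtain ⟨l, hl⟩ := avoid {0, 1, -1} (lt_of_le_of_lt Finset.card_le_three (by omega))
          simp only [Finset.mem_insert, Finset.mem_singleton, not_or] at hl
          exact ⟨l, hl.1, hl.2.1, hl.2.2, fun h => hi ⟨l, h⟩⟩
      have e : l * -l⁻¹ = -1 := by simp [l0]
      refine ⟨l, -l⁻¹, l0, by simpa using l0, l1, fun h => l2 ?_, l2, fun h => l1 ?_,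
        fun h => l3 ?_, fun h => h2 ?_, fun h => l2 ?_, fun h => l1 ?_, Or.inr e⟩
      · rw [h] at e; linear_combination e
      · rw [h] at e; linear_combination -e
      · rw [h] at e; exact e
      · linear_combination e - h
      · rw [e] at h; linear_combination -h
      · rw [e] at h
        have : -l⁻¹ = -1 := by linear_combination -h
        rw [this] at e; linear_combination -e

theorem fp_of {t d : F} (h0 : d ≠ 0) (h : Fp t d) {A : (M2 F)ˣ} (hA : Cl t d A ∨ Cl t d A⁻¹) :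
    Fp (A : M2 F).trace (A : M2 F).det := by
  rcases hA with hA | hA
  · rwa [hA.1, hA.2]
  · have h1 := inv_tr A
    have h2 : (A : M2 F).det * ((A⁻¹ : (M2 F)ˣ) : M2 F).det = 1 := by
      rw [← det_mul, Units.mul_inv, det_one]
    rw [hA.2] at h1 h2
    rw [hA.1] at h1
    have e1 : (A : M2 F).det = d⁻¹ := by field_simp; linear_combination h2
    have e2 : (A : M2 F).trace = t * d⁻¹ := by field_simp; linear_combination h1
    rw [e1, e2]
    refine ⟨fun e => h.1 (by simpa using e), fun e => h.2.1 ?_, fun e => h.2.2 ?_⟩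
    · field_simp at e; linear_combination e
    · field_simp at e; linear_combination e

theorem cl_itr {t d : F} {A : (M2 F)ˣ} (hA : Cl t d A ∨ Cl t d A⁻¹) :
    Cl t d (itr A) ∨ Cl t d (itr A)⁻¹ := by
  rcases hA with hA | hA
  · exact Or.inr ⟨(trace_transpose _).trans hA.1, (det_transpose _).trans hA.2⟩
  · exact Or.inl ⟨(trace_transpose _).trans hA.1, (det_transpose _).trans hA.2⟩

theorem isConj_itr (A : (M2 F)ˣ) : IsConj (gL A) (gL (itr A)) :=
  isConj_iff.2 ⟨gS, by rw [gS_inv, gL_itr]⟩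

theorem conj_Vm [Finite F] {t d : F} (h0 : d ≠ 0) (h : Fp t d) {A : (M2 F)ˣ}
    (hA : Cl t d A ∨ Cl t d A⁻¹) {N : G2 F} (hN : Vm N) : IsConj (gL A) (N * gL A) := by
  refine (isConj_itr A).trans ((conj_V _ (fp_of h0 h (cl_itr hA)) hN).trans ?_)
  refine isConj_iff.2 ⟨(gL A)⁻¹ * gS, ?_⟩
  rw [← gL_itr, _root_.mul_inv_rev, gS_inv, inv_inv]
  calc (gL A)⁻¹ * gS * (gS * gL A * gS * (gS * N * gS)) * (gS * gL A)
      = (gL A)⁻¹ * (gS * gS) * gL A * (gS * gS) * N * (gS * gS) * gL A := by group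
    _ = _ := by rw [gS_sq]; group

theorem thompson2 [Fintype F] (p : ℕ) [Fact p.Prime] [CharP F p] (h3 : 3 ≤ Fintype.card F) :
    ∃ x : G2 F, ¬ p ∣ orderOf x ∧ ∀ g : G2 F, g ≠ 1 →
      ∃ u v : G2 F, g = (u * x * u⁻¹) * (v * x * v⁻¹) := by
  have : Finite (G2 F) := inferInstance
  obtain ⟨t, d, P, hF, hd, hG⟩ := params2 h3
  have u0 : IsUnit (Cfsg.Agent.H16.Th.comp d t) :=
    (isUnit_iff_isUnit_det _).2 (by rw [Cfsg.Agent.H16.Th.comp, det_fin_two_of]; simpa using P.d0)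
  obtain ⟨A0, hA0⟩ := u0
  have h0 : Cl t d A0 := by
    constructor
    · rw [hA0, Cfsg.Agent.H16.Th.comp, trace_fin_two_of]; simp
    · rw [hA0, Cfsg.Agent.H16.Th.comp, det_fin_two_of]; simp
  have hdisc : (A0 : M2 F).trace ^ 2 ≠ 4 * (A0 : M2 F).det := by rw [h0.1, h0.2]; exact P.disc
  refine ⟨gL A0, fun h => ord p A0 hdisc (h.trans (orderOf_map_dvd gL A0)), fun g hg => ?_⟩
  obtain ⟨h, A, hN, N, hS, v, hT, e⟩ := reduce2 g hg
  obtain ⟨ε, he, A1, A2, c1, c2, hA⟩ := factor P A0 h0 A hN.1 (fun h1 => hG _ (fun h2 => by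
    rcases hN.2 h2 with h | h
    · exact h
    · exact absurd (Units.ext h) h1))
  have c1' : Cl t d (sc ε he * A1) ∨ Cl t d (sc ε he * A1)⁻¹ := by
    have hv : ((sc ε he * A1 : (M2 F)ˣ) : M2 F) = ε • (A1 : M2 F) := by simp [sc]
    by_cases h1 : ε = 1
    · right
      have : sc ε he * A1 = A1 := Units.ext (by rw [hv, h1, one_smul])
      rwa [this]
    · left
      have hε : ε = -1 := (mul_self_eq_one_iff.1 he).resolve_left h1
      have hd' : d = -1 := hd.resolve_left fun h2 => h1 (by linear_combination hε - h2)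
      have h1 := inv_tr A1
      have h2 : (A1 : M2 F).det * ((A1⁻¹ : (M2 F)ˣ) : M2 F).det = 1 := by
        rw [← det_mul, Units.mul_inv, det_one]
      rw [c1.2] at h1 h2
      rw [c1.1] at h1
      constructor
      · rw [hv, trace_smul, hε, ← h1, hd', smul_eq_mul, mul_comm]
      · rw [hv, det_smul, hε, hd']
        rw [hd'] at h2
        simp only [Fintype.card_fin, even_two, Even.neg_pow, one_pow, one_mul]
        linear_combination -h2
  have k0 : ∀ B : (M2 F)ˣ, Cl t d B → IsConj (gL A0) (gL B) := fun B c =>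
    gL.map_isConj (isConj_of A0 B hdisc (c.1.trans h0.1.symm) (c.2.trans h0.2.symm))
  have k2 : IsConj (gL A0) (gL A2 * v) :=
    (k0 _ c2).trans (conj_V A2 (fp_of P.d0 hF (Or.inl c2)) hT)
  have k1 : IsConj (gL A0) (N * gL (sc ε he * A1)) := by
    refine IsConj.trans ?_ (conj_Vm P.d0 hF c1' hS)
    rcases c1' with c | c
    · exact k0 _ c
    · exact (k0 _ ⟨(trace_transpose _).trans c.1, (det_transpose _).trans c.2⟩).trans
        (isConj_itr _).symm
  obtain ⟨u, hu⟩ := isConj_iff.1 k1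
  obtain ⟨w, hw⟩ := isConj_iff.1 k2
  refine ⟨h⁻¹ * u, h⁻¹ * w, ?_⟩
  calc g = h⁻¹ * (h * g * h⁻¹) * h := by group
    _ = h⁻¹ * ((N * gL (sc ε he * A1)) * (gL A2 * v)) * h := by rw [e, hA, map_mul]; group
    _ = _ := by rw [← hu, ← hw]; group

open StSys H11 Subgroup in
theorem iso_G2 [Fintype F] (h : ∃ a : F, a ≠ 0 ∧ a ≠ 1) : Nonempty (chevG2.group F ≃* G2 F) := by
  have hT : ((repZ.sys F).restrict _ (x_mem_T _)).T = ⊤ :=
    (restrict_gen _ _ _ _).trans (subgroupOf_self _)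
  have : Nontrivial (repZ.sys F).T := ⟨⟨⟨_, x_mem_T _ ⟨6, by decide⟩ 1⟩, 1, fun e => by
    simpa [repX, e8, e28, spM] using congrArg (fun g : (repZ.sys F).T => g.1.1 5 6) e⟩⟩
  obtain ⟨e, -⟩ := exists_iso_quot _ hT (simple_of_mem (by simp) fun _ => h).1
    (perfect_of_mem (by simp) (fun _ => h) _)
  have h1 : Nat.card (G2 F) = Nat.card ((repZ.sys F).T ⧸ center (repZ.sys F).T) := by
    rw [card_zorn h, ← Cfsg.Agent.S1059.result rfl, Nat.card_congr e.toEquiv]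
  have h2 := Nat.card_le_card_of_surjective _
    (QuotientGroup.mk'_surjective (center (repZ.sys F).T))
  have h3 := card_le_of_le (repZ_le (F := F))
  have h4 : (repZ.sys F).T = G2 F := eq_of_le_of_card_ge repZ_le (by omega)
  have h5 : Function.Bijective (QuotientGroup.mk' (center (repZ.sys F).T)) :=
    (Nat.bijective_iff_surjective_and_card _).2 ⟨QuotientGroup.mk'_surjective _, by omega⟩
  exact ⟨e.trans ((MulEquiv.ofBijective _ h5).symm.trans (MulEquiv.subgroupCongr h4))⟩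

theorem thompsonG2 [Fintype F] (p : ℕ) [Fact p.Prime] [CharP F p] (h3 : 3 ≤ Fintype.card F) :
    ∃ x : chevG2.group F, ¬ p ∣ orderOf x ∧ ∀ g : chevG2.group F, g ≠ 1 →
      ∃ u v : chevG2.group F, g = (u * x * u⁻¹) * (v * x * v⁻¹) := by
  obtain ⟨e⟩ := iso_G2 (F := F) (H11.exists_ne_zero_ne_one (by
    rw [Nat.card_eq_fintype_card]; omega))
  obtain ⟨x, h1, h2⟩ := thompson2 p h3
  refine ⟨e.symm x, by rwa [MulEquiv.orderOf_eq], fun g hg => ?_⟩
  obtain ⟨u, v, h⟩ := h2 (e g) (by simpa using hg)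
  exact ⟨e.symm u, e.symm v, e.injective (by simpa using h)⟩

end H16.Tg
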