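import Cfsg.Agent.H16.Th4
import Cfsg.Agent.H12.TwG
import Cfsg.Prelude.Def_LieTwisted

/-! The eight-dimensional model of `³D₄(q)` in Zorn coordinates: generators, the twisted product,
explicit root elements. -/

set_option autoImplicit false
set_option linter.unnecessarySeqFocus false
set_option linter.unusedTactic false

namespace H16.Td
open Matrix Cfsg.Lie H12 H16.Cv Cfsg.Agent.H16.Th
open H16.Tg (xF yF sF lF b1 b2 b3 b4 det_inv tv tv_val tv_det)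

def eT (r : ℕ) : H12.Sp (Fin 8) := [[(1, 2, -1), (5, 4, 1)], [(1, 3, -1), (6, 4, 1)],
  [(0, 4, -1), (1, 7, -1)], [(1, 0, 1), (7, 4, 1)], [(1, 6, 1), (3, 4, -1)], [(1, 5, -1), (2, 4, 1)],
  [(5, 3, 1), (6, 2, -1)], [(0, 2, 1), (5, 7, 1)], [(5, 0, -1), (7, 2, -1)], [(3, 2, 1), (5, 6, -1)],
  [(0, 3, -1), (6, 7, -1)], [(6, 0, 1), (7, 3, 1)], [(0, 6, 1), (3, 7, 1)], [(3, 0, -1), (7, 6, -1)],
  [(2, 3, 1), (6, 5, -1)], [(0, 5, -1), (2, 7, -1)], [(2, 0, 1), (7, 5, 1)], [(2, 6, -1), (3, 5, 1)],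
  [(4, 2, 1), (5, 1, -1)], [(4, 3, -1), (6, 1, 1)], [(0, 1, 1), (4, 7, 1)], [(4, 0, -1), (7, 1, -1)],
  [(3, 1, -1), (4, 6, 1)], [(2, 1, -1), (4, 5, 1)]].getD r []
def ωT (a : Fin 8) (i : ℕ) : ℤ := ent [[0, 0, -1, 1], [-1, 0, 0, 0], [-1, 1, 0, 0], [0, -1, 1, 1],
  [1, 0, 0, 0], [1, -1, 0, 0], [0, 1, -1, -1], [0, 0, 1, -1]] a i
theorem repT : RepChk (tab chevD4) eT (fun _ => []) ωT := by rw [tabD4_eq]; decide +kernel

variable {K : Type*} [Field K]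

def E1 (t u v : K) (x : Fin 8 → K) : Fin 8 → K :=
  ![x 0 + v * x 4, x 1 + (v * x 7 - u * x 0 - u * v * x 4), x 2, x 3, x 4, x 5 + t * x 3,
    x 6 - t * x 2, x 7 - u * x 4]
def E2 (t u v : K) (x : Fin 8 → K) : Fin 8 → K :=
  ![x 0 + v * x 5, x 1, x 2 + (v * x 7 - u * x 0 - u * v * x 5), x 3, x 4 - t * x 3, x 5,
    x 6 + t * x 1, x 7 - u * x 5]
def E3 (t u v : K) (x : Fin 8 → K) : Fin 8 → K :=
  ![x 0 + v * x 6, x 1, x 2, x 3 + (v * x 7 - u * x 0 - u * v * x 6), x 4 + t * x 2,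
    x 5 - t * x 1, x 6, x 7 - u * x 6]
def D1 (t u v : K) (x : Fin 8 → K) : Fin 8 → K :=
  ![x 0 + u * x 1, x 1, x 2 + t * x 6, x 3 - t * x 5, x 4 + (u * x 7 - v * x 0 - u * v * x 1),
    x 5, x 6, x 7 - v * x 1]
def D2 (t u v : K) (x : Fin 8 → K) : Fin 8 → K :=
  ![x 0 + u * x 2, x 1 - t * x 6, x 2, x 3 + t * x 4, x 4,
    x 5 + (u * x 7 - v * x 0 - u * v * x 2), x 6, x 7 - v * x 2]
def D3 (t u v : K) (x : Fin 8 → K) : Fin 8 → K :=
  ![x 0 + u * x 3, x 1 + t * x 5, x 2 - t * x 4, x 3, x 4, x 5,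
    x 6 + (u * x 7 - v * x 0 - u * v * x 3), x 7 - v * x 3]
def hF (t u v : K) (x : Fin 8 → K) : Fin 8 → K :=
  ![u⁻¹ * v * x 0, t⁻¹ * x 1, t⁻¹ * x 2, u * v * x 3, t * x 4, t * x 5, (u * v)⁻¹ * x 6,
    u * v⁻¹ * x 7]

/-- root elements of `D₄` in the eight-dimensional representation -/
noncomputable def xx (r : ℕ) (hr : r < 24) (t : K) : GL (Fin 8) K := (repT.sys K).x ⟨r, hr⟩ t

theorem xx_app (r : ℕ) (hr : r < 24) (t : K) (x : Fin 8 → K) :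
    (xx r hr t).1 *ᵥ x = x + t • spM K (eT r) *ᵥ x := by
  change repX eT (fun _ => []) K r t *ᵥ x = _
  simp [repX, add_mulVec, smul_mulVec]

theorem xb_app (t : K) (x : Fin 8 → K) : (xx 14 (by decide) t).1 *ᵥ x = lF 1 t 0 1 1 x := by
  simp only [xx_app, zorn_ext, Pi.add_apply, Pi.smul_apply, spM_mulVec, smul_eq_mul]
  simp [eT, lF, sub_eq_add_neg]
theorem yb_app (t : K) (x : Fin 8 → K) : (xx 9 (by decide) t).1 *ᵥ x = lF 1 0 t 1 1 x := by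
  simp only [xx_app, zorn_ext, Pi.add_apply, Pi.smul_apply, spM_mulVec, smul_eq_mul]
  simp [eT, lF, sub_eq_add_neg, add_comm]
theorem xa_app (t u v : K) (x : Fin 8 → K) : (xx 18 (by decide) t * (xx 13 (by decide) u *
    xx 12 (by decide) v)).1 *ᵥ x = E3 t u v x := by
  simp only [Units.val_mul, ← mulVec_mulVec, xx_app, zorn_ext, Pi.add_apply, Pi.smul_apply,
    spM_mulVec, smul_eq_mul]
  simp [eT, E3] <;> and_intros <;> ring
theorem ya_app (t u v : K) (x : Fin 8 → K) : (xx 5 (by decide) t * (xx 10 (by decide) u *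
    xx 11 (by decide) v)).1 *ᵥ x = D3 (-t) (-u) (-v) x := by
  simp only [Units.val_mul, ← mulVec_mulVec, xx_app, zorn_ext, Pi.add_apply, Pi.smul_apply,
    spM_mulVec, smul_eq_mul]
  simp [eT, D3] <;> and_intros <;> ring

/-- a field automorphism of order dividing three -/
structure Tr (K : Type*) [Field K] where
  φ : K →+* K
  h : ∀ t, φ (φ (φ t)) = t

namespace Tr
variable (T : Tr K)

def gens : Set (GL (Fin 8) K) :=
  {g | (∃ t, T.φ t = t ∧ (g = xx 14 (by decide) t ∨ g = xx 9 (by decide) t)) ∨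
    ∃ t, g = xx 18 (by decide) t * (xx 13 (by decide) (T.φ t) * xx 12 (by decide) (T.φ (T.φ t))) ∨
      g = xx 5 (by decide) t * (xx 10 (by decide) (T.φ t) * xx 11 (by decide) (T.φ (T.φ t)))}

def Γ : Subgroup (GL (Fin 8) K) := Subgroup.closure T.gens

noncomputable def ρ : T.Γ →* Module.End K (Fin 8 → K) :=
  (toLinAlgEquiv' : Matrix (Fin 8) (Fin 8) K ≃ₐ[K] _).toMonoidHom.comp
    ((Units.coeHom _).comp T.Γ.subtype)

theorem ρ_def (g : T.Γ) (x : Fin 8 → K) : T.ρ g x = g.1.1 *ᵥ x := rfl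

theorem ρ_mul (g h : T.Γ) (x) : T.ρ (g * h) x = T.ρ g (T.ρ h x) := by
  rw [map_mul, Module.End.mul_apply]

/-- the twisted product -/
def tw (x y : Fin 8 → K) : Fin 8 → K :=
  ![T.φ (x 7) * T.φ (T.φ (y 7)) + T.φ (x 1) * T.φ (T.φ (y 4)) + T.φ (x 2) * T.φ (T.φ (y 5)) +
      T.φ (x 3) * T.φ (T.φ (y 6)),
    -T.φ (x 7) * T.φ (T.φ (y 1)) - T.φ (T.φ (y 0)) * T.φ (x 1) -
      (T.φ (x 5) * T.φ (T.φ (y 6)) - T.φ (x 6) * T.φ (T.φ (y 5))),
    -T.φ (x 7) * T.φ (T.φ (y 2)) - T.φ (T.φ (y 0)) * T.φ (x 2) -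
      (T.φ (x 6) * T.φ (T.φ (y 4)) - T.φ (x 4) * T.φ (T.φ (y 6))),
    -T.φ (x 7) * T.φ (T.φ (y 3)) - T.φ (T.φ (y 0)) * T.φ (x 3) -
      (T.φ (x 4) * T.φ (T.φ (y 5)) - T.φ (x 5) * T.φ (T.φ (y 4))),
    -T.φ (T.φ (y 7)) * T.φ (x 4) - T.φ (x 0) * T.φ (T.φ (y 4)) +
      (T.φ (x 2) * T.φ (T.φ (y 3)) - T.φ (x 3) * T.φ (T.φ (y 2))),
    -T.φ (T.φ (y 7)) * T.φ (x 5) - T.φ (x 0) * T.φ (T.φ (y 5)) +
      (T.φ (x 3) * T.φ (T.φ (y 1)) - T.φ (x 1) * T.φ (T.φ (y 3))),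
    -T.φ (T.φ (y 7)) * T.φ (x 6) - T.φ (x 0) * T.φ (T.φ (y 6)) +
      (T.φ (x 1) * T.φ (T.φ (y 2)) - T.φ (x 2) * T.φ (T.φ (y 1))),
    T.φ (x 4) * T.φ (T.φ (y 1)) + T.φ (x 5) * T.φ (T.φ (y 2)) + T.φ (x 6) * T.φ (T.φ (y 3)) +
      T.φ (x 0) * T.φ (T.φ (y 0))]

def Inv : Subgroup (GL (Fin 8) K) where
  carrier := {g | (∀ x y, g.1 *ᵥ T.tw x y = T.tw (g.1 *ᵥ x) (g.1 *ᵥ y)) ∧
    ∀ x, zN (g.1 *ᵥ x) = zN x}
  one_mem' := by simp
  mul_mem' := by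
    rintro g h ⟨a1, a2⟩ ⟨b1, b2⟩
    refine ⟨fun x y => ?_, fun x => ?_⟩
    · simp only [Units.val_mul, ← mulVec_mulVec, b1, a1]
    · simp only [Units.val_mul, ← mulVec_mulVec, a2, b2]
  inv_mem' := by
    rintro g ⟨a1, a2⟩
    have k : ∀ x, g.1 *ᵥ ((g⁻¹).1 *ᵥ x) = x := fun x => by
      rw [mulVec_mulVec, Units.mul_inv, one_mulVec]
    have k' : ∀ x, (g⁻¹).1 *ᵥ (g.1 *ᵥ x) = x := fun x => by
      rw [mulVec_mulVec, Units.inv_mul, one_mulVec]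
    refine ⟨fun x y => ?_, fun x => ?_⟩
    · conv_lhs => rw [← k x, ← k y, ← a1, k']
    · rw [← a2, k]

theorem le_Inv : T.Γ ≤ T.Inv := by
  refine (Subgroup.closure_le _).2 ?_
  rintro g (⟨t, ht, rfl | rfl⟩ | ⟨t, rfl | rfl⟩)
  · refine ⟨fun x y => ?_, fun x => ?_⟩ <;> simp only [xb_app]
    · simp [lF, tw, ht] <;> and_intros <;> ring
    · simp [zN, lF]; ring
  · refine ⟨fun x y => ?_, fun x => ?_⟩ <;> simp only [yb_app]
    · simp [lF, tw, ht] <;> and_intros <;> ring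
    · simp [zN, lF]; ring
  · refine ⟨fun x y => ?_, fun x => ?_⟩ <;> simp only [xa_app]
    · simp [E3, tw, T.h] <;> and_intros <;> ring
    · simp [zN, E3]; ring
  · refine ⟨fun x y => ?_, fun x => ?_⟩ <;> simp only [ya_app]
    · simp [D3, tw, T.h] <;> and_intros <;> ring
    · simp [zN, D3]; ring

variable {T}

theorem g_tw (g : T.Γ) (x y) : T.ρ g (T.tw x y) = T.tw (T.ρ g x) (T.ρ g y) := (T.le_Inv g.2).1 x y
theorem g_N (g : T.Γ) (x) : zN (T.ρ g x) = zN x := (T.le_Inv g.2).2 x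
theorem g_P (g : T.Γ) (x y : Fin 8 → K) : zP (T.ρ g x) (T.ρ g y) = zP x y := by
  have k : ∀ x y : Fin 8 → K, zP x y = zN (x + y) - zN x - zN y := fun x y => by
    simp only [zP, zN, Pi.add_apply]; ring
  rw [k, k, ← map_add, g_N, g_N, g_N]

variable (T) in
def In (f : (Fin 8 → K) → Fin 8 → K) : Prop := ∃ g : T.Γ, ∀ x, T.ρ g x = f x

theorem In.comp {f g : (Fin 8 → K) → Fin 8 → K} (hf : T.In f) (hg : T.In g) :
    T.In fun x => f (g x) := by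
  obtain ⟨a, ha⟩ := hf
  obtain ⟨b, hb⟩ := hg
  exact ⟨a * b, fun x => by rw [ρ_mul, hb, ha]⟩

theorem In.of {f g : (Fin 8 → K) → Fin 8 → K} (hf : T.In f) (h : ∀ x, f x = g x) : T.In g := by
  obtain ⟨a, ha⟩ := hf
  exact ⟨a, fun x => by rw [ha, h]⟩

theorem in_xb {t : K} (ht : T.φ t = t) : T.In (lF 1 t 0 1 1) :=
  ⟨⟨_, Subgroup.subset_closure (Or.inl ⟨t, ht, Or.inl rfl⟩)⟩, xb_app t⟩
theorem in_yb {t : K} (ht : T.φ t = t) : T.In (lF 1 0 t 1 1) :=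
  ⟨⟨_, Subgroup.subset_closure (Or.inl ⟨t, ht, Or.inr rfl⟩)⟩, yb_app t⟩
theorem in_E3 (t : K) : T.In (E3 t (T.φ t) (T.φ (T.φ t))) :=
  ⟨⟨_, Subgroup.subset_closure (Or.inr ⟨t, Or.inl rfl⟩)⟩, xa_app _ _ _⟩
theorem in_D3 (t : K) : T.In (D3 t (T.φ t) (T.φ (T.φ t))) :=
  In.of ⟨⟨_, Subgroup.subset_closure (Or.inr ⟨-t, Or.inr rfl⟩)⟩, ya_app _ _ _⟩ (by simp)

theorem in_nb : T.In (lF 0 1 (-1) 0 1) :=
  ((in_xb (map_one _)).comp ((in_yb (t := -1) (by simp)).comp (in_xb (map_one _)))).of fun x => by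
    simp [lF]
theorem in_nbi : T.In (lF 0 (-1) 1 0 1) :=
  ((in_xb (t := -1) (by simp)).comp ((in_yb (map_one _)).comp (in_xb (t := -1) (by simp)))).of
    fun x => by simp [lF]

def na (x : Fin 8 → K) : Fin 8 → K := ![x 7, x 5, -x 4, -x 6, x 2, -x 1, -x 3, x 0]
def nai (x : Fin 8 → K) : Fin 8 → K := ![x 7, -x 5, x 4, -x 6, -x 2, x 1, -x 3, x 0]

theorem in_na : T.In na :=
  ((in_E3 1).comp ((in_D3 1).comp (in_E3 1))).of fun x => by
    simp [E3, D3, na] <;> and_intros <;> ring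
theorem in_nai : T.In nai :=
  ((in_E3 (-1)).comp ((in_D3 (-1)).comp (in_E3 (-1)))).of fun x => by
    simp [E3, D3, nai] <;> and_intros <;> ring

theorem in_E2 (t : K) : T.In (E2 t (T.φ t) (T.φ (T.φ t))) :=
  (in_nb.comp ((in_E3 t).comp in_nbi)).of fun x => by
    simp [E3, E2, lF] <;> and_intros <;> ring
theorem in_D2 (t : K) : T.In (D2 t (T.φ t) (T.φ (T.φ t))) :=
  (in_nb.comp ((in_D3 t).comp in_nbi)).of fun x => by
    simp [D3, D2, lF] <;> and_intros <;> ring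
theorem in_D1 (t : K) : T.In (D1 t (T.φ t) (T.φ (T.φ t))) :=
  (in_na.comp ((in_E2 (-t)).comp in_nai)).of fun x => by
    simp [D1, E2, na, nai] <;> and_intros <;> ring
theorem in_E1 (t : K) : T.In (E1 t (T.φ t) (T.φ (T.φ t))) :=
  (in_na.comp ((in_D2 (-t)).comp in_nai)).of fun x => by
    simp [E1, D2, na, nai] <;> and_intros <;> ring
theorem in_X2 {t : K} (ht : T.φ t = t) : T.In (xF 0 t) :=
  (in_na.comp ((in_xb ht).comp in_nai)).of fun x => by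
    simp [xF, lF, na, nai] <;> and_intros <;> ring
theorem in_Y2 {t : K} (ht : T.φ t = t) : T.In (yF 0 t) :=
  (in_na.comp ((in_yb ht).comp in_nai)).of fun x => by
    simp [yF, lF, na, nai] <;> and_intros <;> ring
theorem in_X {s t : K} (hs : T.φ s = s) (ht : T.φ t = t) : T.In (xF s t) :=
  ((in_nb.comp ((in_X2 hs).comp in_nbi)).comp (in_X2 ht)).of fun x => by
    simp [xF, lF] <;> and_intros <;> ring
theorem in_Y {s t : K} (hs : T.φ s = s) (ht : T.φ t = t) : T.In (yF s t) :=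
  ((in_nb.comp ((in_Y2 hs).comp in_nbi)).comp (in_Y2 ht)).of fun x => by
    simp [yF, lF] <;> and_intros <;> ring
theorem in_S : T.In sF :=
  ((in_D1 1).comp ((in_E1 1).comp ((in_D1 1).comp in_nb))).of fun x => by
    simp [D1, E1, sF, lF] <;> and_intros <;> ring
theorem in_h {t : K} (ht : t ≠ 0) : T.In (hF t (T.φ t) (T.φ (T.φ t))) :=
  ((in_E3 t).comp ((in_D3 t⁻¹).comp ((in_E3 t).comp in_nai))).of fun x => by
    have h1 : T.φ t ≠ 0 := by simpa using ht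
    have h2 : T.φ (T.φ t) ≠ 0 := by simpa using ht
    simp only [map_inv₀]
    generalize T.φ (T.φ t) = v at *
    generalize T.φ t = u at *
    simp [E3, D3, hF, nai] <;> and_intros <;> field_simp <;> ring

theorem in_l1 {a b c d : K} (ha : T.φ a = a) (hb : T.φ b = b) (hc : T.φ c = c) (hd : T.φ d = d)
    (h : a * d - b * c = 1) : T.In (lF a b c d 1) := by
  have key : ∀ a b c d : K, T.φ a = a → T.φ c = c → T.φ d = d → a * d - b * c = 1 → c ≠ 0 →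
      T.In (lF a b c d 1) := fun a b c d ha hc hd h h0 => by
    obtain rfl : b = (a * d - 1) / c := by field_simp; linear_combination -h
    refine ((in_xb (t := (a - 1) / c) (by simp [ha, hc])).comp ((in_yb hc).comp
      (in_xb (t := (d - 1) / c) (by simp [hd, hc])))).of fun x => ?_
    simp [lF] <;> and_intros <;> field_simp <;> ring
  by_cases h0 : c = 0
  · have a0 : a ≠ 0 := by rintro rfl; simp [h0] at h
    refine ((in_yb (t := -1) (by simp)).comp (key a b (c + a) (d + b) ha (by simp [ha, hc])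
      (by simp [hb, hd]) (by linear_combination h) (by simpa [h0] using a0))).of fun x => ?_
    simp only [lF, zorn_ext, cons_val_zero, cons_val_one, cons_val]
    and_intros <;> first | trivial | ring
  · exact key a b c d ha hc hd h h0

theorem in_l {a b c d k : K} (ha : T.φ a = a) (hb : T.φ b = b) (hc : T.φ c = c) (hd : T.φ d = d)
    (h : k * (a * d - b * c) = 1) : T.In (lF a b c d k) := by
  have h0 : a * d - b * c ≠ 0 := right_ne_zero_of_mul_eq_one h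
  have hδ : T.φ (a * d - b * c) = a * d - b * c := by simp [ha, hb, hc, hd]
  have hk : T.φ k = k := by
    rw [eq_inv_of_mul_eq_one_left h, map_inv₀, hδ]
  refine ((in_l1 (a := a * (a * d - b * c)) (b := b * k ^ 2) (c := c * (a * d - b * c))
    (d := d * k ^ 2) (by rw [map_mul, ha, hδ]) (by simp [hb, hk]) (by rw [map_mul, hc, hδ])
    (by simp [hd, hk]) (by linear_combination (k * (a * d - b * c) + 1) * h)).comp
    (in_h h0)).of fun x => ?_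
  rw [hδ, hδ]
  have hk' := eq_inv_of_mul_eq_one_left h
  simp only [lF, hF, zorn_ext, cons_val_zero, cons_val_one, cons_val, mul_inv, ← hk']
  and_intros <;> grind

variable (T)

/-- the fixed field -/
def F : Subfield K := T.φ.eqLocusField (RingHom.id K)

variable {T}
@[simp] theorem φ_coe (a : T.F) : T.φ a = a := a.2

variable (T)
noncomputable def gE1 (t : K) : T.Γ := (in_E1 t).choose
noncomputable def gE2 (t : K) : T.Γ := (in_E2 t).choose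
noncomputable def gE3 (t : K) : T.Γ := (in_E3 t).choose
noncomputable def gD1 (t : K) : T.Γ := (in_D1 t).choose
noncomputable def gD2 (t : K) : T.Γ := (in_D2 t).choose
noncomputable def gD3 (t : K) : T.Γ := (in_D3 t).choose
noncomputable def gS : T.Γ := in_S.choose
variable {T}
noncomputable def gX (s t : T.F) : T.Γ := (in_X (φ_coe s) (φ_coe t)).choose
noncomputable def gY (s t : T.F) : T.Γ := (in_Y (φ_coe s) (φ_coe t)).choose

theorem gE1_a (t : K) (x) : T.ρ (T.gE1 t) x = E1 t (T.φ t) (T.φ (T.φ t)) x := (in_E1 t).choose_spec x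
theorem gE2_a (t : K) (x) : T.ρ (T.gE2 t) x = E2 t (T.φ t) (T.φ (T.φ t)) x := (in_E2 t).choose_spec x
theorem gE3_a (t : K) (x) : T.ρ (T.gE3 t) x = E3 t (T.φ t) (T.φ (T.φ t)) x := (in_E3 t).choose_spec x
theorem gD1_a (t : K) (x) : T.ρ (T.gD1 t) x = D1 t (T.φ t) (T.φ (T.φ t)) x := (in_D1 t).choose_spec x
theorem gD2_a (t : K) (x) : T.ρ (T.gD2 t) x = D2 t (T.φ t) (T.φ (T.φ t)) x := (in_D2 t).choose_spec x
theorem gD3_a (t : K) (x) : T.ρ (T.gD3 t) x = D3 t (T.φ t) (T.φ (T.φ t)) x := (in_D3 t).choose_spec x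
theorem gS_a (x) : T.ρ T.gS x = sF x := in_S.choose_spec x
theorem gX_a (s t : T.F) (x) : T.ρ (gX s t) x = xF (s : K) t x :=
  (in_X (φ_coe s) (φ_coe t)).choose_spec x
theorem gY_a (s t : T.F) (x) : T.ρ (gY s t) x = yF (s : K) t x :=
  (in_Y (φ_coe s) (φ_coe t)).choose_spec x

theorem g_ext {g h : T.Γ} (h1 : T.ρ g b1 = T.ρ h b1) (h2 : T.ρ g b2 = T.ρ h b2)
    (h3 : T.ρ g b3 = T.ρ h b3) : g = h := by
  have key : ∀ x : Fin 8 → K, x = x 0 • T.tw b1 (T.tw b2 b3) + x 1 • b1 + x 2 • b2 + x 3 • b3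
      + x 4 • T.tw b2 b3 + x 5 • T.tw b3 b1 + x 6 • T.tw b1 b2
      + x 7 • T.tw (T.tw b2 b3) b1 := fun x => by
    simp [zorn_ext, tw, b1, b2, b3]
  have : ∀ x, T.ρ g x = T.ρ h x := fun x => by
    rw [key x]; simp only [map_add, map_smul, g_tw, h1, h2, h3]
  refine Subtype.ext (Units.ext (ext_of_mulVec_single fun i => ?_))
  exact this _

theorem gS_sq : T.gS * T.gS = 1 := by
  apply g_ext <;> simp [gS_a, sF, b1, b2, b3]

theorem gS_inv : T.gS⁻¹ = T.gS := inv_eq_of_mul_eq_one_right gS_sq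

theorem det_inv' (A : (M2 T.F)ˣ) : (((A⁻¹ : (M2 T.F)ˣ) : M2 T.F).det : K) *
    (((A : M2 T.F) 0 0 : K) * (A : M2 T.F) 1 1 - (A : M2 T.F) 0 1 * (A : M2 T.F) 1 0) = 1 := by
  exact_mod_cast congrArg Subtype.val (det_inv A)

noncomputable def gL0 (A : (M2 T.F)ˣ) : T.Γ :=
  (in_l (φ_coe _) (φ_coe _) (φ_coe _) (φ_coe _) (det_inv' A)).choose

theorem gL0_a (A : (M2 T.F)ˣ) (x) : T.ρ (gL0 A) x = lF ((A : M2 T.F) 0 0 : K) ((A : M2 T.F) 0 1)
    ((A : M2 T.F) 1 0) ((A : M2 T.F) 1 1) ((A⁻¹ : (M2 T.F)ˣ) : M2 T.F).det x :=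
  (in_l (φ_coe _) (φ_coe _) (φ_coe _) (φ_coe _) (det_inv' A)).choose_spec x

noncomputable def gL : (M2 T.F)ˣ →* T.Γ := MonoidHom.mk' gL0 fun A B => by
  apply g_ext <;>
    simp only [ρ_mul, gL0_a, _root_.mul_inv_rev, Units.val_mul, det_mul] <;>
    simp [lF, b1, b2, b3, Matrix.mul_apply, Fin.sum_univ_two, mul_comm]

theorem gL_a (A : (M2 T.F)ˣ) (x) : T.ρ (gL A) x = lF ((A : M2 T.F) 0 0 : K) ((A : M2 T.F) 0 1)
    ((A : M2 T.F) 1 0) ((A : M2 T.F) 1 1) ((A⁻¹ : (M2 T.F)ˣ) : M2 T.F).det x := gL0_a A x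

theorem gL_b4 (A : (M2 T.F)ˣ) : T.ρ (gL A) b4 = ((A : M2 T.F).det : K) • b4 := by
  rw [gL_a, det_fin_two (A : M2 T.F)]; simp [lF, b4]
theorem gL_b1 (A : (M2 T.F)ˣ) : T.ρ (gL A) b1 = (((A⁻¹ : (M2 T.F)ˣ) : M2 T.F).det : K) • b1 := by
  rw [gL_a]; simp [lF, b1]
theorem gL_b2 (A : (M2 T.F)ˣ) :
    T.ρ (gL A) b2 = ((A : M2 T.F) 0 0 : K) • b2 + ((A : M2 T.F) 1 0 : K) • b3 := by
  rw [gL_a]; simp [lF, b2, b3]
theorem gL_b3 (A : (M2 T.F)ˣ) :
    T.ρ (gL A) b3 = ((A : M2 T.F) 0 1 : K) • b2 + ((A : M2 T.F) 1 1 : K) • b3 := by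
  rw [gL_a]; simp [lF, b2, b3]

theorem gL_itr (A : (M2 T.F)ˣ) : T.gS * gL A * T.gS = gL (itr A) := by
  have h := A.mul_inv
  have a := congrArg Subtype.val (congrFun (congrFun h 0) 0)
  have b := congrArg Subtype.val (congrFun (congrFun h 0) 1)
  have c := congrArg Subtype.val (congrFun (congrFun h 1) 0)
  have d := congrArg Subtype.val (congrFun (congrFun h 1) 1)
  simp only [Matrix.mul_apply, Fin.sum_univ_two, one_apply_eq, ne_eq, zero_ne_one,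
    not_false_eq_true, one_apply_ne, one_ne_zero] at a b c d
  have e : (((itr A)⁻¹ : (M2 T.F)ˣ) : M2 T.F) = (A : M2 T.F)ᵀ := rfl
  have e' : ((itr A : (M2 T.F)ˣ) : M2 T.F) = ((A⁻¹ : (M2 T.F)ˣ) : M2 T.F)ᵀ := rfl
  apply g_ext <;> simp only [ρ_mul, gL_a, gS_a, e, e', det_fin_two, transpose_apply] <;>
    generalize ((A⁻¹ : (M2 T.F)ˣ) : M2 T.F) = B at * <;>
    push_cast at a b c d ⊢ <;>
    simp [lF, sF, b1, b2, b3] <;> grind

theorem tv_inv_det {F : Type*} [Field F] (c z1 z2 : F) :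
    (((tv c z1 z2)⁻¹ : (M2 F)ˣ) : M2 F).det = 1 := by
  have := det_inv (tv c z1 z2)
  rwa [← det_fin_two, tv_det, mul_one] at this

theorem gL_up (c : T.F) (x) : T.ρ (gL (tv c 1 0)) x =
    ![x 0, x 1, x 2 + c * x 3, x 3, x 4, x 5, x 6 - c * x 5, x 7] := by
  rw [gL_a, tv_inv_det, tv_val]; simp [lF]
theorem gL_lo (c : T.F) (x) : T.ρ (gL (tv c 0 1)) x =
    ![x 0, x 1, x 2, x 3 - c * x 2, x 4, x 5 + c * x 6, x 6, x 7] := by
  rw [gL_a, tv_inv_det, tv_val]; simp [lF]; ring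

end Tr
end H16.Td
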