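import Cfsg.Agent.H16.Th5

/-! The point stabilizer of `³D₄(q)`: unipotent radical, big cell, normal forms. -/

set_option autoImplicit false
set_option linter.unnecessarySeqFocus false
set_option linter.unusedTactic false

namespace H16.Td
open Matrix Cfsg.Lie H12 H16.Cv Cfsg.Agent.H16.Th
open H16.Tg (xF yF sF lF b1 b2 b3 b4 det_inv tv tv_val tv_det tv_nice)

variable {K : Type*} [Field K]

namespace Tr
variable (T : Tr K)

/-- the unipotent radical -/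
def V : Subgroup T.Γ where
  carrier := {g | T.ρ g b4 = b4 ∧ (∃ c : K, T.ρ g b2 = b2 + c • b4) ∧
    ∃ c : K, T.ρ g b3 = b3 + c • b4}
  one_mem' := ⟨by simp, ⟨0, by simp⟩, 0, by simp⟩
  mul_mem' := by
    rintro g h ⟨a1, ⟨c, a2⟩, d, a3⟩ ⟨b1, ⟨c', b2⟩, d', b3⟩
    refine ⟨by rw [ρ_mul, b1, a1], ⟨c + c', ?_⟩, d + d', ?_⟩
    · rw [ρ_mul, b2, map_add, map_smul, a1, a2, add_smul, add_assoc]
    · rw [ρ_mul, b3, map_add, map_smul, a1, a3, add_smul, add_assoc]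
  inv_mem' := by
    rintro g ⟨a1, ⟨c, a2⟩, d, a3⟩
    have h4 : T.ρ g⁻¹ b4 = b4 := by conv_lhs => rw [← a1, rho_inv]
    refine ⟨h4, ⟨-c, ?_⟩, -d, ?_⟩
    · have := congrArg (T.ρ g⁻¹) a2
      rw [rho_inv, map_add, map_smul, h4] at this
      rw [neg_smul, ← sub_eq_add_neg, eq_sub_iff_add_eq, ← this]
    · have := congrArg (T.ρ g⁻¹) a3
      rw [rho_inv, map_add, map_smul, h4] at this
      rw [neg_smul, ← sub_eq_add_neg, eq_sub_iff_add_eq, ← this]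

/-- the opposite radical -/
def Vm (g : T.Γ) : Prop := T.gS * g * T.gS ∈ T.V

/-- singular vectors -/
def Sg (x : Fin 8 → K) : Prop := T.tw x x = 0 ∧ zN x = 0

variable {T}

theorem gE2_V (t : K) : T.gE2 t ∈ T.V :=
  ⟨by simp [gE2_a, E2, b4], ⟨0, by simp [gE2_a, E2, b2]⟩, -t, by simp [gE2_a, E2, b4, b3]⟩
theorem gE3_V (t : K) : T.gE3 t ∈ T.V :=
  ⟨by simp [gE3_a, E3, b4], ⟨t, by simp [gE3_a, E3, b4, b2]⟩, 0, by simp [gE3_a, E3, b3]⟩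
theorem gD1_V (t : K) : T.gD1 t ∈ T.V :=
  ⟨by simp [gD1_a, D1, b4], ⟨0, by simp [gD1_a, D1, b2]⟩, 0, by simp [gD1_a, D1, b3]⟩
theorem gX_V (s t : T.F) : gX s t ∈ T.V :=
  ⟨by simp [gX_a, xF, b4], ⟨0, by simp [gX_a, xF, b2]⟩, 0, by simp [gX_a, xF, b3]⟩

theorem Vm.mul {g h : T.Γ} (hg : T.Vm g) (hh : T.Vm h) : T.Vm (g * h) := by
  have := T.V.mul_mem hg hh
  rwa [show T.gS * g * T.gS * (T.gS * h * T.gS) = T.gS * g * (T.gS * T.gS) * h * T.gS by group,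
    gS_sq, mul_one, mul_assoc T.gS g h] at this

theorem Vm.inv {g : T.Γ} (hg : T.Vm g) : T.Vm g⁻¹ := by
  have := T.V.inv_mem hg
  rwa [_root_.mul_inv_rev, _root_.mul_inv_rev, gS_inv, ← mul_assoc] at this

theorem gD2_Vm (t : K) : T.Vm (T.gD2 t) :=
  ⟨by simp [gS_a, sF, gD2_a, D2, b4], ⟨0, by simp [gS_a, sF, gD2_a, D2, b2]⟩,
    -t, by simp [gS_a, sF, gD2_a, D2, b4, b3]⟩
theorem gD3_Vm (t : K) : T.Vm (T.gD3 t) :=
  ⟨by simp [gS_a, sF, gD3_a, D3, b4], ⟨t, by simp [gS_a, sF, gD3_a, D3, b4, b2]⟩,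
    0, by simp [gS_a, sF, gD3_a, D3, b3]⟩
theorem gE1_Vm (t : K) : T.Vm (T.gE1 t) :=
  ⟨by simp [gS_a, sF, gE1_a, E1, b4], ⟨0, by simp [gS_a, sF, gE1_a, E1, b2]⟩,
    0, by simp [gS_a, sF, gE1_a, E1, b3]⟩
theorem gY_Vm (s t : T.F) : T.Vm (gY s t) :=
  ⟨by simp [gS_a, sF, gY_a, yF, b4], ⟨0, by simp [gS_a, sF, gY_a, yF, b2]⟩,
    0, by simp [gS_a, sF, gY_a, yF, b3]⟩

theorem Sg.map {x : Fin 8 → K} (h : T.Sg x) (g : T.Γ) : T.Sg (T.ρ g x) :=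
  ⟨by rw [← g_tw, h.1, map_zero], by rw [g_N, h.2]⟩

theorem sg_b4 : T.Sg b4 := by simp [Sg, tw, zN, b4]
theorem sg_b1 : T.Sg b1 := by simp [Sg, tw, zN, b1]

theorem Sg.eq {m : Fin 8 → K} (h : T.Sg m) :
    m 7 * T.φ (m 7) + m 1 * T.φ (m 4) + m 2 * T.φ (m 5) + m 3 * T.φ (m 6) = 0 ∧
    m 7 * T.φ (m 1) + T.φ (m 0) * m 1 + (m 5 * T.φ (m 6) - m 6 * T.φ (m 5)) = 0 ∧
    m 7 * T.φ (m 3) + T.φ (m 0) * m 3 + (m 4 * T.φ (m 5) - m 5 * T.φ (m 4)) = 0 ∧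
    T.φ (m 7) * m 4 + m 0 * T.φ (m 4) - (m 2 * T.φ (m 3) - m 3 * T.φ (m 2)) = 0 ∧
    T.φ (m 7) * m 5 + m 0 * T.φ (m 5) - (m 3 * T.φ (m 1) - m 1 * T.φ (m 3)) = 0 ∧
    T.φ (m 7) * m 6 + m 0 * T.φ (m 6) - (m 1 * T.φ (m 2) - m 2 * T.φ (m 1)) = 0 ∧
    m 4 * T.φ (m 1) + m 5 * T.φ (m 2) + m 6 * T.φ (m 3) + m 0 * T.φ (m 0) = 0 ∧
    m 0 * m 7 - (m 1 * m 4 + m 2 * m 5 + m 3 * m 6) = 0 := by
  have k : ∀ i, T.φ (T.φ (T.tw m m i)) = 0 := fun i => by rw [h.1]; simp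
  have k0 := k 0
  have k1 := k 1
  have k3 := k 3
  have k4 := k 4
  have k5 := k 5
  have k6 := k 6
  have k7 := k 7
  simp only [tw, cons_val_zero, cons_val_one, cons_val, map_add, map_sub, map_mul, map_neg,
    T.h] at k0 k1 k3 k4 k5 k6 k7
  exact ⟨k0, by linear_combination -k1, by linear_combination -k3, by linear_combination -k4,
    by linear_combination -k5, by linear_combination -k6, k7, h.2⟩

/-- a quotient in the fixed field -/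
def rat (a b : K) (hb : b ≠ 0) (h : a * T.φ b = b * T.φ a) : T.F :=
  ⟨a / b, show T.φ (a / b) = a / b by
    have : T.φ b ≠ 0 := by simpa using hb
    rw [map_div₀]; field_simp; linear_combination -h⟩

@[simp] theorem rat_coe (a b : K) (hb : b ≠ 0) (h : a * T.φ b = b * T.φ a) :
  (rat a b hb h : K) = a / b := rfl

theorem trans_up {m : Fin 8 → K} (hm : T.Sg m) (h1 : m 1 ≠ 0) :
    ∃ v ∈ T.V, T.ρ v m = m 1 • b1 := by
  have s4 : ∀ m : Fin 8 → K, T.Sg m → m 1 ≠ 0 → m 0 = 0 → m 5 = 0 → m 6 = 0 →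
      ∃ v ∈ T.V, T.ρ v m = m 1 • b1 := fun m hm h1 h0 h5 h6 => by
    obtain ⟨-, c1, -, -, c5, c6, -, cN⟩ := hm.eq
    have h7 : m 7 = 0 := by simpa [h0, h5, h6, h1] using c1
    have h4 : m 4 = 0 := by simpa [h0, h5, h6, h1] using cN
    rw [h0, h5] at c5
    rw [h0, h6] at c6
    refine ⟨gX (-rat (m 2) (m 1) h1 (by linear_combination c6))
      (-rat (m 3) (m 1) h1 (by linear_combination -c5)), gX_V _ _, ?_⟩
    simp [gX_a, xF, b1, h0, h5, h6, h4, h7, h1]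
  have s3 : ∀ m : Fin 8 → K, T.Sg m → m 1 ≠ 0 → m 5 = 0 → m 6 = 0 →
      ∃ v ∈ T.V, T.ρ v m = m 1 • b1 := fun m hm h1 h5 h6 => by
    obtain ⟨v, hv, e⟩ := s4 _ (hm.map (T.gD1 (T.φ (T.φ (-m 0 / m 1)))))
      (by simpa [gD1_a, D1] using h1)
      (by simp [gD1_a, D1, h1, T.h]) (by simp [gD1_a, D1, h5]) (by simp [gD1_a, D1, h6])
    refine ⟨_, T.V.mul_mem hv (gD1_V (T.φ (T.φ (-m 0 / m 1)))), ?_⟩
    rw [ρ_mul, e]; simp [gD1_a, D1]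
  have s2 : ∀ m : Fin 8 → K, T.Sg m → m 1 ≠ 0 → m 5 = 0 →
      ∃ v ∈ T.V, T.ρ v m = m 1 • b1 := fun m hm h1 h5 => by
    obtain ⟨v, hv, e⟩ := s3 _ (hm.map (T.gE2 (-m 6 / m 1))) (by simpa [gE2_a, E2] using h1)
      (by simp [gE2_a, E2, h5]) (by simp [gE2_a, E2, h1])
    refine ⟨_, T.V.mul_mem hv (gE2_V (-m 6 / m 1)), ?_⟩
    rw [ρ_mul, e]; simp [gE2_a, E2]
  obtain ⟨v, hv, e⟩ := s2 _ (hm.map (T.gE3 (m 5 / m 1))) (by simpa [gE3_a, E3] using h1)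
    (by simp [gE3_a, E3, h1])
  refine ⟨_, T.V.mul_mem hv (gE3_V (m 5 / m 1)), ?_⟩
  rw [ρ_mul, e]; simp [gE3_a, E3]

theorem trans_down {m : Fin 8 → K} (hm : T.Sg m) (h4 : m 4 = 1) :
    ∃ v, T.Vm v ∧ T.ρ v b4 = m := by
  obtain ⟨v, hv, e⟩ := trans_up (hm.map T.gS) (by simp [gS_a, sF, h4])
  refine ⟨(T.gS * v * T.gS)⁻¹, Vm.inv ?_, ?_⟩
  · unfold Vm
    rwa [show T.gS * (T.gS * v * T.gS) * T.gS = (T.gS * T.gS) * v * (T.gS * T.gS) by group, gS_sq,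
      one_mul, mul_one]
  · have : T.ρ (T.gS * v * T.gS) m = b4 := by
      rw [ρ_mul, ρ_mul, e]; simp [gS_a, sF, h4, b1, b4]
    rw [← this, rho_inv]

theorem in_L {g : T.Γ} (h4 : T.ρ g b4 = b4) (h1 : T.ρ g b1 = b1) :
    ∃ A : (M2 T.F)ˣ, (A : M2 T.F).det = 1 ∧ g = gL A := by
  have k : ∀ b : Fin 8 → K, T.tw (T.tw b4 b1) b = -b → zP b b4 = 0 →
      ∃ r s : T.F, T.ρ g b = (r : K) • b2 + (s : K) • b3 := fun b e1 e2 => by
    have f1 := congrArg (T.ρ g) e1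
    have f2 := g_P g b b4
    simp only [g_tw, h1, h4, map_neg, e2] at f1 f2
    generalize T.ρ g b = y at *
    simp [zorn_ext, tw, zP, b1, b4] at f1 f2
    obtain ⟨a0, -, a2, a3, a4, a5, a6, a7⟩ := f1
    have a0' : y 0 = 0 := by simpa [a7] using a0
    refine ⟨⟨y 2, show T.φ (y 2) = y 2 by conv_lhs => rw [← a2, T.h]⟩,
      ⟨y 3, show T.φ (y 3) = y 3 by conv_lhs => rw [← a3, T.h]⟩, ?_⟩
    simp [zorn_ext, b2, b3, *]
  obtain ⟨a, c, k2⟩ := k b2 (by simp [tw, b1, b2, b4]) (by simp [zP, b2, b4])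
  obtain ⟨b, d, k3⟩ := k b3 (by simp [tw, b1, b3, b4]) (by simp [zP, b3, b4])
  have e : T.tw b2 b3 = b4 := by simp [tw, b2, b3, b4]
  have f := congrFun (congrArg (T.ρ g) e) 4
  rw [g_tw, h4, k2, k3] at f
  have hd : (!![a, b; c, d] : M2 T.F).det = 1 := by
    rw [det_fin_two_of]
    simp [tw, b2, b3, b4] at f
    apply Subtype.ext
    push_cast
    linear_combination f
  obtain ⟨A, hA⟩ := (isUnit_iff_isUnit_det _).2 (hd ▸ isUnit_one)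
  have hd' : ((A⁻¹ : (M2 T.F)ˣ) : M2 T.F).det = 1 := by
    have := det_inv A
    rwa [← det_fin_two, hA, hd, mul_one] at this
  refine ⟨A, hA ▸ hd, g_ext ?_ ?_ ?_⟩
  · rw [gL_b1, hd', h1]; simp
  · rw [gL_b2, hA]; simpa using k2
  · rw [gL_b3, hA]; simpa using k3

theorem stab_e {g : T.Γ} (h4 : T.ρ g b4 = b4) :
    ∃ A : (M2 T.F)ˣ, (A : M2 T.F).det = 1 ∧ ∃ v ∈ T.V, g = gL A * v := by
  have h1 : T.ρ g⁻¹ b1 1 = 1 := by
    have := g_P g (T.ρ g⁻¹ b1) b4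
    rw [rho_inv', h4] at this
    simpa [zP, b1, b4] using this.symm
  obtain ⟨v, hv, e⟩ := trans_up (sg_b1.map g⁻¹) (by rw [h1]; exact one_ne_zero)
  rw [h1, one_smul] at e
  obtain ⟨A, hA, e'⟩ := in_L (g := g * v⁻¹) (by rw [ρ_mul, (T.V.inv_mem hv).1, h4])
    (by rw [ρ_mul, ← e, rho_inv, rho_inv', e])
  exact ⟨A, hA, v, hv, by rw [← e']; group⟩

theorem norm_V {l : T.Γ} {δ a b c d : K} (h4 : T.ρ l b4 = δ • b4) (hδ : δ ≠ 0)
    (h2 : T.ρ l b2 = a • b2 + c • b3) (h3 : T.ρ l b3 = b • b2 + d • b3) {v : T.Γ} (hv : v ∈ T.V) :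
    l⁻¹ * v * l ∈ T.V := by
  obtain ⟨a1, ⟨r, a2⟩, s, a3⟩ := hv
  have k4 : T.ρ l⁻¹ b4 = δ⁻¹ • b4 := by
    rw [eq_inv_smul_iff₀ hδ, ← map_smul, ← h4, rho_inv]
  refine ⟨?_, ⟨(a * r + c * s) * δ⁻¹, ?_⟩, (b * r + d * s) * δ⁻¹, ?_⟩
  · rw [ρ_mul, ρ_mul, h4, map_smul, a1, ← h4, rho_inv]
  · have : T.ρ v (T.ρ l b2) = T.ρ l b2 + (a * r + c * s) • b4 := by
      rw [h2, map_add, map_smul, map_smul, a2, a3]; module
    rw [ρ_mul, ρ_mul, this, map_add, rho_inv, map_smul, k4, smul_smul]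
  · have : T.ρ v (T.ρ l b3) = T.ρ l b3 + (b * r + d * s) • b4 := by
      rw [h3, map_add, map_smul, map_smul, a2, a3]; module
    rw [ρ_mul, ρ_mul, this, map_add, rho_inv, map_smul, k4, smul_smul]

theorem det_ne (A : (M2 T.F)ˣ) : ((A : M2 T.F).det : K) ≠ 0 := by
  have := right_ne_zero_of_mul_eq_one (det_inv A)
  rw [← det_fin_two] at this
  simpa using this

theorem norm_L (A : (M2 T.F)ˣ) {v : T.Γ} (hv : v ∈ T.V) : (gL A)⁻¹ * v * gL A ∈ T.V :=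
  norm_V (gL_b4 A) (det_ne A) (gL_b2 A) (gL_b3 A) hv

/-- elements of the centre of the Levi subgroup -/
def ZT (z : T.Γ) (s s' η η' : K) : Prop := s * s' = 1 ∧ η * η' = 1 ∧ ∀ x, T.ρ z x =
  ![η * x 0, s' * x 1, s' * x 2, s' * x 3, s * x 4, s * x 5, s * x 6, η' * x 7]

/-- fixed-point-freeness on the unipotent radical -/
def FpT (s η η' t d : K) : Prop := η * s * d ≠ 1 ∧ η' * s * d ≠ 1 ∧ 1 - t * d + d ^ 3 ≠ 0 ∧
  1 - t * s ^ 2 + d * s ^ 4 ≠ 0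

theorem cent_V {z : T.Γ} {s s' η η' : K} (hz : ZT z s s' η η') (A : (M2 T.F)ˣ)
    (h : FpT s η η' ((A : M2 T.F).trace : K) (A : M2 T.F).det) {v : T.Γ} (hv : v ∈ T.V)
    (hc : z * gL A * v = v * (z * gL A)) : v = 1 := by
  obtain ⟨a1, ⟨c, a2⟩, d, a3⟩ := hv
  obtain ⟨hs, -, hz⟩ := hz
  have e : T.ρ z (T.ρ (gL A) (T.ρ v b1)) =
      (s' * ((A⁻¹ : (M2 T.F)ˣ) : M2 T.F).det) • T.ρ v b1 := by
    rw [← ρ_mul, ← ρ_mul, hc, ρ_mul, ρ_mul, gL_b1, ← map_smul, hz]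
    congr 1
    simp [b1]
  have h1 : T.ρ v b1 1 = 1 := by
    have := g_P v b1 b4
    rw [a1] at this
    simpa [zP, b1, b4] using this
  have s2 := (sg_b1.map v).eq.2.2.2.2.2.2.2
  have hk := det_inv' A
  have hb : T.ρ v b1 = b1 := by
    rw [hz, gL_a] at e
    obtain ⟨f0, f1, f3, f2⟩ := h
    rw [det_fin_two] at f0 f1 f2 f3
    rw [trace_fin_two] at f2 f3
    push_cast at f0 f1 f2 f3
    generalize T.ρ v b1 = m at *
    generalize (((A⁻¹ : (M2 T.F)ˣ) : M2 T.F).det : K) = k at *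
    generalize ((A : M2 T.F) 0 0 : K) = a at *
    generalize ((A : M2 T.F) 0 1 : K) = b at *
    generalize ((A : M2 T.F) 1 0 : K) = c at *
    generalize ((A : M2 T.F) 1 1 : K) = d at *
    simp only [zorn_ext, lF, Pi.smul_apply, smul_eq_mul, cons_val_zero, cons_val_one,
      cons_val] at e
    obtain ⟨e0, -, e2, e3, -, e5, e6, e7⟩ := e
    have m0 : m 0 = 0 := by
      apply mul_left_cancel₀ (sub_ne_zero.2 f0)
      linear_combination s * (a * d - b * c) * e0 + m 0 * (s * s') * hk + m 0 * hs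
    have m7 : m 7 = 0 := by
      apply mul_left_cancel₀ (sub_ne_zero.2 f1)
      linear_combination s * (a * d - b * c) * e7 + m 7 * (s * s') * hk + m 7 * hs
    replace e2 : a * m 2 + b * m 3 = k * m 2 := by
      linear_combination s * e2 - (a * m 2 + b * m 3 - k * m 2) * hs
    replace e3 : c * m 2 + d * m 3 = k * m 3 := by
      linear_combination s * e3 - (c * m 2 + d * m 3 - k * m 3) * hs
    replace e5 : s ^ 2 * (d * m 5 - c * m 6) = m 5 := by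
      linear_combination s * (a * d - b * c) * e5 - (s ^ 2 * (d * m 5 - c * m 6) - s * s' * m 5) * hk
        + m 5 * hs
    replace e6 : s ^ 2 * (a * m 6 - b * m 5) = m 6 := by
      linear_combination s * (a * d - b * c) * e6 - (s ^ 2 * (a * m 6 - b * m 5) - s * s' * m 6) * hk
        + m 6 * hs
    have m2 : m 2 = 0 := by
      apply mul_left_cancel₀ f3
      linear_combination (a * d - b * c) ^ 2 * ((d - k) * e2 - b * e3)
        + m 2 * ((a + d) * (a * d - b * c) - 1 - k * (a * d - b * c)) * hk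
    have m3 : m 3 = 0 := by
      apply mul_left_cancel₀ f3
      linear_combination (a * d - b * c) ^ 2 * ((a - k) * e3 - c * e2)
        + m 3 * ((a + d) * (a * d - b * c) - 1 - k * (a * d - b * c)) * hk
    have m5 : m 5 = 0 := by
      apply mul_left_cancel₀ f2
      linear_combination (s ^ 2 * a - 1) * e5 + s ^ 2 * c * e6
    have m6 : m 6 = 0 := by
      apply mul_left_cancel₀ f2
      linear_combination (s ^ 2 * d - 1) * e6 + s ^ 2 * b * e5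
    have m4 : m 4 = 0 := by simpa [m0, m2, m3, h1] using s2
    simp [zorn_ext, b1, m0, m2, m3, m4, m5, m6, m7, h1]
  have c0 : c = 0 := by
    have := g_P v b2 b1
    rw [a2, hb] at this
    simpa [zP, b1, b2, b4] using this
  have d0 : d = 0 := by
    have := g_P v b3 b1
    rw [a3, hb] at this
    simpa [zP, b1, b3, b4] using this
  apply g_ext
  · simpa using hb
  · simpa [c0] using a2
  · simpa [d0] using a3

theorem conj_V [Finite K] {z : T.Γ} {s s' η η' : K} (hz : ZT z s s' η η') (A : (M2 T.F)ˣ)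
    (h : FpT s η η' ((A : M2 T.F).trace : K) (A : M2 T.F).det) {v : T.Γ} (hv : v ∈ T.V) :
    IsConj (z * gL A) (z * gL A * v) := by
  have hn : ∀ y ∈ T.V, (z * gL A)⁻¹ * y * (z * gL A) ∈ T.V := fun y hy =>
    norm_V (δ := s * (A : M2 T.F).det) (a := s' * (A : M2 T.F) 0 0) (b := s' * (A : M2 T.F) 0 1)
      (c := s' * (A : M2 T.F) 1 0) (d := s' * (A : M2 T.F) 1 1)
      (by rw [ρ_mul, gL_b4, hz.2.2]; simp [b4])
      (mul_ne_zero (left_ne_zero_of_mul_eq_one hz.1) (det_ne A))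
      (by rw [ρ_mul, gL_b2, hz.2.2]; simp [b2, b3]) (by rw [ρ_mul, gL_b3, hz.2.2]; simp [b2, b3]) hy
  have hc := @cent_V _ _ _ _ _ _ _ _ hz A h
  generalize z * gL A = l at *
  let φ : T.V → T.V := fun y => ⟨l⁻¹ * y * l * (y : T.Γ)⁻¹,
    T.V.mul_mem (hn _ y.2) (T.V.inv_mem y.2)⟩
  have hi : Function.Injective φ := fun y w e => by
    have e' : l⁻¹ * y * l * (y : T.Γ)⁻¹ = l⁻¹ * w * l * (w : T.Γ)⁻¹ := congrArg Subtype.val e
    have := hc (T.V.mul_mem (T.V.inv_mem w.2) y.2) (by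
      calc l * ((w : T.Γ)⁻¹ * y) = (w : T.Γ)⁻¹ * l * (l⁻¹ * w * l * (w : T.Γ)⁻¹) * y := by group
        _ = _ := by rw [← e']; group)
    exact Subtype.ext (inv_mul_eq_one.1 this).symm
  obtain ⟨y, hy⟩ := Finite.surjective_of_injective hi ⟨v, hv⟩
  have hy' : l⁻¹ * y * l * (y : T.Γ)⁻¹ = v := congrArg Subtype.val hy
  refine isConj_iff.2 ⟨y, ?_⟩
  rw [← hy']; group

theorem move (g : T.Γ) (hg : g ≠ 1) : ∃ h : T.Γ, ∀ c : K, T.ρ (h * g * h⁻¹) b4 ≠ c • b4 := by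
  by_contra hn
  push Not at hn
  have P : ∀ k : T.Γ, ∀ y, T.ρ k b4 = y → ∃ c : K, T.ρ g y = c • y := fun k y hy => by
    obtain ⟨c, hc⟩ := hn k⁻¹
    refine ⟨c, ?_⟩
    have := congrArg (T.ρ k) hc
    rwa [inv_inv, ρ_mul, ρ_mul, rho_inv', map_smul, hy] at this
  obtain ⟨c1, h1⟩ := P T.gS (-b1) (by simp [gS_a, sF, b1, b4])
  obtain ⟨c2, h2⟩ := P (gY (-1) 0 * gX 1 0 * T.gS) (-b2)
    (by simp [gS_a, sF, gX_a, xF, gY_a, yF, b2, b4])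
  obtain ⟨c3, h3⟩ := P (gY 0 (-1) * gX 0 1 * T.gS) (-b3)
    (by simp [gS_a, sF, gX_a, xF, gY_a, yF, b3, b4])
  obtain ⟨c4, h4⟩ := P (gX 1 0 * T.gS) (-b1 + -b2) (by simp [gS_a, sF, gX_a, xF, b1, b2, b4])
  obtain ⟨c5, h5⟩ := P (gX 0 1 * T.gS) (-b1 + -b3) (by simp [gS_a, sF, gX_a, xF, b1, b3, b4])
  obtain ⟨c6, h6⟩ := P (T.gE3 1 * T.gS) (-b1 + T.tw (-b3) (-b1)) (by
    simp [gS_a, sF, gE3_a, E3, b1, b3, b4, tw])
  rw [map_add, h1, h2] at h4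
  rw [map_add, h1, h3] at h5
  rw [map_add, g_tw, h1, h3] at h6
  have a1 := congrFun h4 1
  have a2 := congrFun h4 2
  have a3 := congrFun h5 1
  have a4 := congrFun h5 3
  have a5 := congrFun h6 1
  have a6 := congrFun h6 5
  simp [b1, b2, b3, tw] at a1 a2 a3 a4 a5 a6
  have c0 : c1 ≠ 0 := by
    rintro rfl
    have := congrArg (T.ρ g⁻¹) h1
    rw [rho_inv, zero_smul, map_zero] at this
    simpa [b1] using congrFun this 1
  rw [a4, ← a3, ← a5] at a6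
  have e1 : c1 = 1 := by
    have a7 := congrArg T.φ a6
    rw [map_mul, T.h] at a7
    have a8 : T.φ (T.φ c1) * T.φ (T.φ c1) = 1 :=
      mul_right_cancel₀ c0 (by linear_combination a6 + T.φ (T.φ c1) * a7)
    have a9 : c1 * c1 = 1 := by
      have := congrArg T.φ a8
      rwa [map_mul, T.h, map_one] at this
    rcases mul_self_eq_one_iff.1 a9 with h | h
    · exact h
    · rw [h] at a6 ⊢
      simpa using a6.symm
  have e3 : c3 = 1 := by rw [a4, ← a3, e1]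
  have e2 : c2 = 1 := by rw [a2, ← a1, e1]
  rw [e1, one_smul, map_neg, neg_inj] at h1
  rw [e2, one_smul, map_neg, neg_inj] at h2
  rw [e3, one_smul, map_neg, neg_inj] at h3
  exact hg (g_ext (by simpa using h1) (by simpa using h2) (by simpa using h3))

variable (T) in
/-- the normal forms in the opposite radical -/
def Rt (n : T.Γ) : Prop :=
  (∃ κ : K, κ ≠ 0 ∧ (n = T.gD3 κ ∨ n = T.gD2 (-1) * T.gD3 κ)) ∨ ∃ r : K, r ≠ 0 ∧ n = T.gE1 r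

theorem Rt.vm {n : T.Γ} (h : T.Rt n) : T.Vm n := by
  rcases h with ⟨κ, -, rfl | rfl⟩ | ⟨r, -, rfl⟩
  exacts [gD3_Vm κ, (gD2_Vm _).mul (gD3_Vm κ), gE1_Vm r]

theorem sq2 {F : Type*} [Field F] [Finite F] (h2 : (2 : F) = 0) (a : F) : ∃ k, a = k * k := by
  have hch : ringChar F = 2 := by
    have : CharP F 2 := (CharP.charP_iff_prime_eq_zero Nat.prime_two).2 (by exact_mod_cast h2)
    exact ringChar.eq F 2
  exact FiniteField.isSquare_of_char_two hch a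

theorem normal [Finite K] {m : Fin 8 → K} (hm : T.Sg m) (h : ∀ c : K, m ≠ c • b4) :
    ∃ y : T.Γ, T.ρ y b4 = b4 ∧ T.ρ y m 4 = 1 ∧ ((2 : K) = 0 → ∃ n, T.Rt n ∧ T.ρ y m = T.ρ n b4) := by
  let Q : (Fin 8 → K) → Prop := fun m => ∃ y : T.Γ, T.ρ y b4 = b4 ∧ T.ρ y m 4 = 1 ∧
    ((2 : K) = 0 → ∃ n, T.Rt n ∧ T.ρ y m = T.ρ n b4)
  have step : ∀ (m : Fin 8 → K) (k : T.Γ), T.ρ k b4 = b4 → Q (T.ρ k m) → Q m :=
    fun m k hk ⟨y, a, b, c⟩ => ⟨y * k, by rw [ρ_mul, hk, a], by rwa [ρ_mul], by rwa [ρ_mul]⟩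
  have lb : ∀ c z1 z2 : T.F, T.ρ (gL (tv c z1 z2)) b4 = b4 := fun c z1 z2 => by
    rw [gL_b4, tv_det]; simp
  change Q m
  by_cases h1 : m 1 = 0
  swap
  · obtain ⟨v, hv, e⟩ := trans_up hm h1
    refine step _ v hv.1 ?_
    rw [e]
    generalize m 1 = μ at h1
    by_cases h2 : (2 : K) = 0
    · have p1 : T.φ μ ≠ 0 := by simpa using h1
      have p2 : T.φ (T.φ μ) ≠ 0 := by simpa using h1
      obtain ⟨t, ht⟩ := sq2 h2 (μ / (T.φ μ * T.φ (T.φ μ)))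
      have ht1 := congrArg T.φ ht
      have ht2 := congrArg T.φ ht1
      simp only [map_div₀, map_mul, T.h] at ht1 ht2
      have key : T.φ t * T.φ (T.φ t) * μ = 1 := by
        have : (T.φ t * T.φ (T.φ t) * μ) * (T.φ t * T.φ (T.φ t) * μ) = 1 := by
          rw [show (T.φ t * T.φ (T.φ t) * μ) * (T.φ t * T.φ (T.φ t) * μ) = (T.φ t * T.φ t) *
            (T.φ (T.φ t) * T.φ (T.φ t)) * μ * μ by ring, ← ht1, ← ht2]
          field_simp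
        rcases mul_self_eq_one_iff.1 this with h | h
        · exact h
        · linear_combination h - h2
      have t0 : t ≠ 0 := by rintro rfl; simp at key
      have key2 := congrArg T.φ (congrArg T.φ key)
      simp only [map_mul, T.h, map_one] at key2
      have e' : T.ρ (T.gD1 t) (μ • b1) = T.ρ (T.gE1 (T.φ t * T.φ (T.φ μ))) b4 := by
        have key1 := congrArg T.φ key
        simp only [map_mul, T.h, map_one] at key1
        simp [gD1_a, D1, gE1_a, E1, b1, b4, T.h]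
        grind
      exact ⟨_, (gD1_V t).1, by rw [e']; simp [gE1_a, E1, b4], fun _ => ⟨_, Or.inr
        ⟨_, mul_ne_zero (by simpa using t0) p2, rfl⟩, e'⟩⟩
    · refine ⟨gX 1 0 * T.gE3 μ⁻¹, (T.V.mul_mem (gX_V _ _) (gE3_V _)).1, ?_, fun h => absurd h h2⟩
      simp [gX_a, xF, gE3_a, E3, b1, h1]
  by_cases h5 : m 5 = 0 ∧ m 6 = 0
  · have s1 : ∀ m : Fin 8 → K, m 0 = 0 → m 1 = 0 → m 2 ≠ 0 → m 3 = 0 → m 5 = 0 → m 6 = 0 →
        m 7 = 0 → Q m := fun m h0 h1 h2 h3 h5 h6 h7 => by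
      have e : T.ρ (T.gE3 ((1 - m 4) / m 2)) m = T.ρ (T.gD3 (-m 2)) b4 := by
        simp [gE3_a, E3, gD3_a, D3, b4, *]
      exact ⟨_, (gE3_V _).1, by rw [e]; simp [gD3_a, D3, b4], fun _ => ⟨_, Or.inl
        ⟨_, neg_ne_zero.2 h2, Or.inl rfl⟩, e⟩⟩
    have s2 : ∀ m : Fin 8 → K, T.Sg m → m 0 = 0 → m 1 = 0 → m 2 ≠ 0 → m 5 = 0 → m 6 = 0 →
        m 7 = 0 → Q m := fun m hm h0 h1 h2 h5 h6 h7 => by
      have c4 := hm.eq.2.2.2.1
      rw [h0, h7, map_zero] at c4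
      refine step _ _ (lb (rat (m 3) (m 2) h2 (by linear_combination c4)) 0 1) (s1 _ ?_ ?_ ?_ ?_ ?_ ?_ ?_)
      all_goals simp [gL_lo, *]
    obtain ⟨c0, -, -, -, -, -, c7, -⟩ := hm.eq
    have h7 : m 7 = 0 := by simpa [h1, h5.1, h5.2] using c0
    have h0 : m 0 = 0 := by simpa [h1, h5.1, h5.2] using c7
    by_cases h2 : m 2 = 0
    · have h3 : m 3 ≠ 0 := fun h3 => h (m 4) (by simp [zorn_ext, b4, h0, h1, h2, h3, h5.1, h5.2, h7])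
      refine step _ _ (lb 1 1 0) (s2 _ (hm.map _) ?_ ?_ ?_ ?_ ?_ ?_)
      all_goals simp [gL_up, h0, h1, h2, h3, h5.1, h5.2, h7]
    · exact s2 m hm h0 h1 h2 h5.1 h5.2 h7
  · have s0 : ∀ m : Fin 8 → K, m 0 = 0 → m 1 = 0 → m 2 = 0 → m 3 = 0 → m 4 = 0 → m 5 ≠ 0 →
        m 6 = 0 → m 7 = 0 → Q m := fun m h0 h1 h2 h3 h4 h5 h6 h7 => by
      have e : T.ρ (T.gE2 1 * T.gD1 (m 5)⁻¹) m = T.ρ (T.gD2 (-1) * T.gD3 (m 5)) b4 := by
        simp [gE2_a, E2, gD1_a, D1, gD2_a, D2, gD3_a, D3, b4, *]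
      exact ⟨_, (T.V.mul_mem (gE2_V _) (gD1_V _)).1, by
        rw [e]; simp [gD2_a, D2, gD3_a, D3, b4], fun _ => ⟨_, Or.inl ⟨_, h5, Or.inr rfl⟩, e⟩⟩
    have s1 : ∀ m : Fin 8 → K, T.Sg m → m 0 = 0 → m 1 = 0 → m 2 = 0 → m 3 = 0 → m 5 ≠ 0 →
        m 6 = 0 → m 7 = 0 → Q m := fun m hm h0 h1 h2 h3 h5 h6 h7 => by
      have c3 := hm.eq.2.2.1
      rw [h3, h7] at c3
      refine step _ _ (gX_V (rat (m 4) (m 5) h5 (by linear_combination c3)) 0).1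
        (s0 _ ?_ ?_ ?_ ?_ ?_ ?_ ?_ ?_)
      all_goals simp [gX_a, xF, *]
    have s2 : ∀ m : Fin 8 → K, T.Sg m → m 0 = 0 → m 1 = 0 → m 5 ≠ 0 → m 6 = 0 → Q m :=
      fun m hm h0 h1 h5 h6 => by
      obtain ⟨-, -, -, -, c5, -, -, cN⟩ := hm.eq
      have h7 : m 7 = 0 := by simpa [h0, h1, h5] using c5
      have h2 : m 2 = 0 := by simpa [h0, h1, h5, h6] using cN
      refine step _ _ (gD1_V (m 3 / m 5)).1 (s1 _ (hm.map _) ?_ ?_ ?_ ?_ ?_ ?_ ?_)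
      all_goals simp [gD1_a, D1, *]
    have s3 : ∀ m : Fin 8 → K, T.Sg m → m 1 = 0 → m 5 ≠ 0 → m 6 = 0 → Q m :=
      fun m hm h1 h5 h6 => by
      refine step _ _ (gE2_V (T.φ (-m 0 / m 5))).1 (s2 _ (hm.map _) ?_ ?_ ?_ ?_)
      all_goals simp [gE2_a, E2, T.h, *]
    have s4 : ∀ m : Fin 8 → K, T.Sg m → m 1 = 0 → m 5 ≠ 0 → Q m := fun m hm h1 h5 => by
      have c1 := hm.eq.2.1
      rw [h1, map_zero] at c1
      refine step _ _ (lb (rat (m 6) (m 5) h5 (by linear_combination -c1)) 1 0)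
        (s3 _ (hm.map _) ?_ ?_ ?_)
      all_goals simp [gL_up, *]
    by_cases h5' : m 5 = 0
    · have h6 : m 6 ≠ 0 := fun h => h5 ⟨h5', h⟩
      refine step _ _ (lb 1 0 1) (s4 _ (hm.map _) ?_ ?_)
      all_goals simp [gL_lo, h1, h5', h6]
    · exact s4 m hm h1 h5'

theorem dec_of {g N : T.Γ} (A : (M2 T.F)ˣ) (hA : (A : M2 T.F).det = 1) (c2 c3 : K)
    (h4 : T.ρ g b4 = T.ρ N b4)
    (h2 : T.ρ g b2 = T.ρ N (((A : M2 T.F) 0 0 : K) • b2 + ((A : M2 T.F) 1 0 : K) • b3 + c2 • b4))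
    (h3 : T.ρ g b3 = T.ρ N (((A : M2 T.F) 0 1 : K) • b2 + ((A : M2 T.F) 1 1 : K) • b3 + c3 • b4)) :
    ∃ v ∈ T.V, g = N * gL A * v := by
  have e4 : T.ρ (gL A) b4 = b4 := by rw [gL_b4, hA]; simp
  refine ⟨(gL A)⁻¹ * (N⁻¹ * g), ⟨?_, ⟨c2, ?_⟩, c3, ?_⟩, by group⟩
  · rw [ρ_mul, ρ_mul, h4, rho_inv]; nth_rw 1 [← e4]; rw [rho_inv]
  · rw [ρ_mul, ρ_mul, h2, rho_inv, ← gL_b2]; nth_rw 1 [← e4]
    rw [← map_smul, ← map_add, rho_inv]
  · rw [ρ_mul, ρ_mul, h3, rho_inv, ← gL_b3]; nth_rw 1 [← e4]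
    rw [← map_smul, ← map_add, rho_inv]

variable (T) in
/-- the norm -/
def nm (a : K) : T.F := ⟨a * T.φ a * T.φ (T.φ a), show T.φ _ = _ by simp [T.h]; ring⟩

@[simp] theorem nm_coe (a : K) : (T.nm a : K) = a * T.φ a * T.φ (T.φ a) := rfl

theorem nm_ne {a : K} (h : a ≠ 0) : T.nm a ≠ 0 := fun e => by
  simpa [h] using congrArg Subtype.val e

theorem Rt.dec [Finite K] (h2 : (2 : T.F) = 0) {n : T.Γ} (h : T.Rt n) (c : T.F) :
    ∃ y ∈ T.V, ∃ N, T.Vm N ∧ ∃ v ∈ T.V, y * n = N * gL (tv c 1 0) * v := by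
  rcases h with ⟨κ, h, rfl | rfl⟩ | ⟨r, h, rfl⟩
  · obtain ⟨z, rfl⟩ : ∃ z, c = z * T.nm κ := ⟨c / T.nm κ, by rw [div_mul_cancel₀ _ (nm_ne h)]⟩
    refine ⟨_, gX_V 0 z, _, gD3_Vm κ, dec_of _ (tv_det _ _ _) 0
      (z * T.φ κ * T.φ (T.φ κ)) ?_ ?_ ?_⟩
    all_goals simp [gX_a, xF, gD3_a, D3, b2, b3, b4, tv_val] <;> and_intros <;> ring
  · obtain ⟨z, rfl⟩ : ∃ z, c = z * T.nm κ := ⟨c / T.nm κ, by rw [div_mul_cancel₀ _ (nm_ne h)]⟩
    refine ⟨_, gX_V 0 z, _, (gD2_Vm (-1)).mul (gD3_Vm κ), dec_of _ (tv_det _ _ _) 0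
      (z * T.φ κ * T.φ (T.φ κ)) ?_ ?_ ?_⟩
    all_goals simp [gX_a, xF, gD2_a, D2, gD3_a, D3, b2, b3, b4, tv_val] <;> and_intros <;> ring
  · obtain ⟨k, hk⟩ := sq2 h2 (-c / T.nm r)
    obtain rfl : c = -T.nm r * k ^ 2 := by
      have := nm_ne (T := T) h
      field_simp at hk; linear_combination -hk
    refine ⟨_, gX_V k 0, _, (gY_Vm 0 (T.nm r * k)).mul ((gE1_Vm r).mul
      (gD3_Vm (T.φ r * T.φ (T.φ r) * k))), dec_of _ (tv_det _ _ _) 0 (-r * k) ?_ ?_ ?_⟩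
    all_goals simp [gX_a, xF, gD3_a, D3, gE1_a, E1, gY_a, yF, b2, b3, b4, tv_val, T.h] <;>
      and_intros <;> ring

theorem reduce3 [Finite K] (g : T.Γ) (hg : g ≠ 1) : ∃ (h : T.Γ) (A : (M2 T.F)ˣ),
    Nice (A : M2 T.F) ∧ ∃ N, T.Vm N ∧ ∃ v ∈ T.V, h * g * h⁻¹ = N * gL A * v := by
  obtain ⟨h, hh⟩ := move g hg
  obtain ⟨y, hy, y4, yn⟩ := normal (sg_b4.map (h * g * h⁻¹)) hh
  have hy' : T.ρ y⁻¹ b4 = b4 := by conv_lhs => rw [← hy, rho_inv]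
  have e : T.ρ ((y * h) * g * (y * h)⁻¹) b4 = T.ρ y (T.ρ (h * g * h⁻¹) b4) := by
    rw [show (y * h) * g * (y * h)⁻¹ = y * (h * g * h⁻¹) * y⁻¹ by group, ρ_mul, hy', ρ_mul]
  rw [← e] at y4 yn
  generalize y * h = k at *
  by_cases h2 : (2 : T.F) = 0
  · obtain ⟨n, hn, e'⟩ := yn (congrArg Subtype.val h2)
    obtain ⟨A, hA, v, hv, e2⟩ := stab_e (g := n⁻¹ * (k * g * k⁻¹)) (by rw [ρ_mul, e', rho_inv])
    obtain ⟨c, hc⟩ := tv_nice h2 (z1 := 1) (z2 := 0) (by simp) (A : M2 T.F) hA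
    obtain ⟨x, hx, N, hN, w, hw, e3⟩ := hn.dec h2 c
    refine ⟨x * k, tv c 1 0 * A, hc, N, hN, _, T.V.mul_mem (norm_L A hw)
      (T.V.mul_mem hv (T.V.inv_mem hx)), ?_⟩
    calc x * k * g * (x * k)⁻¹ = (x * n) * (n⁻¹ * (k * g * k⁻¹)) * x⁻¹ := by group
      _ = _ := by rw [e2, e3, map_mul]; group
  · obtain ⟨N, hN, e'⟩ := trans_down (sg_b4.map _) y4
    obtain ⟨A, hA, v, hv, e2⟩ := stab_e (g := N⁻¹ * (k * g * k⁻¹)) (by rw [ρ_mul, ← e', rho_inv])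
    exact ⟨k, A, ⟨hA, fun h => absurd h h2⟩, N, hN, v, hv, by rw [mul_assoc N, ← e2]; group⟩

end Tr
end H16.Td
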