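import Cfsg.Agent.H16.Th6

/-! Thompson's conjecture for `³D₄(q)` with a semisimple class. -/

set_option autoImplicit false
set_option linter.unnecessarySeqFocus false
set_option linter.unusedTactic false

namespace H16.Td
open Matrix Cfsg.Lie H12 H16.Cv Cfsg.Agent.H16.Th
open H16.Tg (xF yF sF lF b1 b2 b3 b4 det_inv tv tv_val tv_det tv_nice params2)

lemma factor' {F : Type*} [Field F] {t d : F} (d0 : d ≠ 0) (A0 : (M2 F)ˣ) (h0 : Cl t d A0)
    (A : (M2 F)ˣ) (hA : (A : M2 F).det = 1) (hG : A ≠ 1 → Gam t d (A : M2 F).trace) :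
    ∃ (e : F) (he : e * e = 1) (A1 A2 : (M2 F)ˣ), Cl t d A1⁻¹ ∧ Cl t d A2 ∧
      A = sc e he * A1 * A2 := by
  by_cases hs : (A : M2 F) 0 1 = 0 ∧ (A : M2 F) 1 0 = 0 ∧ (A : M2 F) 0 0 = (A : M2 F) 1 1
  · obtain ⟨h1, h2, h3⟩ := hs
    rw [det_fin_two, h1, ← h3] at hA
    refine ⟨(A : M2 F) 0 0, by linear_combination hA, A0⁻¹, A0, by simpa using h0, h0, ?_⟩
    rw [mul_assoc, inv_mul_cancel, mul_one]
    apply Units.ext
    ext i j; fin_cases i <;> fin_cases j <;> simp [sc, h1, h2, h3]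
  · have hA1 : A ≠ 1 := by rintro rfl; simp at hs
    obtain ⟨a, b, c, e, he, h1, h2⟩ := hG hA1
    obtain ⟨k, hk⟩ := to_comp (A : M2 F) hs
    rw [hA] at hk
    set s := (A : M2 F).trace
    have u2 : IsUnit (!![a, b; c, t - a] : M2 F) :=
      (isUnit_iff_isUnit_det _).2 (by rw [det_fin_two_of, h1]; exact d0.isUnit)
    obtain ⟨B2, hB2⟩ := u2
    have u1 : IsUnit (!![e * (a * s - b), e * a; e * (c * s - (t - a)), e * c] : M2 F) :=
      (isUnit_iff_isUnit_det _).2 (by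
        rw [det_fin_two_of]
        have : e * (a * s - b) * (e * c) - e * a * (e * (c * s - (t - a))) = d := by
          linear_combination (e * e) * h1 + d * he
        rw [this]; exact d0.isUnit)
    obtain ⟨B1, hB1⟩ := u1
    have c2 : Cl t d B2 := by
      constructor
      · rw [hB2, trace_fin_two_of]; ring
      · rw [hB2, det_fin_two_of, h1]
    have c1 : Cl t d B1 := by
      constructor
      · rw [hB1, trace_fin_two_of]; linear_combination e * h2 + t * he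
      · rw [hB1, det_fin_two_of]; linear_combination (e * e) * h1 + d * he
    have hm : B1 * (k⁻¹ * A * k) = sc e he * B2 := by
      apply Units.ext
      simp only [Units.val_mul, Matrix.mul_assoc, hk]
      rw [← Matrix.mul_assoc ((k⁻¹ : (M2 F)ˣ) : M2 F), Units.inv_mul, Matrix.one_mul, hB1, hB2]
      ext i j; fin_cases i <;> fin_cases j <;>
        simp [Cfsg.Agent.H16.Th.comp, sc, Matrix.mul_apply, Fin.sum_univ_two] <;> ring
    have hc : ∀ X : (M2 F)ˣ, sc e he * X = X * sc e he := fun X => Units.ext (by simp [sc])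
    refine ⟨e, he, k * B1⁻¹ * k⁻¹, k * B2 * k⁻¹, ?_, cl_conj c2 k, ?_⟩
    · have := cl_conj c1 k
      convert this using 1; group
    · calc A = k * B1⁻¹ * (B1 * (k⁻¹ * A * k)) * k⁻¹ := by group
        _ = (k * B1⁻¹ * sc e he) * B2 * k⁻¹ := by rw [hm]; group
        _ = _ := by rw [← hc]; group

variable {K : Type*} [Field K]

namespace Tr
variable {T : Tr K}

section
variable {z : T.Γ} {s s' η η' : K} (hz : ZT z s s' η η')
include hz

theorem ZT.comm (A : (M2 T.F)ˣ) : z * gL A = gL A * z := by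
  apply g_ext <;> simp [gL_a, hz.2.2, lF, b1, b2, b3, mul_comm]

theorem ZT.inv : T.gS * z * T.gS = z⁻¹ := by
  have := hz.1
  rw [eq_inv_iff_mul_eq_one]
  apply g_ext <;> simp [gS_a, hz.2.2, sF, b1, b2, b3, this]

theorem ZT.ord [Fintype K] (p : ℕ) [Fact p.Prime] [CharP K p] : ¬ p ∣ orderOf z := by
  have k : ∀ (n : ℕ) (b : Fin 8 → K), T.ρ z b = s' • b → T.ρ (z ^ n) b = s' ^ n • b := fun n b h => by
    induction n with
    | zero => simp
    | succ n ih => rw [pow_succ', ρ_mul, ih, map_smul, h, smul_smul, pow_succ]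
  have h1 := FiniteField.pow_card_sub_one_eq_one s' (right_ne_zero_of_mul_eq_one hz.1)
  have h2 : z ^ (Fintype.card K - 1) = 1 := by
    apply g_ext
    · rw [k _ _ (by simp [hz.2.2, b1]), h1]; simp
    · rw [k _ _ (by simp [hz.2.2, b2]), h1]; simp
    · rw [k _ _ (by simp [hz.2.2, b3]), h1]; simp
  intro h
  have h3 := h.trans (orderOf_dvd_of_pow_eq_one h2)
  have h4 : p ∣ Fintype.card K := (CharP.cast_eq_zero_iff K p _).1 (FiniteField.cast_card_eq_zero K)
  have h6 : p ∣ Fintype.card K - (Fintype.card K - 1) := Nat.dvd_sub h4 h3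
  rw [Nat.sub_sub_self Fintype.card_pos] at h6
  exact (Fact.out : p.Prime).one_lt.ne' (Nat.dvd_one.1 h6)

theorem conj_Vm [Finite K] (A : (M2 T.F)ˣ)
    (h : FpT s η η' ((itr A : M2 T.F).trace : K) (itr A : M2 T.F).det) {N : T.Γ} (hN : T.Vm N) :
    IsConj (z * gL (itr A)) (N * (z⁻¹ * gL A)) := by
  refine (conj_V hz _ h hN).trans ?_
  refine isConj_iff.2 ⟨(z⁻¹ * gL A)⁻¹ * T.gS, ?_⟩
  have e : z * gL (itr A) = T.gS * (z⁻¹ * gL A) * T.gS := by
    rw [← gL_itr, ← hz.inv]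
    calc z * (T.gS * gL A * T.gS) = (T.gS * T.gS) * z * (T.gS * gL A * T.gS) := by
          rw [gS_sq, one_mul]
      _ = _ := by group
  rw [e, _root_.mul_inv_rev (z⁻¹ * gL A)⁻¹, gS_inv, inv_inv]
  generalize z⁻¹ * gL A = l
  calc l⁻¹ * T.gS * (T.gS * l * T.gS * (T.gS * N * T.gS)) * (T.gS * l)
      = l⁻¹ * (T.gS * T.gS) * l * (T.gS * T.gS) * N * (T.gS * T.gS) * l := by group
    _ = _ := by rw [gS_sq]; group

end

theorem params3 [Fintype K] {q : ℕ} (hφ : ∀ t, T.φ t = t ^ q) (hK : Fintype.card K = q ^ 3) :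
    ∃ (t d : T.F) (z : T.Γ) (s s' η η' : K), ZT z s s' η η' ∧ d ≠ 0 ∧ t ^ 2 ≠ 4 * d ∧
      FpT s η η' (t : K) d ∧ ((2 : T.F) = 0 ∨ d = -1 ∧ z = 1 ∧ FpT s η η' (-t : K) d) ∧
      ∀ s0 : T.F, ((2 : T.F) = 0 → s0 ≠ 0) → Gam t d s0 := by
  classical
  have h2 : 2 ≤ q := by
    have := Fintype.one_lt_card (α := K); rw [hK] at this; by_contra h
    interval_cases q <;> simp at this
  have : Fintype T.F := Fintype.ofFinite _
  have hF : Fintype.card T.F = q := by
    rw [← Nat.card_eq_fintype_card, ← card_fix (by omega) hK]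
    exact Nat.card_congr (Equiv.subtypeEquivRight fun t => by
      change T.φ t = t ↔ _; rw [hφ]; rfl)
  rcases h2.eq_or_lt with rfl | h3
  · obtain ⟨t, t0, t1⟩ := H11.exists_ne_zero_ne_one (F := K) (by
      rw [Nat.card_eq_fintype_card, hK]; norm_num)
    have t7 : t ^ 7 = 1 := by
      have := FiniteField.pow_card_sub_one_eq_one t t0
      rwa [hK] at this
    obtain ⟨z, hz⟩ := in_h (T := T) t0
    have c2 : (2 : T.F) = 0 := by
      have := FiniteField.cast_card_eq_zero T.F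
      rw [hF] at this; exact_mod_cast this
    refine ⟨1, 1, z, t, t ^ 6, t ^ 2, t ^ 5, ⟨by linear_combination t7, by linear_combination t7,
      fun x => ?_⟩, one_ne_zero, fun h => one_ne_zero (α := T.F) (by linear_combination h + 2 * c2),
      ⟨fun h => t1 ?_, fun h => t1 ?_, by simp, fun h => t1 ?_⟩, Or.inl c2, fun s0 hs => ?_⟩
    · have a1 : t⁻¹ = t ^ 6 := inv_eq_of_mul_eq_one_right (by linear_combination t7)
      rw [hz]
      simp only [hφ, Td.hF, mul_inv, ← inv_pow, a1, zorn_ext, cons_val_zero, cons_val_one, cons_val]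
      and_intros <;> grind
    · simp only [OneMemClass.coe_one] at h
      linear_combination t7 - t * (t ^ 3 + 1) * h
    · simp only [OneMemClass.coe_one] at h
      linear_combination t7 - t * h
    · simp only [OneMemClass.coe_one] at h
      have c2' : (2 : K) = 0 := congrArg Subtype.val c2
      linear_combination t7 - t * (t ^ 2 + 1) * h + t * c2'
    · have : s0 = 1 := by
        have := FiniteField.pow_card_sub_one_eq_one s0 (hs c2)
        rwa [hF, pow_one] at this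
      exact ⟨1, 1, 1, 1, by ring, by linear_combination -c2, by linear_combination this⟩
  · obtain ⟨t, d, P, ⟨f1, f2, f3⟩, hd, hG⟩ := params2 (F := T.F) (by omega)
    have k : ∀ t : T.F, 1 - t + d ≠ 0 → 1 - t * d + d ^ 3 ≠ 0 → FpT 1 1 1 (t : K) d :=
      fun t f2 f3 => ⟨by simpa using f1, by simpa using f1, by exact_mod_cast f3,
        by simpa using (show (1 - t + d : K) ≠ 0 by exact_mod_cast f2)⟩
    refine ⟨t, d, 1, 1, 1, 1, 1, ⟨by simp, by simp, fun x => by simp [zorn_ext]⟩, P.d0, P.disc,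
      k t f2 f3, hd.imp id fun h => ⟨h, rfl, k (-t) (fun e => f3 ?_) fun e => f2 ?_⟩, hG⟩
    · rw [h] at e ⊢; linear_combination e
    · rw [h] at e ⊢; linear_combination e

theorem thompson3 [Fintype K] (p : ℕ) [Fact p.Prime] [CharP K p] {q : ℕ} (hφ : ∀ t, T.φ t = t ^ q)
    (hK : Fintype.card K = q ^ 3) : ∃ x : T.Γ, ¬ p ∣ orderOf x ∧ ∀ g : T.Γ, g ≠ 1 →
      ∃ u v : T.Γ, g = (u * x * u⁻¹) * (v * x * v⁻¹) := by
  obtain ⟨t, d, z, s, s', η, η', hz, d0, disc, hF, hd, hG⟩ := params3 hφ hK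
  have u0 : IsUnit (Cfsg.Agent.H16.Th.comp d t) := (isUnit_iff_isUnit_det _).2 (by
    rw [Cfsg.Agent.H16.Th.comp, det_fin_two_of]; simpa using d0)
  obtain ⟨A0, hA0⟩ := u0
  have h0 : Cl t d A0 := by
    constructor
    · rw [hA0, Cfsg.Agent.H16.Th.comp, trace_fin_two_of]; simp
    · rw [hA0, Cfsg.Agent.H16.Th.comp, det_fin_two_of]; simp
  have hdisc : (A0 : M2 T.F).trace ^ 2 ≠ 4 * (A0 : M2 T.F).det := by rw [h0.1, h0.2]; exact disc
  refine ⟨z * gL A0, fun h => ?_, fun g hg => ?_⟩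
  · rcases (Fact.out : p.Prime).dvd_mul.1
      (h.trans (Commute.orderOf_mul_dvd_mul_orderOf (hz.comm A0))) with h | h
    · exact hz.ord p h
    · exact ord p A0 hdisc (h.trans (orderOf_map_dvd gL A0))
  obtain ⟨h, A, hN, N, hS, v, hT, e⟩ := reduce3 g hg
  obtain ⟨ε, he, A1, A2, c1, c2, hA⟩ := factor' d0 A0 h0 A hN.1 (fun h1 => hG _ (fun h2 => by
    rcases hN.2 h2 with h | h
    · exact h
    · exact absurd (Units.ext h) h1))
  have k0 : ∀ B : (M2 T.F)ˣ, Cl t d B → IsConj (z * gL A0) (z * gL B) := fun B c => by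
    obtain ⟨k, hk⟩ := isConj_iff.1 (isConj_of A0 B hdisc (c.1.trans h0.1.symm) (c.2.trans h0.2.symm))
    refine isConj_iff.2 ⟨gL k, ?_⟩
    rw [← hk, map_mul, map_mul, map_inv, ← mul_assoc, ← hz.comm]; group
  have k2 : IsConj (z * gL A0) (z * gL A2 * v) :=
    (k0 _ c2).trans (conj_V hz A2 (by rw [c2.1, c2.2]; exact hF) hT)
  have ci : Cl t d (itr A1) := ⟨(trace_transpose _).trans c1.1, (det_transpose _).trans c1.2⟩
  have k1 : IsConj (z * gL A0) (N * (z⁻¹ * gL (sc ε he * A1))) := by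
    have hv : ((sc ε he * A1 : (M2 T.F)ˣ) : M2 T.F) = ε • (A1 : M2 T.F) := by simp [sc]
    by_cases h1 : ε = 1
    · have : sc ε he * A1 = A1 := Units.ext (by rw [hv, h1, one_smul])
      rw [this]
      exact (k0 _ ci).trans (conj_Vm hz _ (by rw [ci.1, ci.2]; exact hF) hS)
    · have hε : ε = -1 := (mul_self_eq_one_iff.1 he).resolve_left h1
      obtain ⟨hd', rfl, hF'⟩ := hd.resolve_left fun h2 => h1 (by linear_combination hε - h2)
      have h1 := inv_tr A1
      have h2 : (A1 : M2 T.F).det * ((A1⁻¹ : (M2 T.F)ˣ) : M2 T.F).det = 1 := by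
        rw [← det_mul, Units.mul_inv, det_one]
      rw [c1.2] at h1 h2
      rw [c1.1] at h1
      have c : Cl t d (sc ε he * A1) := by
        constructor
        · rw [hv, trace_smul, hε, ← h1, hd', smul_eq_mul, mul_comm]
        · rw [hv, det_smul, hε, hd']
          rw [hd'] at h2
          simp only [Fintype.card_fin, even_two, Even.neg_pow, one_pow, one_mul]
          linear_combination -h2
      have hi : ((itr (sc ε he * A1) : (M2 T.F)ˣ) : M2 T.F) = -(itr A1 : M2 T.F) := by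
        simp [itr, sc, hε]
      refine (k0 _ c).trans (IsConj.trans ?_ (conj_Vm hz _ ?_ hS))
      · exact isConj_iff.2 ⟨T.gS, by rw [gS_inv, one_mul, one_mul, gL_itr]⟩
      · rw [hi, trace_neg, det_neg, ci.1, ci.2]
        simpa using hF'
  obtain ⟨u, hu⟩ := isConj_iff.1 k1
  obtain ⟨w, hw⟩ := isConj_iff.1 k2
  refine ⟨h⁻¹ * u, h⁻¹ * w, ?_⟩
  calc g = h⁻¹ * (h * g * h⁻¹) * h := by group
    _ = h⁻¹ * ((N * (z⁻¹ * gL (sc ε he * A1))) * (z * gL A2 * v)) * h := by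
      rw [e, hA, map_mul]
      calc h⁻¹ * (N * (gL (sc ε he * A1) * gL A2) * v) * h
          = h⁻¹ * (N * (z⁻¹ * (z * gL (sc ε he * A1)) * gL A2) * v) * h := by group
        _ = _ := by rw [hz.comm]; group
    _ = _ := by rw [← hu, ← hw]; group

open StSys H11 Subgroup in
theorem surj {q : ℕ} (hφ : ∀ t, T.φ t = t ^ q) :
    ∃ θ : T.Γ →* GL chevD4.Idx K, θ.range = twistedD4 K q := by
  have hT : ((repT.sys K).restrict _ (x_mem_T _)).T = ⊤ :=
    (restrict_gen _ _ _ _).trans (subgroupOf_self _)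
  have : Nontrivial (repT.sys K).T := ⟨⟨⟨_, x_mem_T _ ⟨14, by decide⟩ 1⟩, 1, fun e => by
    simpa [repX, eT, spM] using congrArg (fun g : (repT.sys K).T => g.1.1 2 3) e⟩⟩
  obtain ⟨ψ, hψ⟩ := exists_iso_quot _ hT (simple_of_mem (by simp) (by
    rintro (h | h) <;> exact absurd (congrArg ChevalleyDatum.rank h) (by decide))).1
    (perfD4.perfect _)
  have hle : T.Γ ≤ (repT.sys K).T := (closure_le _).2 (by
    rintro g (⟨t, -, rfl | rfl⟩ | ⟨t, rfl | rfl⟩)
    exacts [x_mem_T _ _ _, x_mem_T _ _ _, mul_mem (x_mem_T _ _ _) (mul_mem (x_mem_T _ _ _)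
      (x_mem_T _ _ _)), mul_mem (x_mem_T _ _ _) (mul_mem (x_mem_T _ _ _) (x_mem_T _ _ _))])
  let θ : (repT.sys K).T →* GL chevD4.Idx K := (chevD4.group K).subtype.comp
    (ψ.symm.toMonoidHom.comp (QuotientGroup.mk' _))
  have h1 : ∀ r hr t, θ ⟨xx r hr t, x_mem_T _ _ _⟩ = xG K ⟨r, hr⟩ t := fun r hr t => by
    have := congrArg (fun g => (ψ.symm g : GL chevD4.Idx K)) (hψ ⟨r, hr⟩ t)
    simp only [MulEquiv.symm_apply_apply, coe_grS_x] at this
    exact this.symm
  have h3 : ∀ r hr s hs u hu (t : K) h, θ ⟨xx r hr t * (xx s hs (T.φ t) * xx u hu (T.φ (T.φ t))), h⟩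
      = xG K ⟨r, hr⟩ t * (xG K ⟨s, hs⟩ (t ^ q) * (xG K ⟨u, hu⟩ (t ^ q ^ 2) * 1)) :=
    fun r hr s hs u hu t h => by
      rw [mul_one, sq, pow_mul, ← hφ, ← hφ, ← h1, ← h1, ← h1, ← map_mul, ← map_mul]; rfl
  refine ⟨θ.comp (inclusion hle), le_antisymm ?_ (genSubgroup_le ?_)⟩
  · rintro _ ⟨⟨g, hg⟩, rfl⟩
    induction hg using closure_induction with
    | mem g hg =>
      rcases hg with ⟨t, ht, rfl | rfl⟩ | ⟨t, rfl | rfl⟩
      · exact (h1 _ _ _).trans (mul_one _).symm ▸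
          mem_genSubgroup (D := chevD4) (A := d4Words K q) (w := [(d4p2, t)])
            (Or.inl ⟨t, hφ t ▸ ht, d4p2, by simp, rfl⟩)
      · exact (h1 _ _ _).trans (mul_one _).symm ▸
          mem_genSubgroup (D := chevD4) (A := d4Words K q) (w := [(d4m2, t)])
            (Or.inl ⟨t, hφ t ▸ ht, d4m2, by simp, rfl⟩)
      · exact h3 _ _ _ _ _ _ _ _ ▸ mem_genSubgroup (D := chevD4) (A := d4Words K q)
          (w := [(d4p1, t), (d4p3, t ^ q), (d4p4, t ^ q ^ 2)])
          (Or.inr ⟨t, (d4p1, d4p3, d4p4), by simp, rfl⟩)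
      · exact h3 _ _ _ _ _ _ _ _ ▸ mem_genSubgroup (D := chevD4) (A := d4Words K q)
          (w := [(d4m1, t), (d4m3, t ^ q), (d4m4, t ^ q ^ 2)])
          (Or.inr ⟨t, (d4m1, d4m3, d4m4), by simp, rfl⟩)
    | one => exact (map_one (θ.comp (inclusion hle))).symm ▸ one_mem _
    | mul a b ha hb iha ihb =>
      exact (map_mul (θ.comp (inclusion hle)) ⟨a, ha⟩ ⟨b, hb⟩).symm ▸ mul_mem iha ihb
    | inv a ha iha => exact (map_inv (θ.comp (inclusion hle)) ⟨a, ha⟩).symm ▸ inv_mem iha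
  · rintro w (⟨t, ht, r, hr, rfl⟩ | ⟨t, r, hr, rfl⟩) <;>
      simp only [List.mem_cons, List.not_mem_nil, or_false] at hr <;> rcases hr with rfl | rfl
    · exact ⟨⟨_, subset_closure (Or.inl ⟨t, (hφ t).trans ht, Or.inl rfl⟩)⟩,
        (h1 _ _ _).trans (mul_one _).symm⟩
    · exact ⟨⟨_, subset_closure (Or.inl ⟨t, (hφ t).trans ht, Or.inr rfl⟩)⟩,
        (h1 _ _ _).trans (mul_one _).symm⟩
    · exact ⟨⟨_, subset_closure (Or.inr ⟨t, Or.inl rfl⟩)⟩, h3 _ _ _ _ _ _ _ _⟩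
    · exact ⟨⟨_, subset_closure (Or.inr ⟨t, Or.inr rfl⟩)⟩, h3 _ _ _ _ _ _ _ _⟩

end Tr

theorem thompsonD4 [Fintype K] (p : ℕ) [Fact p.Prime] [CharP K p] (q : ℕ) (hq : IsPrimePow q)
    (hK : Fintype.card K = q ^ 3) :
    ∃ x : twistedD4 K q, ¬ p ∣ orderOf x ∧ ∀ g : twistedD4 K q, g ≠ 1 →
      ∃ u v : twistedD4 K q, g = (u * x * u⁻¹) * (v * x * v⁻¹) := by
  obtain ⟨φ, hφ⟩ := exists_frob hq three_ne_zero hK
  let T : Tr K := ⟨φ, fun t => by
    rw [hφ, hφ, hφ, ← pow_mul, ← pow_mul, ← pow_three, ← hK, FiniteField.pow_card]⟩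
  obtain ⟨θ, hθ⟩ := Tr.surj (T := T) hφ
  obtain ⟨x, h1, h2⟩ := Tr.thompson3 (T := T) p hφ hK
  rw [← hθ]
  refine ⟨θ.rangeRestrict x, fun h => h1 (h.trans (orderOf_map_dvd _ _)), fun g hg => ?_⟩
  obtain ⟨g, rfl⟩ := θ.rangeRestrict_surjective g
  obtain ⟨u, v, h⟩ := h2 g (by rintro rfl; exact hg (map_one _))
  exact ⟨θ.rangeRestrict u, θ.rangeRestrict v, by rw [h]; simp only [map_mul, map_inv]⟩

end H16.Td
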