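import Cfsg.Agent.H16.Zip2
import Mathlib.GroupTheory.Schreier
import Mathlib.Data.Finite.Perm

/-! Bounding a group by the elements of odd order inverted by an involutory automorphism:
`H16.card_le_of_gen` (Schur/Dietzmann type bound), `H16.relIndex_le_factorial`, `H16.bf_count`
(Brauer–Fowler count) and `H16.js_bound`. -/

set_option autoImplicit false
open Subgroup

namespace H16

universe u

open scoped IsMulCommutative in
theorem card_le_of_gen {G : Type*} [Group G] [Finite G] {S : Set G} (hS : closure S = ⊤)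
    {k e i : ℕ} (hk : S.ncard ≤ k) (he : 0 < e) (hs : ∀ s ∈ S, s ^ e = 1)
    (hi : (center G).index ≤ i) : Nat.card G ≤ i * (i * e) ^ (i * k) := by
  have hj : 0 < (center G).index := Nat.pos_of_ne_zero FiniteIndex.index_ne_zero
  have h1 : ∀ g : G, g ^ ((center G).index * e) = 1 := by
    intro g
    have : closure S ≤ ((powMonoidHom e).comp (MonoidHom.transferCenterPow G)).ker := by
      rw [closure_le]
      intro s h
      change (MonoidHom.transferCenterPow G s) ^ e = 1
      rw [← map_pow, hs s h, map_one]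
    have := congrArg Subtype.val (MonoidHom.mem_ker.mp (this (hS ▸ mem_top g)))
    rw [pow_mul]
    exact this
  have h2 : Group.rank G ≤ k := by
    have := Group.rank_le (S := (Set.toFinite S).toFinset) (by simpa using hS)
    rw [← Set.ncard_eq_toFinset_card] at this
    exact this.trans hk
  have h3 := (rank_le_index_mul_rank (center G)).trans (Nat.mul_le_mul hi h2)
  have h4 := card_dvd_exponent_pow_rank' (center G) (n := (center G).index * e)
    fun g => Subtype.ext (h1 g)
  have h5 := Nat.le_of_dvd (by positivity) h4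
  rw [← (center G).index_mul_card]
  refine Nat.mul_le_mul hi (h5.trans ((Nat.pow_le_pow_left (Nat.mul_le_mul_right e hi) _).trans
    (Nat.pow_le_pow_right (Nat.mul_pos (hj.trans_le hi) he) h3)))

theorem relIndex_le_factorial {G : Type*} [Group G] [Finite G] {K : Subgroup G} {S : Set G}
    (h : ∀ k ∈ K, ∀ s ∈ S, k * s * k⁻¹ ∈ S) : (centralizer S).relIndex K ≤ S.ncard.factorial := by
  classical
  let _ : MulAction K S :=
    { smul := fun k s => ⟨k * s * k⁻¹, h k k.2 s s.2⟩
      one_smul := fun s => Subtype.ext (by change ((1 : K) : G) * s * ((1 : K) : G)⁻¹ = s; simp)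
      mul_smul := fun a b s => Subtype.ext (by
        change ((a * b : K) : G) * s * ((a * b : K) : G)⁻¹ = a * (b * s * (b : G)⁻¹) * (a : G)⁻¹
        simp [mul_assoc]) }
  have : (centralizer S).subgroupOf K = (MulAction.toPermHom K S).ker := by
    ext k
    rw [mem_subgroupOf, mem_centralizer_iff, MonoidHom.mem_ker, Equiv.ext_iff]
    constructor
    · intro hk s
      refine Subtype.ext ?_
      change (k : G) * s * (k : G)⁻¹ = s
      rw [← hk s s.2, mul_inv_cancel_right]
    · intro hk s hs
      have : (k : G) * s * (k : G)⁻¹ = s := congrArg Subtype.val (hk ⟨s, hs⟩)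
      exact (mul_inv_eq_iff_eq_mul.mp this).symm
  rw [relIndex, this, index_ker, ← Nat.card_coe_set_eq, ← Nat.card_perm]
  exact card_le_card_group _

theorem centralizer_eq_center {G : Type*} [Group G] {S : Set G} (hS : closure S = ⊤) :
    centralizer S = center G := by
  rw [← centralizer_closure, hS, coe_top, centralizer_univ]

/-- The elements of odd order inverted by `α`. -/
def JS {G : Type*} [Group G] (α : G →* G) : Set G := {g | Odd (orderOf g) ∧ α g = g⁻¹}

theorem js_image {G H : Type*} [Group G] [Finite G] [Group H] {f : G →* H}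
    (hf : Function.Surjective f) {α : G →* G} {β : H →* H} (h : ∀ x, β (f x) = f (α x))
    (hα : ∀ x, α (α x) = x) : JS β = f '' JS α := by
  ext x
  constructor
  · rintro ⟨h1, h2⟩
    obtain ⟨m, hm⟩ := exists_pow_eq_self_of_coprime (x := x) (n := 2 ^ (Nat.card G + 1))
      ((Nat.coprime_two_left.2 h1).pow_left _)
    obtain ⟨w, hw⟩ := hf (x ^ m)
    refine ⟨(w * (α w)⁻¹) ^ 2 ^ Nat.card G, ⟨odd_pow_two_pow _, ?_⟩, ?_⟩
    · rw [map_pow, ← inv_pow]
      simp [hα]
    · rw [map_pow, map_mul, map_inv, ← h, hw, map_pow, h2, inv_pow, inv_inv, ← pow_two, ← pow_mul,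
        ← pow_succ', ← pow_mul, mul_comm, pow_mul, hm]
  · rintro ⟨y, ⟨h1, h2⟩, rfl⟩
    exact ⟨h1.of_dvd_nat (orderOf_map_dvd f y), by rw [h, h2, map_inv]⟩

theorem bf_count {G : Type*} [Group G] [Finite G] {α : G →* G} (hα : ∀ x, α (α x) = x) {c m : ℕ}
    (hc : Nat.card (α.eqLocus (MonoidHom.id G)) ≤ c) (hm : (JS α).ncard ≤ m) :
    Nat.card G ≤ 2 * c * m ∨
      ∃ z : G, orderOf z = 2 ∧ α z = z ∧ (centralizer {z}).index ≤ 2 * c * c := by
  classical
  have := Fintype.ofFinite G
  by_contra hcon
  push Not at hcon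
  obtain ⟨h0, h1⟩ := hcon
  set C : Finset G := Finset.univ.filter fun x => α x = x with hC
  have hC' : C.card ≤ c := by
    refine le_trans (le_of_eq ?_) hc
    rw [← Fintype.card_subtype, Nat.card_eq_fintype_card]
    rfl
  set φ : G → G := fun g => g * (α g)⁻¹ with hφ
  have h2 : (Finset.univ : Finset G).card ≤ c * (Finset.univ.image φ).card := by
    refine Finset.card_le_mul_card_image _ _ fun y hy => ?_
    obtain ⟨g, -, rfl⟩ := Finset.mem_image.mp hy
    refine le_trans (Finset.card_le_card_of_injOn (fun x => g⁻¹ * x) (fun x hx => ?_)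
      fun a _ b _ e => mul_left_cancel e) hC'
    have e : x * (α x)⁻¹ = g * (α g)⁻¹ := by simpa using hx
    simp only [hC, Finset.coe_filter, Finset.mem_univ, true_and, Set.mem_ofPred_eq, map_mul, map_inv]
    rw [mul_inv_eq_iff_eq_mul] at e
    conv_rhs => rw [e]
    simp [mul_assoc]
  set T : Finset G := C.filter fun z => orderOf z = 2 with hT
  have h3 : Finset.univ.image φ ⊆ (Set.toFinite (JS α)).toFinset ∪
      T.biUnion fun z => Finset.univ.filter fun x => x ∈ centralizer {z} := by
    intro y hy
    obtain ⟨g, -, rfl⟩ := Finset.mem_image.mp hy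
    have e : α (φ g) = (φ g)⁻¹ := by simp [hφ, hα]
    generalize φ g = y at e
    rcases Nat.even_or_odd (orderOf y) with ⟨k, hk⟩ | ho
    · have hk0 : 0 < k := by have := orderOf_pos y; omega
      have h4 : y ^ k * y ^ k = 1 := by rw [← pow_add, ← hk, pow_orderOf_eq_one]
      refine Finset.mem_union_right _ (Finset.mem_biUnion.mpr ⟨y ^ k, ?_, ?_⟩)
      · simp only [hT, hC, Finset.mem_filter, Finset.mem_univ, true_and]
        refine ⟨by rw [map_pow, e, inv_pow, inv_eq_of_mul_eq_one_right h4], ?_⟩
        refine orderOf_eq_prime (by rw [pow_two, h4]) fun e' => ?_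
        have := Nat.le_of_dvd hk0 (orderOf_dvd_of_pow_eq_one e')
        omega
      · simp only [Finset.mem_filter, Finset.mem_univ, true_and, mem_centralizer_singleton_iff]
        exact ((Commute.refl y).pow_right k).eq
    · exact Finset.mem_union_left _ (by simpa using ⟨ho, e⟩)
  have h4 := (Finset.card_le_card h3).trans ((Finset.card_union_le _ _).trans
    (Nat.add_le_add_left Finset.card_biUnion_le _))
  rw [← Set.ncard_eq_toFinset_card] at h4
  have h5 : 2 * c * c * ∑ z ∈ T, (Finset.univ.filter fun x => x ∈ centralizer {z}).card ≤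
      c * Nat.card G := by
    rw [Finset.mul_sum]
    refine (Finset.sum_le_card_nsmul _ _ (Nat.card G) fun z hz => ?_).trans ?_
    · simp only [hT, hC, Finset.mem_filter, Finset.mem_univ, true_and] at hz
      rw [← (centralizer {z}).index_mul_card, ← Fintype.card_subtype, ← Nat.card_eq_fintype_card]
      exact Nat.mul_le_mul_right _ (h1 z hz.2 hz.1).le
    · exact Nat.mul_le_mul_right _ ((Finset.card_filter_le _ _).trans hC')
  rw [Finset.card_univ, ← Nat.card_eq_fintype_card] at h2
  have hc0 : 0 < c := Nat.card_pos.trans_le hc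
  have h6 : 2 * c * ∑ z ∈ T, (Finset.univ.filter fun x => x ∈ centralizer {z}).card ≤
      Nat.card G := by
    refine Nat.le_of_mul_le_mul_left ?_ hc0
    calc _ = _ := by ring
      _ ≤ _ := h5
  have h7 := Nat.mul_le_mul_left c (h4.trans (Nat.add_le_add_right hm _))
  nlinarith

theorem card_normalClosure_le {G : Type*} [Group G] [Finite G] {z : G} (hz : z ^ 2 = 1) {d : ℕ}
    (hd : (centralizer {z}).index ≤ d) :
    Nat.card (normalClosure {z}) ≤ d.factorial * (d.factorial * 2) ^ (d.factorial * d) := by
  have h1 : (Group.conjugatesOfSet ({z} : Set G)).ncard ≤ d := by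
    refine le_trans (le_of_eq ?_) hd
    have e : Group.conjugatesOfSet ({z} : Set G) = MulAction.orbit (ConjAct G) z := by
      ext x
      rw [Group.mem_conjugatesOfSet_iff, ConjAct.mem_orbit_conjAct]
      simp only [Set.mem_singleton_iff, exists_eq_left]
      exact isConj_comm
    rw [e, ← MulAction.index_stabilizer, centralizer_eq_comap_stabilizer]
    exact (index_comap_of_surjective _ ConjAct.toConjAct.surjective).symm
  have h2 : (((↑) : normalClosure ({z} : Set G) → G) ⁻¹' Group.conjugatesOfSet {z}).ncard ≤ d :=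
    (Set.ncard_le_ncard_of_injOn Subtype.val (fun _ h => h) Subtype.val_injective.injOn).trans h1
  have h3 : closure (((↑) : normalClosure ({z} : Set G) → G) ⁻¹' Group.conjugatesOfSet {z}) = ⊤ :=
    closure_closure_coe_preimage
  refine card_le_of_gen h3 h2 two_pos (fun s hs => Subtype.ext ?_) ?_
  · obtain ⟨y, rfl, hy⟩ := Group.mem_conjugatesOfSet_iff.mp hs
    obtain ⟨g, hg⟩ := isConj_iff.mp hy
    rw [SubgroupClass.coe_pow, ← hg, conj_pow, hz]
    simp
  · rw [← centralizer_eq_center h3, ← relIndex_top_right]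
    refine (relIndex_le_factorial fun k _ s hs => ?_).trans (Nat.factorial_le h2)
    exact Group.conj_mem_conjugatesOfSet (c := (k : G)) hs

theorem js_bound (m : ℕ) : ∃ B : ℕ, ∀ (G : Type u) [Group G] [Finite G] (α : G →* G),
    (∀ x, α (α x) = x) → closure (JS α) = ⊤ → (JS α).ncard ≤ m → Nat.card G ≤ B := by
  induction m with
  | zero =>
    refine ⟨0, fun G _ _ α _ _ h => ?_⟩
    have : (JS α).ncard ≠ 0 := Set.ncard_ne_zero_of_mem (a := 1) ⟨by simp, by simp⟩
    omega
  | succ m ih =>
  obtain ⟨B, hB⟩ := ih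
  set c := (m + 1).factorial with hc
  set d := 2 * c * c with hd
  set i := 2 * c * (m + 1) + d.factorial * (d.factorial * 2) ^ (d.factorial * d) * B with hi
  refine ⟨i * (i * c) ^ (i * (m + 1)), fun G _ _ α hα hJ hm => ?_⟩
  have hord : ∀ s ∈ JS α, s ^ c = 1 := by
    intro s hs
    refine orderOf_dvd_iff_pow_eq_one.mp (Nat.dvd_factorial (orderOf_pos s) (le_trans ?_ hm))
    rw [← Nat.card_zpowers, ← SetLike.coe_sort_coe, Nat.card_coe_set_eq]
    refine Set.ncard_le_ncard ?_
    rintro _ ⟨n, rfl⟩
    exact ⟨hs.1.of_dvd_nat (orderOf_dvd_of_mem_zpowers ⟨n, rfl⟩), by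
      simp only [map_zpow, hs.2, inv_zpow]⟩
  refine card_le_of_gen hJ hm (Nat.factorial_pos _) hord ?_
  have hZ : center G ≤ (center G).comap α := by
    intro z hz
    rw [mem_comap, mem_center_iff]
    intro g
    rw [← hα g, ← map_mul, mem_center_iff.mp hz, map_mul]
  set β := QuotientGroup.map _ _ α hZ with hβ
  have hsurj := QuotientGroup.mk'_surjective (center G)
  have hf : ∀ x, β (QuotientGroup.mk' _ x) = QuotientGroup.mk' _ (α x) := fun _ => rfl
  have hβ2 : ∀ x, β (β x) = x := by
    intro x
    obtain ⟨x, rfl⟩ := hsurj x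
    rw [hf, hf, hα]
  have hJβ := js_image hsurj hf hα
  have hJ' : closure (JS β) = ⊤ := by
    rw [hJβ, ← MonoidHom.map_closure, hJ, map_top_of_surjective _ hsurj]
  have hm' : (JS β).ncard ≤ m + 1 := hJβ ▸ (Set.ncard_image_le).trans hm
  have hC : Nat.card (β.eqLocus (MonoidHom.id _)) ≤ c := by
    rw [← map_comap_eq_self_of_surjective hsurj (β.eqLocus _), ← relIndex_ker, QuotientGroup.ker_mk']
    refine (congrArg (relIndex · _) (centralizer_eq_center hJ)).ge.trans ?_
    refine (relIndex_le_factorial (S := JS α) fun k hk s hs => ⟨?_, ?_⟩).trans (Nat.factorial_le hm)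
    · have := (MulAut.conj k).orderOf_eq s
      rw [MulAut.conj_apply] at this
      exact this ▸ hs.1
    · have h1 : QuotientGroup.mk' (center G) (α k) = QuotientGroup.mk' (center G) k := hk
      obtain ⟨z, hz, e⟩ := (QuotientGroup.mk'_eq_mk' _).mp h1.symm
      rw [map_mul, map_mul, map_inv, hs.2, ← e, mul_assoc k z, ← mem_center_iff.mp hz]
      simp [mul_assoc]
  change Nat.card (G ⧸ center G) ≤ i
  rcases bf_count hβ2 hC hm' with h | ⟨z, hz, hz1, hz2⟩
  · exact h.trans (Nat.le_add_right _ _)
  refine le_trans ?_ (Nat.le_add_left _ _)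
  have hz2' : z ^ 2 = 1 := hz ▸ pow_orderOf_eq_one z
  have hN := card_normalClosure_le hz2' hz2
  set N := normalClosure ({z} : Set (G ⧸ center G)) with hNdef
  have hzN : z ∈ N := subset_normalClosure (Set.mem_singleton z)
  have hNβ : N ≤ N.comap β := normalClosure_le_normal (by
    rintro _ rfl
    exact show β _ ∈ N by rwa [hz1])
  have hsurj' := QuotientGroup.mk'_surjective N
  set γ := QuotientGroup.map _ _ β hNβ with hγ
  have hf' : ∀ x, γ (QuotientGroup.mk' _ x) = QuotientGroup.mk' _ (β x) := fun _ => rfl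
  have hJγ := js_image hsurj' hf' hβ2
  rw [← N.card_mul_index]
  refine Nat.mul_le_mul hN (hB _ γ (fun x => ?_) ?_ ?_)
  · obtain ⟨x, rfl⟩ := hsurj' x
    rw [hf', hf', hβ2]
  · rw [hJγ, ← MonoidHom.map_closure, hJ', map_top_of_surjective _ hsurj']
  -- `z` is not central
  have hzc : z ∉ centralizer (JS β) := by
    intro hzc
    obtain ⟨y, rfl⟩ := hsurj z
    have : y ∈ centralizer (JS α) := by
      intro s hs
      have h1 := hzc (QuotientGroup.mk' _ s) (by rw [hJβ]; exact ⟨s, hs, rfl⟩)
      rw [← map_mul, ← map_mul] at h1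
      obtain ⟨w, hw, e⟩ := (QuotientGroup.mk'_eq_mk' _).mp h1
      have hw' := mem_center_iff.mp hw
      have e1 : y * s * y⁻¹ = s * w := by
        rw [← e, mul_assoc s y, hw' y, ← mul_assoc, mul_inv_cancel_right]
      have h2 : y * y ∈ center G := by
        rw [← QuotientGroup.eq_one_iff, ← pow_two]
        exact hz2'
      have h3 : w ^ 2 = 1 := by
        have e2 : y * y * s * (y * y)⁻¹ = s * w ^ 2 := by
          calc _ = y * (y * s * y⁻¹) * y⁻¹ := by simp [mul_assoc]
            _ = (y * s * y⁻¹) * (y * w * y⁻¹) := by rw [conj_mul, ← e1]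
            _ = _ := by rw [e1, hw' y, mul_inv_cancel_right, pow_two, mul_assoc]
        rw [← mem_center_iff.mp h2, mul_inv_cancel_right] at e2
        exact (left_eq_mul.mp e2)
      have h4 : w ^ orderOf s = 1 := by
        have := congrArg (· ^ orderOf s) e1
        simp only [conj_pow, pow_orderOf_eq_one] at this
        rw [(show Commute s w from hw' s).mul_pow, pow_orderOf_eq_one] at this
        simpa using this.symm
      have h5 : w = 1 := by
        rw [← orderOf_eq_one_iff]
        exact Nat.eq_one_of_dvd_coprimes (Nat.coprime_two_left.2 hs.1)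
          (orderOf_dvd_of_pow_eq_one h3) (orderOf_dvd_of_pow_eq_one h4)
      rw [← e, h5, mul_one]
    rw [centralizer_eq_center hJ, ← QuotientGroup.eq_one_iff] at this
    have h1 : QuotientGroup.mk' (center G) y = 1 := this
    rw [h1, orderOf_one] at hz
    omega
  have : ¬ Set.InjOn (QuotientGroup.mk' N) (JS β) := by
    intro hinj
    refine hzc fun s hs => ?_
    have h1 : z * s * z⁻¹ ∈ JS β := by
      refine ⟨?_, by simp [hz1, hs.2, mul_assoc]⟩
      have := (MulAut.conj z).orderOf_eq s
      rw [MulAut.conj_apply] at this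
      exact this ▸ hs.1
    have h2 : QuotientGroup.mk' N z = 1 := (QuotientGroup.eq_one_iff z).mpr hzN
    have := hinj h1 hs (by simp only [map_mul, map_inv, h2]; simp)
    exact (mul_inv_eq_iff_eq_mul.mp this).symm
  rw [hJγ]
  by_contra hlt
  refine this (Set.injOn_of_ncard_image_eq (le_antisymm Set.ncard_image_le (by omega)))

end H16
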